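import Cfsg.Agent.Lib.Sym.Count
import Cfsg.Agent.Lib.Char.Defs
import Mathlib.Combinatorics.Enumerative.Partition.Basic

/-!
# Abstract graded algebras with primitives (the skeleton of the Hall algebra of `GL_n(q)`)

`PSH A` is the part of Zelevinsky's structure that is used; `Sys` is an orthogonal system of
primitive generators in degrees `≤ N`, `TSys` describes the truncation to `p`-regular elements.
`AbsFacts` (package G4) lists the purely algebraic consequences.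
-/

set_option autoImplicit false

namespace GLH

open Finset SFock
open scoped ComplexConjugate

universe u

/-- graded pieces, primitives and the degree-wise hermitian forms -/
structure PSH (A : Type u) [CommRing A] [Algebra ℂ A] where
  /-- homogeneous elements of degree `n` -/
  Hn : ℕ → Submodule ℂ A
  /-- homogeneous primitives of degree `n` -/
  Pr : ℕ → Submodule ℂ A
  /-- the form in degree `n` -/
  ip : ℕ → A → A → ℂ
  ip_add : ∀ n x y z, ip n (x + y) z = ip n x z + ip n y z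
  ip_smul : ∀ n (c : ℂ) x z, ip n (c • x) z = c * ip n x z
  ip_conj : ∀ n x y, ip n x y = conj (ip n y x)
  eq_zero : ∀ n x, x ∈ Hn n → ip n x x = 0 → x = 0
  ip_ne : ∀ n k x y, x ∈ Hn k → k ≠ n → ip n x y = 0
  fin : ∀ n, FiniteDimensional ℂ (Hn n)
  one_mem : (1 : A) ∈ Hn 0
  mul_mem : ∀ a b x y, x ∈ Hn a → y ∈ Hn b → x * y ∈ Hn (a + b)
  ip_one : ip 0 1 1 = 1
  Hn_zero : ∀ x, x ∈ Hn 0 → ∃ c : ℂ, x = c • 1
  Pr_le : ∀ n, Pr n ≤ Hn n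
  mem_Pr : ∀ n x, 0 < n → x ∈ Hn n →
    ((∀ a b y z, 0 < a → 0 < b → a + b = n → y ∈ Hn a → z ∈ Hn b → ip n (y * z) x = 0) ↔
      x ∈ Pr n)
  /-- the adjoint of multiplication by a primitive is a derivation (Mackey) -/
  der : ∀ k p, 0 < k → p ∈ Pr k → ∃ D : A →ₗ[ℂ] A,
    (∀ n x y, x ∈ Hn n → ip (n + k) (x * p) y = ip n x (D y)) ∧
    (∀ a b y z, y ∈ Hn a → z ∈ Hn b → D (y * z) = D y * z + y * D z) ∧
    (∀ n y, y ∈ Hn (n + k) → D y ∈ Hn n) ∧ (∀ j y, j < k → y ∈ Hn j → D y = 0)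

/-- `Φ` is the series with constant term one and logarithmic derivative `π` -/
def ExpRel {A : Type*} [CommRing A] (π Φ : ℕ → A) : Prop :=
  Φ 0 = 1 ∧ ∀ n : ℕ, (n : A) * Φ n = ∑ k ∈ range n, π (k + 1) * Φ (n - 1 - k)

/-- `ExpRel` up to degree `N` -/
def ExpTo {A : Type*} [CommRing A] (N : ℕ) (π Φ : ℕ → A) : Prop :=
  Φ 0 = 1 ∧ ∀ n : ℕ, n ≤ N → (n : A) * Φ n = ∑ k ∈ range n, π (k + 1) * Φ (n - 1 - k)

/-- partitions of `k` as multisets -/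
def Par (k : ℕ) : Finset (Multiset ℕ) := (univ : Finset (Nat.Partition k)).image fun P => P.parts

/-- size of the partition with bead set `S` -/
def sz (N : ℕ) (S : Finset ℕ) : ℕ := ∑ x ∈ S, x - d0 N

/-- bead set of the one-row partition `(k)` -/
def row (N k : ℕ) : Finset ℕ := insert (N - 1 + k) (range (N - 1))

/-- sum of the squares of the parts -/
noncomputable def Qs (N : ℕ) (S : Finset ℕ) : ℕ := ∑ j : Fin N, (en N S j - j) ^ 2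

section Defs
variable {A : Type u} [CommRing A] [Algebra ℂ A] {ι : Type*}

/-- power sum monomial -/
def pp (π : ι → ℕ → A) (i : ι) (ν : Multiset ℕ) : A := (ν.map (π i)).prod

/-- complete symmetric function -/
noncomputable def hh (π : ι → ℕ → A) (i : ι) (k : ℕ) : A :=
  ∑ ν ∈ Par k, ((zz ν : ℂ))⁻¹ • pp π i ν

/-- Schur function of the bead set `S` -/
noncomputable def ss (N : ℕ) (π : ι → ℕ → A) (i : ι) (S : Finset ℕ) : A :=
  ∑ ν ∈ Par (sz N S), (Y N ν S / (zz ν : ℂ)) • pp π i ν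

/-- product of the complete symmetric functions of the parts of `S` -/
noncomputable def hP (N : ℕ) (π : ι → ℕ → A) (i : ι) (S : Finset ℕ) : A :=
  ∏ j : Fin N, hh π i (en N S j - j)

variable [Fintype ι]

/-- product of Schur functions -/
noncomputable def sL (N : ℕ) (π : ι → ℕ → A) (Λ : ι → Finset ℕ) : A := ∏ i, ss N π i (Λ i)

/-- product of complete symmetric functions -/
noncomputable def hL (N : ℕ) (π : ι → ℕ → A) (Λ : ι → Finset ℕ) : A := ∏ i, hP N π i (Λ i)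

/-- `Λ` is a label of total degree `n` -/
def ALab (N : ℕ) (deg : ι → ℕ) (n : ℕ) (Λ : ι → Finset ℕ) : Prop :=
  (∀ i, (Λ i).card = N) ∧ ∑ i, deg i * sz N (Λ i) = n

/-- `Λ'` is strictly above `Λ` -/
def Abv (N : ℕ) (Λ' Λ : ι → Finset ℕ) : Prop :=
  (∀ i, (Λ' i).card = N ∧ sz N (Λ' i) = sz N (Λ i) ∧ (Λ' i = Λ i ∨ Qs N (Λ i) < Qs N (Λ' i))) ∧
    Λ' ≠ Λ

/-- an orthogonal system of primitive generators in degrees `≤ N` -/
structure Sys (S : PSH A) (N : ℕ) (deg : ι → ℕ) (π : ι → ℕ → A) : Prop where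
  deg_pos : ∀ i, 0 < deg i
  prim : ∀ i k, 0 < k → k * deg i ≤ N → π i k ∈ S.Pr (k * deg i)
  orth : ∀ i j k l, 0 < k → 0 < l → k * deg i ≤ N → k * deg i = l * deg j →
    S.ip (k * deg i) (π i k) (π j l) = by classical exact if i = j then (k : ℂ) else 0
  span : ∀ n x, 0 < n → n ≤ N → x ∈ S.Pr n →
    x ∈ Submodule.span ℂ {y | ∃ i k, k * deg i = n ∧ y = π i k}

/-- the indices over `i'` whose relative degree divides `j` -/
noncomputable def Pc (par : ι → ι) (ρ : ι → ℕ) (i' : ι) (j : ℕ) : Finset ι := by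
  classical exact univ.filter fun i => par i = i' ∧ ρ i ∣ j

/-- the combinatorial data attached to the prime `p` -/
structure PDat (deg : ι → ℕ) (par : ι → ι) (ρ e : ι → ℕ) : Prop where
  par_par : ∀ i, par (par i) = par i
  deg_eq : ∀ i, deg i = ρ i * deg (par i)
  e_pos : ∀ i, 0 < e i
  e_dvd : ∀ i, par i ≠ i → e (par i) ∣ ρ i

/-- the truncation operator -/
structure TSys (S : PSH A) (N : ℕ) (deg : ι → ℕ) (π : ι → ℕ → A) (T : A →ₐ[ℂ] A)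
    (par : ι → ι) (ρ : ι → ℕ) : Prop where
  adj : ∀ n x y, S.ip n (T x) y = S.ip n x (T y)
  idem : ∀ x, T (T x) = T x
  T_pr : ∀ n x, x ∈ S.Pr n → T x ∈ S.Pr n
  T_π : ∀ i k, 0 < k → k * deg i ≤ N → T (π i k) =
    (∑ j ∈ Pc par ρ (par i) (ρ i * k), (ρ j : ℂ))⁻¹ •
      ∑ j ∈ Pc par ρ (par i) (ρ i * k), (ρ j : ℂ) • π j (ρ i * k / ρ j)

/-- total size over `i'` -/
noncomputable def msz (N : ℕ) (par : ι → ι) (ρ : ι → ℕ) (Λ : ι → Finset ℕ) (i' : ι) : ℕ := by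
  classical exact ∑ i ∈ univ.filter fun i => par i = i', ρ i * sz N (Λ i)

/-- same semisimple label and same cores -/
def SameCls (N : ℕ) (par : ι → ι) (ρ e : ι → ℕ) (Λ Λ' : ι → Finset ℕ) : Prop :=
  ∀ i, par i = i → msz N par ρ Λ i = msz N par ρ Λ' i ∧ res (e i) (Λ i) = res (e i) (Λ' i)

/-- supported on the `p'`-indices -/
def PL (N : ℕ) (par : ι → ι) (Λ : ι → Finset ℕ) : Prop := ∀ i, par i ≠ i → Λ i = range N

end Defs

theorem abs_realise_eqns : True := by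
  have := @ExpRel.eq_1.{0}
  have := @ExpTo.eq_1.{0}
  have := @Par.eq_1
  have := @sz.eq_1
  have := @row.eq_1
  have := @Qs.eq_1
  have := @pp.eq_1.{0, 0}
  have := @hh.eq_1.{0, 0}
  have := @ss.eq_1.{0, 0}
  have := @hP.eq_1.{0, 0}
  have := @sL.eq_1.{0, 0}
  have := @hL.eq_1.{0, 0}
  have := @ALab.eq_1.{0}
  have := @Abv.eq_1.{0}
  have := @Pc.eq_1.{0}
  have := @msz.eq_1.{0}
  have := @SameCls.eq_1.{0}
  have := @PL.eq_1.{0}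
  trivial

/-- Package G4a: consequences of `PSH` and the Schur basis. -/
class AbsA : Prop where
  /-- a group-like family has a primitive logarithmic derivative -/
  prim_of_mult : ∀ {A : Type u} [CommRing A] [Algebra ℂ A] (S : PSH A) (N : ℕ) (Φ : ℕ → A)
    (_ : ∀ n, Φ n ∈ S.Hn n) (_ : Φ 0 = 1)
    (_ : ∀ a b x y, a + b ≤ N → x ∈ S.Hn a → y ∈ S.Hn b →
      S.ip (a + b) (x * y) (Φ (a + b)) = S.ip a x (Φ a) * S.ip b y (Φ b)),
    ∃ π : ℕ → A, ExpTo N π Φ ∧ ∀ k, 0 < k → π k ∈ S.Pr k ∧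
      ∀ y, y ∈ S.Pr k → S.ip k y (π k) = k * S.ip k y (Φ k)
  /-- Newton recursion -/
  expRel_hh : ∀ {A : Type u} [CommRing A] [Algebra ℂ A] {ι : Type} (π : ι → ℕ → A) (i : ι),
    ExpRel (π i) (hh π i)
  ss_range : ∀ {A : Type u} [CommRing A] [Algebra ℂ A] {ι : Type} (N : ℕ) (π : ι → ℕ → A)
    (i : ι), ss N π i (range N) = 1
  hP_range : ∀ {A : Type u} [CommRing A] [Algebra ℂ A] {ι : Type} (N : ℕ) (π : ι → ℕ → A)
    (i : ι), hP N π i (range N) = 1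
  /-- bead sets of one-row partitions -/
  row_spec : ∀ {N : ℕ} (_ : 0 < N) (k : ℕ), (row N k).card = N ∧ sz N (row N k) = k
  row_zero : ∀ {N : ℕ} (_ : 0 < N), row N 0 = range N
  sz_eq_zero : ∀ {N : ℕ} {T : Finset ℕ} (_ : T.card = N), sz N T = 0 ↔ T = range N
  /-- the parts add up to the size -/
  sum_parts : ∀ {N : ℕ} {T : Finset ℕ} (_ : T.card = N), ∑ j : Fin N, (en N T j - j) = sz N T
  ss_row : ∀ {A : Type u} [CommRing A] [Algebra ℂ A] {ι : Type} {N : ℕ} (_ : 0 < N)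
    (π : ι → ℕ → A) (i : ι) (k : ℕ), ss N π i (row N k) = hh π i k
  /-- Jacobi-Trudi: a Schur function is an integral polynomial in the `hh` -/
  ss_mem : ∀ {A : Type u} [CommRing A] [Algebra ℂ A] {ι : Type} {N : ℕ} (π : ι → ℕ → A) (i : ι)
    {T : Finset ℕ} (_ : T.card = N), ss N π i T ∈ Submodule.span ℤ
      {y | ∃ γ : Fin N → ℕ, ∑ j, γ j = sz N T ∧ y = ∏ j, hh π i (γ j)}
  /-- unitriangularity -/
  hL_sub : ∀ {A : Type u} [CommRing A] [Algebra ℂ A] {ι : Type} [Fintype ι] {N : ℕ}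
    (π : ι → ℕ → A) {Λ : ι → Finset ℕ} (_ : ∀ i, (Λ i).card = N),
    hL N π Λ - sL N π Λ ∈ Submodule.span ℂ {y | ∃ Λ', Abv N Λ' Λ ∧ y = sL N π Λ'}
  /-- value of a multiplicative functional with `δ π = 1` -/
  del_ss : ∀ {N : ℕ} (_ : 0 < N) {T : Finset ℕ} (_ : T.card = N),
    ∑ ν ∈ Par (sz N T), Y N ν T / (zz ν : ℂ) = if T = row N (sz N T) then 1 else 0
  hh_mem : ∀ {A : Type u} [CommRing A] [Algebra ℂ A] {ι : Type} [Fintype ι] {S : PSH A} {N : ℕ}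
    {deg : ι → ℕ} {π : ι → ℕ → A} (_ : Sys S N deg π) (i : ι) (k : ℕ) (_ : k * deg i ≤ N),
    hh π i k ∈ S.Hn (k * deg i)
  ss_Hn : ∀ {A : Type u} [CommRing A] [Algebra ℂ A] {ι : Type} [Fintype ι] {S : PSH A} {N : ℕ}
    {deg : ι → ℕ} {π : ι → ℕ → A} (_ : Sys S N deg π) (i : ι) (T : Finset ℕ)
    (_ : sz N T * deg i ≤ N), ss N π i T ∈ S.Hn (sz N T * deg i)
  sL_mem : ∀ {A : Type u} [CommRing A] [Algebra ℂ A] {ι : Type} [Fintype ι] {S : PSH A} {N : ℕ}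
    {deg : ι → ℕ} {π : ι → ℕ → A} (_ : Sys S N deg π) {n : ℕ} (_ : n ≤ N) {Λ : ι → Finset ℕ}
    (_ : ALab N deg n Λ), sL N π Λ ∈ S.Hn n
  /-- orthonormality -/
  ip_sL : ∀ {A : Type u} [CommRing A] [Algebra ℂ A] {ι : Type} [Fintype ι] {S : PSH A} {N : ℕ}
    {deg : ι → ℕ} {π : ι → ℕ → A} (_ : Sys S N deg π) {n : ℕ} (_ : n ≤ N)
    {Λ Λ' : ι → Finset ℕ} (_ : ALab N deg n Λ) (_ : ALab N deg n Λ'),
    S.ip n (sL N π Λ) (sL N π Λ') = by classical exact if Λ = Λ' then 1 else 0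
  /-- completeness -/
  span_sL : ∀ {A : Type u} [CommRing A] [Algebra ℂ A] {ι : Type} [Fintype ι] {S : PSH A} {N : ℕ}
    {deg : ι → ℕ} {π : ι → ℕ → A} (_ : Sys S N deg π) {n : ℕ} (_ : n ≤ N) {x : A}
    (_ : x ∈ S.Hn n), x ∈ Submodule.span ℂ {y | ∃ Λ, ALab N deg n Λ ∧ y = sL N π Λ}
  /-- multigrading -/
  sz_add : ∀ {A : Type u} [CommRing A] [Algebra ℂ A] {ι : Type} [Fintype ι] {S : PSH A} {N : ℕ}
    {deg : ι → ℕ} {π : ι → ℕ → A} (_ : Sys S N deg π) {a b : ℕ} (_ : a + b ≤ N)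
    {Λ₁ Λ₂ Λ : ι → Finset ℕ} (_ : ALab N deg a Λ₁) (_ : ALab N deg b Λ₂)
    (_ : ALab N deg (a + b) Λ)
    (_ : S.ip (a + b) (sL N π Λ₁ * sL N π Λ₂) (sL N π Λ) ≠ 0) (i : ι),
    sz N (Λ i) = sz N (Λ₁ i) + sz N (Λ₂ i)
  /-- Murnaghan-Nakayama: adding a `j`-hook -/
  hook_res : ∀ {A : Type u} [CommRing A] [Algebra ℂ A] {ι : Type} [Fintype ι] {S : PSH A}
    {N : ℕ} {deg : ι → ℕ} {π : ι → ℕ → A} (_ : Sys S N deg π) {n : ℕ} {i : ι} {j : ℕ} (_ : 0 < j)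
    (_ : n + j * deg i ≤ N) {Λ Λ' : ι → Finset ℕ} (_ : ALab N deg n Λ')
    (_ : ALab N deg (n + j * deg i) Λ)
    (_ : S.ip (n + j * deg i) (sL N π Λ' * π i j) (sL N π Λ) ≠ 0),
    (∀ i', i' ≠ i → Λ' i' = Λ i') ∧ res j (Λ' i) = res j (Λ i) ∧ sz N (Λ i) = sz N (Λ' i) + j
  /-- a `j`-hook can be removed when the `j`-weight is positive -/
  exists_hook : ∀ {A : Type u} [CommRing A] [Algebra ℂ A] {ι : Type} [Fintype ι] {S : PSH A}
    {N : ℕ} {deg : ι → ℕ} {π : ι → ℕ → A} (_ : Sys S N deg π) {n : ℕ} (_ : n ≤ N) {i : ι} {j : ℕ}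
    (_ : 0 < j) {Λ : ι → Finset ℕ} (_ : ALab N deg n Λ) (_ : wt j (Λ i) ≠ 0),
    ∃ n' Λ', n = n' + j * deg i ∧ ALab N deg n' Λ' ∧ wt j (Λ i) = wt j (Λ' i) + 1 ∧
      S.ip n (sL N π Λ' * π i j) (sL N π Λ) ≠ 0

/-- Package G4b: the truncation operator in the Schur basis. -/
class AbsB : Prop where
  /-- T1 -/
  sameCls : ∀ {A : Type u} [CommRing A] [Algebra ℂ A] {ι : Type} [Fintype ι] {S : PSH A} {N : ℕ}
    {deg : ι → ℕ} {π : ι → ℕ → A} (_ : Sys S N deg π) {T : A →ₐ[ℂ] A} {par : ι → ι}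
    {ρ e : ι → ℕ} (_ : PDat deg par ρ e) (_ : TSys S N deg π T par ρ) {n : ℕ} (_ : n ≤ N)
    {Λ Λ' : ι → Finset ℕ} (_ : ALab N deg n Λ) (_ : ALab N deg n Λ')
    (_ : S.ip n (T (sL N π Λ)) (sL N π Λ') ≠ 0), SameCls N par ρ e Λ Λ'
  /-- T2 -/
  T_mem_span : ∀ {A : Type u} [CommRing A] [Algebra ℂ A] {ι : Type} [Fintype ι] {S : PSH A}
    {N : ℕ} {deg : ι → ℕ} {π : ι → ℕ → A} (_ : Sys S N deg π) {T : A →ₐ[ℂ] A} {par : ι → ι}
    {ρ e : ι → ℕ} (_ : PDat deg par ρ e) (_ : TSys S N deg π T par ρ) {n : ℕ} (_ : n ≤ N)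
    {Λ : ι → Finset ℕ} (_ : ALab N deg n Λ),
    T (sL N π Λ) ∈ Submodule.span ℂ {y | ∃ Λ', ALab N deg n Λ' ∧ PL N par Λ' ∧
      SameCls N par ρ e Λ Λ' ∧ y = T (sL N π Λ')}
  /-- `T` is injective on the span of the `p'`-labels -/
  T_inj : ∀ {A : Type u} [CommRing A] [Algebra ℂ A] {ι : Type} [Fintype ι] {S : PSH A}
    {N : ℕ} {deg : ι → ℕ} {π : ι → ℕ → A} (_ : Sys S N deg π) {T : A →ₐ[ℂ] A} {par : ι → ι}
    {ρ e : ι → ℕ} (_ : PDat deg par ρ e) (_ : TSys S N deg π T par ρ) {n : ℕ} (_ : n ≤ N)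
    {x : A} (_ : x ∈ Submodule.span ℂ {y | ∃ Λ', ALab N deg n Λ' ∧ PL N par Λ' ∧ y = sL N π Λ'})
    (_ : T x = 0), x = 0
  /-- T3: the matrix of `T` only depends on the local data over the indices of positive weight -/
  transfer : ∀ {A₁ A₂ : Type u} [CommRing A₁] [Algebra ℂ A₁] [CommRing A₂] [Algebra ℂ A₂]
    {ι₁ ι₂ : Type} [Fintype ι₁] [Fintype ι₂] {S₁ : PSH A₁} {S₂ : PSH A₂} {N : ℕ}
    {deg₁ : ι₁ → ℕ} {π₁ : ι₁ → ℕ → A₁} (_ : Sys S₁ N deg₁ π₁) {T₁ : A₁ →ₐ[ℂ] A₁} {par₁ : ι₁ → ι₁}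
    {ρ₁ e₁ : ι₁ → ℕ} (_ : PDat deg₁ par₁ ρ₁ e₁) (_ : TSys S₁ N deg₁ π₁ T₁ par₁ ρ₁)
    {deg₂ : ι₂ → ℕ} {π₂ : ι₂ → ℕ → A₂} (_ : Sys S₂ N deg₂ π₂) {T₂ : A₂ →ₐ[ℂ] A₂} {par₂ : ι₂ → ι₂}
    {ρ₂ e₂ : ι₂ → ℕ} (_ : PDat deg₂ par₂ ρ₂ e₂) (_ : TSys S₂ N deg₂ π₂ T₂ par₂ ρ₂)
    (φ : ι₁ → ι₂) (_ : Function.Surjective φ) (_ : ∀ i, φ (par₁ i) = par₂ (φ i)) (J : Set ι₁)
    (_ : ∀ i, par₁ i ∈ J → ρ₂ (φ i) = ρ₁ i ∧ ∀ i', φ i' = φ i → i' = i)
    {n : ℕ} (_ : n ≤ N) {Λ Λ' : ι₂ → Finset ℕ} (_ : ALab N deg₂ n Λ) (_ : ALab N deg₂ n Λ')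
    (_ : ALab N deg₁ n (Λ ∘ φ)) (_ : ALab N deg₁ n (Λ' ∘ φ))
    (_ : ∀ i, par₁ i ∉ J → Λ (φ i) = Λ' (φ i) ∧ (par₁ i ≠ i → Λ (φ i) = range N) ∧
      (par₁ i = i → wt (e₁ i) (Λ (φ i)) = 0 ∧ e₁ i ∣ e₂ (φ i))),
    S₂.ip n (T₂ (sL N π₂ Λ)) (sL N π₂ Λ') = S₁.ip n (T₁ (sL N π₁ (Λ ∘ φ))) (sL N π₁ (Λ' ∘ φ))

end GLH
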