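import Cfsg.Agent.Lib.GL.AbsS

/-!
# S4536, package G4a: the instance `AbsA`
-/

set_option autoImplicit false
set_option linter.unusedSectionVars false

namespace GLH

open Finset SFock
open scoped Classical ComplexConjugate Pointwise

universe u

section Ring
variable {A : Type*} [CommRing A] [Algebra ℂ A] {ι : Type*}

theorem prod_mem_span {κ : Type*} [Nonempty κ] (s : Finset ι) {x : ι → A} {f : ι → κ → A}
    {P : ι → Set κ} (hx : ∀ i ∈ s, x i ∈ Submodule.span ℂ (f i '' P i)) {W : Submodule ℂ A}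
    (h : ∀ Λ : ι → κ, (∀ i ∈ s, Λ i ∈ P i) → ∏ i ∈ s, f i (Λ i) ∈ W) : ∏ i ∈ s, x i ∈ W := by
  have h1 : ∏ i ∈ s, x i ∈ ∏ i ∈ s, Submodule.span ℂ (f i '' P i) := by
    clear h
    induction s using Finset.induction_on with
    | empty => rw [prod_empty, prod_empty]; exact Submodule.one_le.1 le_rfl
    | insert a s ha ih =>
      rw [prod_insert ha, prod_insert ha]
      exact Submodule.mul_mem_mul (hx a (mem_insert_self _ _))
        (ih fun i hi => hx i (mem_insert_of_mem hi))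
  rw [Submodule.prod_span] at h1
  refine Submodule.span_le.2 (fun y hy => ?_) h1
  obtain ⟨g, hg, rfl⟩ := (Set.mem_finsetProd _ _ _).1 hy
  choose! Λ h2 h3 using fun i (hi : i ∈ s) => hg hi
  rw [← prod_congr rfl h3]
  exact h Λ h2

theorem hL_sub' [Fintype ι] {N : ℕ} (π : ι → ℕ → A) {Λ : ι → Finset ℕ} (h : ∀ i, (Λ i).card = N) :
    hL N π Λ - sL N π Λ ∈ Submodule.span ℂ {y | ∃ Λ', Abv N Λ' Λ ∧ y = sL N π Λ'} := by
  have h1 : hL N π Λ = ∏ i, ((hP N π i (Λ i) - ss N π i (Λ i)) + ss N π i (Λ i)) := by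
    simp only [sub_add_cancel, hL]
  rw [h1, Fintype.prod_add, ← add_sum_erase _ _ (mem_univ ∅), prod_empty, one_mul, compl_empty,
    ← sL, add_sub_cancel_left]
  refine sum_mem fun t ht => ?_
  rw [← prod_piecewise_compl_univ_aux]
  refine prod_mem_span univ (f := ss N π) (P := fun i => if i ∈ t then
    {T' | T'.card = N ∧ sz N T' = sz N (Λ i) ∧ Qs N (Λ i) < Qs N T'} else {Λ i}) (fun i _ => ?_)
    fun Λ' h' => Submodule.subset_span ⟨Λ', ⟨fun i => ?_, fun e => ?_⟩, rfl⟩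
  · split_ifs
    · exact hP_sub π i _ (h i)
    · exact Submodule.subset_span ⟨_, rfl, rfl⟩
  · have := h' i (mem_univ i)
    split_ifs at this
    · exact ⟨this.1, this.2.1, Or.inr this.2.2⟩
    · rw [this]; exact ⟨h i, rfl, Or.inl rfl⟩
  · obtain ⟨i, hi⟩ := nonempty_iff_ne_empty.2 (ne_of_mem_erase ht)
    have := h' i (mem_univ i)
    rw [if_pos hi, e] at this
    exact lt_irrefl _ this.2.2
where
  prod_piecewise_compl_univ_aux {t : Finset ι} {f g : ι → A} :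
      ∏ i, (if i ∈ t then f i else g i) = (∏ i ∈ t, f i) * ∏ i ∈ tᶜ, g i := by
    rw [prod_ite]
    congr 2 <;> ext <;> simp

end Ring

variable {A : Type u} [CommRing A] [Algebra ℂ A] {ι : Type*}

theorem mon_sum (τ : ι → ℕ → A) {κ : Type*} (s : Finset κ) (m : κ → Multiset (ι × ℕ)) :
    mon τ (∑ k ∈ s, m k) = ∏ k ∈ s, mon τ (m k) := by
  induction s using Finset.induction_on with
  | empty => simp
  | insert a s ha ih => rw [sum_insert ha, prod_insert ha, mon_add, ih]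

theorem wtm_sum (deg : ι → ℕ) {κ : Type*} (s : Finset κ) (m : κ → Multiset (ι × ℕ)) :
    wtm deg (∑ k ∈ s, m k) = ∑ k ∈ s, wtm deg (m k) := by
  induction s using Finset.induction_on with
  | empty => simp
  | insert a s ha ih => rw [sum_insert ha, sum_insert ha, wtm_add, ih]

theorem ss_mem_Sp (N : ℕ) (deg : ι → ℕ) (τ : ι → ℕ → A) (i : ι) (T : Finset ℕ) :
    ss N τ i T ∈ Sp deg τ (· = i) (sz N T * deg i) :=
  sum_mem fun _ hν => Submodule.smul_mem _ _ (pp_mem_Sp deg τ i hν)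

theorem tau_mem_Sp (deg : ι → ℕ) (τ : ι → ℕ → A) (i : ι) {j : ℕ} (hj : 0 < j) :
    τ i j ∈ Sp deg τ (· = i) (j * deg i) := by
  simpa [pp] using pp_mem_Sp deg τ i (ν := {j}) (k := j) (mem_Par.2 ⟨by simpa using hj, by simp⟩)

/-- weighted scalar product of two columns of the character table -/
noncomputable def Kw (N : ℕ) (g : ℕ → ℂ) (k : ℕ) (S T : Finset ℕ) : ℂ :=
  ∑ ν ∈ Par k, Y N ν S * Y N ν T / zz ν * (ν.map g).prod

namespace OF
variable {S : PSH A} {N : ℕ} {deg : ι → ℕ} {V : ι → Prop} {τ : ι → ℕ → A} {g : ι → ℕ → ℂ}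
variable (h : OF S N deg V τ g)
include h

theorem Sp_le_single {i : ι} (hi : V i) {n : ℕ} (hn : n ≤ N) : Sp deg τ (· = i) n ≤ S.Hn n :=
  h.Sp_le (P := (· = i)) (fun _ e => e ▸ hi) hn

theorem ip_pp_ss {i : ι} (hi : V i) {k : ℕ} (hk : k * deg i ≤ N) {μ : Multiset ℕ} (hμ : μ ∈ Par k)
    {T : Finset ℕ} (hT : sz N T = k) :
    S.ip (k * deg i) (pp τ i μ) (ss N τ i T) = Y N μ T * (μ.map (g i)).prod := by
  obtain ⟨h1, h2⟩ := mem_Par.1 hμ
  rw [ss, hT, S.ip_sum', sum_eq_single μ (fun ν hν hne => ?_) fun h => absurd hμ h]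
  · rw [S.ip_smul', ← h2, h.ip_pp hi h1 h1 (h2 ▸ hk) (h2 ▸ hk), if_pos rfl, map_div₀, conj_Y,
      Complex.conj_natCast, ← mul_assoc, div_mul_cancel₀ _ (zz_ne hμ)]
  · rw [S.ip_smul', ← h2, h.ip_pp hi h1 (mem_Par.1 hν).1 (h2 ▸ hk) ((mem_Par.1 hν).2 ▸ hk),
      if_neg hne.symm, mul_zero]

theorem ip_ss_ss {i : ι} (hi : V i) {k : ℕ} (hk : k * deg i ≤ N) {T T' : Finset ℕ}
    (hT : sz N T = k) (hT' : sz N T' = k) :
    S.ip (k * deg i) (ss N τ i T) (ss N τ i T') = Kw N (g i) k T T' := by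
  conv_lhs => arg 3; rw [ss, hT]
  rw [S.ip_sum]
  exact sum_congr rfl fun ν hν => by rw [S.ip_smul, h.ip_pp_ss hi hk hν hT']; ring

theorem eq_of_ip_ne {i : ι} (hi : V i) {a b : ℕ} (hb : b * deg i ≤ N) {x y : A}
    (hy : y ∈ Sp deg τ (· = i) (b * deg i)) (hne : S.ip (a * deg i) x y ≠ 0) : a = b := by
  by_contra hc
  exact hne (S.ip_ne' x (h.Sp_le_single hi hb hy) fun e =>
    hc (Nat.eq_of_mul_eq_mul_right (h.deg_pos i) e).symm)

end OF

theorem Kw_one {N k : ℕ} (hk : k ≤ N) {S T : Finset ℕ} (hS : S ∈ SS N (d0 N + k))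
    (hT : T ∈ SS N (d0 N + k)) : Kw N (fun _ => 1) k S T = if S = T then 1 else 0 := by
  simp [Kw, ← row_orth hk hS hT]

theorem ALab.sum' [Fintype ι] {N n : ℕ} {d : ι → ℕ} {Λ : ι → Finset ℕ} (h : ALab N d n Λ) :
    ∑ i, sz N (Λ i) * d i = n := by
  rw [← h.2]; exact sum_congr rfl fun O _ => mul_comm _ _

namespace Sys
variable [Fintype ι] {S : PSH A} {N : ℕ} {deg : ι → ℕ} {π : ι → ℕ → A} (h : Sys S N deg π)
include h

theorem le_of_mul {k : ℕ} {i : ι} (hk : k * deg i ≤ N) : k ≤ N :=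
  (Nat.le_mul_of_pos_right k (h.deg_pos i)).trans hk

theorem ip_ss (i : ι) {T T' : Finset ℕ} (hT : T.card = N) (hT' : T'.card = N)
    (h1 : sz N T * deg i ≤ N) (h2 : sz N T' * deg i ≤ N) :
    S.ip (sz N T * deg i) (ss N π i T) (ss N π i T') = if T = T' then 1 else 0 := by
  by_cases e : sz N T' = sz N T
  · rw [h.toOF.ip_ss_ss trivial h1 rfl e,
      Kw_one (h.le_of_mul h1) (mem_SS_sz.2 ⟨hT, rfl⟩) (mem_SS_sz.2 ⟨hT', e⟩)]
  · rw [if_neg fun e' => e (by rw [e'])]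
    by_contra hc
    exact e (h.toOF.eq_of_ip_ne trivial h2 (ss_mem_Sp N deg π i T') hc).symm

theorem ip_prod_sL {n : ℕ} (hn : n ≤ N) {x : ι → A} {a : ι → ℕ}
    (hx : ∀ i, x i ∈ Sp deg π (· = i) (a i * deg i)) (ha : ∑ i, a i * deg i = n)
    {Λ : ι → Finset ℕ} (hΛ : ALab N deg n Λ) :
    S.ip n (∏ i, x i) (sL N π Λ) = ∏ i, S.ip (a i * deg i) (x i) (ss N π i (Λ i)) := by
  rw [← ha]
  exact h.toOF.ip_prod univ (fun _ _ => trivial) (fun i _ => hx i)
    (fun i _ => ss_mem_Sp N deg π i (Λ i)) (ha ▸ hn) (hΛ.sum' ▸ hn)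

theorem ip_ss_mul {i : ι} {j : ℕ} (hj : 0 < j) {T T' : Finset ℕ} (hT : sz N T = sz N T' + j)
    (hN : sz N T * deg i ≤ N) :
    S.ip (sz N T * deg i) (ss N π i T' * π i j) (ss N π i T) =
      ∑ ν ∈ Par (sz N T'), Y N ν T' * Y N (j ::ₘ ν) T / zz ν := by
  conv_lhs => arg 3; rw [ss, sum_mul]
  rw [S.ip_sum]
  refine sum_congr rfl fun ν hν => ?_
  rw [smul_mul_assoc, S.ip_smul, mul_comm (pp π i ν), ← pp_cons,
    h.toOF.ip_pp_ss trivial hN (hT ▸ cons_mem_Par hj hν) rfl]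
  simp [div_mul_eq_mul_div]

theorem ip_sL_mul {n : ℕ} {i : ι} {j : ℕ} (hj : 0 < j) (hn : n + j * deg i ≤ N)
    {Λ Λ' : ι → Finset ℕ} (h' : ALab N deg n Λ') (hΛ : ALab N deg (n + j * deg i) Λ) :
    S.ip (n + j * deg i) (sL N π Λ' * π i j) (sL N π Λ) =
      S.ip ((sz N (Λ' i) + j) * deg i) (ss N π i (Λ' i) * π i j) (ss N π i (Λ i)) *
        ∏ i' ∈ univ.erase i, if Λ' i' = Λ i' then 1 else 0 := by
  have e : sL N π Λ' * π i j = ∏ i', ss N π i' (Λ' i') * if i' = i then π i j else 1 := by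
    rw [prod_mul_distrib, prod_ite_eq', if_pos (mem_univ _), sL]
  rw [e, h.ip_prod_sL hn (a := fun i' => sz N (Λ' i') + if i' = i then j else 0) (fun i' => ?_) ?_ hΛ,
    ← mul_prod_erase _ _ (mem_univ i), if_pos rfl, if_pos rfl]
  · refine congrArg _ (prod_congr rfl fun i' hi' => ?_)
    rw [if_neg (ne_of_mem_erase hi'), if_neg (ne_of_mem_erase hi'), add_zero, mul_one]
    exact h.ip_ss i' (h'.1 i') (hΛ.1 i') ((h'.le i').trans (by omega)) ((hΛ.le i').trans hn)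
  · simp [add_mul, sum_add_distrib, h'.sum']
  · split_ifs with e
    · subst e
      rw [add_mul]
      exact Sp_mul (ss_mem_Sp N deg π i' _) (tau_mem_Sp deg π i' hj)
    · rw [add_zero, mul_one]; exact ss_mem_Sp N deg π i' _

theorem span_sL {n : ℕ} (hn : n ≤ N) {x : A} (hx : x ∈ S.Hn n) :
    x ∈ Submodule.span ℂ {y | ∃ Λ, ALab N deg n Λ ∧ y = sL N π Λ} := by
  refine Submodule.span_le.2 ?_ (h.Hn_le_Sp n hn hx)
  rintro _ ⟨m, h1, rfl, rfl⟩
  let ν : ι → Multiset ℕ := fun i => (m.filter fun x => x.1 = i).map Prod.snd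
  have h2 : m = ∑ i, (ν i).map fun r => (i, r) := by
    ext x
    rw [Multiset.count_sum', sum_eq_single x.1 (fun i _ hi => Multiset.count_eq_zero_of_notMem
      fun hx => by obtain ⟨r, -, rfl⟩ := Multiset.mem_map.1 hx; exact hi rfl) (by simp),
      Multiset.map_map, Multiset.map_congr rfl (g := id) fun y hy => by
        rw [← (Multiset.mem_filter.1 hy).2]; rfl, Multiset.map_id, 
      Multiset.count_filter_of_pos (p := fun y : ι × ℕ => y.1 = x.1) rfl]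
  have h3 : mon π m = ∏ i, pp π i (ν i) := by
    simp only [pp_eq_mon]
    conv_lhs => rw [h2]
    exact mon_sum π _ _
  have h4 : wtm deg m = ∑ i, (ν i).sum * deg i := by
    simp only [← wtm_map]
    conv_lhs => rw [h2]
    exact wtm_sum deg _ _
  have h5 : ∀ i, ν i ∈ Par (ν i).sum := fun i => mem_Par.2 ⟨fun r hr => by
    obtain ⟨x, hx, rfl⟩ := Multiset.mem_map.1 hr
    exact (h1 x (Multiset.mem_filter.1 hx).1).2, rfl⟩
  rw [h3]
  refine prod_mem_span univ (f := ss N π) (P := fun i => SS N (d0 N + (ν i).sum)) (fun i _ => ?_)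
    fun Λ hΛ => Submodule.subset_span ⟨Λ, ⟨fun i => (mem_SS_sz.1 (hΛ i (mem_univ i))).1, ?_⟩, rfl⟩
  · rw [pp_eq_sum π i (h.le_of_mul (i := i) ((single_le_sum (f := fun i => (ν i).sum * deg i)
      (fun _ _ => Nat.zero_le _) (mem_univ i)).trans (h4 ▸ hn))) (h5 i)]
    exact sum_mem fun T hT => Submodule.smul_mem _ _ (Submodule.subset_span ⟨T, hT, rfl⟩)
  · rw [h4]
    exact sum_congr rfl fun i _ => by rw [(mem_SS_sz.1 (hΛ i (mem_univ i))).2, mul_comm]

end Sys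

instance instAbsA : AbsA.{u} where
  prim_of_mult := fun S N Φ => S.prim_of_mult N Φ
  expRel_hh := fun π i => expRel_hh' π i
  ss_range := fun N π i => ss_range' π i N
  hP_range := fun N π i => hP_range' π i N
  row_spec := row_spec'
  row_zero := row_zero'
  sz_eq_zero := sz_eq_zero'
  sum_parts := sum_parts'
  ss_row := fun hN π i k => ss_row' π i hN k
  ss_mem := fun π i T h => by
    rw [jt π i h]
    refine sum_mem fun σ _ => ?_
    split_ifs with hσ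
    · exact Submodule.smul_mem _ _ (Submodule.subset_span ⟨_, sum_en_sub h hσ, rfl⟩)
    · exact zero_mem _
  hL_sub := fun π _ h => hL_sub' π h
  del_ss := del_ss'
  hh_mem := fun h i _ hk => sum_mem fun _ hν => Submodule.smul_mem _ _
    (h.toOF.Sp_le_single trivial hk (pp_mem_Sp _ _ i hν))
  ss_Hn := fun h i T hk => h.toOF.Sp_le_single trivial hk (ss_mem_Sp _ _ _ i T)
  sL_mem := fun {_ _ _ _ _ S _ _ _} h _ hn _ hΛ => hΛ.sum' ▸ S.prod_mem univ _ _ fun i _ =>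
    h.toOF.Sp_le_single trivial ((hΛ.le i).trans hn) (ss_mem_Sp _ _ _ i _)
  ip_sL := fun h _ hn Λ Λ' h1 h2 => by
    rw [sL, h.ip_prod_sL hn (fun i => ss_mem_Sp _ _ _ i (Λ i)) h1.sum' h2, prod_congr rfl
      fun i _ => h.ip_ss i (h1.1 i) (h2.1 i) ((h1.le i).trans hn) ((h2.le i).trans hn), prod_boole]
    simp [funext_iff]
  span_sL := fun h _ hn _ hx => h.span_sL hn hx
  sz_add := fun {_ _ _ _ _ _ N deg π} h a b hn Λ₁ Λ₂ Λ h1 h2 h3 hne i => by
    rw [sL, sL, ← prod_mul_distrib, h.ip_prod_sL hn (a := fun i => sz N (Λ₁ i) + sz N (Λ₂ i))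
      (fun i => by rw [add_mul]; exact Sp_mul (ss_mem_Sp _ _ _ i _) (ss_mem_Sp _ _ _ i _))
      (by simp only [add_mul, sum_add_distrib, h1.sum', h2.sum']) h3] at hne
    exact (h.toOF.eq_of_ip_ne trivial ((h3.le i).trans hn) (ss_mem_Sp _ _ _ i _)
      (prod_ne_zero_iff.1 hne i (mem_univ i))).symm
  hook_res := fun {_ _ _ _ _ _ N deg π} h n i j hj hn Λ Λ' h1 h2 hne => by
    rw [h.ip_sL_mul hj hn h1 h2] at hne
    obtain ⟨a1, a2⟩ := mul_ne_zero_iff.1 hne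
    have a3 := (h2.le i).trans hn
    have a4 := (h.toOF.eq_of_ip_ne trivial a3 (ss_mem_Sp _ _ _ i _) a1).symm
    refine ⟨fun i' hi' => ?_, ?_, a4⟩
    · by_contra hc
      exact prod_ne_zero_iff.1 a2 i' (mem_erase.2 ⟨hi', mem_univ _⟩) (if_neg hc)
    · rw [← a4, h.ip_ss_mul hj a4 a3] at a1
      exact res_of_mn hj (by have := h.le_of_mul a3; omega) (mem_SS_sz.2 ⟨h1.1 i, rfl⟩)
        (mem_SS_sz.2 ⟨h2.1 i, a4⟩) a1
  exists_hook := fun {_ _ _ _ _ _ N deg π} h n hn i j hj Λ hΛ hw => by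
    obtain ⟨x, a1, a2, a3⟩ := exists_movable hw
    obtain ⟨b1, b2, b3⟩ := mvb_spec a1 a2 a3
    have b4 := b1.trans (hΛ.1 i)
    have b5 : sz N (Λ i) = sz N (mvb (Λ i) x j) + j := by
      rw [sum_eq_sz b4, sum_eq_sz (hΛ.1 i)] at b2; omega
    let Λ' := Function.update Λ i (mvb (Λ i) x j)
    have c1 : Λ' i = mvb (Λ i) x j := Function.update_self ..
    have c2 : n = ∑ i', deg i' * sz N (Λ' i') + j * deg i := by
      rw [← hΛ.2, ← add_sum_erase _ _ (mem_univ i), ← add_sum_erase _ _ (mem_univ i), c1, b5,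
        sum_congr rfl (s₂ := univ.erase i) (f := fun i' => deg i' * sz N (Λ' i')) fun i' hi' => by
          rw [show Λ' i' = Λ i' from Function.update_of_ne (ne_of_mem_erase hi') ..]]
      ring
    have c3 : ALab N deg _ Λ' := ⟨fun i' => by
      by_cases e : i' = i
      · rw [e, c1, b4]
      · rw [show Λ' i' = Λ i' from Function.update_of_ne e .., hΛ.1], rfl⟩
    refine ⟨_, Λ', c2, c3, by rw [c1]; exact wt_of_res hj b3 (by rw [mul_one, b2]), ?_⟩
    have c4 := (hΛ.le i).trans hn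
    rw [c2] at hn hΛ ⊢
    rw [h.ip_sL_mul hj hn c3 hΛ, prod_eq_one fun i' hi' =>
      if_pos (Function.update_of_ne (ne_of_mem_erase hi') ..), mul_one, c1, ← b5,
      h.ip_ss_mul hj b5 c4, mn_eq hj (by have := h.le_of_mul c4; omega) (mem_SS_sz.2 ⟨b4, rfl⟩)
        (mem_SS_sz.2 ⟨hΛ.1 i, b5⟩), sum_eq_single x (fun y _ hy => by
          rw [if_neg fun e => hy (mvb_inj a1 a3 e).symm, mul_zero])
        fun hx => absurd (mem_filter.2 ⟨a1, a2, a3⟩) hx, if_pos rfl, mul_one]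
    exact pow_ne_zero _ (neg_ne_zero.2 one_ne_zero)

end GLH
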