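import Cfsg.Agent.Lib.GL.BaseL

/-!
# S4536, package G4: primitives, projections and monomials in a `PSH` structure
-/

set_option autoImplicit false
set_option linter.unusedSectionVars false

namespace GLH

open Finset SFock
open scoped Classical ComplexConjugate

universe u

variable {A : Type u} [CommRing A] [Algebra ℂ A]

namespace PSH
variable (S : PSH A)

/-- the form as a linear map in the first variable -/
def ipl (n : ℕ) (y : A) : A →ₗ[ℂ] ℂ where
  toFun x := S.ip n x y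
  map_add' a b := S.ip_add n a b y
  map_smul' c a := S.ip_smul n c a y

theorem ipl_apply (n : ℕ) (y x : A) : S.ipl n y x = S.ip n x y := rfl

theorem conj_ip (n : ℕ) (x y : A) : conj (S.ip n x y) = S.ip n y x := (S.ip_conj n y x).symm

@[simp] theorem ip_zero_left (n : ℕ) (y : A) : S.ip n 0 y = 0 := map_zero (S.ipl n y)

@[simp] theorem ip_zero_right (n : ℕ) (y : A) : S.ip n y 0 = 0 := by
  rw [S.ip_conj, ip_zero_left, map_zero]

theorem ip_sub (n : ℕ) (x y z : A) : S.ip n (x - y) z = S.ip n x z - S.ip n y z :=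
  map_sub (S.ipl n z) x y

theorem ip_sum {κ : Type*} (s : Finset κ) (n : ℕ) (x : κ → A) (y : A) :
    S.ip n (∑ i ∈ s, x i) y = ∑ i ∈ s, S.ip n (x i) y := map_sum (S.ipl n y) x s

theorem ip_add' (n : ℕ) (x y z : A) : S.ip n x (y + z) = S.ip n x y + S.ip n x z := by
  rw [S.ip_conj, S.ip_add, map_add, conj_ip, conj_ip]

theorem ip_sub' (n : ℕ) (x y z : A) : S.ip n x (y - z) = S.ip n x y - S.ip n x z := by
  rw [S.ip_conj, S.ip_sub, map_sub, conj_ip, conj_ip]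

theorem ip_smul' (n : ℕ) (c : ℂ) (x y : A) : S.ip n x (c • y) = conj c * S.ip n x y := by
  rw [S.ip_conj, S.ip_smul, map_mul, conj_ip]

theorem ip_sum' {κ : Type*} (s : Finset κ) (n : ℕ) (x : A) (y : κ → A) :
    S.ip n x (∑ i ∈ s, y i) = ∑ i ∈ s, S.ip n x (y i) := by
  rw [S.ip_conj, S.ip_sum, map_sum]
  simp only [conj_ip]

theorem ip_comm_zero {n : ℕ} {x y : A} : S.ip n x y = 0 ↔ S.ip n y x = 0 := by
  rw [← conj_ip, map_eq_zero]

theorem ip_ne' {n k : ℕ} (x : A) {y : A} (hy : y ∈ S.Hn k) (h : k ≠ n) : S.ip n x y = 0 :=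
  S.ip_comm_zero.1 (S.ip_ne n k y x hy h)

theorem ip_span_zero {n : ℕ} {X : Set A} {x y : A} (hx : x ∈ Submodule.span ℂ X)
    (h : ∀ z ∈ X, S.ip n z y = 0) : S.ip n x y = 0 :=
  (Submodule.span_le.2 (fun z hz => h z hz) : Submodule.span ℂ X ≤ LinearMap.ker (S.ipl n y)) hx

theorem ip_span_zero₂ {n : ℕ} {X X' : Set A} {x y : A} (hx : x ∈ Submodule.span ℂ X)
    (hy : y ∈ Submodule.span ℂ X') (h : ∀ z ∈ X, ∀ z' ∈ X', S.ip n z z' = 0) : S.ip n x y = 0 :=
  S.ip_span_zero hx fun z hz => S.ip_comm_zero.1 (S.ip_span_zero hy fun z' hz' =>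
    S.ip_comm_zero.1 (h z hz z' hz'))

theorem eq_of_ip {n : ℕ} {x y : A} (hx : x ∈ S.Hn n) (hy : y ∈ S.Hn n)
    (h : ∀ z ∈ S.Hn n, S.ip n z x = S.ip n z y) : x = y :=
  sub_eq_zero.1 (S.eq_zero n _ (sub_mem hx hy) (by rw [ip_sub', h _ (sub_mem hx hy), sub_self]))

theorem prod_mem {κ : Type*} (s : Finset κ) (f : κ → A) (d : κ → ℕ)
    (h : ∀ i ∈ s, f i ∈ S.Hn (d i)) : ∏ i ∈ s, f i ∈ S.Hn (∑ i ∈ s, d i) := by
  induction s using Finset.induction_on with
  | empty => simpa using S.one_mem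
  | insert a s ha ih =>
    rw [prod_insert ha, sum_insert ha]
    exact S.mul_mem _ _ _ _ (h a (mem_insert_self _ _)) (ih fun i hi => h i (mem_insert_of_mem hi))

theorem exists_proj {n : ℕ} {U : Submodule ℂ A} (hU : U ≤ S.Hn n) (x : A) :
    ∃ u ∈ U, ∀ y ∈ U, S.ip n y (x - u) = 0 := by
  have := S.fin n
  have : FiniteDimensional ℂ U := Submodule.finiteDimensional_of_le hU
  let b := Module.finBasis ℂ U
  let L : A →ₗ[ℂ] (Fin (Module.finrank ℂ U) → ℂ) := LinearMap.pi fun j => S.ipl n (b j)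
  have key : ∀ z, L z = 0 → ∀ y ∈ U, S.ip n y z = 0 := fun z hz y hy => by
    have : y = ∑ j, b.repr ⟨y, hy⟩ j • (b j : A) := by
      have := congrArg U.subtype (b.sum_repr ⟨y, hy⟩)
      rw [map_sum] at this
      exact this.symm
    rw [this, ip_sum]
    refine sum_eq_zero fun j _ => ?_
    rw [S.ip_smul, S.ip_comm_zero.1 (congrFun hz j), mul_zero]
  have hinj : Function.Injective (L.domRestrict U) := by
    rw [injective_iff_map_eq_zero]
    exact fun u hu => Subtype.ext (S.eq_zero n _ (hU u.2) (key u hu u u.2))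
  obtain ⟨u, hu⟩ := (LinearMap.injective_iff_surjective_of_finrank_eq_finrank (by simp)).1 hinj (L x)
  exact ⟨u, u.2, key _ (by rw [map_sub, ← hu, LinearMap.domRestrict_apply, sub_self])⟩

/-- the decomposable elements -/
def Dec (n : ℕ) : Submodule ℂ A := Submodule.span ℂ
  {w | ∃ a b y z, 0 < a ∧ 0 < b ∧ a + b = n ∧ y ∈ S.Hn a ∧ z ∈ S.Hn b ∧ w = y * z}

theorem Dec_le (n : ℕ) : S.Dec n ≤ S.Hn n := Submodule.span_le.2 (by
  rintro _ ⟨a, b, y, z, -, -, rfl, hy, hz, rfl⟩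
  exact S.mul_mem _ _ _ _ hy hz)

theorem ip_Dec {n : ℕ} (hn : 0 < n) {u p : A} (hu : u ∈ S.Dec n) (hp : p ∈ S.Pr n) :
    S.ip n u p = 0 :=
  S.ip_span_zero hu (by
    rintro _ ⟨a, b, y, z, ha, hb, e, hy, hz, rfl⟩
    exact (S.mem_Pr n p hn (S.Pr_le n hp)).2 hp a b y z ha hb e hy hz)

theorem exists_dec {n : ℕ} (hn : 0 < n) {x : A} (hx : x ∈ S.Hn n) :
    ∃ u ∈ S.Dec n, x - u ∈ S.Pr n := by
  obtain ⟨u, h1, h2⟩ := S.exists_proj (S.Dec_le n) x
  exact ⟨u, h1, (S.mem_Pr n _ hn (sub_mem hx (S.Dec_le n h1))).1 fun a b y z ha hb e hy hz =>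
    h2 _ (Submodule.subset_span ⟨a, b, y, z, ha, hb, e, hy, hz, rfl⟩)⟩

/-- induction over primitives and products -/
theorem Hn_le {n : ℕ} (hn : 0 < n) {W : Submodule ℂ A} (h1 : S.Pr n ≤ W)
    (h2 : ∀ a b y z, 0 < a → 0 < b → a + b = n → y ∈ S.Hn a → z ∈ S.Hn b → y * z ∈ W) :
    S.Hn n ≤ W := fun x hx => by
  obtain ⟨u, h3, h4⟩ := S.exists_dec hn hx
  rw [← sub_add_cancel x u]
  refine add_mem (h1 h4) (Submodule.span_le.2 ?_ h3)
  rintro _ ⟨a, b, y, z, ha, hb, e, hy, hz, rfl⟩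
  exact h2 a b y z ha hb e hy hz

/-- the adjoint of multiplication by a primitive -/
structure IsDer (k : ℕ) (p : A) (D : A →ₗ[ℂ] A) : Prop where
  adj : ∀ n x y, x ∈ S.Hn n → S.ip (n + k) (x * p) y = S.ip n x (D y)
  mul : ∀ a b y z, y ∈ S.Hn a → z ∈ S.Hn b → D (y * z) = D y * z + y * D z
  mem : ∀ n y, y ∈ S.Hn (n + k) → D y ∈ S.Hn n
  low : ∀ j y, j < k → y ∈ S.Hn j → D y = 0

theorem exists_isDer {k : ℕ} {p : A} (hk : 0 < k) (hp : p ∈ S.Pr k) : ∃ D, S.IsDer k p D := by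
  obtain ⟨D, h1, h2, h3, h4⟩ := S.der k p hk hp
  exact ⟨D, h1, h2, h3, h4⟩

variable {S}

theorem IsDer.prim {k : ℕ} {p : A} {D : A →ₗ[ℂ] A} (h : S.IsDer k p D) (hk : 0 < k)
    (hp : p ∈ S.Hn k) {l : ℕ} {y : A} (hy : y ∈ S.Pr l) : D y = S.ip k y p • 1 := by
  rcases lt_trichotomy l k with hl | rfl | hl
  · rw [h.low l y hl (S.Pr_le l hy), S.ip_ne k l y p (S.Pr_le l hy) hl.ne, zero_smul]
  · obtain ⟨c, hc⟩ := S.Hn_zero _ (h.mem 0 y (by rw [zero_add]; exact S.Pr_le l hy))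
    have := h.adj 0 1 y S.one_mem
    rw [zero_add, one_mul, hc, ip_smul', S.ip_one, mul_one] at this
    rw [hc, S.ip_conj, this, Complex.conj_conj]
  · obtain ⟨n, rfl⟩ := Nat.exists_eq_add_of_le' hl.le
    have h1 := h.mem n y (S.Pr_le _ hy)
    rw [S.ip_ne k _ y p (S.Pr_le _ hy) hl.ne', zero_smul]
    refine S.eq_zero n _ h1 ?_
    rw [← h.adj n _ y h1]
    exact (S.mem_Pr _ y (by omega) (S.Pr_le _ hy)).2 hy n k _ p (by omega) hk rfl h1 hp

theorem prim_of_mult (S : PSH A) (N : ℕ) (Φ : ℕ → A) (hΦ : ∀ n, Φ n ∈ S.Hn n) (h0 : Φ 0 = 1)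
    (hm : ∀ a b x y, a + b ≤ N → x ∈ S.Hn a → y ∈ S.Hn b →
      S.ip (a + b) (x * y) (Φ (a + b)) = S.ip a x (Φ a) * S.ip b y (Φ b)) :
    ∃ π : ℕ → A, ExpTo N π Φ ∧ ∀ k, 0 < k → π k ∈ S.Pr k ∧
      ∀ y, y ∈ S.Pr k → S.ip k y (π k) = k * S.ip k y (Φ k) := by
  choose u hu hu' using fun k : ℕ => S.exists_dec (Nat.succ_pos k) (hΦ (k + 1))
  let π : ℕ → A := fun k => (k : ℂ) • (Φ k - u (k - 1))
  have hπ : ∀ k, π (k + 1) ∈ S.Pr (k + 1) := fun k => Submodule.smul_mem _ _ (hu' k)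
  have hπ' : ∀ k y, y ∈ S.Pr (k + 1) → S.ip (k + 1) y (π (k + 1)) =
      ((k + 1 : ℕ) : ℂ) * S.ip (k + 1) y (Φ (k + 1)) := fun k y hy => by
    rw [ip_smul', Complex.conj_natCast, ip_sub', Nat.add_sub_cancel,
      S.ip_comm_zero.1 (S.ip_Dec (Nat.succ_pos k) (hu k) hy), sub_zero]
  choose D hD using fun k => S.exists_isDer (Nat.succ_pos k) (hπ k)
  have key : ∀ n, n ≤ N → ∀ y ∈ S.Hn n, (n : ℂ) * S.ip n y (Φ n) =
      ∑ k ∈ range n, S.ip (n - 1 - k) (D k y) (Φ (n - 1 - k)) := by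
    intro n
    induction n using Nat.strong_induction_on with
    | _ n ih =>
    intro hn
    rcases Nat.eq_zero_or_pos n with rfl | hn0
    · simp
    have := S.Hn_le hn0 (W := LinearMap.eqLocus ((n : ℂ) • S.ipl n (Φ n))
      (∑ k ∈ range n, (S.ipl (n - 1 - k) (Φ (n - 1 - k))).comp (D k))) (fun y hy => ?_)
      (fun a b y z ha hb e hy hz => ?_)
    · intro y hy
      simpa [ipl_apply] using LinearMap.mem_eqLocus.1 (this hy)
    · obtain ⟨n, rfl⟩ := Nat.exists_eq_succ_of_ne_zero hn0.ne'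
      rw [LinearMap.mem_eqLocus, LinearMap.sum_apply, sum_range_succ, sum_eq_zero fun k hk => ?_]
      · simp only [LinearMap.smul_apply, LinearMap.comp_apply, ipl_apply, smul_eq_mul]
        rw [(hD n).prim (Nat.succ_pos n) (S.Pr_le _ (hπ n)) hy, hπ' n y hy, Nat.succ_sub_one,
          Nat.sub_self, h0, S.ip_smul, S.ip_one, mul_one, zero_add]
      · rw [LinearMap.comp_apply, (hD k).prim (Nat.succ_pos k) (S.Pr_le _ (hπ k)) hy,
          S.ip_ne _ _ y _ (S.Pr_le _ hy) (by have := mem_range.1 hk; omega), zero_smul, map_zero]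
    · subst e
      have aux : ∀ {a b : ℕ} {y z : A}, 0 < b → a + b ≤ N → y ∈ S.Hn a → z ∈ S.Hn b →
          ∑ k ∈ range (a + b), S.ip (a + b - 1 - k) (D k y * z) (Φ (a + b - 1 - k)) =
            (∑ k ∈ range a, S.ip (a - 1 - k) (D k y) (Φ (a - 1 - k))) * S.ip b z (Φ b) := by
        intro a b y z _ hab hy hz
        rw [sum_mul]
        symm
        refine sum_subset_zero_on_sdiff (range_subset_range.2 (by omega)) (fun k hk => ?_)
          fun k hk => ?_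
        · have := (mem_sdiff.1 hk).2
          rw [mem_range] at this
          rw [(hD k).low a y (by omega) hy, zero_mul, ip_zero_left]
        · have := mem_range.1 hk
          rw [show a + b - 1 - k = a - 1 - k + b by omega, hm _ _ _ _ (by omega)
            ((hD k).mem _ y (by rwa [show a - 1 - k + (k + 1) = a by omega])) hz]
      rw [LinearMap.mem_eqLocus, LinearMap.sum_apply]
      simp only [LinearMap.smul_apply, LinearMap.comp_apply, ipl_apply, smul_eq_mul,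
        (hD _).mul a b y z hy hz, S.ip_add, sum_add_distrib]
      have h2 := aux ha (by omega : b + a ≤ N) hz hy
      rw [add_comm b a] at h2
      simp only [mul_comm y]
      rw [aux hb hn hy hz, h2, ← ih a (by omega) (by omega) y hy, ← ih b (by omega) (by omega) z hz,
        mul_comm z y, hm a b y z hn hy hz]
      push_cast
      ring
  refine ⟨π, ⟨h0, fun n hn => ?_⟩, fun k hk => ?_⟩
  · have hmem : ∀ k ∈ range n, π (k + 1) * Φ (n - 1 - k) ∈ S.Hn n := fun k hk => by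
      have := S.mul_mem _ _ _ _ (S.Pr_le _ (hπ k)) (hΦ (n - 1 - k))
      rwa [show k + 1 + (n - 1 - k) = n by have := mem_range.1 hk; omega] at this
    rw [← nsmul_eq_mul, ← Nat.cast_smul_eq_nsmul ℂ]
    refine S.eq_of_ip (Submodule.smul_mem _ _ (hΦ n)) (sum_mem hmem) fun y hy => ?_
    rw [ip_smul', Complex.conj_natCast, key n hn y hy, ip_sum']
    refine sum_congr rfl fun k hk => ?_
    have := (hD k).adj _ _ y (hΦ (n - 1 - k))
    rw [show n - 1 - k + (k + 1) = n by have := mem_range.1 hk; omega] at this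
    rw [mul_comm, S.ip_conj n, this, conj_ip]
  · obtain ⟨k, rfl⟩ := Nat.exists_eq_succ_of_ne_zero hk.ne'
    exact ⟨hπ k, hπ' k⟩

end PSH

variable {ι : Type*}

/-- a monomial -/
def mon (τ : ι → ℕ → A) (m : Multiset (ι × ℕ)) : A := (m.map fun x => τ x.1 x.2).prod

/-- the degree of a monomial -/
def wtm (deg : ι → ℕ) (m : Multiset (ι × ℕ)) : ℕ := (m.map fun x => x.2 * deg x.1).sum

/-- all indices are admissible -/
def Ok (P : ι → Prop) (m : Multiset (ι × ℕ)) : Prop := ∀ x ∈ m, P x.1 ∧ 0 < x.2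

@[simp] theorem mon_zero (τ : ι → ℕ → A) : mon τ 0 = 1 := by simp [mon]

theorem mon_cons (τ : ι → ℕ → A) (x : ι × ℕ) (m : Multiset (ι × ℕ)) :
    mon τ (x ::ₘ m) = τ x.1 x.2 * mon τ m := by simp [mon]

theorem mon_add (τ : ι → ℕ → A) (m m' : Multiset (ι × ℕ)) :
    mon τ (m + m') = mon τ m * mon τ m' := by simp [mon]

@[simp] theorem wtm_zero (deg : ι → ℕ) : wtm deg 0 = 0 := by simp [wtm]

theorem wtm_cons (deg : ι → ℕ) (x : ι × ℕ) (m : Multiset (ι × ℕ)) :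
    wtm deg (x ::ₘ m) = x.2 * deg x.1 + wtm deg m := by simp [wtm]

theorem wtm_add (deg : ι → ℕ) (m m' : Multiset (ι × ℕ)) :
    wtm deg (m + m') = wtm deg m + wtm deg m' := by simp [wtm]

theorem wtm_erase_le (deg : ι → ℕ) (m : Multiset (ι × ℕ)) (x : ι × ℕ) :
    wtm deg (m.erase x) ≤ wtm deg m := by
  by_cases hx : x ∈ m
  · conv_rhs => rw [← Multiset.cons_erase hx, wtm_cons]
    omega
  · rw [Multiset.erase_of_notMem hx]

theorem Ok.tail {P : ι → Prop} {x : ι × ℕ} {m : Multiset (ι × ℕ)} (h : Ok P (x ::ₘ m)) : Ok P m :=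
  fun y hy => h y (Multiset.mem_cons_of_mem hy)

theorem Ok.head {P : ι → Prop} {x : ι × ℕ} {m : Multiset (ι × ℕ)} (h : Ok P (x ::ₘ m)) :
    P x.1 ∧ 0 < x.2 := h x (Multiset.mem_cons_self _ _)

theorem Ok.erase {P : ι → Prop} {m : Multiset (ι × ℕ)} (h : Ok P m) (x : ι × ℕ) :
    Ok P (m.erase x) := fun y hy => h y (Multiset.mem_of_mem_erase hy)

theorem Ok.add {P : ι → Prop} {m m' : Multiset (ι × ℕ)} (h : Ok P m) (h' : Ok P m') :
    Ok P (m + m') := fun y hy => (Multiset.mem_add.1 hy).elim (h y) (h' y)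

theorem Ok.mono {P Q : ι → Prop} {m : Multiset (ι × ℕ)} (h : Ok P m) (h' : ∀ i, P i → Q i) :
    Ok Q m := fun y hy => ⟨h' _ (h y hy).1, (h y hy).2⟩

theorem pp_eq_mon (τ : ι → ℕ → A) (i : ι) (ν : Multiset ℕ) :
    pp τ i ν = mon τ (ν.map fun r => (i, r)) := by simp [pp, mon]

theorem wtm_map (deg : ι → ℕ) (i : ι) (ν : Multiset ℕ) :
    wtm deg (ν.map fun r => (i, r)) = ν.sum * deg i := by
  simp [wtm, Multiset.sum_map_mul_right]

/-- the span of the monomials of degree `n` with indices in `P` -/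
def Sp (deg : ι → ℕ) (τ : ι → ℕ → A) (P : ι → Prop) (n : ℕ) : Submodule ℂ A :=
  Submodule.span ℂ {y | ∃ m, Ok P m ∧ wtm deg m = n ∧ y = mon τ m}

theorem Sp_mono {deg : ι → ℕ} {τ : ι → ℕ → A} {P Q : ι → Prop} (h : ∀ i, P i → Q i) (n : ℕ) :
    Sp deg τ P n ≤ Sp deg τ Q n :=
  Submodule.span_mono fun _ ⟨m, h1, h2⟩ => ⟨m, h1.mono h, h2⟩

theorem mul_mem_span {X Y : Set A} {W : Submodule ℂ A} {x y : A} (hx : x ∈ Submodule.span ℂ X)
    (hy : y ∈ Submodule.span ℂ Y) (h : ∀ a ∈ X, ∀ b ∈ Y, a * b ∈ W) : x * y ∈ W := by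
  have := Submodule.mul_mem_mul hx hy
  rw [Submodule.span_mul_span] at this
  refine Submodule.span_le.2 ?_ this
  rintro _ ⟨a, ha, b, hb, rfl⟩
  exact h a ha b hb

theorem Sp_mul {deg : ι → ℕ} {τ : ι → ℕ → A} {P : ι → Prop} {a b : ℕ} {x y : A}
    (hx : x ∈ Sp deg τ P a) (hy : y ∈ Sp deg τ P b) : x * y ∈ Sp deg τ P (a + b) := by
  refine mul_mem_span hx hy ?_
  rintro _ ⟨m, h1, rfl, rfl⟩ _ ⟨m', h2, rfl, rfl⟩
  exact Submodule.subset_span ⟨m + m', h1.add h2, wtm_add _ _ _, (mon_add _ _ _).symm⟩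

theorem one_mem_Sp (deg : ι → ℕ) (τ : ι → ℕ → A) (P : ι → Prop) : (1 : A) ∈ Sp deg τ P 0 :=
  Submodule.subset_span ⟨0, fun _ h => absurd h (Multiset.notMem_zero _), rfl, (mon_zero τ).symm⟩

theorem Sp_prod {deg : ι → ℕ} {τ : ι → ℕ → A} {P : ι → Prop} {κ : Type*} (s : Finset κ)
    (x : κ → A) (a : κ → ℕ) (h : ∀ i ∈ s, x i ∈ Sp deg τ P (a i)) :
    ∏ i ∈ s, x i ∈ Sp deg τ P (∑ i ∈ s, a i) := by
  induction s using Finset.induction_on with
  | empty => simpa using one_mem_Sp deg τ P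
  | insert b s hb ih =>
    rw [prod_insert hb, sum_insert hb]
    exact Sp_mul (h b (mem_insert_self _ _)) (ih fun i hi => h i (mem_insert_of_mem hi))

theorem pp_mem_Sp (deg : ι → ℕ) (τ : ι → ℕ → A) (i : ι) {ν : Multiset ℕ} {k : ℕ} (h : ν ∈ Par k) :
    pp τ i ν ∈ Sp deg τ (· = i) (k * deg i) := by
  obtain ⟨h1, rfl⟩ := mem_Par.1 h
  refine Submodule.subset_span ⟨_, fun x hx => ?_, wtm_map deg i ν, pp_eq_mon τ i ν⟩
  obtain ⟨r, hr, rfl⟩ := Multiset.mem_map.1 hx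
  exact ⟨rfl, h1 r hr⟩

/-- an orthogonal family of primitives -/
structure OF (S : PSH A) (N : ℕ) (deg : ι → ℕ) (V : ι → Prop) (τ : ι → ℕ → A) (g : ι → ℕ → ℂ) :
    Prop where
  deg_pos : ∀ i, 0 < deg i
  prim : ∀ i k, V i → 0 < k → k * deg i ≤ N → τ i k ∈ S.Pr (k * deg i)
  orth : ∀ i j k l, V i → V j → 0 < k → 0 < l → k * deg i ≤ N → k * deg i = l * deg j →
    S.ip (k * deg i) (τ i k) (τ j l) = if i = j then (k : ℂ) * g i k else 0

namespace OF
variable {S : PSH A} {N : ℕ} {deg : ι → ℕ} {V : ι → Prop} {τ : ι → ℕ → A} {g : ι → ℕ → ℂ}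
variable (h : OF S N deg V τ g)
include h

theorem mon_mem {m : Multiset (ι × ℕ)} (hm : Ok V m) (hN : wtm deg m ≤ N) :
    mon τ m ∈ S.Hn (wtm deg m) := by
  induction m using Multiset.induction_on with
  | empty => simpa using S.one_mem
  | cons x m ih =>
    rw [wtm_cons] at hN ⊢
    rw [mon_cons]
    exact S.mul_mem _ _ _ _ (S.Pr_le _ (h.prim _ _ hm.head.1 hm.head.2 (by omega)))
      (ih hm.tail (by omega))

theorem Sp_le {P : ι → Prop} (hP : ∀ i, P i → V i) {n : ℕ} (hn : n ≤ N) : Sp deg τ P n ≤ S.Hn n :=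
  Submodule.span_le.2 (by rintro _ ⟨m, h1, rfl, rfl⟩; exact h.mon_mem (h1.mono hP) hn)

theorem der_mon {x : ι × ℕ} (hx : V x.1 ∧ 0 < x.2) (hN : x.2 * deg x.1 ≤ N) {D : A →ₗ[ℂ] A}
    (hD : S.IsDer (x.2 * deg x.1) (τ x.1 x.2) D) {m : Multiset (ι × ℕ)} (hm : Ok V m)
    (hm' : wtm deg m ≤ N) :
    D (mon τ m) = (conj (x.2 * g x.1 x.2) * m.count x) • mon τ (m.erase x) := by
  have h0 := Nat.mul_pos hx.2 (h.deg_pos x.1)
  induction m using Multiset.induction_on with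
  | empty => simpa using hD.low 0 1 h0 S.one_mem
  | cons y m ih =>
    rw [wtm_cons] at hm'
    have hy := h.prim _ _ hm.head.1 hm.head.2 (by omega)
    rw [mon_cons, hD.mul _ _ _ _ (S.Pr_le _ hy) (h.mon_mem hm.tail (by omega)),
      ih hm.tail (by omega), hD.prim h0 (S.Pr_le _ (h.prim _ _ hx.1 hx.2 hN)) hy, smul_mul_assoc,
      one_mul, mul_smul_comm, ← mon_cons]
    by_cases e : y = x
    · subst e
      rw [S.ip_conj, h.orth _ _ _ _ hx.1 hx.1 hx.2 hx.2 hN rfl, if_pos rfl,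
        Multiset.erase_cons_head, Multiset.count_cons_self]
      by_cases hm : y ∈ m
      · rw [Multiset.cons_erase hm, ← add_smul]
        congr 1
        push_cast; ring
      · simp [Multiset.count_eq_zero_of_notMem hm]
    · have : S.ip (x.2 * deg x.1) (τ y.1 y.2) (τ x.1 x.2) = 0 := by
        by_cases e' : x.2 * deg x.1 = y.2 * deg y.1
        · rw [S.ip_conj, h.orth _ _ _ _ hx.1 hm.head.1 hx.2 hm.head.2 hN e', if_neg, map_zero]
          intro e''
          rw [e''] at e'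
          exact e (Prod.ext e''.symm (Nat.eq_of_mul_eq_mul_right (h.deg_pos _) e').symm)
        · exact S.ip_ne _ _ _ _ (S.Pr_le _ hy) (Ne.symm e')
      rw [this, zero_smul, zero_add, Multiset.count_cons_of_ne (Ne.symm e),
        Multiset.erase_cons_tail _ e]

theorem ip_cons {x : ι × ℕ} {m m' : Multiset (ι × ℕ)} (hm : Ok V (x ::ₘ m)) (hm' : Ok V m')
    (hN : wtm deg (x ::ₘ m) ≤ N) (hN' : wtm deg m' ≤ N) :
    S.ip (wtm deg (x ::ₘ m)) (mon τ (x ::ₘ m)) (mon τ m') =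
      x.2 * g x.1 x.2 * m'.count x * S.ip (wtm deg m) (mon τ m) (mon τ (m'.erase x)) := by
  rw [wtm_cons] at hN ⊢
  obtain ⟨D, hD⟩ := S.exists_isDer (Nat.mul_pos hm.head.2 (h.deg_pos x.1))
    (h.prim _ _ hm.head.1 hm.head.2 (by omega))
  rw [mon_cons, mul_comm (τ _ _), add_comm, hD.adj _ _ _ (h.mon_mem hm.tail (by omega)),
    h.der_mon hm.head (by omega) hD hm' hN', S.ip_smul', map_mul, Complex.conj_conj,
    Complex.conj_natCast]

theorem ip_eq_zero_of_notMem {x : ι × ℕ} {m m' : Multiset (ι × ℕ)} (hm : Ok V m) (hm' : Ok V m')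
    (hN : wtm deg m ≤ N) (hN' : wtm deg m' ≤ N) (hx : x ∈ m') (hx' : x ∉ m) (n : ℕ) :
    S.ip n (mon τ m) (mon τ m') = 0 := by
  obtain ⟨m', rfl⟩ := Multiset.exists_cons_of_mem hx
  by_cases e : wtm deg (x ::ₘ m') = n
  · rw [S.ip_comm_zero, ← e, h.ip_cons hm' hm hN' hN, Multiset.count_eq_zero_of_notMem hx']
    simp
  · exact S.ip_ne' _ (h.mon_mem hm' hN') e

theorem ip_mon_ne {m : Multiset (ι × ℕ)} : ∀ {m' : Multiset (ι × ℕ)}, Ok V m → Ok V m' →
    wtm deg m ≤ N → wtm deg m' ≤ N → m ≠ m' → S.ip (wtm deg m) (mon τ m) (mon τ m') = 0 := by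
  induction m using Multiset.induction_on with
  | empty =>
    intro m' hm hm' hN hN' hne
    obtain ⟨x, hx⟩ := Multiset.exists_mem_of_ne_zero hne.symm
    exact h.ip_eq_zero_of_notMem hm hm' hN hN' hx (Multiset.notMem_zero _) _
  | cons x m ih =>
    intro m' hm hm' hN hN' hne
    rw [h.ip_cons hm hm' hN hN']
    by_cases hx : x ∈ m'
    · rw [wtm_cons] at hN
      rw [ih hm.tail (hm'.erase x) (by omega) ((wtm_erase_le _ _ _).trans hN') fun e =>
        hne (by rw [e, Multiset.cons_erase hx]), mul_zero]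
    · simp [Multiset.count_eq_zero_of_notMem hx]

theorem ip_mon_self_ne (hg : ∀ i k, V i → 0 < k → g i k ≠ 0) {m : Multiset (ι × ℕ)} (hm : Ok V m)
    (hN : wtm deg m ≤ N) : S.ip (wtm deg m) (mon τ m) (mon τ m) ≠ 0 := by
  induction m using Multiset.induction_on with
  | empty => simp [S.ip_one]
  | cons x m ih =>
    rw [h.ip_cons hm hm hN hN, Multiset.erase_cons_head, Multiset.count_cons_self]
    rw [wtm_cons] at hN
    exact mul_ne_zero (mul_ne_zero (mul_ne_zero (Nat.cast_ne_zero.2 hm.head.2.ne')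
      (hg _ _ hm.head.1 hm.head.2)) (Nat.cast_ne_zero.2 (Nat.succ_ne_zero _)))
      (ih hm.tail (by omega))

theorem ip_mon_add {P Q : ι → Prop} (hP : ∀ i, P i → V i) (hQ : ∀ i, Q i → V i)
    (hPQ : ∀ i, P i → ¬ Q i) {m₂ m₂' : Multiset (ι × ℕ)} (h₂ : Ok Q m₂) (h₂' : Ok Q m₂')
    {m₁ : Multiset (ι × ℕ)} : ∀ {m₁' : Multiset (ι × ℕ)}, Ok P m₁ → Ok P m₁' →
    wtm deg (m₁ + m₂) ≤ N → wtm deg (m₁' + m₂') ≤ N →
    S.ip (wtm deg (m₁ + m₂)) (mon τ (m₁ + m₂)) (mon τ (m₁' + m₂')) =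
      S.ip (wtm deg m₁) (mon τ m₁) (mon τ m₁') * S.ip (wtm deg m₂) (mon τ m₂) (mon τ m₂') := by
  induction m₁ using Multiset.induction_on with
  | empty =>
    intro m₁' h₁ h₁' hN hN'
    rw [zero_add] at hN ⊢
    by_cases e : m₁' = 0
    · simp [e, S.ip_one]
    obtain ⟨x, hx⟩ := Multiset.exists_mem_of_ne_zero e
    rw [h.ip_eq_zero_of_notMem (h₂.mono hQ) ((h₁'.mono hP).add (h₂'.mono hQ)) hN hN'
      (Multiset.mem_add.2 (Or.inl hx)) (fun h' => hPQ _ (h₁' x hx).1 (h₂ x h').1),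
      h.ip_eq_zero_of_notMem (h₁.mono hP) (h₁'.mono hP) (by simp) (by rw [wtm_add] at hN'; omega)
        hx (Multiset.notMem_zero _), zero_mul]
  | cons x m ih =>
    intro m₁' h₁ h₁' hN hN'
    have hx : x ∉ m₂' := fun h' => hPQ _ h₁.head.1 (h₂' x h').1
    have a1 : wtm deg (x ::ₘ m) ≤ N := by rw [wtm_add] at hN; omega
    have a2 : wtm deg m₁' ≤ N := by rw [wtm_add] at hN'; omega
    have a3 := (h₁.mono hP).add (h₂.mono hQ)
    rw [Multiset.cons_add] at hN a3 ⊢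
    rw [h.ip_cons a3 ((h₁'.mono hP).add (h₂'.mono hQ)) hN hN',
      h.ip_cons (h₁.mono hP) (h₁'.mono hP) a1 a2, Multiset.erase_add_left_neg _ hx,
      ih h₁.tail (h₁'.erase x) (by rw [wtm_cons] at hN; omega) (by
        have := wtm_erase_le deg m₁' x
        rw [wtm_add] at hN' ⊢; omega), Multiset.count_add,
      Multiset.count_eq_zero_of_notMem hx, add_zero]
    ring

theorem ip_mul {P Q : ι → Prop} (hP : ∀ i, P i → V i) (hQ : ∀ i, Q i → V i)
    (hPQ : ∀ i, P i → ¬ Q i) {a a' b b' : ℕ} (hN : a + b ≤ N) (hN' : a' + b' ≤ N) {x y u v : A}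
    (hx : x ∈ Sp deg τ P a) (hy : y ∈ Sp deg τ P a') (hu : u ∈ Sp deg τ Q b)
    (hv : v ∈ Sp deg τ Q b') : S.ip (a + b) (x * u) (y * v) = S.ip a x y * S.ip b u v := by
  induction hx using Submodule.span_induction with
  | zero => simp
  | add _ _ _ _ h1 h2 => rw [add_mul, S.ip_add, S.ip_add, h1, h2, add_mul]
  | smul c _ _ h1 => rw [smul_mul_assoc, S.ip_smul, S.ip_smul, h1, mul_assoc]
  | mem x hx =>
  induction hy using Submodule.span_induction with
  | zero => simp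
  | add _ _ _ _ h1 h2 => rw [add_mul, S.ip_add', S.ip_add', h1, h2, add_mul]
  | smul c _ _ h1 => rw [smul_mul_assoc, S.ip_smul', S.ip_smul', h1, mul_assoc]
  | mem y hy =>
  induction hu using Submodule.span_induction with
  | zero => simp
  | add _ _ _ _ h1 h2 => rw [mul_add, S.ip_add, S.ip_add, h1, h2, mul_add]
  | smul c _ _ h1 => rw [mul_smul_comm, S.ip_smul, S.ip_smul, h1, mul_left_comm]
  | mem u hu =>
  induction hv using Submodule.span_induction with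
  | zero => simp
  | add _ _ _ _ h1 h2 => rw [mul_add, S.ip_add', S.ip_add', h1, h2, mul_add]
  | smul c _ _ h1 => rw [mul_smul_comm, S.ip_smul', S.ip_smul', h1, mul_left_comm]
  | mem v hv =>
  obtain ⟨m₁, h₁, rfl, rfl⟩ := hx
  obtain ⟨m₁', h₁', rfl, rfl⟩ := hy
  obtain ⟨m₂, h₂, rfl, rfl⟩ := hu
  obtain ⟨m₂', h₂', rfl, rfl⟩ := hv
  rw [← wtm_add] at hN hN' ⊢
  rw [← mon_add, ← mon_add, h.ip_mon_add hP hQ hPQ h₂ h₂' h₁ h₁' hN hN']

theorem ip_prod (s : Finset ι) (hs : ∀ i ∈ s, V i) {x y : ι → A} {a b : ι → ℕ}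
    (hx : ∀ i ∈ s, x i ∈ Sp deg τ (· = i) (a i)) (hy : ∀ i ∈ s, y i ∈ Sp deg τ (· = i) (b i))
    (ha : ∑ i ∈ s, a i ≤ N) (hb : ∑ i ∈ s, b i ≤ N) :
    S.ip (∑ i ∈ s, a i) (∏ i ∈ s, x i) (∏ i ∈ s, y i) = ∏ i ∈ s, S.ip (a i) (x i) (y i) := by
  induction s using Finset.induction_on with
  | empty => simp [S.ip_one]
  | insert j s hj ih =>
    rw [sum_insert hj] at ha hb
    have hs' : ∀ i ∈ s, V i := fun i hi => hs i (mem_insert_of_mem hi)
    have hx' := fun i hi => hx i (mem_insert_of_mem hi)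
    have hy' := fun i hi => hy i (mem_insert_of_mem hi)
    rw [sum_insert hj, prod_insert hj, prod_insert hj, prod_insert hj,
      ← ih hs' hx' hy' (by omega) (by omega)]
    exact h.ip_mul (P := (· = j)) (Q := (· ∈ s)) (fun i e => e ▸ hs _ (mem_insert_self _ _)) hs'
      (fun i e => e ▸ hj) ha hb (hx j (mem_insert_self _ _)) (hy j (mem_insert_self _ _))
      (Sp_prod s x a fun i hi => Sp_mono (fun _ e => e ▸ hi) _ (hx' i hi))
      (Sp_prod s y b fun i hi => Sp_mono (fun _ e => e ▸ hi) _ (hy' i hi))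

theorem ip_pp {i : ι} (hi : V i) {ν : Multiset ℕ} : ∀ {ν' : Multiset ℕ}, (∀ r ∈ ν, 0 < r) →
    (∀ r ∈ ν', 0 < r) → ν.sum * deg i ≤ N → ν'.sum * deg i ≤ N →
    S.ip (ν.sum * deg i) (pp τ i ν) (pp τ i ν') =
      if ν = ν' then (zz ν : ℂ) * (ν.map (g i)).prod else 0 := by
  have ok : ∀ {ν : Multiset ℕ}, (∀ r ∈ ν, 0 < r) → Ok V (ν.map fun r => (i, r)) := fun h x hx => by
    obtain ⟨r, hr, rfl⟩ := Multiset.mem_map.1 hx
    exact ⟨hi, h r hr⟩
  intro ν' h1 h2 h3 h4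
  rw [pp_eq_mon, pp_eq_mon, ← wtm_map]
  split_ifs with e
  · subst e
    induction ν using Multiset.induction_on with
    | empty => simp [S.ip_one, zz]
    | cons r ν ih =>
      have h5 := ok h1
      rw [← wtm_map] at h3
      rw [Multiset.map_cons] at h3 h5 ⊢
      have h6 : ν.sum * deg i ≤ N := by rw [wtm_cons, wtm_map] at h3; omega
      have h7 := fun s hs => h1 s (Multiset.mem_cons_of_mem hs)
      rw [h.ip_cons h5 h5 h3 h3, Multiset.erase_cons_head, Multiset.count_cons_self,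
        ih h7 h6 h7 h6, zz_cons, Multiset.map_cons, Multiset.prod_cons,
        Multiset.count_map_eq_count' _ _ (Prod.mk_right_injective i)]
      push_cast
      ring
  · exact h.ip_mon_ne (ok h1) (ok h2) (by rwa [wtm_map]) (by rwa [wtm_map])
      fun e' => e (Multiset.map_injective (Prod.mk_right_injective i) e')

end OF

theorem Sys.toOF [Fintype ι] {S : PSH A} {N : ℕ} {deg : ι → ℕ} {π : ι → ℕ → A}
    (h : Sys S N deg π) : OF S N deg (fun _ => True) π fun _ _ => 1 :=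
  ⟨h.deg_pos, fun i k _ => h.prim i k, fun i j k l _ _ hk hl a b => by
    rw [h.orth i j k l hk hl a b, mul_one]⟩

theorem Sys.Hn_le_Sp [Fintype ι] {S : PSH A} {N : ℕ} {deg : ι → ℕ} {π : ι → ℕ → A}
    (h : Sys S N deg π) (n : ℕ) : n ≤ N → S.Hn n ≤ Sp deg π (fun _ => True) n := by
  induction n using Nat.strong_induction_on with
  | _ n ih =>
  intro hn
  rcases Nat.eq_zero_or_pos n with rfl | h0
  · intro x hx
    obtain ⟨c, rfl⟩ := S.Hn_zero x hx
    exact Submodule.smul_mem _ _ (one_mem_Sp _ _ _)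
  refine S.Hn_le h0 (fun x hx => Submodule.span_mono ?_ (h.span n x h0 hn hx))
    fun a b y z ha hb e hy hz => e ▸ Sp_mul (ih a (by omega) (by omega) hy)
      (ih b (by omega) (by omega) hz)
  rintro _ ⟨i, k, rfl, rfl⟩
  refine ⟨{(i, k)}, fun x hx => ?_, by simp [wtm], by simp [mon]⟩
  rw [Multiset.mem_singleton.1 hx]
  exact ⟨trivial, Nat.pos_of_mul_pos_right h0⟩

end GLH
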