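import Cfsg.Agent.Lib.GL.AbsP

/-!
# S4536, package G4: symmetric function identities
-/

set_option autoImplicit false
set_option linter.unusedSectionVars false

namespace GLH

open Finset SFock
open scoped Classical ComplexConjugate

theorem zz_pos {ν : Multiset ℕ} (h : ∀ r ∈ ν, 0 < r) : 0 < zz ν :=
  Nat.mul_pos (Multiset.prod_pos h) (prod_pos fun _ _ => Nat.factorial_pos _)

theorem zz_ne {ν : Multiset ℕ} {k : ℕ} (h : ν ∈ Par k) : (zz ν : ℂ) ≠ 0 :=
  Nat.cast_ne_zero.2 (zz_pos (mem_Par.1 h).1).ne'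

theorem Par_zero : Par 0 = {0} := by
  ext ν
  rw [mem_Par, mem_singleton]
  refine ⟨fun h => ?_, by rintro rfl; simp⟩
  by_contra hc
  obtain ⟨r, hr⟩ := Multiset.exists_mem_of_ne_zero hc
  have := Multiset.single_le_sum (fun x _ => Nat.zero_le x) r hr
  have := h.1 r hr
  omega

theorem zz_zero : zz 0 = 1 := by simp [zz]

theorem cons_mem_Par {r k : ℕ} {ν : Multiset ℕ} (hr : 0 < r) (h : ν ∈ Par k) :
    r ::ₘ ν ∈ Par (k + r) := by
  obtain ⟨h1, h2⟩ := mem_Par.1 h
  refine mem_Par.2 ⟨fun s hs => ?_, by rw [Multiset.sum_cons, h2, add_comm]⟩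
  rcases Multiset.mem_cons.1 hs with rfl | hs
  exacts [hr, h1 s hs]

theorem sum_mul_count {n : ℕ} (ν : Multiset ℕ) (h : ∀ r ∈ ν, 0 < r ∧ r ≤ n) :
    ∑ k ∈ range n, (k + 1) * ν.count (k + 1) = ν.sum := by
  induction ν using Multiset.induction_on with
  | empty => simp
  | cons r ν ih =>
    obtain ⟨h1, h2⟩ := h r (Multiset.mem_cons_self _ _)
    obtain ⟨r, rfl⟩ := Nat.exists_eq_succ_of_ne_zero h1.ne'
    simp only [Multiset.count_cons, mul_add, sum_add_distrib, Multiset.sum_cons]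
    rw [ih fun s hs => h s (Multiset.mem_cons_of_mem hs), add_comm, sum_eq_single r]
    · simp
    · intro b _ hb; simp [hb]
    · intro hb; exact absurd (mem_range.2 h2) hb

theorem par_rec {M : Type*} [AddCommGroup M] [Module ℂ M] (f : Multiset ℕ → M) (n : ℕ) :
    (n : ℂ) • ∑ ν ∈ Par n, (zz ν : ℂ)⁻¹ • f ν =
      ∑ k ∈ range n, ∑ μ ∈ Par (n - 1 - k), (zz μ : ℂ)⁻¹ • f ((k + 1) ::ₘ μ) := by
  have h1 : ∀ ν ∈ Par n, (n : ℂ) • (zz ν : ℂ)⁻¹ • f ν =
      ∑ k ∈ range n, ((((k + 1) * ν.count (k + 1) : ℕ) : ℂ) * (zz ν : ℂ)⁻¹) • f ν := by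
    intro ν hν
    obtain ⟨h2, h3⟩ := mem_Par.1 hν
    rw [← sum_smul, ← sum_mul, ← Nat.cast_sum, sum_mul_count ν fun r hr =>
      ⟨h2 r hr, h3 ▸ Multiset.single_le_sum (fun x _ => Nat.zero_le x) r hr⟩, h3, smul_smul]
  rw [smul_sum, sum_congr rfl h1, sum_comm]
  refine sum_congr rfl fun k hk => ?_
  have hk' := mem_range.1 hk
  symm
  refine sum_of_injOn (fun μ => (k + 1) ::ₘ μ) (fun a _ b _ e => Multiset.cons_inj_right _ |>.1 e)
    (fun μ hμ => ?_) (fun ν hν hn => ?_) fun μ hμ => ?_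
  · have := cons_mem_Par (Nat.succ_pos k) hμ
    rwa [show n - 1 - k + k.succ = n by omega] at this
  · rw [Multiset.count_eq_zero_of_notMem fun hm => hn ?_]
    · simp
    obtain ⟨μ, rfl⟩ := Multiset.exists_cons_of_mem hm
    obtain ⟨h2, h3⟩ := mem_Par.1 hν
    rw [Multiset.sum_cons] at h3
    exact ⟨μ, mem_coe.2 (mem_Par.2 ⟨fun r hr => h2 r (Multiset.mem_cons_of_mem hr), by omega⟩), rfl⟩
  · congr 1
    have := zz_ne hμ
    have h2 : ((k + 1 : ℕ) : ℂ) ≠ 0 := Nat.cast_ne_zero.2 (Nat.succ_ne_zero _)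
    have h3 : ((μ.count (k + 1) + 1 : ℕ) : ℂ) ≠ 0 := Nat.cast_ne_zero.2 (Nat.succ_ne_zero _)
    rw [zz_cons, Multiset.count_cons_self, Nat.cast_mul, Nat.cast_mul, Nat.cast_mul]
    field_simp

variable {N : ℕ}

theorem le_en {T : Finset ℕ} (h : T.card = N) (j : Fin N) : (j : ℕ) ≤ en N T j := by
  obtain ⟨k, hk⟩ := j
  induction k with
  | zero => exact Nat.zero_le _
  | succ k ih =>
    exact Nat.succ_le_of_lt ((ih (by omega)).trans_lt
      (en_strictMono h (show (⟨k, by omega⟩ : Fin N) < ⟨k + 1, hk⟩ from Nat.lt_succ_self k)))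

theorem sum_val_eq (N : ℕ) : ∑ j : Fin N, (j : ℕ) = d0 N := sum_pv (N := N) 1

theorem sum_eq_sz {T : Finset ℕ} (h : T.card = N) : ∑ x ∈ T, x = d0 N + sz N T := by
  have := d0_le_sum (en_strictMono h).injective
  rw [sum_en h fun x => x] at this
  rw [sz]; omega

theorem mem_SS_sz {k : ℕ} {T : Finset ℕ} : T ∈ SS N (d0 N + k) ↔ T.card = N ∧ sz N T = k := by
  rw [mem_SS]
  refine and_congr_right fun h => ?_
  rw [sum_eq_sz h, Nat.add_left_cancel_iff]

theorem sum_en_sub {T : Finset ℕ} (h : T.card = N) {σ : Equiv.Perm (Fin N)}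
    (hσ : ∀ j, pv σ j ≤ en N T j) : ∑ j, (en N T j - pv σ j) = sz N T := by
  have h1 : ∑ j, (en N T j - pv σ j) + ∑ j, pv σ j = ∑ j, en N T j := by
    rw [← sum_add_distrib]
    exact sum_congr rfl fun j _ => Nat.sub_add_cancel (hσ j)
  rw [sum_pv, sum_en h fun x => x, sum_eq_sz h] at h1
  omega

theorem sum_parts' {T : Finset ℕ} (h : T.card = N) : ∑ j : Fin N, (en N T j - j) = sz N T :=
  sum_en_sub h (σ := 1) (le_en h)

theorem Qs_le' {T : Finset ℕ} (h : T.card = N) : Qs N T ≤ sz N T ^ 2 := by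
  rw [← sum_parts' h, Qs]
  exact sum_sq_le_sq_sum_of_nonneg fun _ _ => Nat.zero_le _

theorem en_image {β : Fin N → ℕ} (h : StrictMono β) : en N (univ.image β) = β := by
  rw [en, dif_pos (card_image_inj h.injective)]
  exact (orderEmbOfFin_unique _ (fun x => mem_image_of_mem _ (mem_univ x)) h).symm

theorem sz_eq_zero' {T : Finset ℕ} (h : T.card = N) : sz N T = 0 ↔ T = range N := by
  refine ⟨fun h0 => ?_, by rintro rfl; simp [sz, d0]⟩
  rw [← sum_parts' h, sum_eq_zero_iff] at h0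
  refine eq_of_subset_of_card_le (fun x hx => ?_) (by simp [h])
  rw [← image_en h] at hx
  obtain ⟨j, -, rfl⟩ := mem_image.1 hx
  have := h0 j (mem_univ j)
  have := j.2
  rw [mem_range]; omega

/-- the bead set with given parts -/
def ofP (γ : Fin N → ℕ) : Finset ℕ := univ.image fun j : Fin N => γ j + j

theorem strictMono_add {γ : Fin N → ℕ} (h : Monotone γ) : StrictMono fun j : Fin N => γ j + j :=
  fun _ _ e => Nat.add_lt_add_of_le_of_lt (h e.le) e

theorem card_ofP {γ : Fin N → ℕ} (h : Monotone γ) : (ofP γ).card = N :=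
  card_image_inj (strictMono_add h).injective

theorem en_ofP {γ : Fin N → ℕ} (h : Monotone γ) (j : Fin N) : en N (ofP γ) j - j = γ j := by
  rw [ofP, en_image (strictMono_add h), Nat.add_sub_cancel]

theorem row_eq (hN : 0 < N) (k : ℕ) :
    row N k = ofP fun j : Fin N => if (j : ℕ) = N - 1 then k else 0 := by
  ext x
  simp only [row, ofP, mem_insert, mem_range, mem_image, mem_univ, true_and]
  constructor
  · rintro (rfl | h)
    · exact ⟨⟨N - 1, by omega⟩, by simp [add_comm]⟩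
    · exact ⟨⟨x, by omega⟩, by simp [h.ne]⟩
  · rintro ⟨j, rfl⟩
    have := j.2
    split_ifs <;> omega

theorem monotone_row (k : ℕ) : Monotone fun j : Fin N => if (j : ℕ) = N - 1 then k else 0 := by
  intro a b e
  have := b.2
  have : (a : ℕ) ≤ b := e
  dsimp only
  split_ifs <;> omega

theorem row_spec' (hN : 0 < N) (k : ℕ) : (row N k).card = N ∧ sz N (row N k) = k := by
  rw [row_eq hN]
  refine ⟨card_ofP (monotone_row k), ?_⟩
  rw [← sum_parts' (card_ofP (monotone_row k))]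
  simp only [en_ofP (monotone_row k)]
  rw [sum_eq_single ⟨N - 1, by omega⟩ (fun j _ hj => if_neg fun e => hj (Fin.ext e)) (by simp)]
  simp

theorem Qs_row (hN : 0 < N) (k : ℕ) : Qs N (row N k) = k ^ 2 := by
  rw [row_eq hN, Qs]
  simp only [en_ofP (monotone_row k)]
  rw [sum_eq_single ⟨N - 1, by omega⟩ (fun j _ hj => by
    rw [if_neg fun e => hj (Fin.ext e)]; rfl) (by simp)]
  simp

theorem row_zero' (hN : 0 < N) : row N 0 = range N :=
  (sz_eq_zero' (row_spec' hN 0).1).1 (row_spec' hN 0).2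

theorem Qs_lt {T : Finset ℕ} (h : T.card = N) {σ : Equiv.Perm (Fin N)} (h1 : σ ≠ 1)
    (hσ : ∀ j, pv σ j ≤ en N T j) : Qs N T < ∑ j, (en N T j - pv σ j) ^ 2 := by
  have hm := en_strictMono h
  have h2 : Monovary (fun j => (en N T j : ℤ)) fun j : Fin N => ((j : ℕ) : ℤ) := fun i j e =>
    Int.ofNat_le.2 (hm (Int.ofNat_lt.1 e : (i : ℕ) < j)).le
  have h3 := (h2.sum_mul_comp_perm_lt_sum_mul_iff (σ := σ)).2 fun hc => h1 (by
    rw [← inv_eq_one, ← Equiv.Perm.monotone_iff]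
    refine monotone_iff_forall_lt.2 fun a b e => hm.le_iff_le.1 (Int.ofNat_le.1 (hc ?_))
    simpa using e)
  have h4 : ∑ j : Fin N, (((σ j : ℕ) : ℤ)) ^ 2 = ∑ j : Fin N, ((j : ℕ) : ℤ) ^ 2 :=
    Equiv.sum_comp σ fun j : Fin N => ((j : ℕ) : ℤ) ^ 2
  have h5 : ∀ j, ((en N T j - pv σ j : ℕ) : ℤ) = en N T j - (σ j : ℕ) := fun j =>
    Nat.cast_sub (hσ j)
  have h6 : ∀ j, ((en N T j - j : ℕ) : ℤ) = en N T j - (j : ℕ) := fun j => Nat.cast_sub (le_en h j)
  zify [Qs]
  simp only [h5, h6, sub_sq, sum_add_distrib, sum_sub_distrib, mul_assoc, ← mul_sum, h4]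
  linarith

section Ring
variable {A : Type*} [CommRing A] [Algebra ℂ A] {ι : Type*} (π : ι → ℕ → A) (i : ι)

theorem pp_zero : pp π i 0 = 1 := by simp [pp]

theorem pp_cons (r : ℕ) (ν : Multiset ℕ) : pp π i (r ::ₘ ν) = π i r * pp π i ν := by simp [pp]

theorem pp_add (μ ν : Multiset ℕ) : pp π i (μ + ν) = pp π i μ * pp π i ν := by simp [pp]

theorem hh_zero : hh π i 0 = 1 := by simp [hh, Par_zero, zz_zero, pp_zero]

theorem hh_rec (n : ℕ) : (n : ℂ) • hh π i n = ∑ k ∈ range n, π i (k + 1) * hh π i (n - 1 - k) := by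
  simp only [hh, par_rec, pp_cons, mul_sum, mul_smul_comm]

theorem expRel_hh' : ExpRel (π i) (hh π i) :=
  ⟨hh_zero π i, fun n => by rw [← nsmul_eq_mul, ← Nat.cast_smul_eq_nsmul ℂ, hh_rec]⟩

theorem cauchy (n : ℕ) : ∀ γ : Fin N → ℕ, ∑ j, γ j = n →
    ∑ ν ∈ Par n, (zz ν : ℂ)⁻¹ • co (PP N ν) γ • pp π i ν = ∏ j, hh π i (γ j) := by
  induction n using Nat.strong_induction_on with
  | _ n ih =>
  intro γ hγ
  rcases Nat.eq_zero_or_pos n with rfl | hn
  · obtain rfl : γ = 0 := funext fun j => sum_eq_zero_iff.1 hγ j (mem_univ j)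
    have : Finsupp.equivFunOnFinite.symm (0 : Fin N → ℕ) = 0 := by ext; simp
    simp [Par_zero, zz_zero, pp_zero, hh_zero, PP, co, this]
  refine smul_right_injective A (Nat.cast_ne_zero.2 hn.ne' : (n : ℂ) ≠ 0) ?_
  have h1 : ∀ k ∈ range n, ∑ μ ∈ Par (n - 1 - k),
      (zz μ : ℂ)⁻¹ • co (PP N ((k + 1) ::ₘ μ)) γ • pp π i ((k + 1) ::ₘ μ) =
      ∑ j, if k + 1 ≤ γ j then π i (k + 1) * ∏ l, hh π i ((γ - sg j (k + 1)) l) else 0 := by
    intro k hk
    have hk' := mem_range.1 hk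
    have : ∀ μ, co (PP N ((k + 1) ::ₘ μ)) = L (k + 1) (co (PP N μ)) := fun μ => by
      rw [PP, Multiset.map_cons, Multiset.prod_cons, co_psum_mul, PP]
    simp only [this, L, sum_smul, smul_sum]
    rw [sum_comm]
    refine sum_congr rfl fun j _ => ?_
    split_ifs with hj
    · have := sum_sub_single hj
      rw [← ih (n - 1 - k) (by omega) _ (by omega), mul_sum]
      simp only [pp_cons, mul_smul_comm]
    · simp
  have h2 : ∀ j, (γ j : ℂ) • ∏ l, hh π i (γ l) = ∑ k ∈ range n,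
      if k + 1 ≤ γ j then π i (k + 1) * ∏ l, hh π i ((γ - sg j (k + 1)) l) else 0 := by
    intro j
    have : γ j ≤ n := hγ ▸ single_le_sum (fun _ _ => Nat.zero_le _) (mem_univ j)
    rw [← mul_prod_erase _ _ (mem_univ j), ← smul_mul_assoc, hh_rec, sum_mul, ← sum_filter]
    refine sum_congr (by ext k; simp only [mem_filter, mem_range]; omega) fun k _ => ?_
    rw [← mul_prod_erase _ _ (mem_univ j), mul_assoc, sub_sg_apply, if_pos rfl, Nat.sub_sub,
      add_comm 1]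
    exact congrArg _ (congrArg _ (prod_congr rfl fun l hl => by
      rw [sub_sg_apply, if_neg (ne_of_mem_erase hl)]))
  dsimp only
  rw [par_rec (fun ν => co (PP N ν) γ • pp π i ν), sum_congr rfl h1, sum_comm, ← hγ, Nat.cast_sum,
    sum_smul, hγ]
  exact sum_congr rfl fun j _ => (h2 j).symm

/-- Jacobi-Trudi -/
theorem jt {T : Finset ℕ} (h : T.card = N) : ss N π i T = ∑ σ : Equiv.Perm (Fin N),
    if ∀ j, pv σ j ≤ en N T j then
      (Equiv.Perm.sign σ : ℤ) • ∏ j, hh π i (en N T j - pv σ j) else 0 := by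
  have h1 : ∀ ν, Y N ν T = ∑ σ : Equiv.Perm (Fin N), if ∀ j, pv σ j ≤ en N T j then
      ((Equiv.Perm.sign σ : ℤ) : ℂ) * co (PP N ν) (en N T - pv σ) else 0 := fun ν => by
    rw [Y, SFock.X, mul_comm, aD, sum_mul, co_sum]
    exact sum_congr rfl fun σ _ => co_monomial_mul _ _ _ _
  simp only [ss, h1, sum_div, sum_smul]
  rw [sum_comm]
  refine sum_congr rfl fun σ _ => ?_
  split_ifs with hσ
  · rw [← cauchy π i (sz N T) (fun j => en N T j - pv σ j) (sum_en_sub h hσ),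
      ← Int.cast_smul_eq_zsmul ℂ, smul_sum]
    refine sum_congr rfl fun ν _ => ?_
    rw [smul_smul, smul_smul, div_eq_mul_inv, mul_right_comm]
    rfl
  · simp

theorem hP_ofP {γ : Fin N → ℕ} (h : Monotone γ) : hP N π i (ofP γ) = ∏ j, hh π i (γ j) := by
  simp only [hP, en_ofP h]

theorem exists_hP (γ : Fin N → ℕ) : ∃ T : Finset ℕ, T.card = N ∧ sz N T = ∑ j, γ j ∧
    Qs N T = ∑ j, γ j ^ 2 ∧ hP N π i T = ∏ j, hh π i (γ j) := by
  have h := Tuple.monotone_sort γ
  refine ⟨ofP (γ ∘ Tuple.sort γ), card_ofP h, ?_, ?_, ?_⟩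
  · rw [← sum_parts' (card_ofP h)]
    simp only [en_ofP h]
    exact Equiv.sum_comp (Tuple.sort γ) γ
  · simp only [Qs, en_ofP h]
    exact Equiv.sum_comp (Tuple.sort γ) fun j => γ j ^ 2
  · rw [hP_ofP π i h]
    exact Equiv.prod_comp (Tuple.sort γ) fun j => hh π i (γ j)

theorem hP_sub (T : Finset ℕ) : T.card = N → hP N π i T - ss N π i T ∈ Submodule.span ℂ
    (ss N π i '' {T' | T'.card = N ∧ sz N T' = sz N T ∧ Qs N T < Qs N T'}) := by
  induction hk : sz N T ^ 2 - Qs N T using Nat.strong_induction_on generalizing T with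
  | _ k ih =>
  intro h
  rw [jt π i h, ← add_sum_erase _ _ (mem_univ 1), if_pos (show ∀ j, pv 1 j ≤ en N T j from le_en h),
    Equiv.Perm.sign_one,
    Units.val_one, one_smul, ← sub_sub, show hP N π i T - ∏ j, hh π i (en N T j - pv 1 j) = 0 from
      sub_self _, zero_sub]
  refine neg_mem (sum_mem fun σ hσ => ?_)
  split_ifs with h1
  swap
  · exact zero_mem _
  refine zsmul_mem ?_ _
  obtain ⟨T', a1, a2, a3, a4⟩ := exists_hP π i fun j => en N T j - pv σ j
  rw [sum_en_sub h h1] at a2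
  have a5 := (Qs_lt h (ne_of_mem_erase hσ) h1).trans_eq a3.symm
  have a6 := Qs_le' a1
  rw [← a4, ← sub_add_cancel (hP N π i T') (ss N π i T')]
  refine add_mem (Submodule.span_mono (Set.image_mono ?_) (ih _ (by rw [← hk, ← a2]; omega) T' rfl a1))
    (Submodule.subset_span ⟨T', ⟨a1, a2, a5⟩, rfl⟩)
  rintro T'' ⟨b1, b2, b3⟩
  exact ⟨b1, b2.trans a2, a5.trans b3⟩

theorem ss_row' (hN : 0 < N) (k : ℕ) : ss N π i (row N k) = hh π i k := by
  obtain ⟨h1, h2⟩ := row_spec' hN k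
  have h3 := hP_sub π i _ h1
  have h4 : {T' | T'.card = N ∧ sz N T' = sz N (row N k) ∧ Qs N (row N k) < Qs N T'} = ∅ := by
    refine Set.eq_empty_of_forall_notMem fun T ⟨a1, a2, a3⟩ => ?_
    have := Qs_le' a1
    rw [a2, h2] at this
    rw [Qs_row hN] at a3
    omega
  rw [h4, Set.image_empty, Submodule.span_empty, Submodule.mem_bot, sub_eq_zero] at h3
  rw [← h3, row_eq hN, hP_ofP π i (monotone_row k),
    prod_eq_single ⟨N - 1, by omega⟩ (fun j _ hj => by
      rw [if_neg fun e => hj (Fin.ext e), hh_zero]) (by simp)]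
  simp

theorem ss_range' (N : ℕ) : ss N π i (range N) = 1 := by
  rw [ss, (sz_eq_zero' (card_range N)).2 rfl, Par_zero, sum_singleton, Y_zero (card_range N),
    if_pos rfl, zz_zero, pp_zero]
  simp

theorem hP_range' (N : ℕ) : hP N π i (range N) = 1 := by
  simp [hP, en_range, pv, hh_zero]

theorem map_ss {B : Type*} [CommRing B] [Algebra ℂ B] (f : A →ₐ[ℂ] B) (T : Finset ℕ) :
    f (ss N π i T) = ss N (fun i k => f (π i k)) i T := by
  simp only [ss, map_sum, map_smul, pp, map_multiset_prod, Multiset.map_map]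
  rfl

end Ring

theorem hh_one (k : ℕ) : hh (fun (_ : Unit) _ => (1 : ℂ)) () k = 1 := by
  induction k using Nat.strong_induction_on with
  | _ k ih =>
  rcases Nat.eq_zero_or_pos k with rfl | hk
  · exact hh_zero _ _
  have := hh_rec (fun (_ : Unit) _ => (1 : ℂ)) () k
  rw [sum_congr rfl fun j _ => by rw [ih (k - 1 - j) (by omega)]] at this
  exact mul_left_cancel₀ (Nat.cast_ne_zero.2 hk.ne' : (k : ℂ) ≠ 0) (by simpa using this)

theorem del_ss' (hN : 0 < N) {T : Finset ℕ} (h : T.card = N) :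
    ∑ ν ∈ Par (sz N T), Y N ν T / (zz ν : ℂ) = if T = row N (sz N T) then 1 else 0 := by
  have h1 : ∑ ν ∈ Par (sz N T), Y N ν T / (zz ν : ℂ) = ss N (fun (_ : Unit) _ => (1 : ℂ)) () T := by
    simp [ss, pp]
  rw [h1]
  split_ifs with h2
  · rw [h2, ss_row' _ _ hN, hh_one]
  have hm := en_strictMono h
  obtain ⟨j, h3, h4⟩ : ∃ j : Fin N, (j : ℕ) ≠ N - 1 ∧ en N T j - j ≠ 0 := by
    by_contra! hc
    refine h2 ?_
    have h5 := sum_parts' h
    rw [sum_eq_single ⟨N - 1, by omega⟩ (fun j _ hj => hc j fun e => hj (Fin.ext e)) (by simp)] at h5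
    rw [row_eq hN, ofP, ← image_en h]
    refine congrArg (fun f => univ.image f) (funext fun j => ?_)
    have := le_en h j
    split_ifs with e
    · rw [← show j = ⟨N - 1, by omega⟩ from Fin.ext e] at h5
      rw [image_en h]; omega
    · have := hc j e; omega
  have hj := j.2
  have key : ∀ k (hk : j + k < N), (j : ℕ) + k + 1 ≤ en N T ⟨j + k, hk⟩ := by
    intro k
    induction k with
    | zero => intro _; simp only [add_zero, Fin.eta]; omega
    | succ k ih =>
      intro hk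
      exact Nat.succ_le_of_lt ((ih (by omega)).trans_lt
        (hm (show (⟨j + k, by omega⟩ : Fin N) < ⟨j + (k + 1), hk⟩ from Nat.lt_succ_self _)))
  have h5 := key (N - 2 - j) (by omega)
  have h6 := key (N - 1 - j) (by omega)
  have h7 := Matrix.det_zero_of_column_eq
    (M := Matrix.of fun a b : Fin N => if (a : ℕ) ≤ en N T b then (1 : ℂ) else 0)
    (i := ⟨j + (N - 2 - j), by omega⟩) (j := ⟨j + (N - 1 - j), by omega⟩)
    (fun e => by have := congrArg Fin.val e; simp only at this; omega) fun a => by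
      have := a.2
      simp only [Matrix.of_apply]
      rw [if_pos (by omega), if_pos (by omega)]
  rw [jt _ _ h]
  refine Eq.trans (sum_congr rfl fun σ _ => ?_) ((Matrix.det_apply' _).symm.trans h7)
  simp only [hh_one, Matrix.of_apply, prod_boole, pv, mem_univ, true_imp_iff]
  split_ifs <;> simp

theorem conj_Y (ν : Multiset ℕ) (T : Finset ℕ) : conj (Y N ν T) = Y N ν T := by
  rw [Y]
  generalize en N T = β
  induction ν using Multiset.induction_on generalizing β with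
  | empty =>
    rw [X_zero, co_aD, map_sum]
    exact sum_congr rfl fun σ _ => by split_ifs <;> simp
  | cons r ν ih =>
    rw [X_cons, L, map_sum]
    exact sum_congr rfl fun j _ => by split_ifs <;> simp [ih]

theorem wt_one {T : Finset ℕ} (h : T.card = N) : wt 1 T = sz N T := by
  have h1 := sum_eq_wt Nat.one_pos T
  have h2 := two_mul_sum_rk 1 T
  have h3 := two_mul_sum_rk 1 (range N)
  have h4 := sum_eq_wt Nat.one_pos (range N)
  have h5 : res 1 T = res 1 (range N) := by simp [res, Nat.mod_one, h]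
  have h6 : wt 1 (range N) = 0 := sum_eq_zero fun x hx => card_eq_zero.2 (filter_eq_empty_iff.2
    fun y hy hc => hc.2 (mem_range.2 ((mem_range.1 hy).trans (mem_range.1 hx))))
  rw [sum_eq_sz h] at h1
  simp only [Nat.mod_one, zero_add, one_mul, card_range, h, h5, h6, d0] at *
  omega

theorem card_SS_le (N k : ℕ) : (SS N (d0 N + k)).card ≤ (Par k).card := by
  refine card_le_card_of_injOn (fun T => (qt 1 T).map Prod.fst) (fun T hT => ?_) fun T hT T' hT' e => ?_
  · obtain ⟨h1, h2⟩ := mem_SS_sz.1 hT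
    refine mem_coe.2 (mem_Par.2 ⟨fun r hr => ?_, by rw [sum_qt_fst, wt_one h1, h2]⟩)
    obtain ⟨e, he, rfl⟩ := Multiset.mem_map.1 hr
    obtain ⟨x, -, h3, rfl⟩ := mem_qt he
    exact h3
  · have key : ∀ T : Finset ℕ, qt 1 T = ((qt 1 T).map Prod.fst).map fun r => (r, 0) := fun T => by
      simp [qt, Nat.mod_one]
    refine eq_of_qt Nat.one_pos (by
      simp [res, Nat.mod_one, (mem_SS_sz.1 hT).1, (mem_SS_sz.1 hT').1]) ?_
    rw [key T, key T']
    exact congrArg _ e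

theorem sum_Y_mul' {k : ℕ} (hk : k ≤ N) {μ ν : Multiset ℕ} (hμ : μ ∈ Par k) (hν : ν ∈ Par k) :
    ∑ S ∈ SS N (d0 N + k), Y N μ S * Y N ν S = if μ = ν then (zz μ : ℂ) else 0 := by
  obtain ⟨h1, rfl⟩ := mem_Par.1 hμ
  exact sum_Y_mul h1 (mem_Par.1 hν).1 (mem_Par.1 hν).2 hk

/-- row orthogonality -/
theorem row_orth {k : ℕ} (hk : k ≤ N) {S T : Finset ℕ} (hS : S ∈ SS N (d0 N + k))
    (hT : T ∈ SS N (d0 N + k)) :
    ∑ ν ∈ Par k, Y N ν S * Y N ν T / zz ν = if S = T then 1 else 0 := by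
  let P : Matrix (Par k) (SS N (d0 N + k)) ℂ := Matrix.of fun ν S => Y N ν S / zz ν.1
  let Q : Matrix (SS N (d0 N + k)) (Par k) ℂ := Matrix.of fun S ν => Y N ν S
  have h1 : P * Q = 1 := by
    ext μ ν
    simp only [P, Q, Matrix.mul_apply, Matrix.of_apply, div_mul_eq_mul_div, ← sum_div]
    rw [sum_coe_sort _ fun S => Y N μ S * Y N ν S, sum_Y_mul' hk μ.2 ν.2, Matrix.one_apply]
    by_cases e : μ = ν
    · rw [if_pos e, if_pos (congrArg Subtype.val e), div_self (zz_ne μ.2)]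
    · rw [if_neg e, if_neg fun e' => e (Subtype.ext e'), zero_div]
  have h2 : Fintype.card (Par k) ≤ Fintype.card (SS N (d0 N + k)) := by
    have := Matrix.rank_mul_le_left P Q
    rw [h1, Matrix.rank_one] at this
    exact this.trans (Matrix.rank_le_card_width P)
  have h3 := (Matrix.mul_eq_one_comm_of_equiv (Fintype.equivOfCardEq (le_antisymm h2 (by
    simpa using card_SS_le N k)))).1 h1
  have h4 := congrFun (congrFun h3 ⟨S, hS⟩) ⟨T, hT⟩
  simp only [P, Q, Matrix.mul_apply, Matrix.of_apply, ← mul_div_assoc] at h4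
  rw [sum_coe_sort _ fun ν => Y N ν S * Y N ν T / zz ν, Matrix.one_apply] at h4
  simpa using h4

/-- a bead moved down -/
def mvb (T : Finset ℕ) (x r : ℕ) : Finset ℕ := insert (x - r) (T.erase x)

theorem mvb_spec {T : Finset ℕ} {x r : ℕ} (hx : x ∈ T) (h1 : r ≤ x) (h2 : x - r ∉ T) :
    (mvb T x r).card = T.card ∧ ∑ y ∈ mvb T x r, y + r = ∑ y ∈ T, y ∧ res r (mvb T x r) = res r T := by
  have h3 : x - r ∉ T.erase x := fun h => h2 (mem_of_mem_erase h)
  refine ⟨by rw [mvb, card_insert_of_notMem h3, card_erase_add_one hx], ?_, ?_⟩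
  · rw [mvb, sum_insert h3, ← add_sum_erase _ _ hx]; omega
  · conv_rhs => rw [← insert_erase hx]
    rw [res, res, mvb, insert_val_of_notMem h3, insert_val_of_notMem (notMem_erase _ _),
      Multiset.map_cons, Multiset.map_cons, sub_mod_self h1]

theorem mvb_inj {T : Finset ℕ} {x y r : ℕ} (hx : x ∈ T) (h2' : x - r ∉ T)
    (e : mvb T x r = mvb T y r) : x = y := by
  by_contra hne
  have : x ∈ mvb T y r := mem_insert_of_mem (mem_erase.2 ⟨hne, hx⟩)
  rw [← e, mvb, mem_insert] at this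
  rcases this with h | h
  · exact h2' (h ▸ hx)
  · exact notMem_erase _ _ h

/-- Murnaghan-Nakayama coefficient -/
theorem mn_eq {k r : ℕ} (hr : 0 < r) (hk : k ≤ N) {S T : Finset ℕ} (hS : S ∈ SS N (d0 N + k))
    (hT : T ∈ SS N (d0 N + (k + r))) :
    ∑ ν ∈ Par k, Y N ν S * Y N (r ::ₘ ν) T / zz ν = ∑ x ∈ T with r ≤ x ∧ x - r ∉ T,
      (-1) ^ (T.filter fun y => x - r < y ∧ y < x).card * if S = mvb T x r then 1 else 0 := by
  simp only [Y_cons hr _ (mem_SS.1 hT).1, mul_sum, sum_div]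
  rw [sum_comm]
  refine sum_congr rfl fun x hx => ?_
  obtain ⟨h1, h2, h3⟩ := mem_filter.1 hx
  obtain ⟨h4, h5, -⟩ := mvb_spec h1 h2 h3
  obtain ⟨h6, h7⟩ := mem_SS.1 hT
  rw [← row_orth hk hS (T := mvb T x r) (mem_SS.2 ⟨h4.trans h6, by omega⟩), mul_sum]
  exact sum_congr rfl fun ν _ => by rw [mvb]; ring

theorem res_of_mn {k r : ℕ} (hr : 0 < r) (hk : k ≤ N) {S T : Finset ℕ} (hS : S ∈ SS N (d0 N + k))
    (hT : T ∈ SS N (d0 N + (k + r))) (h : ∑ ν ∈ Par k, Y N ν S * Y N (r ::ₘ ν) T / zz ν ≠ 0) :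
    res r S = res r T := by
  rw [mn_eq hr hk hS hT] at h
  obtain ⟨x, hx, h1⟩ := exists_ne_zero_of_sum_ne_zero h
  obtain ⟨h2, h3, h4⟩ := mem_filter.1 hx
  obtain rfl : S = mvb T x r := by by_contra hc; simp [hc] at h1
  exact (mvb_spec h2 h3 h4).2.2

theorem wt_of_res {p : ℕ} (hp : 0 < p) {S T : Finset ℕ} (h : res p S = res p T) {k : ℕ}
    (hs : ∑ x ∈ S, x + p * k = ∑ x ∈ T, x) : wt p T = wt p S + k := by
  have h1 := sum_eq_wt hp S
  have h2 := sum_eq_wt hp T
  have h3 := two_mul_sum_rk p S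
  have h4 := two_mul_sum_rk p T
  have h5 : S.card = T.card := by simpa [res] using congrArg Multiset.card h
  have h6 : ∑ x ∈ S, x % p = ∑ x ∈ T, x % p := congrArg Multiset.sum h
  rw [h] at h3
  have h7 : ∑ x ∈ S, rk p S x = ∑ x ∈ T, rk p T x := by omega
  rw [Finset.sum_add_distrib, ← Finset.mul_sum] at h1 h2
  rw [h7, h6] at h1
  exact Nat.eq_of_mul_eq_mul_left hp (by rw [mul_add]; omega)

theorem res_of_dvd {e r : ℕ} (h : e ∣ r) {S T : Finset ℕ} (h' : res r S = res r T) :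
    res e S = res e T := by
  have := congrArg (Multiset.map (· % e)) h'
  simpa only [res, Multiset.map_map, Function.comp, Nat.mod_mod_of_dvd _ h] using this

theorem pp_eq_sum {A : Type*} [CommRing A] [Algebra ℂ A] {ι : Type*} (π : ι → ℕ → A) (i : ι)
    {k : ℕ} (hk : k ≤ N) {ν : Multiset ℕ} (hν : ν ∈ Par k) :
    pp π i ν = ∑ T ∈ SS N (d0 N + k), Y N ν T • ss N π i T := by
  rw [sum_congr rfl fun T hT => by rw [ss, (mem_SS_sz.1 hT).2, smul_sum], sum_comm,
    sum_eq_single ν (fun μ hμ hne => ?_) fun h => absurd hν h]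
  · simp only [smul_smul, ← mul_div_assoc, ← sum_smul, ← sum_div]
    rw [sum_Y_mul' hk hν hν, if_pos rfl, div_self (zz_ne hν), one_smul]
  · simp only [smul_smul, ← mul_div_assoc, ← sum_smul, ← sum_div]
    rw [sum_Y_mul' hk hν hμ, if_neg hne.symm, zero_div, zero_smul]

end GLH
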