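import Cfsg.Agent.Lib.GL.AbsI

/-!
# S4536, package G4b: the instance `AbsB`
-/

set_option autoImplicit false
set_option linter.unusedSectionVars false

namespace GLH

open Finset SFock
open scoped Classical ComplexConjugate

universe u

theorem gram_count {N : ℕ} (w : SFock.Fn N) {r : ℕ} (hr : 0 < r) (hw : ∀ β i, w (β + sg i r) = w β)
    {μ ν : Multiset ℕ} (hs : ν.sum = μ.sum) (hN : μ.sum ≤ N) (hc : μ.count r ≠ ν.count r) :
    ∑ β ∈ SFock.A N (d0 N + μ.sum), w β * (SFock.X N μ β * SFock.X N ν β) = 0 := by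
  by_cases hμ : r ∈ μ
  swap
  · have hν : r ∈ ν := by
      by_contra hν
      exact hc (by rw [Multiset.count_eq_zero_of_notMem hμ, Multiset.count_eq_zero_of_notMem hν])
    rw [← gram_weight w hr hw hν hμ hN, hs]
    exact sum_congr rfl fun β _ => by ring
  by_cases hν : r ∈ ν
  swap
  · exact gram_weight w hr hw hμ hν (hs ▸ hN)
  obtain ⟨μ, rfl⟩ := Multiset.exists_cons_of_mem hμ
  obtain ⟨ν, rfl⟩ := Multiset.exists_cons_of_mem hν
  have h1 := sum_L w (SFock.X N μ) (SFock.X N (r ::ₘ ν)) (d0 N + μ.sum) r hw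
  have h2 := sum_L w (SFock.X N ν) (SFock.X N (r ::ₘ μ)) (d0 N + μ.sum) r hw
  rw [R_X hr _ (hs ▸ hN), ← X_cons, Multiset.erase_cons_head] at h1
  rw [R_X hr _ hN, ← X_cons, Multiset.erase_cons_head] at h2
  simp only [Pi.smul_apply, smul_eq_mul, mul_left_comm _ ((r * _ : ℕ) : ℂ), ← mul_sum] at h1 h2
  simp only [mul_comm (SFock.X N (r ::ₘ ν) _), mul_comm (SFock.X N ν _)] at h2
  rw [Multiset.sum_cons, add_comm r, ← add_assoc, h1]
  rw [h1] at h2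
  rcases mul_eq_mul_right_iff.1 h2 with h | h
  · exact absurd (Nat.eq_of_mul_eq_mul_left hr (Nat.cast_injective h)).symm hc
  · rw [h, mul_zero]

theorem sum_Y_res {N : ℕ} (e : ℕ) (c : Multiset ℕ) {r : ℕ} (hr : 0 < r) (he : e ∣ r)
    {μ ν : Multiset ℕ} (hs : ν.sum = μ.sum) (hN : μ.sum ≤ N) (hc : μ.count r ≠ ν.count r) :
    ∑ S ∈ (SS N (d0 N + μ.sum)).filter (fun S => res e S = c), Y N μ S * Y N ν S = 0 := by
  have h := gram_count (N := N)
    (fun β => if univ.val.map (fun i => β i % e) = c then 1 else 0) hr (by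
      intro β i
      have : (fun k => (β + sg i r) k % e) = fun k => β k % e := by
        funext k
        simp only [Pi.add_apply, Pi.single_apply]
        split_ifs
        · obtain ⟨t, rfl⟩ := he
          simp
        · simp
      simp only [this]) hs hN hc
  rw [sum_A_eq (fun β => (if univ.val.map (fun i => β i % e) = c then 1 else 0) *
    (SFock.X N μ β * SFock.X N ν β))] at h
  · have hN0 : (N.factorial : ℂ) ≠ 0 := by exact_mod_cast N.factorial_ne_zero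
    rw [mul_eq_zero, or_iff_right hN0] at h
    rw [← h, Finset.sum_filter]
    refine Finset.sum_congr rfl fun S hS => ?_
    have : univ.val.map (fun i => en N S i % e) = res e S := by
      rw [res, ← map_en (mem_SS.1 hS).1, Multiset.map_map]; rfl
    rw [this]
    split_ifs <;> simp [Y]
  · intro β hβ
    simp [(alt_X μ).eq_zero hβ]
  · intro τ β
    have : univ.val.map (fun i => (β ∘ τ) i % e) = univ.val.map (fun i => β i % e) := by
      conv_rhs => rw [← Finset.map_univ_equiv τ]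
      rw [Finset.map_val, Multiset.map_map]; rfl
    simp only [alt_X μ τ, alt_X ν τ, this]
    linear_combination (if univ.val.map (fun i => β i % e) = c then (1 : ℂ) else 0) *
      (SFock.X N μ β * SFock.X N ν β) * SFock.sign_mul_self τ

theorem prod_map_filter {e : ℕ} {g : ℕ → ℂ} (hg : ∀ r, ¬ e ∣ r → g r = 1) (ν : Multiset ℕ) :
    (ν.map g).prod = ((ν.filter (e ∣ ·)).map g).prod := by
  induction ν using Multiset.induction_on with
  | empty => simp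
  | cons r ν ih => by_cases h : e ∣ r <;> simp [h, ih, hg]

theorem Kw_res {N k e : ℕ} (hk : k ≤ N) {g : ℕ → ℂ} (hg : ∀ r, ¬ e ∣ r → g r = 1) {S T : Finset ℕ}
    (hS : S ∈ SS N (d0 N + k)) (hT : T ∈ SS N (d0 N + k)) (h : res e S ≠ res e T) :
    Kw N g k S T = 0 := by
  set C := (SS N (d0 N + k)).filter fun U => res e U = res e S with hC
  have h1 : ∀ μ ∈ Par k, ∀ ν ∈ Par k, (∑ U ∈ C, Y N μ U * Y N ν U) * (ν.map g).prod =
      (∑ U ∈ C, Y N μ U * Y N ν U) * (μ.map g).prod := by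
    intro μ hμ ν hν
    obtain ⟨a1, rfl⟩ := mem_Par.1 hμ
    obtain ⟨a2, a3⟩ := mem_Par.1 hν
    by_cases hc : μ.filter (e ∣ ·) = ν.filter (e ∣ ·)
    · rw [prod_map_filter hg ν, prod_map_filter hg μ, hc]
    obtain ⟨r, hr⟩ := not_forall.1 (mt Multiset.ext.2 hc)
    rw [Multiset.count_filter, Multiset.count_filter] at hr
    have a4 : e ∣ r := by by_contra a; simp [a] at hr
    rw [if_pos a4, if_pos a4] at hr
    rw [sum_Y_res e _ (Nat.pos_of_ne_zero ?_) a4 a3 hk hr, zero_mul, zero_mul]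
    rintro rfl
    exact hr (by rw [Multiset.count_eq_zero_of_notMem fun h => lt_irrefl _ (a1 0 h),
      Multiset.count_eq_zero_of_notMem fun h => lt_irrefl _ (a2 0 h)])
  have h2 : ∀ ν, ∀ U ∈ SS N (d0 N + k), ∑ μ ∈ Par k, Y N μ U / zz μ * ∑ V ∈ C, Y N μ V * Y N ν V =
      if U ∈ C then Y N ν U else 0 := by
    intro ν U hU
    simp only [mul_sum]
    rw [sum_comm, ← sum_ite_eq]
    refine sum_congr rfl fun V hV => ?_
    have := congrArg (· * Y N ν V) (row_orth hk hU (mem_filter.1 hV).1)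
    simp only [sum_mul, ite_mul, one_mul, zero_mul] at this
    rw [← this]
    exact sum_congr rfl fun μ _ => by ring
  calc Kw N g k S T = ∑ ν ∈ Par k, (∑ μ ∈ Par k, Y N μ S / zz μ * ∑ V ∈ C, Y N μ V * Y N ν V) *
        Y N ν T / zz ν * (ν.map g).prod :=
        sum_congr rfl fun ν _ => by rw [h2 ν S hS, if_pos (show S ∈ C from mem_filter.2 ⟨hS, rfl⟩)]
    _ = ∑ μ ∈ Par k, Y N μ S / zz μ * (μ.map g).prod *
        ∑ ν ∈ Par k, Y N ν T / zz ν * ∑ V ∈ C, Y N ν V * Y N μ V := by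
        simp only [sum_mul, sum_div]
        rw [sum_comm]
        refine sum_congr rfl fun μ hμ => ?_
        rw [mul_sum]
        refine sum_congr rfl fun ν hν => ?_
        have := h1 μ hμ ν hν
        simp only [mul_comm (Y N ν _) (Y N μ _)]
        linear_combination Y N μ S / zz μ * Y N ν T / zz ν * this
    _ = 0 := sum_eq_zero fun μ _ => by
        rw [h2 μ T hT, if_neg fun h' => h (mem_filter.1 h').2.symm, mul_zero]

theorem Kw_core {N k e : ℕ} (hk : k ≤ N) {g : ℕ → ℂ} (hg : ∀ r, ¬ e ∣ r → g r = 1) {S : Finset ℕ}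
    (hS : S ∈ SS N (d0 N + k)) (h : wt e S = 0) : Kw N g k S S = 1 := by
  rw [← if_pos (rfl : S = S) (t := (1 : ℂ)) (e := 0), ← Kw_one hk hS hS]
  refine sum_congr rfl fun ν hν => ?_
  by_cases hc : ∃ r ∈ ν, e ∣ r
  · obtain ⟨r, h1, h2⟩ := hc
    simp [Y_eq_zero_of_wt (mem_SS.1 hS).1 h ((mem_Par.1 hν).1 r h1) h2 h1]
  · rw [Multiset.map_congr rfl fun r hr => hg r fun h => hc ⟨r, hr, h⟩]

section Ring
variable {A : Type*} [CommRing A] [Algebra ℂ A] {ι κ : Type*}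

/-- span of the monomials with parts divisible by `e` -/
def SpE (τ : ι → ℕ → A) (i : ι) (e m : ℕ) : Submodule ℂ A :=
  Submodule.span ℂ (pp τ i '' {ν | ν ∈ Par m ∧ ∀ r ∈ ν, e ∣ r})

/-- span of the Schur functions with given residues -/
def SpR (N : ℕ) (τ : ι → ℕ → A) (i : ι) (e : ℕ) (c : Multiset ℕ) (m : ℕ) : Submodule ℂ A :=
  Submodule.span ℂ (ss N τ i '' {T | T.card = N ∧ sz N T = m ∧ res e T = c})

variable {τ : ι → ℕ → A} {i : ι} {e N : ℕ}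

theorem SpE_prod (s : Finset κ) {x : κ → A} {a : κ → ℕ} (h : ∀ j ∈ s, x j ∈ SpE τ i e (a j)) :
    ∏ j ∈ s, x j ∈ SpE τ i e (∑ j ∈ s, a j) := by
  induction s using Finset.induction_on with
  | empty => exact Submodule.subset_span ⟨0, ⟨by simp [Par_zero], by simp⟩, by simp [pp_zero]⟩
  | insert b s hb ih =>
    rw [prod_insert hb, sum_insert hb]
    have := Submodule.mul_mem_mul (h b (mem_insert_self _ _))
      (ih fun j hj => h j (mem_insert_of_mem hj))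
    rw [SpE, SpE, Submodule.span_mul_span] at this
    refine Submodule.span_mono ?_ this
    rintro _ ⟨_, ⟨μ, ⟨a1, a2⟩, rfl⟩, _, ⟨ν, ⟨a3, a4⟩, rfl⟩, rfl⟩
    obtain ⟨b1, b2⟩ := mem_Par.1 a1
    obtain ⟨b3, b4⟩ := mem_Par.1 a3
    exact ⟨μ + ν, ⟨mem_Par.2 ⟨fun r hr => (Multiset.mem_add.1 hr).elim (b1 r) (b3 r), by
      rw [Multiset.sum_add, b2, b4]⟩, fun r hr => (Multiset.mem_add.1 hr).elim (a2 r) (a4 r)⟩,
      pp_add τ i μ ν⟩

theorem le_of_mem_Par {k r : ℕ} {ν : Multiset ℕ} (h : ν ∈ Par k) (hr : r ∈ ν) : 0 < r ∧ r ≤ k :=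
  ⟨(mem_Par.1 h).1 r hr, (mem_Par.1 h).2 ▸ Multiset.single_le_sum (fun _ _ => Nat.zero_le _) r hr⟩

theorem ss_congr {π : κ → ℕ → A} {j : κ} {S : Finset ℕ}
    (h : ∀ r, 0 < r → r ≤ sz N S → π j r = τ i r) : ss N π j S = ss N τ i S :=
  sum_congr rfl fun ν hν => by
    rw [pp, pp, Multiset.map_congr rfl fun r hr => h r (le_of_mem_Par hν hr).1 (le_of_mem_Par hν hr).2]

theorem ss_mem_SpE {π : κ → ℕ → A} {j : κ} {S : Finset ℕ} {ρ : ℕ} (h0 : 0 < ρ) (he : e ∣ ρ)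
    (h : ∀ r, 0 < r → r ≤ sz N S → π j r = τ i (ρ * r)) : ss N π j S ∈ SpE τ i e (ρ * sz N S) := by
  refine sum_mem fun ν hν => Submodule.smul_mem _ _ (Submodule.subset_span
    ⟨ν.map (ρ * ·), ⟨mem_Par.2 ⟨fun r hr => ?_, ?_⟩, fun r hr => ?_⟩, ?_⟩)
  · obtain ⟨s, hs, rfl⟩ := Multiset.mem_map.1 hr
    exact Nat.mul_pos h0 (le_of_mem_Par hν hs).1
  · rw [Multiset.sum_map_mul_left, Multiset.map_id', (mem_Par.1 hν).2]
  · obtain ⟨s, -, rfl⟩ := Multiset.mem_map.1 hr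
    exact he.mul_right s
  · rw [pp, pp, Multiset.map_map]
    exact congrArg _ (Multiset.map_congr rfl fun r hr =>
      (h r (le_of_mem_Par hν hr).1 (le_of_mem_Par hν hr).2).symm)

theorem mul_mem_SpR {c : Multiset ℕ} {m r : ℕ} (hr : 0 < r) (he : e ∣ r) (hN : m + r ≤ N) {x : A}
    (hx : x ∈ SpR N τ i e c m) : τ i r * x ∈ SpR N τ i e c (m + r) := by
  refine (Submodule.span_le.2 ?_ : SpR N τ i e c m ≤
    (SpR N τ i e c (m + r)).comap (LinearMap.mulLeft ℂ (τ i r))) hx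
  rintro _ ⟨S, ⟨h1, h2, h3⟩, rfl⟩
  have h4 : τ i r * ss N τ i S = ∑ T ∈ SS N (d0 N + (m + r)),
      (∑ ν ∈ Par m, Y N ν S * Y N (r ::ₘ ν) T / zz ν) • ss N τ i T := by
    simp only [sum_smul]
    rw [sum_comm, ss, h2, mul_sum]
    refine sum_congr rfl fun ν hν => ?_
    rw [mul_smul_comm, ← pp_cons, pp_eq_sum τ i hN (cons_mem_Par hr hν), smul_sum]
    exact sum_congr rfl fun T _ => by rw [smul_smul, div_mul_eq_mul_div]
  change τ i r * ss N τ i S ∈ SpR N τ i e c (m + r)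
  rw [h4]
  refine sum_mem fun T hT => ?_
  by_cases h0 : ∑ ν ∈ Par m, Y N ν S * Y N (r ::ₘ ν) T / zz ν = 0
  · rw [h0, zero_smul]; exact zero_mem _
  · exact Submodule.smul_mem _ _ (Submodule.subset_span ⟨T, ⟨(mem_SS_sz.1 hT).1, (mem_SS_sz.1 hT).2,
      (res_of_dvd he (res_of_mn hr (by omega) (mem_SS_sz.2 ⟨h1, h2⟩) hT h0)).symm.trans h3⟩, rfl⟩)

theorem SpR_mul_SpE {c : Multiset ℕ} {m k : ℕ} (hN : m + k ≤ N) {x y : A}
    (hx : x ∈ SpR N τ i e c m) (hy : y ∈ SpE τ i e k) : x * y ∈ SpR N τ i e c (m + k) := by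
  refine (Submodule.span_le.2 ?_ : SpE τ i e k ≤
    (SpR N τ i e c (m + k)).comap (LinearMap.mulLeft ℂ x)) hy
  rintro _ ⟨ν, ⟨h1, h2⟩, rfl⟩
  obtain ⟨h3, rfl⟩ := mem_Par.1 h1
  clear h1 hy
  change x * pp τ i ν ∈ SpR N τ i e c (m + ν.sum)
  induction ν using Multiset.induction_on with
  | empty => simpa [pp_zero] using hx
  | cons r ν ih =>
    rw [Multiset.sum_cons, add_comm r, ← add_assoc] at hN ⊢
    rw [pp_cons, mul_left_comm]
    exact mul_mem_SpR (h3 r (Multiset.mem_cons_self _ _)) (h2 r (Multiset.mem_cons_self _ _)) hN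
      (ih (fun s hs => h2 s (Multiset.mem_cons_of_mem hs))
        (fun s hs => h3 s (Multiset.mem_cons_of_mem hs)) (by omega))

end Ring

variable {A : Type u} [CommRing A] [Algebra ℂ A] {ι : Type*} [Fintype ι]

theorem SpR_le (N : ℕ) (deg : ι → ℕ) (τ : ι → ℕ → A) (i : ι) (e : ℕ) (c : Multiset ℕ) (m : ℕ) :
    SpR N τ i e c m ≤ Sp deg τ (· = i) (m * deg i) :=
  Submodule.span_le.2 (by rintro _ ⟨T, ⟨-, rfl, -⟩, rfl⟩; exact ss_mem_Sp N deg τ i T)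

/-- the normalising factor -/
noncomputable def gT (par : ι → ι) (ρ : ι → ℕ) (i : ι) (k : ℕ) : ℂ :=
  (∑ j ∈ Pc par ρ i k, (ρ j : ℂ))⁻¹

/-- the factor over `i'` -/
noncomputable def UU (N : ℕ) (τ : ι → ℕ → A) (par : ι → ι) (Λ : ι → Finset ℕ) (i' : ι) : A :=
  ∏ i with par i = i', ss N τ i (Λ i)

theorem mem_fib {par : ι → ι} {i : ι} (hi : par i = i) : i ∈ univ.filter fun j => par j = i :=
  mem_filter.2 ⟨mem_univ _, hi⟩

theorem mem_Pc' {par : ι → ι} {ρ : ι → ℕ} {i' i : ι} {j : ℕ} :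
    i ∈ Pc par ρ i' j ↔ par i = i' ∧ ρ i ∣ j := by simp [Pc]

theorem msz_eq (N : ℕ) (par : ι → ι) (ρ : ι → ℕ) (Λ : ι → Finset ℕ) (i' : ι) :
    msz N par ρ Λ i' = ∑ i with par i = i', ρ i * sz N (Λ i) := by
  rw [msz]

section T
variable {S : PSH A} {N : ℕ} {deg : ι → ℕ} {π : ι → ℕ → A} {T : A →ₐ[ℂ] A} {par : ι → ι}
  {ρ e : ι → ℕ} (h : Sys S N deg π) (hp : PDat deg par ρ e) (hT : TSys S N deg π T par ρ)
include h hp

theorem rho_pos' (i : ι) : 0 < ρ i := Nat.pos_of_mul_pos_right (hp.deg_eq i ▸ h.deg_pos i)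

theorem rho_fix {i : ι} (hi : par i = i) : ρ i = 1 := by
  have := hp.deg_eq i
  rw [hi] at this
  exact (Nat.eq_of_mul_eq_mul_right (h.deg_pos i) (by rw [one_mul, ← this])).symm

theorem gT_ne {i : ι} (hi : par i = i) (k : ℕ) : gT par ρ i k ≠ 0 := by
  rw [gT, ← Nat.cast_sum, inv_ne_zero_iff', Nat.cast_ne_zero]
  exact (sum_pos (fun j _ => rho_pos' h hp j)
    ⟨i, mem_Pc'.2 ⟨hi, by rw [rho_fix h hp hi]; exact one_dvd _⟩⟩).ne'
where inv_ne_zero_iff' {x : ℂ} : x⁻¹ ≠ 0 ↔ x ≠ 0 := by simp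

theorem gT_eq_one {i : ι} (hi : par i = i) (k : ℕ) (hk : ¬ e i ∣ k) : gT par ρ i k = 1 := by
  rw [gT, sum_eq_single i (fun j hj hne => ?_) fun hi' => absurd (mem_Pc'.2 ⟨hi, ?_⟩) hi',
    rho_fix h hp hi, Nat.cast_one, inv_one]
  · obtain ⟨a1, a2⟩ := mem_Pc'.1 hj
    exact absurd ((a1 ▸ hp.e_dvd j (a1 ▸ hne.symm)).trans a2) hk
  · rw [rho_fix h hp hi]; exact one_dvd _

theorem sum_msz {n : ℕ} {Λ : ι → Finset ℕ} (hΛ : ALab N deg n Λ) :
    ∑ i with par i = i, msz N par ρ Λ i * deg i = n := by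
  rw [← hΛ.2]
  refine Eq.trans (sum_congr rfl fun i' _ => ?_) (sum_fiberwise_of_maps_to (s := univ) (g := par)
    (fun i _ => mem_filter.2 ⟨mem_univ _, hp.par_par i⟩) _)
  rw [msz_eq, sum_mul]
  exact sum_congr rfl fun i hi => by rw [hp.deg_eq i, (mem_filter.1 hi).2]; ring

theorem msz_le {n : ℕ} {Λ : ι → Finset ℕ} (hΛ : ALab N deg n Λ) {i : ι} (hi : par i = i) :
    msz N par ρ Λ i * deg i ≤ n :=
  sum_msz h hp hΛ ▸ single_le_sum (f := fun i => msz N par ρ Λ i * deg i)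
    (fun _ _ => Nat.zero_le _) (mem_filter.2 ⟨mem_univ _, hi⟩)

theorem msz_split (Λ : ι → Finset ℕ) {i : ι} (hi : par i = i) : msz N par ρ Λ i =
    sz N (Λ i) + ∑ j ∈ (univ.filter fun j => par j = i).erase i, ρ j * sz N (Λ j) := by
  rw [msz_eq, ← add_sum_erase _ _ (mem_fib hi), rho_fix h hp hi, one_mul]

theorem msz_of_range {Λ : ι → Finset ℕ} {i : ι} (hi : par i = i)
    (h0 : ∀ j, par j = i → j ≠ i → Λ j = range N) : msz N par ρ Λ i = sz N (Λ i) := by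
  rw [msz_split h hp Λ hi, sum_eq_zero fun j hj => ?_, add_zero]
  rw [h0 j (mem_filter.1 (mem_of_mem_erase hj)).2 (ne_of_mem_erase hj),
    (sz_eq_zero' (card_range N)).2 rfl, mul_zero]

omit h hp in
theorem UU_of_range (τ : ι → ℕ → A) {Λ : ι → Finset ℕ} {i : ι} (hi : par i = i)
    (h0 : ∀ j, par j = i → j ≠ i → Λ j = range N) : UU N τ par Λ i = ss N τ i (Λ i) := by
  rw [UU, ← mul_prod_erase _ _ (mem_fib hi), prod_eq_one fun j hj => ?_, mul_one]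
  rw [h0 j (mem_filter.1 (mem_of_mem_erase hj)).2 (ne_of_mem_erase hj), ss_range']

omit h in
theorem T_sL (Λ : ι → Finset ℕ) :
    T (sL N π Λ) = ∏ i with par i = i, UU N (fun i k => T (π i k)) par Λ i := by
  rw [sL, map_prod, ← prod_fiberwise_of_maps_to (g := par) (t := univ.filter fun i => par i = i)
    fun i _ => mem_filter.2 ⟨mem_univ _, hp.par_par i⟩]
  simp only [map_ss, UU]

include hT

theorem T_eq {i : ι} {k : ℕ} (hk : 0 < k) (hN : k * deg i ≤ N) :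
    T (π i k) = T (π (par i) (ρ i * k)) := by
  rw [hT.T_π i k hk hN, hT.T_π (par i) _ (Nat.mul_pos (rho_pos' h hp i) hk)
    (by rwa [mul_right_comm, ← hp.deg_eq, mul_comm]), hp.par_par, rho_fix h hp (hp.par_par i),
    one_mul]

theorem toOF_T : OF S N deg (fun i => par i = i) (fun i k => T (π i k)) (gT par ρ) where
  deg_pos := h.deg_pos
  prim := fun i k _ hk hN => hT.T_pr _ _ (h.prim i k hk hN)
  orth := fun i j k l hi hj hk hl hN he => by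
    have a1 := rho_fix h hp hi
    have a2 : ∀ j' ∈ Pc par ρ i k, S.ip (k * deg i) ((ρ j' : ℂ) • π j' (k / ρ j')) (π j l) =
        if j' = j then (k : ℂ) else 0 := fun j' hj' => by
      obtain ⟨b1, c, rfl⟩ := mem_Pc'.1 hj'
      have b2 := rho_pos' h hp j'
      have b3 : ρ j' * c * deg i = c * deg j' := by rw [hp.deg_eq j', b1]; ring
      rw [Nat.mul_div_cancel_left _ b2, S.ip_smul, b3, h.orth j' j c l (Nat.pos_of_mul_pos_left hk)
        hl (b3 ▸ hN) (b3 ▸ he)]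
      split_ifs <;> simp
    rw [hT.adj, hT.idem, ← hT.adj, hT.T_π i k hk hN, hi, a1, one_mul, S.ip_smul, S.ip_sum,
      sum_congr rfl a2, sum_ite_eq']
    by_cases e : i = j
    · rw [if_pos (mem_Pc'.2 ⟨hj.trans e.symm, by rw [rho_fix h hp hj]; exact one_dvd _⟩), if_pos e,
        mul_comm, gT]
    · rw [if_neg fun h => e ((mem_Pc'.1 h).1.symm.trans hj), if_neg e, mul_zero]

theorem UU_mem {n : ℕ} (hn : n ≤ N) {Λ : ι → Finset ℕ} (hΛ : ALab N deg n Λ) {i : ι}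
    (hi : par i = i) : UU N (fun i k => T (π i k)) par Λ i ∈
      SpR N (fun i k => T (π i k)) i (e i) (res (e i) (Λ i)) (msz N par ρ Λ i) := by
  have h1 := h.le_of_mul ((msz_le h hp hΛ hi).trans hn)
  rw [msz_split h hp Λ hi] at h1 ⊢
  rw [UU, ← mul_prod_erase _ _ (mem_fib hi)]
  refine SpR_mul_SpE h1 (Submodule.subset_span ⟨_, ⟨hΛ.1 i, rfl, rfl⟩, rfl⟩)
    (SpE_prod _ fun j hj => ?_)
  have a1 := (mem_filter.1 (mem_of_mem_erase hj)).2
  refine ss_mem_SpE (rho_pos' h hp j) (a1 ▸ hp.e_dvd j (a1 ▸ (ne_of_mem_erase hj).symm))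
    fun r hr hr' => ?_
  rw [T_eq h hp hT hr ((Nat.mul_le_mul_right _ hr').trans ((hΛ.le j).trans hn)), a1]

theorem ip_T_sL {n : ℕ} (hn : n ≤ N) {Λ Λ' : ι → Finset ℕ} (hΛ : ALab N deg n Λ)
    (hΛ' : ALab N deg n Λ') : S.ip n (T (sL N π Λ)) (sL N π Λ') =
      ∏ i with par i = i, S.ip (msz N par ρ Λ i * deg i) (UU N (fun i k => T (π i k)) par Λ i)
        (UU N (fun i k => T (π i k)) par Λ' i) := by
  rw [← hT.idem, hT.adj, T_sL hp, T_sL hp, ← (toOF_T h hp hT).ip_prod _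
    (fun i hi => (mem_filter.1 hi).2)
    (fun i hi => SpR_le _ _ _ _ _ _ _ (UU_mem h hp hT hn hΛ (mem_filter.1 hi).2))
    (fun i hi => SpR_le _ _ _ _ _ _ _ (UU_mem h hp hT hn hΛ' (mem_filter.1 hi).2))
    (by rwa [sum_msz h hp hΛ]) (by rwa [sum_msz h hp hΛ']), sum_msz h hp hΛ]

theorem sameCls' {n : ℕ} (hn : n ≤ N) {Λ Λ' : ι → Finset ℕ} (hΛ : ALab N deg n Λ)
    (hΛ' : ALab N deg n Λ') (hne : S.ip n (T (sL N π Λ)) (sL N π Λ') ≠ 0) :
    SameCls N par ρ e Λ Λ' := by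
  intro i hi
  rw [ip_T_sL h hp hT hn hΛ hΛ'] at hne
  have a1 := prod_ne_zero_iff.1 hne i (mem_filter.2 ⟨mem_univ _, hi⟩)
  have a2 := UU_mem h hp hT hn hΛ' hi
  have a3 := (toOF_T h hp hT).eq_of_ip_ne hi ((msz_le h hp hΛ' hi).trans hn)
    (SpR_le _ _ _ _ _ _ _ a2) a1
  refine ⟨a3, ?_⟩
  by_contra hc
  refine a1 (S.ip_span_zero₂ (UU_mem h hp hT hn hΛ hi) a2 ?_)
  rintro _ ⟨U, ⟨b1, b2, b3⟩, rfl⟩ _ ⟨V, ⟨b4, b5, b6⟩, rfl⟩
  have a4 := (msz_le h hp hΛ hi).trans hn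
  rw [(toOF_T h hp hT).ip_ss_ss hi a4 b2 (b5.trans a3.symm)]
  exact Kw_res (h.le_of_mul a4) (gT_eq_one h hp hi) (mem_SS_sz.2 ⟨b1, b2⟩)
    (mem_SS_sz.2 ⟨b4, b5.trans a3.symm⟩) (by rwa [b3, b6])

theorem T_mem_span' {n : ℕ} (hn : n ≤ N) {Λ : ι → Finset ℕ} (hΛ : ALab N deg n Λ) :
    T (sL N π Λ) ∈ Submodule.span ℂ {y | ∃ Λ', ALab N deg n Λ' ∧ PL N par Λ' ∧
      SameCls N par ρ e Λ Λ' ∧ y = T (sL N π Λ')} := by
  rw [T_sL hp]
  refine prod_mem_span _ (fun i hi => UU_mem h hp hT hn hΛ (mem_filter.1 hi).2) fun L hL => ?_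
  let Λ' : ι → Finset ℕ := fun i => if par i = i then L i else range N
  have a1 : PL N par Λ' := fun i hi => if_neg hi
  have a2 : ∀ i, par i = i → Λ' i = L i := fun i hi => if_pos hi
  have a3 : ∀ i, par i = i → ∀ j, par j = i → j ≠ i → Λ' j = range N :=
    fun i _ j hj hne => a1 j (hj ▸ hne.symm)
  have a4 := fun i (hi : par i = i) => hL i (mem_filter.2 ⟨mem_univ _, hi⟩)
  refine Submodule.subset_span ⟨Λ', ⟨fun i => ?_, ?_⟩, a1, fun i hi => ⟨?_, ?_⟩, ?_⟩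
  · by_cases hi : par i = i
    · rw [a2 i hi, (a4 i hi).1]
    · rw [a1 i hi, card_range]
  · rw [← sum_msz h hp hΛ, sum_filter]
    refine sum_congr rfl fun i _ => ?_
    split_ifs with hi
    · rw [a2 i hi, (a4 i hi).2.1, mul_comm]
    · rw [a1 i hi, (sz_eq_zero' (card_range N)).2 rfl, mul_zero]
  · rw [msz_of_range h hp hi (a3 i hi), a2 i hi, (a4 i hi).2.1]
  · rw [a2 i hi, (a4 i hi).2.2]
  · rw [T_sL hp]
    exact prod_congr rfl fun i hi => by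
      rw [UU_of_range _ (mem_filter.1 hi).2 (a3 i (mem_filter.1 hi).2), a2 i (mem_filter.1 hi).2]

theorem T_inj' {n : ℕ} (hn : n ≤ N) {x : A}
    (hx : x ∈ Submodule.span ℂ {y | ∃ Λ', ALab N deg n Λ' ∧ PL N par Λ' ∧ y = sL N π Λ'})
    (h0 : T x = 0) : x = 0 := by
  have h1 : x ∈ Sp deg π (fun i => par i = i) n := by
    refine Submodule.span_le.2 ?_ hx
    rintro _ ⟨Λ, a1, a2, rfl⟩
    rw [← a1.sum']
    refine Sp_prod univ _ _ fun i _ => ?_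
    by_cases hi : par i = i
    · exact Sp_mono (fun _ e => e ▸ hi) _ (ss_mem_Sp N deg π i _)
    · rw [a2 i hi, ss_range', (sz_eq_zero' (card_range N)).2 rfl, zero_mul]
      exact one_mem_Sp _ _ _
  have hm : ∀ m, T (mon π m) = mon (fun i k => T (π i k)) m := fun m => by
    simp only [mon, map_multiset_prod, Multiset.map_map]; rfl
  refine S.eq_zero n x (h.toOF.Sp_le (fun _ _ => trivial) hn h1) (S.ip_span_zero h1 ?_)
  rintro _ ⟨m, a1, rfl, rfl⟩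
  have key := LinearMap.eqOn_span
    (f := S.ip (wtm deg m) (mon π m) (mon π m) • (S.ipl (wtm deg m) (T (mon π m))).comp T.toLinearMap)
    (g := S.ip (wtm deg m) (T (mon π m)) (T (mon π m)) • S.ipl (wtm deg m) (mon π m)) ?_ h1
  · simp only [LinearMap.smul_apply, LinearMap.comp_apply, AlgHom.toLinearMap_apply, h0, map_zero,
      mul_zero, PSH.ipl_apply, smul_eq_mul, hm] at key
    exact S.ip_comm_zero.1 ((mul_eq_zero.1 key.symm).resolve_left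
      ((toOF_T h hp hT).ip_mon_self_ne (fun i k hi _ => gT_ne h hp hi k) a1 hn))
  rintro _ ⟨m', b1, b2, rfl⟩
  simp only [LinearMap.smul_apply, LinearMap.comp_apply, AlgHom.toLinearMap_apply, PSH.ipl_apply,
    smul_eq_mul]
  by_cases e : m' = m
  · rw [e, mul_comm]
  · have c1 := (toOF_T h hp hT).ip_mon_ne b1 a1 (b2 ▸ hn) hn e
    have c2 := h.toOF.ip_mon_ne (b1.mono fun _ _ => trivial) (a1.mono fun _ _ => trivial)
      (b2 ▸ hn) hn e
    rw [b2] at c1 c2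
    rw [hm, hm, c1, c2, mul_zero, mul_zero]

theorem ip_UU_core {n : ℕ} (hn : n ≤ N) {Λ Λ' : ι → Finset ℕ} (hΛ : ALab N deg n Λ) {i : ι}
    (hi : par i = i) (h0 : ∀ j, par j = i → j ≠ i → Λ j = range N)
    (h1 : ∀ j, par j = i → Λ j = Λ' j) {e' : ℕ} (he : e' ∣ e i) (hw : wt e' (Λ i) = 0) :
    S.ip (msz N par ρ Λ i * deg i) (UU N (fun i k => T (π i k)) par Λ i)
      (UU N (fun i k => T (π i k)) par Λ' i) = 1 := by
  have a1 := (hΛ.le i).trans hn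
  rw [UU_of_range _ hi h0, UU_of_range _ hi fun j a b => (h1 j a).symm.trans (h0 j a b),
    msz_of_range h hp hi h0, ← h1 i hi, (toOF_T h hp hT).ip_ss_ss hi a1 rfl rfl]
  exact Kw_core (h.le_of_mul a1) (fun r hr => gT_eq_one h hp hi r fun h' => hr (he.trans h'))
    (mem_SS_sz.2 ⟨hΛ.1 i, rfl⟩) hw

end T

theorem ip_fst_snd {A₁ A₂ : Type u} [CommRing A₁] [Algebra ℂ A₁] [CommRing A₂] [Algebra ℂ A₂]
    {ι₁ ι₂ : Type*} {S₁ : PSH A₁} {S₂ : PSH A₂} {N : ℕ} {deg₁ : ι₁ → ℕ} {V₁ : ι₁ → Prop}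
    {τ₁ : ι₁ → ℕ → A₁} {g₁ : ι₁ → ℕ → ℂ} (h₁ : OF S₁ N deg₁ V₁ τ₁ g₁) {deg₂ : ι₂ → ℕ}
    {V₂ : ι₂ → Prop} {τ₂ : ι₂ → ℕ → A₂} {g₂ : ι₂ → ℕ → ℂ} (h₂ : OF S₂ N deg₂ V₂ τ₂ g₂) {i : ι₁}
    {j : ι₂} (hi : V₁ i) (hj : V₂ j) (hg : g₁ i = g₂ j) {m m' : ℕ} (a1 : m * deg₁ i ≤ N)
    (a2 : m * deg₂ j ≤ N) (a3 : m' * deg₁ i ≤ N) (a4 : m' * deg₂ j ≤ N) {x y : A₁ × A₂}
    (hx : x ∈ SpE (fun (_ : Unit) k => (τ₁ i k, τ₂ j k)) () 1 m)
    (hy : y ∈ SpE (fun (_ : Unit) k => (τ₁ i k, τ₂ j k)) () 1 m') :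
    S₁.ip (m * deg₁ i) x.1 y.1 = S₂.ip (m * deg₂ j) x.2 y.2 := by
  have e1 : ∀ ν, (pp (fun (_ : Unit) k => (τ₁ i k, τ₂ j k)) () ν).1 = pp τ₁ i ν := fun ν => by
    simpa [pp] using map_multiset_prod (RingHom.fst A₁ A₂) (ν.map fun k => (τ₁ i k, τ₂ j k))
  have e2 : ∀ ν, (pp (fun (_ : Unit) k => (τ₁ i k, τ₂ j k)) () ν).2 = pp τ₂ j ν := fun ν => by
    simpa [pp] using map_multiset_prod (RingHom.snd A₁ A₂) (ν.map fun k => (τ₁ i k, τ₂ j k))
  induction hx using Submodule.span_induction with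
  | zero => simp
  | add _ _ _ _ h1 h2 => rw [Prod.fst_add, Prod.snd_add, S₁.ip_add, S₂.ip_add, h1, h2]
  | smul c _ _ h1 => rw [Prod.smul_fst, Prod.smul_snd, S₁.ip_smul, S₂.ip_smul, h1]
  | mem x hx =>
  induction hy using Submodule.span_induction with
  | zero => simp
  | add _ _ _ _ h1 h2 => rw [Prod.fst_add, Prod.snd_add, S₁.ip_add', S₂.ip_add', h1, h2]
  | smul c _ _ h1 => rw [Prod.smul_fst, Prod.smul_snd, S₁.ip_smul', S₂.ip_smul', h1]
  | mem y hy =>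
  obtain ⟨μ, ⟨b1, -⟩, rfl⟩ := hx
  obtain ⟨ν, ⟨b2, -⟩, rfl⟩ := hy
  obtain ⟨c1, rfl⟩ := mem_Par.1 b1
  obtain ⟨c2, rfl⟩ := mem_Par.1 b2
  rw [e1, e1, e2, e2, h₁.ip_pp hi c1 c2 a1 a3, h₂.ip_pp hj c1 c2 a2 a4, hg]

instance instAbsB : AbsB.{u} where
  sameCls := fun h _ _ _ _ hp hT _ hn _ _ => sameCls' h hp hT hn
  T_mem_span := fun h _ _ _ _ hp hT _ hn _ => T_mem_span' h hp hT hn
  T_inj := fun h _ _ _ _ hp hT _ hn _ => T_inj' h hp hT hn
  transfer := by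
    intro A₁ A₂ _ _ _ _ ι₁ ι₂ _ _ S₁ S₂ N deg₁ π₁ h₁ T₁ par₁ ρ₁ e₁ p₁ t₁ deg₂ π₂ h₂ T₂ par₂ ρ₂ e₂ p₂
      t₂ φ hφ hpar J hJ n hn Λ Λ' a2 a2' a1 a1' hout
    have bij0 : ∀ i, par₁ i = i → i ∈ J → Set.BijOn φ (univ.filter fun j => par₁ j = i :)
        (univ.filter fun j => par₂ j = φ i :) := by
      intro i hi hiJ
      refine ⟨fun j hj => mem_filter.2 ⟨mem_univ _, ?_⟩,
        fun j hj j' _ e => ((hJ j ((mem_filter.1 hj).2 ▸ hiJ)).2 j' e.symm).symm, fun j hj => ?_⟩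
      · rw [← hpar, (mem_filter.1 hj).2]
      · obtain ⟨j, rfl⟩ := hφ j
        exact ⟨j, mem_filter.2 ⟨mem_univ _, (hJ i (hi.symm ▸ hiJ)).2 _
          (by rw [hpar, (mem_filter.1 hj).2])⟩, rfl⟩
    have bij : ∀ i, par₁ i = i → i ∈ J → ∀ f : ι₂ → A₂,
        ∏ j with par₁ j = i, f (φ j) = ∏ j with par₂ j = φ i, f j := fun i hi hiJ f =>
      prod_nbij φ (bij0 i hi hiJ).1 (bij0 i hi hiJ).2.1 (bij0 i hi hiJ).2.2 fun _ _ => rfl
    have bij' : ∀ i, par₁ i = i → i ∈ J → ∀ f : ι₂ → ℕ,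
        ∑ j with par₁ j = i, f (φ j) = ∑ j with par₂ j = φ i, f j := fun i hi hiJ f =>
      sum_nbij φ (bij0 i hi hiJ).1 (bij0 i hi hiJ).2.1 (bij0 i hi hiJ).2.2 fun _ _ => rfl
    have hm : ∀ i, par₁ i = i → i ∈ J → ∀ L : ι₂ → Finset ℕ,
        msz N par₁ ρ₁ (L ∘ φ) i = msz N par₂ ρ₂ L (φ i) := fun i hi hiJ L => by
      rw [msz_eq, msz_eq, ← bij' i hi hiJ]
      exact sum_congr rfl fun j hj => by rw [(hJ j ((mem_filter.1 hj).2 ▸ hiJ)).1]; rfl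
    rw [ip_T_sL h₂ p₂ t₂ hn a2 a2', ip_T_sL h₁ p₁ t₁ hn a1 a1',
      ← prod_filter_mul_prod_filter_not (univ.filter fun i => par₁ i = i) (· ∈ J),
      prod_eq_one (s := (univ.filter fun i => par₁ i = i).filter (· ∉ J)) fun i hi => ?_, mul_one]
    swap
    · obtain ⟨b1, b2⟩ := mem_filter.1 hi
      have b3 := (mem_filter.1 b1).2
      exact ip_UU_core h₁ p₁ t₁ hn a1 b3 (fun j c1 c2 => (hout j (c1 ▸ b2)).2.1 (c1 ▸ c2.symm))
        (fun j c1 => (hout j (c1 ▸ b2)).1) dvd_rfl ((hout i (b3.symm ▸ b2)).2.2 b3).1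
    symm
    refine prod_of_injOn φ (fun i hi j _ e => ?_) (fun i hi => ?_) (fun j hj hn' => ?_)
      fun i hi => ?_
    · obtain ⟨b1, b2⟩ := mem_filter.1 hi
      exact ((hJ i ((mem_filter.1 b1).2.symm ▸ b2)).2 j e.symm).symm
    · exact mem_filter.2 ⟨mem_univ _, by rw [← hpar, (mem_filter.1 (mem_filter.1 hi).1).2]⟩
    · have b1 := (mem_filter.1 hj).2
      have b2 : ∀ i, par₂ (φ i) = j → par₁ i ∉ J := fun i c1 c2 => hn' ⟨par₁ i, mem_coe.2
        (mem_filter.2 ⟨mem_filter.2 ⟨mem_univ _, p₁.par_par i⟩, c2⟩), by rw [hpar, c1]⟩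
      obtain ⟨i, hi⟩ := hφ j
      have b3 : φ (par₁ i) = j := by rw [hpar, hi, b1]
      have b4 := (hout (par₁ i) (b2 _ (by rw [b3, b1]))).2.2 (p₁.par_par i)
      rw [b3] at b4
      refine ip_UU_core h₂ p₂ t₂ hn a2 b1 (fun k c1 c2 => ?_) (fun k c1 => ?_) b4.2 b4.1
      · obtain ⟨k, rfl⟩ := hφ k
        exact (hout k (b2 k c1)).2.1 fun e => c2 (by rw [← c1, ← hpar, e])
      · obtain ⟨k, rfl⟩ := hφ k
        exact (hout k (b2 k c1)).1
    · obtain ⟨b1, b2⟩ := mem_filter.1 hi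
      have b3 := (mem_filter.1 b1).2
      have b4 : par₂ (φ i) = φ i := by rw [← hpar, b3]
      let σ : Unit → ℕ → A₁ × A₂ := fun _ k => (T₁ (π₁ i k), T₂ (π₂ (φ i) k))
      have key : ∀ L : ι₂ → Finset ℕ, ALab N deg₂ n L → ALab N deg₁ n (L ∘ φ) →
          ∃ x ∈ SpE σ () 1 (msz N par₁ ρ₁ (L ∘ φ) i),
            x.1 = UU N (fun i k => T₁ (π₁ i k)) par₁ (L ∘ φ) i ∧
            x.2 = UU N (fun i k => T₂ (π₂ i k)) par₂ L (φ i) := by
        intro L l2 l1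
        refine ⟨∏ j with par₁ j = i, ss N (fun j k => σ () (ρ₁ j * k)) j (L (φ j)), ?_, ?_, ?_⟩
        · rw [msz_eq]
          exact SpE_prod _ fun j _ => ss_mem_SpE (rho_pos' h₁ p₁ j) (one_dvd _) fun _ _ _ => rfl
        · refine (map_prod (AlgHom.fst ℂ A₁ A₂) _ _).trans (prod_congr rfl fun j hj => ?_)
          rw [map_ss]
          refine ss_congr fun r c1 c2 => ?_
          rw [T_eq h₁ p₁ t₁ c1 ((Nat.mul_le_mul_right _ c2).trans ((l1.le j).trans hn)),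
            (mem_filter.1 hj).2]
          rfl
        · rw [UU, ← bij i b3 b2]
          refine (map_prod (AlgHom.snd ℂ A₁ A₂) _ _).trans (prod_congr rfl fun j hj => ?_)
          rw [map_ss]
          refine ss_congr fun r c1 c2 => ?_
          rw [T_eq h₂ p₂ t₂ c1 ((Nat.mul_le_mul_right _ c2).trans ((l2.le (φ j)).trans hn)),
            ← hpar, (mem_filter.1 hj).2, (hJ j ((mem_filter.1 hj).2 ▸ b2)).1]
          rfl
      obtain ⟨x, c1, c2, c3⟩ := key Λ a2 a1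
      obtain ⟨y, c4, c5, c6⟩ := key Λ' a2' a1'
      rw [← c2, ← c3, ← c5, ← c6, ← hm i b3 b2]
      refine ip_fst_snd (toOF_T h₁ p₁ t₁) (toOF_T h₂ p₂ t₂) b3 b4 (funext fun k => ?_)
        ((msz_le h₁ p₁ a1 b3).trans hn) (by rw [hm i b3 b2]; exact (msz_le h₂ p₂ a2 b4).trans hn)
        ((msz_le h₁ p₁ a1' b3).trans hn) (by rw [hm i b3 b2]; exact (msz_le h₂ p₂ a2' b4).trans hn)
        c1 c4
      have d1 : ∀ {κ : Type} [Fintype κ] (par : κ → κ) (ρ : κ → ℕ) (j : κ),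
          ∑ l ∈ Pc par ρ j k, (ρ l : ℂ) =
            ((∑ l with par l = j, if ρ l ∣ k then ρ l else 0 : ℕ) : ℂ) := by
        intro κ _ par ρ j
        rw [← sum_filter, filter_filter, Nat.cast_sum, Pc]
      rw [gT, gT, d1, d1, ← bij' i b3 b2]
      congr 2
      exact sum_congr rfl fun j hj => by rw [(hJ j ((mem_filter.1 hj).2 ▸ b2)).1]

end GLH
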