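import Cfsg.Agent.Lib.GL.St
import Cfsg.Agent.Lib.Sym.Blocks

/-!
# S4536: common consequences of `Model` and `Base`
-/

set_option autoImplicit false
set_option linter.unusedSectionVars false

namespace GLH

open Finset Matrix Polynomial Cfsg SFock
open scoped Classical ComplexConjugate

universe u

theorem mem_Par {k : ℕ} {ν : Multiset ℕ} : ν ∈ Par k ↔ (∀ r ∈ ν, 0 < r) ∧ ν.sum = k := by
  simp only [Par, mem_image, mem_univ, true_and]
  constructor
  · rintro ⟨P, rfl⟩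
    exact ⟨fun r hr => P.parts_pos hr, P.parts_sum⟩
  · rintro ⟨h1, h2⟩
    exact ⟨⟨ν, fun {r} hr => h1 r hr, h2⟩, rfl⟩

/-- all components are one-row partitions -/
def IsRow {ι : Type*} (N : ℕ) (Λ : ι → Finset ℕ) : Prop := ∀ i, Λ i = row N (sz N (Λ i))

variable {F : Type u} [Field F] [Fintype F] {μ : Fˣ →* ℂˣ}

/-- the Gelfand-Graev functional as a linear map -/
noncomputable def ggL (ψ : AddChar F ℂ) (n : ℕ) : H μ →ₗ[ℂ] ℂ where
  toFun f := gg ψ n f.1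
  map_add' f g := by simp only [gg, H.add_val, add_mul, sum_add_distrib, mul_add]
  map_smul' c f := by
    simp only [gg, H.smul_val, RingHom.id_apply, smul_eq_mul, mul_sum]
    exact sum_congr rfl fun M _ => by ring

theorem ggL_apply (ψ : AddChar F ℂ) (n : ℕ) (f : H μ) : ggL ψ n f = gg ψ n f.1 := rfl

theorem gg_one (ψ : AddChar F ℂ) : gg ψ 0 (1 : H μ).1 = 1 := by
  have hU : ∀ M : Mat F 0, Uni M := fun M => ⟨fun i => i.elim0, fun i => i.elim0⟩
  have : Unique (Mat F 0) := ⟨⟨1⟩, Mat_zero_eq⟩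
  have h1 : Nat.card {M : Mat F 0 // Uni M} = 1 := by
    rw [Nat.card_eq_one_iff_unique]
    exact ⟨⟨fun a b => Subtype.ext (Subsingleton.elim _ _)⟩, ⟨⟨1, hU 1⟩⟩⟩
  rw [gg, h1, filter_true_of_mem fun M _ => hU M]
  simp [H.one_val]

theorem cf_add (f g : H μ) (n : ℕ) : H.cf (f + g) n = H.cf f n + H.cf g n := rfl

theorem cf_sub (f g : H μ) (n : ℕ) : H.cf (f - g) n = H.cf f n - H.cf g n := rfl

theorem cf_smul (c : ℂ) (f : H μ) (n : ℕ) : H.cf (c • f) n = c • H.cf f n := rfl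

theorem eq_of_cf {n : ℕ} {f g : H μ} (hf : f ∈ Hn μ n) (hg : g ∈ Hn μ n)
    (h : H.cf f n = H.cf g n) : f = g := by
  refine H.ext fun k M => ?_
  by_cases hk : k = n
  · subst hk
    by_cases hM : IsUnit M
    · exact congrFun h hM.unit
    · rw [f.2.1 k M hM, g.2.1 k M hM]
  · rw [hf k hk, hg k hk]

theorem gg_congr (ψ : AddChar F ℂ) {n : ℕ} {ν : Fˣ →* ℂˣ} {f : H μ} {g : H ν}
    (h : H.cf f n = H.cf g n) : gg ψ n f.1 = gg ψ n g.1 := by
  have : f.1 n = g.1 n := funext fun M => by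
    by_cases hM : IsUnit M
    · exact congrFun h hM.unit
    · rw [f.2.1 n M hM, g.2.1 n M hM]
  simp only [gg, this]

theorem lin_c (ν : Fˣ →* ℂˣ) {n : ℕ} (g : G F n) : (MF.lin ν).c n g.1 = dt ν g := by
  have h : g.1.det ≠ 0 := (GeneralLinearGroup.det g).ne_zero
  simp only [MF.lin, dif_neg h, dt]
  congr 2
  exact Units.ext rfl

theorem cf_lin (ν : Fˣ →* ℂˣ) (f : H μ) (n : ℕ) (g : G F n) :
    H.cf (mulL (MF.lin ν) f) n g = dt ν g * H.cf f n g := by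
  rw [H.cf, mulL_val, lin_c, H.cf]

theorem ipH_add_left (n : ℕ) (x y z : H μ) : ipH n (x + y) z = ipH n x z + ipH n y z :=
  CT.ip_add_left _ _ _

theorem ipH_add_right (n : ℕ) (x y z : H μ) : ipH n x (y + z) = ipH n x y + ipH n x z :=
  CT.ip_add_right _ _ _

theorem ipH_sub_left (n : ℕ) (x y z : H μ) : ipH n (x - y) z = ipH n x z - ipH n y z :=
  CT.ip_sub_left _ _ _

theorem ipH_sub_right (n : ℕ) (x y z : H μ) : ipH n x (y - z) = ipH n x y - ipH n x z :=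
  CT.ip_sub_right _ _ _

theorem ipH_smul_left (n : ℕ) (c : ℂ) (x y : H μ) : ipH n (c • x) y = c * ipH n x y :=
  CT.ip_smul_left _ _ _

theorem ipH_smul_right (n : ℕ) (c : ℂ) (x y : H μ) : ipH n x (c • y) = conj c * ipH n x y :=
  CT.ip_smul_right _ _ _

theorem conj_ipH (n : ℕ) (x y : H μ) : conj (ipH n x y) = ipH n y x := CT.conj_ip _ _

@[simp] theorem ipH_zero_left (n : ℕ) (y : H μ) : ipH n 0 y = 0 := CT.ip_zero_left _

@[simp] theorem ipH_zero_right (n : ℕ) (y : H μ) : ipH n y 0 = 0 := CT.ip_zero_right _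

/-- the form as a linear map in the first variable -/
noncomputable def ipL (n : ℕ) (y : H μ) : H μ →ₗ[ℂ] ℂ where
  toFun x := ipH n x y
  map_add' a b := ipH_add_left n a b y
  map_smul' c a := ipH_smul_left n c a y

theorem ipL_apply (n : ℕ) (y x : H μ) : ipL n y x = ipH n x y := rfl

theorem ipH_sum_left {ι : Type*} (s : Finset ι) (n : ℕ) (x : ι → H μ) (y : H μ) :
    ipH n (∑ i ∈ s, x i) y = ∑ i ∈ s, ipH n (x i) y := map_sum (ipL n y) x s

theorem ipH_sum_right {ι : Type*} (s : Finset ι) (n : ℕ) (x : H μ) (y : ι → H μ) :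
    ipH n x (∑ i ∈ s, y i) = ∑ i ∈ s, ipH n x (y i) := by
  rw [← conj_ipH, ipH_sum_left, map_sum]
  simp only [conj_ipH]

theorem ipH_eq_zero_of_span {n : ℕ} {S : Set (H μ)} {x y : H μ} (hx : x ∈ Submodule.span ℂ S)
    (h : ∀ z ∈ S, ipH n z y = 0) : ipH n x y = 0 :=
  (Submodule.span_le.2 (fun z hz => h z hz) : Submodule.span ℂ S ≤ LinearMap.ker (ipL n y)) hx

theorem ipH_eq_zero_comm {n : ℕ} {x y : H μ} : ipH n x y = 0 ↔ ipH n y x = 0 := by
  rw [← conj_ipH, map_eq_zero]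

theorem ipH_reg {p : ℕ} (hp : p.Prime) (h : p ≠ ringChar F) (n : ℕ) (x y : H μ) :
    ipH n (mulL (MF.reg p hp h) x) y = ipH n x (mulL (MF.reg p hp h) y) := by
  simp only [ipH, CT.ip_def, H.cf, mulL_val, MF.reg]
  congr 1
  refine sum_congr rfl fun g _ => ?_
  split_ifs <;> simp

theorem reg_reg {p : ℕ} (hp : p.Prime) (h : p ≠ ringChar F) (x : H μ) :
    mulL (MF.reg p hp h) (mulL (MF.reg p hp h) x) = mulL (MF.reg p hp h) x :=
  H.ext fun n M => by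
    simp only [mulL_val, MF.reg]
    split_ifs <;> simp

theorem mulL_Hn (c : MF F) {n : ℕ} {f : H μ} (hf : f ∈ Hn μ n) : mulL c f ∈ Hn μ n :=
  fun k hk M => by rw [mulL_val, hf k hk, mul_zero]

section Hall
variable [hA : HallA F] [hB : HallB F]

theorem mulOp_eq (c : MF F) (f : H μ) : mulOp c f = mulL c f := rfl

theorem one_mem_Hn : (1 : H μ) ∈ Hn μ 0 := (psh μ).one_mem

theorem prod_mem_Hn {ι : Type*} (s : Finset ι) (f : ι → H μ) (d : ι → ℕ)
    (h : ∀ i ∈ s, f i ∈ Hn μ (d i)) : ∏ i ∈ s, f i ∈ Hn μ (∑ i ∈ s, d i) := by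
  induction s using Finset.induction_on with
  | empty => simpa using one_mem_Hn
  | insert a s ha ih =>
    rw [prod_insert ha, sum_insert ha]
    exact hA.mul_mem (h a (mem_insert_self _ _)) (ih fun i hi => h i (mem_insert_of_mem hi))

theorem gg_prod {ψ : AddChar F ℂ} (hψ : ψ ≠ 1) {ι : Type*} (s : Finset ι) (f : ι → H μ)
    (d : ι → ℕ) (h : ∀ i ∈ s, f i ∈ Hn μ (d i)) :
    gg ψ (∑ i ∈ s, d i) (∏ i ∈ s, f i).1 = ∏ i ∈ s, gg ψ (d i) (f i).1 := by
  induction s using Finset.induction_on with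
  | empty => simpa using gg_one ψ
  | insert a s ha ih =>
    rw [prod_insert ha, sum_insert ha, prod_insert ha,
      ← ih fun i hi => h i (mem_insert_of_mem hi)]
    exact hB.gg_mul hψ (h a (mem_insert_self _ _))
      (prod_mem_Hn s f d fun i hi => h i (mem_insert_of_mem hi))

theorem char_prod {ι : Type*} (s : Finset ι) (f : ι → H (1 : Fˣ →* ℂˣ)) (d : ι → ℕ)
    (h : ∀ i ∈ s, f i ∈ Hn 1 (d i)) (h' : ∀ i ∈ s, IsCharacter (G F (d i)) (H.cf (f i) (d i))) :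
    IsCharacter (G F (∑ i ∈ s, d i)) (H.cf (∏ i ∈ s, f i) (∑ i ∈ s, d i)) := by
  induction s using Finset.induction_on with
  | empty =>
    rw [sum_empty, prod_empty]
    exact CT.isCharacter_one
  | insert a s ha ih =>
    rw [prod_insert ha, sum_insert ha]
    exact hA.char_mul (h a (mem_insert_self _ _))
      (prod_mem_Hn s f d fun i hi => h i (mem_insert_of_mem hi)) (h' a (mem_insert_self _ _))
      (ih (fun i hi => h i (mem_insert_of_mem hi)) fun i hi => h' i (mem_insert_of_mem hi))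

theorem pp_mem_gg {ψ : AddChar F ℂ} (hψ : ψ ≠ 1) {ι : Type*} {π : ι → ℕ → H μ} {i : ι} {d N : ℕ}
    (h : ∀ k, 0 < k → k * d ≤ N → π i k ∈ Hn μ (k * d) ∧ gg ψ (k * d) (π i k).1 = 1)
    (ν : Multiset ℕ) (hν : ∀ r ∈ ν, 0 < r) (hN : ν.sum * d ≤ N) :
    pp π i ν ∈ Hn μ (ν.sum * d) ∧ gg ψ (ν.sum * d) (pp π i ν).1 = 1 := by
  induction ν using Multiset.induction_on with
  | empty =>
    simp only [pp, Multiset.map_zero, Multiset.prod_zero, Multiset.sum_zero, zero_mul]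
    exact ⟨one_mem_Hn, gg_one ψ⟩
  | cons r ν ih =>
    rw [Multiset.sum_cons, add_mul] at hN ⊢
    obtain ⟨h1, h2⟩ := h r (hν r (Multiset.mem_cons_self _ _)) (by omega)
    obtain ⟨h3, h4⟩ := ih (fun s hs => hν s (Multiset.mem_cons_of_mem hs)) (by omega)
    have : pp π i (r ::ₘ ν) = π i r * pp π i ν := by simp [pp]
    rw [this]
    exact ⟨hA.mul_mem h1 h3, by rw [hB.gg_mul hψ h1 h3, h2, h4, one_mul]⟩

end Hall

variable {K : Type} [Field K] [Fintype K] [Algebra F K]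

section Orbits
variable [hO : Orb.{u}]

theorem Th.ind {m : Fˣ} {P : Th K m → Prop} (h : ∀ ξ, P (Th.mk m ξ)) (O : Th K m) : P O := by
  rw [← Th.mk_rep O]; exact h _

theorem act_act (z z' : Fˣ) {m : Fˣ} (O : Th K m) : act z (act z' O) = act (z * z') O := by
  induction O using Th.ind with
  | h ξ => rw [hO.act_mk, hO.act_mk, hO.act_mk, map_mul, mul_assoc]

theorem act_one {m : Fˣ} (O : Th K m) : act 1 O = O := by
  induction O using Th.ind with
  | h ξ => rw [hO.act_mk, map_one, one_mul]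

/-- `act z` as a permutation -/
noncomputable def actE (z m : Fˣ) : Th K m ≃ Th K m where
  toFun := act z
  invFun := act z⁻¹
  left_inv O := by rw [act_act, inv_mul_cancel, act_one]
  right_inv O := by rw [act_act, mul_inv_cancel, act_one]

theorem toTh_self {m : Fˣ} (O : Th K m) : toTh m O = O := Th.mk_rep O

theorem comp_toTh_self {m : Fˣ} {α : Type*} (Λ : Th K m → α) : Λ ∘ toTh m = Λ :=
  funext fun O => congrArg Λ (toTh_self O)

theorem toTh_toTh {m m' m'' : Fˣ} (h' : m' ∈ Subgroup.zpowers m'') (O : Th K m) :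
    toTh m'' (toTh m' O) = toTh m'' O := hO.toTh_mk h' _

theorem toTh_surjective {m m' : Fˣ} (h : m ∈ Subgroup.zpowers m') :
    Function.Surjective (toTh m' : Th K m → Th K m') := fun O =>
  ⟨Th.mk m O.rep, by rw [hO.toTh_mk h, Th.mk_rep]⟩

theorem mk_mul_of_mem {m m' : Fˣ} (h : m ∈ Subgroup.zpowers m') (ξ : Kˣ) :
    Th.mk m' (emb K m * ξ) = Th.mk m' ξ := by
  obtain ⟨j, rfl⟩ := (mem_powers_iff_mem_zpowers.2 h : m ∈ Submonoid.powers m')
  refine ((hO.mk_eq m' ξ _).2 ⟨0, j, ?_⟩).symm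
  simp

theorem toTh_act_of_mem {m m' z : Fˣ} (h : m ∈ Subgroup.zpowers m')
    (hz : z ∈ Subgroup.zpowers m') (O : Th K m) : toTh m' (act z O) = toTh m' O := by
  induction O using Th.ind with
  | h ξ => rw [hO.act_mk, hO.toTh_mk h, hO.toTh_mk h, mk_mul_of_mem hz]

theorem toTh_act {m m' : Fˣ} (h : m ∈ Subgroup.zpowers m') (z : Fˣ) (O : Th K m) :
    toTh m' (act z O) = act z (toTh m' O) := by
  induction O using Th.ind with
  | h ξ => rw [hO.act_mk, hO.toTh_mk h, hO.toTh_mk h, hO.act_mk]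

theorem toTh_par (p : ℕ) [Fact p.Prime] {m m' : Fˣ} (h : m ∈ Subgroup.zpowers m') (O : Th K m) :
    toTh m' (par p O) = par p (toTh m' O) := by
  induction O using Th.ind with
  | h ξ => rw [hO.par_mk, hO.toTh_mk h, hO.toTh_mk h, hO.par_mk]

theorem exists_act_of_toTh_eq {m : Fˣ} {θ θ' : Th K (1 : Fˣ)} (h : toTh m θ = toTh m θ') :
    ∃ j : ℕ, θ' = act (m ^ j) θ := by
  induction θ using Th.ind with | h ξ =>
  induction θ' using Th.ind with | h η =>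
  rw [hO.toTh_mk (one_mem _), hO.toTh_mk (one_mem _), hO.mk_eq] at h
  obtain ⟨i, j, rfl⟩ := h
  refine ⟨j, ?_⟩
  rw [hO.act_mk]
  refine ((hO.mk_eq 1 _ _).2 ⟨i, 0, ?_⟩).symm
  have : emb K m ^ Fintype.card F ^ i = emb K m := by
    rw [← map_pow]
    congr 1
    exact Units.ext (by simp [FiniteField.pow_card_pow])
  rw [pow_zero, one_mul, mul_pow, map_pow, ← pow_mul, mul_comm j, pow_mul, this]

theorem exists_pull_of_inv {m : Fˣ} {α : Type*} {Λ : Th K (1 : Fˣ) → α}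
    (h : ∀ θ, Λ (act m θ) = Λ θ) : ∃ Λ' : Th K m → α, Λ = Λ' ∘ toTh m := by
  have hj : ∀ j : ℕ, ∀ θ, Λ (act (m ^ j) θ) = Λ θ := by
    intro j
    induction j with
    | zero => intro θ; rw [pow_zero, act_one]
    | succ j ih => intro θ; rw [pow_succ', ← act_act, h, ih]
  refine ⟨fun O => Λ (Th.mk 1 O.rep), funext fun θ => ?_⟩
  have : toTh m θ = toTh m (Th.mk (1 : Fˣ) (toTh m θ).rep) := by
    rw [hO.toTh_mk (one_mem _), Th.mk_rep]
  obtain ⟨j, hj'⟩ := exists_act_of_toTh_eq this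
  simp only [Function.comp]
  rw [hj', hj]

theorem alab_act {N n : ℕ} {m : Fˣ} (z : Fˣ) {Λ : Th K m → Finset ℕ} (h : ALab N deg n Λ) :
    ALab N deg n (Λ ∘ act z) := by
  refine ⟨fun O => h.1 _, ?_⟩
  rw [← h.2, ← Equiv.sum_comp (actE z m) fun O => deg O * sz N (Λ O)]
  exact sum_congr rfl fun O _ => by rw [← hO.deg_act z O]; rfl

end Orbits

theorem ALab.le {ι : Type*} [Fintype ι] {N n : ℕ} {d : ι → ℕ} {Λ : ι → Finset ℕ}
    (h : ALab N d n Λ) (i : ι) : sz N (Λ i) * d i ≤ n := by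
  rw [← h.2, mul_comm]
  exact single_le_sum (f := fun i => d i * sz N (Λ i)) (fun _ _ => Nat.zero_le _) (mem_univ i)

section Model
variable [hA : HallA F] [hB : HallB F] [hO : Orb.{u}] [hS : AbsA.{u}]
variable {C : Ctx F K} {m : Fˣ} {π : Th K m → ℕ → H μ}

theorem Model.gg_ss (hM : Model C μ m π) (O : Th K m) {T : Finset ℕ} (hT : T.card = C.N)
    (h : sz C.N T * deg O ≤ C.N) :
    gg C.ψ (sz C.N T * deg O) (ss C.N π O T).1 = if T = row C.N (sz C.N T) then 1 else 0 := by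
  rw [← hS.del_ss C.N_pos hT, ← ggL_apply, ss, map_sum]
  refine sum_congr rfl fun ν hν => ?_
  obtain ⟨h1, h2⟩ := mem_Par.1 hν
  have := (pp_mem_gg C.ψ_ne (fun k hk hN => ⟨(hM.sys.prim O k hk hN).1, hM.gg_π O k hk hN⟩) ν h1
    (by rwa [h2])).2
  rw [h2] at this
  rw [map_smul, ggL_apply, this, smul_eq_mul, mul_one]

theorem Model.gg_hh (hM : Model C μ m π) (O : Th K m) {k : ℕ} (h : k * deg O ≤ C.N) :
    gg C.ψ (k * deg O) (hh π O k).1 = 1 := by
  obtain ⟨h1, h2⟩ := hS.row_spec C.N_pos k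
  have := hM.gg_ss O h1 (by rwa [h2])
  rwa [h2, if_pos rfl, hS.ss_row C.N_pos] at this

theorem Model.gg_sL (hM : Model C μ m π) {n : ℕ} (hn : n ≤ C.N) {Λ : Th K m → Finset ℕ}
    (h : ALab C.N deg n Λ) : gg C.ψ n (sL C.N π Λ).1 = if IsRow C.N Λ then 1 else 0 := by
  have h1 := gg_prod C.ψ_ne univ (fun O => ss C.N π O (Λ O)) (fun O => sz C.N (Λ O) * deg O)
    fun O _ => hS.ss_Hn hM.sys O _ ((h.le O).trans hn)
  have h2 : ∑ O, sz C.N (Λ O) * deg O = n := by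
    rw [← h.2]; exact sum_congr rfl fun O _ => mul_comm _ _
  rw [h2] at h1
  rw [sL, h1, prod_congr rfl fun O _ => hM.gg_ss O (h.1 O) ((h.le O).trans hn), prod_boole]
  by_cases hr : IsRow C.N Λ
  · rw [if_pos hr, if_pos fun i _ => hr i]
  · rw [if_neg hr, if_neg fun h => hr fun i => h i (mem_univ i)]

theorem Model.twist_pp (hM : Model C μ m π) (z : Fˣ) (O : Th K m) (ν : Multiset ℕ)
    (hν : ∀ r ∈ ν, 0 < r) (h : ν.sum * deg O ≤ C.N) :
    mulOp (MF.lin (C.mu z)) (pp π O ν) = pp π (act z O) ν := by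
  rw [pp, pp, map_multiset_prod, Multiset.map_map]
  refine congrArg _ (Multiset.map_congr rfl fun r hr => hM.twist z O r (hν r hr) ?_)
  exact (Nat.mul_le_mul_right _ (Multiset.single_le_sum (fun _ _ => Nat.zero_le _) r hr)).trans h

theorem Model.twist_sL (hM : Model C μ m π) (z : Fˣ) {n : ℕ} (hn : n ≤ C.N)
    {Λ : Th K m → Finset ℕ} (h : ALab C.N deg n Λ) :
    mulOp (MF.lin (C.mu z)) (sL C.N π Λ) = sL C.N π (Λ ∘ act z⁻¹) := by
  rw [sL, sL, map_prod, ← Equiv.prod_comp (actE z m) fun O => ss C.N π O ((Λ ∘ act z⁻¹) O)]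
  refine prod_congr rfl fun O _ => ?_
  have : (Λ ∘ act z⁻¹) (actE z m O) = Λ O := congrArg Λ ((actE z m).left_inv O)
  rw [this, ss, ss, map_sum]
  refine sum_congr rfl fun ν hν => ?_
  obtain ⟨h1, h2⟩ := mem_Par.1 hν
  rw [map_smul, hM.twist_pp z O ν h1 (by rw [h2]; exact (h.le O).trans hn)]
  rfl

theorem Model.sL_mem (hM : Model C μ m π) {n : ℕ} (hn : n ≤ C.N) {Λ : Th K m → Finset ℕ}
    (h : ALab C.N deg n Λ) : sL C.N π Λ ∈ Hn μ n := hS.sL_mem hM.sys hn h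

theorem Model.ip_sL (hM : Model C μ m π) {n : ℕ} (hn : n ≤ C.N) {Λ Λ' : Th K m → Finset ℕ}
    (h : ALab C.N deg n Λ) (h' : ALab C.N deg n Λ') :
    ipH n (sL C.N π Λ) (sL C.N π Λ') = if Λ = Λ' then 1 else 0 := by
  have : ipH n (sL C.N π Λ) (sL C.N π Λ') = _ := hS.ip_sL hM.sys hn h h'
  convert this

theorem Model.eq_of_cf (hM : Model C μ m π) {n : ℕ} (hn : n ≤ C.N) {Λ Λ' : Th K m → Finset ℕ}
    (h : ALab C.N deg n Λ) (h' : ALab C.N deg n Λ')
    (e : H.cf (sL C.N π Λ) n = H.cf (sL C.N π Λ') n) : Λ = Λ' := by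
  have h1 := hM.ip_sL hn h h'
  have h2 := hM.ip_sL hn h' h'
  rw [ipH, e, ← ipH, h2, if_pos rfl] at h1
  by_contra hne
  rw [if_neg hne] at h1
  exact one_ne_zero h1

end Model

section Base
variable [hA : HallA F] [hB : HallB F] [hO : Orb.{u}] [hS : AbsA.{u}]
variable {C : Ctx F K} {π : Th K (1 : Fˣ) → ℕ → H (1 : Fˣ →* ℂˣ)}

/-- the irreducible character with a given label -/
noncomputable def Base.chr (hb : Base C π) {n : ℕ} (hn : n ≤ C.N) {Λ : Th K (1 : Fˣ) → Finset ℕ}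
    (h : ALab C.N deg n Λ) : IrrCharacter (G F n) := ⟨H.cf (sL C.N π Λ) n, hb.irr n Λ hn h⟩

theorem Base.fix_iff (hb : Base C π) {n : ℕ} (hn : n ≤ C.N) {Λ : Th K (1 : Fˣ) → Finset ℕ}
    (h : ALab C.N deg n Λ) (z : Fˣ) :
    Fix (C.mu z) (H.cf (sL C.N π Λ) n) ↔ ∀ θ, Λ (act z θ) = Λ θ := by
  have h1 := hb.twist_sL z hn h
  have h2 : ∀ g, H.cf (sL C.N π (Λ ∘ act z⁻¹)) n g = dt (C.mu z) g * H.cf (sL C.N π Λ) n g :=
    fun g => by rw [← h1, mulOp_eq, cf_lin]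
  constructor
  · intro hf θ
    have := hb.toModel.eq_of_cf hn (alab_act z⁻¹ h) h (funext fun g => by rw [h2, hf])
    rw [← congrFun this (act z θ)]
    exact congrArg Λ ((actE z 1).left_inv θ)
  · intro hf g
    have : Λ ∘ act z⁻¹ = Λ := funext fun θ => by
      rw [Function.comp, ← hf]; exact congrArg Λ ((actE z 1).right_inv θ)
    rw [← h2, this]

theorem Base.fix_pull (hb : Base C π) {n : ℕ} (hn : n ≤ C.N) {m : Fˣ} {Λ : Th K m → Finset ℕ}
    (h : ALab C.N deg n Λ) (ν : Fˣ →* ℂˣ) (hν : (C.mu m).ker ≤ ν.ker) :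
    Fix ν (H.cf (sL C.N π (Λ ∘ toTh m)) n) := by
  obtain ⟨z, rfl⟩ := (hO.mu_bij C).2 ν
  refine (hb.fix_iff hn ((hO.alab_pull (one_mem _)).2 h) z).2 fun θ => ?_
  exact congrArg Λ (toTh_act_of_mem (one_mem _) ((hO.mu_ker C m z).1 hν) θ)

theorem Base.exists_pull (hb : Base C π) {n : ℕ} (hn : n ≤ C.N) {m : Fˣ}
    {χ : IrrCharacter (G F n)} (h : Fix (C.mu m) χ.1) :
    ∃ Λ : Th K m → Finset ℕ, ALab C.N deg n Λ ∧ χ.1 = H.cf (sL C.N π (Λ ∘ toTh m)) n := by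
  obtain ⟨Λ, h1, h2⟩ := hb.all n hn χ
  rw [h2, hb.fix_iff hn h1] at h
  obtain ⟨Λ', rfl⟩ := exists_pull_of_inv h
  exact ⟨Λ', (hO.alab_pull (one_mem _)).1 h1, h2⟩

theorem SameCls.refl {ι : Type*} [Fintype ι] (N : ℕ) (par : ι → ι) (ρ e : ι → ℕ)
    (Λ : ι → Finset ℕ) : SameCls N par ρ e Λ Λ := fun _ _ => ⟨rfl, rfl⟩

theorem SameCls.symm {ι : Type*} [Fintype ι] {N : ℕ} {par : ι → ι} {ρ e : ι → ℕ}
    {Λ Λ' : ι → Finset ℕ} (h : SameCls N par ρ e Λ Λ') : SameCls N par ρ e Λ' Λ :=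
  fun i hi => ⟨(h i hi).1.symm, (h i hi).2.symm⟩

theorem SameCls.trans {ι : Type*} [Fintype ι] {N : ℕ} {par : ι → ι} {ρ e : ι → ℕ}
    {Λ Λ' Λ'' : ι → Finset ℕ} (h : SameCls N par ρ e Λ Λ') (h' : SameCls N par ρ e Λ' Λ'') :
    SameCls N par ρ e Λ Λ'' :=
  fun i hi => ⟨(h i hi).1.trans (h' i hi).1, (h i hi).2.trans (h' i hi).2⟩

theorem cf_reg' (C : Ctx F K) (f : H μ) (n : ℕ) :
    H.cf (mulOp C.reg f) n = pRegularPart C.p (H.cf f n) := hA.cf_reg C.hp C.p_ne f n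

/-- characters in one block have labels in one class -/
theorem Base.cls_of_sameBlock [hT : AbsB.{u}] (hb : Base C π) {n : ℕ} (hn : n ≤ C.N)
    {Λ Λ' : Th K (1 : Fˣ) → Finset ℕ} (h : ALab C.N deg n Λ) (h' : ALab C.N deg n Λ')
    (hs : SameBlock C.M (H.cf (sL C.N π Λ) n) (H.cf (sL C.N π Λ') n)) : Cls C Λ Λ' := by
  have h1 := BT.isInt_setIdem_of_ip_pRegularPart C.hM
    (A := {ξ : IrrCharacter (G F n) | ∃ L, ALab C.N deg n L ∧ ξ.1 = H.cf (sL C.N π L) n ∧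
      Cls C Λ L}) (fun ξ hξ η hη => by
      by_contra hne
      obtain ⟨L, hL, eL, cL⟩ := hξ
      obtain ⟨L', hL', eL'⟩ := hb.all n hn η
      rw [eL, eL', ← cf_reg'] at hne
      exact hη ⟨L', hL', eL', cL.trans (hT.sameCls hb.sys (hO.pdat C 1) hb.tsys hn hL hL' hne)⟩)
  obtain ⟨L, hL, eL, cL⟩ := BT.mem_of_isInt_setIdem C.hM h1 (χ := hb.chr hn h) (ψ := hb.chr hn h')
    ⟨Λ, h, rfl, SameCls.refl _ _ _ _ _⟩ hs
  rwa [hb.toModel.eq_of_cf hn h' hL eL]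

theorem Base.cls_of_block [hT : AbsB.{u}] (hb : Base C π) {n : ℕ} (hn : n ≤ C.N)
    {B : Set (IrrCharacter (G F n))} (hB' : IsPBlock C.M B) {χ χ' : IrrCharacter (G F n)}
    (hχ : χ ∈ B) (hχ' : χ' ∈ B) {Λ Λ' : Th K (1 : Fˣ) → Finset ℕ} (h : ALab C.N deg n Λ)
    (h' : ALab C.N deg n Λ') (e : χ.1 = H.cf (sL C.N π Λ) n) (e' : χ'.1 = H.cf (sL C.N π Λ') n) :
    Cls C Λ Λ' := by
  refine hb.cls_of_sameBlock hn h h' ?_
  rw [← e, ← e']
  exact (BT.mem_block_iff_sameBlock C.hM hB' hχ χ').1 hχ'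

end Base

end GLH
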