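import Cfsg.Agent.Lib.GL.ClB
import Mathlib.RingTheory.PowerSeries.Derivative

/-!
# Counting pairs (matrix, vector) by the cyclic subspace
-/

set_option autoImplicit false
set_option linter.unusedSectionVars false

namespace GLH.Cl

open Finset Matrix Module Cfsg Mk Ha Polynomial
open scoped Classical

universe u

open PowerSeries in
theorem logder_eq {a e : ℕ → ℂ} {q : ℂ} {d : ℕ} (hd : 0 < d) (h0 : a 0 = 1)
    (h1 : ∀ n : ℕ, n * a n = ∑ k ∈ range n, e (k + 1) * a (n - 1 - k))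
    (h2 : ∀ n, q ^ n * a n = ∑ jk ∈ antidiagonal n, (if d ∣ jk.1 then 1 else 0) * a jk.2) (n : ℕ) :
    (q ^ (n + 1) - 1) * e (n + 1) = if d ∣ n + 1 then (d : ℂ) else 0 := by
  obtain ⟨d, rfl⟩ := Nat.exists_eq_succ_of_ne_zero hd.ne'
  let A : ℂ⟦X⟧ := mk a
  let L : ℂ⟦X⟧ := mk fun k => e (k + 1)
  let Z : ℂ⟦X⟧ := mk fun j => if d + 1 ∣ j then 1 else 0
  have hZ : Z = 1 + PowerSeries.X ^ (d + 1) * Z := by
    ext j
    simp only [Z, map_add, PowerSeries.coeff_X_pow_mul', coeff_mk, PowerSeries.coeff_one]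
    by_cases c : d + 1 ≤ j
    · simp only [if_pos c, if_neg (show j ≠ 0 by omega), zero_add,
        (Nat.dvd_sub_iff_left c (dvd_refl _))]
    · by_cases c' : j = 0
      · simp [c']
      · rw [if_neg c, if_neg c', if_neg fun h => c (Nat.le_of_dvd (by omega) h), add_zero]
  have hA : d⁄dX ℂ A = L * A := by
    ext j
    have := h1 (j + 1)
    simp only [PowerSeries.coeff_derivative, PowerSeries.coeff_mul, A, L, coeff_mk,
      Nat.sum_antidiagonal_eq_sum_range_succ fun i k => e (i + 1) * a k]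
    simpa [mul_comm] using this
  have hR : rescale q A = Z * A := by
    ext j
    simp only [coeff_rescale, PowerSeries.coeff_mul, A, Z, coeff_mk, h2]
  have hD : d⁄dX ℂ (rescale q A) = PowerSeries.C q * rescale q (d⁄dX ℂ A) := by
    ext j
    simp only [PowerSeries.coeff_derivative, coeff_rescale, PowerSeries.coeff_C_mul]; ring
  have hA0 : A ≠ 0 := fun h => by simpa [A, h0] using congrArg (PowerSeries.coeff 0) h
  have hdZ := congrArg (d⁄dX ℂ) hZ
  rw [hA, map_mul, hR, Derivation.leibniz, hA] at hD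
  rw [map_add, Derivation.leibniz, PowerSeries.derivative_pow, PowerSeries.derivative_X,
    Derivation.map_one_eq_zero] at hdZ
  simp only [smul_eq_mul, Nat.add_sub_cancel] at hD hdZ
  have h3 : Z * L + d⁄dX ℂ Z = PowerSeries.C q * rescale q L * Z :=
    mul_right_cancel₀ hA0 (by linear_combination hD)
  have h4 : PowerSeries.C q * rescale q L - L = ((d + 1 : ℕ) : ℂ⟦X⟧) * (PowerSeries.X ^ d * Z) := by
    linear_combination (PowerSeries.X ^ (d + 1) - 1) * h3 + hdZ -
      (PowerSeries.C q * rescale q L - L) * hZ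
  have h5 := congrArg (PowerSeries.coeff n) h4
  rw [← nsmul_eq_mul, map_nsmul, PowerSeries.coeff_X_pow_mul'] at h5
  simp only [map_sub, PowerSeries.coeff_C_mul, coeff_rescale, L, Z, coeff_mk] at h5
  rw [show (q ^ (n + 1) - 1) * e (n + 1) = q * (q ^ n * e (n + 1)) - e (n + 1) by ring, h5]
  by_cases c : d ≤ n
  · rw [if_pos c, show n - d = n + 1 - (d + 1) by omega]
    simp only [Nat.dvd_sub_iff_left (show d + 1 ≤ n + 1 by omega) (dvd_refl _)]
    split_ifs <;> simp
  · rw [if_neg c, if_neg fun h => c (by have := Nat.le_of_dvd (by omega) h; omega), smul_zero]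

variable {F : Type u} [Field F] [Fintype F] {a b n : ℕ}

/-- `p ↦ p(M) v` -/
noncomputable def ev (M : Mat F n) (v : Fin n → F) : F[X] →ₗ[F] (Fin n → F) where
  toFun p := aeval M p *ᵥ v
  map_add' p p' := by rw [map_add, add_mulVec]
  map_smul' c p := by rw [map_smul, smul_mulVec]; rfl

theorem ev_apply (M : Mat F n) (v : Fin n → F) (p : F[X]) : ev M v p = aeval M p *ᵥ v := rfl

theorem ev_X_mul (M : Mat F n) (v : Fin n → F) (p : F[X]) : ev M v (X * p) = M *ᵥ ev M v p := by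
  simp [ev_apply]

theorem ev_one (M : Mat F n) (v : Fin n → F) : ev M v 1 = v := by simp [ev_apply]

theorem ev_map {m : ℕ} {M : Mat F n} {M' : Mat F m} (L : (Fin n → F) →ₗ[F] (Fin m → F))
    (h : ∀ v, L (M *ᵥ v) = M' *ᵥ L v) (v : Fin n → F) (p : F[X]) :
    ev M' (L v) p = L (ev M v p) := by
  induction p using Polynomial.induction_on with
  | C c => rw [← mul_one (C c), ← smul_eq_C_mul, map_smul, map_smul, map_smul, ev_one, ev_one]
  | add p p' hp hp' => rw [map_add, map_add, map_add, hp, hp']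
  | monomial k c hk => rw [pow_succ, ← mul_assoc, mul_comm, ev_X_mul, ev_X_mul, hk, h]

/-- the cyclic subspace -/
noncomputable def cy (M : Mat F n) (v : Fin n → F) : Submodule F (Fin n → F) :=
  LinearMap.range (ev M v)

theorem cy_map {m : ℕ} {M : Mat F n} {M' : Mat F m} (L : (Fin n → F) →ₗ[F] (Fin m → F))
    (h : ∀ v, L (M *ᵥ v) = M' *ᵥ L v) (v : Fin n → F) : cy M' (L v) = (cy M v).map L := by
  rw [cy, cy, ← LinearMap.range_comp]
  exact congrArg _ (LinearMap.ext (ev_map L h v))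

theorem im_eq_map (h : G F n) (W : Submodule F (Fin n → F)) : im h W = W.map (toLin' h.1) := by
  ext v
  refine ⟨fun e => ⟨_, e, by simp⟩, ?_⟩
  rintro ⟨w, hw, rfl⟩
  exact mulVec_mem_im.2 hw

theorem cy_cnj (h : G F n) (M : Mat F n) (v : Fin n → F) :
    cy M (h.1 *ᵥ v) = im h (cy (cnj h M) v) := by
  rw [im_eq_map]
  exact cy_map (toLin' h.1) (fun w => by simp [cnj, ← Matrix.mul_assoc]) v

theorem im_inj (h : G F n) {W W' : Submodule F (Fin n → F)} : im h W = im h W' ↔ W = W' :=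
  ⟨fun e => by simpa only [← im_mul, inv_mul_cancel, im_one] using congrArg (im h⁻¹) e,
    congrArg _⟩

theorem sum_im (ha : a ≤ n) (W : Submodule F (Fin n → F)) :
    ∑ h : G F n, (if W = im h (E F n a) then (1 : ℂ) else 0) =
      if finrank F W = a then (Nat.card (Pb F n a) : ℂ) else 0 := by
  split_ifs with e
  · obtain ⟨g, -, rfl⟩ := exists_Pb (c := n) (W := E F n a) (W' := W) ((finrank_E ha).trans e.symm)
      (by rw [E_top, inf_top_eq, inf_top_eq, finrank_E ha, e])
    rw [← Equiv.sum_comp (Equiv.mulLeft g)]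
    simp only [Equiv.coe_mulLeft, im_mul, im_inj, eq_comm (a := E F n a), ← tri_iff_im, sum_boole]
    rw [Nat.card_eq_fintype_card, Fintype.card_subtype]
    rfl
  · exact sum_eq_zero fun h _ => if_neg fun e' => e (by rw [e', finrank_im, finrank_E ha])

theorem sum_cy (ha : a ≤ n) (Ψ : Mat F n → ℂ) (hΨ : ∀ h M, Ψ (cnj h M) = Ψ M) :
    (Nat.card (Pb F n a) : ℂ) * ∑ M, ∑ v, (if finrank F (cy M v) = a then Ψ M else 0) =
      Nat.card (G F n) * ∑ M, ∑ v, if cy M v = E F n a then Ψ M else 0 := by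
  have h1 : ∀ h : G F n, ∑ M, ∑ v, (if cy M v = im h (E F n a) then Ψ M else 0) =
      ∑ M, ∑ v, if cy M v = E F n a then Ψ M else 0 := fun h => by
    rw [← sum_cnj h fun M => ∑ v, if cy M v = E F n a then Ψ M else 0]
    refine sum_congr rfl fun M _ => ?_
    rw [← (toLin'OfInv h.inv_mul h.mul_inv).toEquiv.sum_comp]
    refine sum_congr rfl fun v _ => ?_
    rw [hΨ]
    exact if_congr ((cy_cnj h M v).congr_left.trans (im_inj h)) rfl rfl
  have h2 := sum_congr (s₁ := univ) rfl fun h _ => h1 h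
  rw [sum_const, card_univ, nsmul_eq_mul, ← Nat.card_eq_fintype_card] at h2
  rw [← h2, sum_comm (γ := G F n), mul_sum]
  refine sum_congr rfl fun M _ => ?_
  rw [sum_comm, mul_sum]
  refine sum_congr rfl fun v _ => ?_
  have := congrArg (· * Ψ M) (sum_im ha (cy M v))
  simpa only [sum_mul, ite_mul, one_mul, zero_mul, mul_ite, mul_zero] using this.symm

variable (F a b) in
/-- extension by zero -/
def inj : (Fin a → F) →ₗ[F] (Fin (a + b) → F) where
  toFun w := Sum.elim w 0 ∘ finSumFinEquiv.symm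
  map_add' w w' := funext fun i => by
    obtain ⟨i | i, rfl⟩ := finSumFinEquiv.surjective i <;> simp
  map_smul' c w := funext fun i => by
    obtain ⟨i | i, rfl⟩ := finSumFinEquiv.surjective i <;> simp

theorem inj_injective : Function.Injective (inj F a b) := fun w w' h => funext fun i => by
  simpa [inj] using congrFun h (finSumFinEquiv (Sum.inl i))

theorem range_inj : LinearMap.range (inj F a b) = E F (a + b) a := by
  refine Submodule.eq_of_le_of_finrank_eq ?_ (by
    rw [LinearMap.finrank_range_of_inj inj_injective, finrank_E (by omega)]; simp)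
  rintro _ ⟨w, rfl⟩
  refine mem_E.2 fun i hi => ?_
  obtain ⟨i | i, rfl⟩ := finSumFinEquiv.surjective i
  · have := i.2; simp at hi; omega
  · simp [inj]

theorem cat_inj_mulVec (A : Mat F a) (B : Rm F a b) (D : Mat F b) (w : Fin a → F) :
    inj F a b (A *ᵥ w) = cat A B D *ᵥ inj F a b w := by
  simp [inj, cat, submatrix_mulVec_equiv, fromBlocks_mulVec, Function.comp_assoc]

theorem sum_cy_E (Ψ : Mat F (a + b) → ℂ) :
    ∑ M, ∑ v, (if cy M v = E F (a + b) a then Ψ M else 0) =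
      ∑ A, ∑ D, ∑ B, ∑ w, if cy A w = ⊤ then Ψ (cat A B D) else 0 := by
  have h1 : ∀ M, ∑ v, (if cy M v = E F (a + b) a then Ψ M else 0) =
      if Tri a M then ∑ v, (if cy M v = E F (a + b) a then Ψ M else 0) else 0 := fun M => by
    split_ifs with h
    · rfl
    refine sum_eq_zero fun v _ => if_neg fun e => h (tri_iff_E.2 ?_)
    rw [← e]
    rintro _ ⟨p, rfl⟩
    exact ⟨X * p, ev_X_mul _ _ _⟩
  rw [sum_congr rfl fun M _ => h1 M, sum_tri]
  refine sum_congr rfl fun A _ => sum_congr rfl fun D _ => sum_congr rfl fun B _ => ?_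
  symm
  refine sum_of_injOn (inj F a b) inj_injective.injOn (fun _ _ => mem_univ _)
    (fun v _ hv => if_neg fun e => hv ?_) fun w _ => if_congr ?_ rfl rfl
  · obtain ⟨w, hw⟩ : v ∈ LinearMap.range (inj F a b) := by
      rw [range_inj, ← e]; exact ⟨1, ev_one _ _⟩
    exact ⟨w, mem_coe.2 (mem_univ _), hw⟩
  · rw [cy_map _ (cat_inj_mulVec A B D), ← range_inj, LinearMap.range_eq_map,
      (Submodule.map_injective_of_injective inj_injective).eq_iff]

theorem exists_equiv_ev {g : F[X]} (hg : g.natDegree = a) {A : Mat F a} {w : Fin a → F}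
    (h : cy A w = ⊤) (hA : A.charpoly = g) :
    ∃ e : (F[X] ⧸ Ideal.span {g}) ≃ₗ[F] (Fin a → F), ∀ p, e (Ideal.Quotient.mk _ p) = ev A w p := by
  let φ := Ideal.Quotient.liftₐ (Ideal.span {g}) (aeval A) fun p hp => by
    obtain ⟨r, rfl⟩ := Ideal.mem_span_singleton.1 hp
    rw [map_mul, ← hA, aeval_self_charpoly, zero_mul]
  let L := (mulVecBilin F F).flip w ∘ₗ φ.toLinearMap
  have hL : ∀ p, L (Ideal.Quotient.mk _ p) = ev A w p := fun p => rfl
  have hs : Function.Surjective L := fun v => by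
    obtain ⟨p, hp⟩ : v ∈ cy A w := h ▸ Submodule.mem_top
    exact ⟨_, (hL p).trans hp⟩
  have : FiniteDimensional F (F[X] ⧸ Ideal.span {g}) :=
    (AdjoinRoot.powerBasis' (hA ▸ charpoly_monic A)).finite
  exact ⟨.ofBijective L ⟨(LinearMap.injective_iff_surjective_of_finrank_eq_finrank
    (by simp [finrank_quotient_span_eq_natDegree, hg])).2 hs, hs⟩, hL⟩

theorem sum_cyc {g : F[X]} (hg : g.Monic) (ha : g.natDegree = a) :
    ∑ A : Mat F a, ∑ w, (if cy A w = ⊤ ∧ A.charpoly = g then (1 : ℂ) else 0) =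
      Nat.card (G F a) := by
  obtain ⟨J, w₀, h1, h2⟩ : ∃ (J : Mat F a) (w₀ : Fin a → F), cy J w₀ = ⊤ ∧ J.charpoly = g := by
    subst ha
    refine ⟨Jm _ g, (pbs hg).repr 1, eq_top_iff.2 fun v _ => ?_, charpoly_Jm hg rfl⟩
    obtain ⟨p, hp⟩ := AdjoinRoot.mk_surjective ((pbs hg).equivFun.symm v)
    refine ⟨p, ?_⟩
    rw [ev_apply, Jm_eq hg, aeval_algHom_apply, Algebra.leftMulMatrix_mulVec_repr, mul_one,
      AdjoinRoot.aeval_eq, hp]
    exact (pbs hg).equivFun.apply_symm_apply v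
  have key : ∀ (h : G F a) (p), ev (cnj h⁻¹ J) (h.1 *ᵥ w₀) p = h.1 *ᵥ ev J w₀ p := fun h =>
    ev_map (toLin' h.1) (fun v => by simp [cnj, Matrix.mul_assoc]) w₀
  rw [← Fintype.sum_prod_type', show (Nat.card (G F a) : ℂ) = ∑ _h : G F a, 1 by simp]
  symm
  refine sum_of_injOn (fun h : G F a => (cnj h⁻¹ J, h.1 *ᵥ w₀)) (fun h _ h' _ e => ?_)
    (fun _ _ => mem_univ _) (fun ⟨A, w⟩ _ hz => if_neg fun e => hz ?_)
    fun h _ => (if_pos ⟨?_, by rw [charpoly_cnj, h2]⟩).symm
  · refine Units.ext (toLin'.injective (LinearMap.ext fun v => ?_))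
    obtain ⟨p, rfl⟩ : v ∈ cy J w₀ := h1 ▸ Submodule.mem_top
    rw [Prod.mk.injEq] at e
    rw [toLin'_apply, toLin'_apply, ← key, ← key, e.1, e.2]
  · obtain ⟨e₁, he₁⟩ := exists_equiv_ev ha h1 h2
    obtain ⟨e₂, he₂⟩ := exists_equiv_ev ha e.1 e.2
    let k := e₁.symm.trans e₂
    have hk : ∀ p, k (ev J w₀ p) = ev A w p := fun p => by simp [k, ← he₁, ← he₂]
    let x : G F a := ⟨LinearMap.toMatrix' k.toLinearMap, LinearMap.toMatrix' k.symm.toLinearMap,
      by rw [← LinearMap.toMatrix'_comp]; simp, by rw [← LinearMap.toMatrix'_comp]; simp⟩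
    have hx : ∀ v, x.1 *ᵥ v = k v := fun v => by
      rw [← toLin'_apply, toLin'_toMatrix']; rfl
    have h3 : J = cnj x A := eq_cnj (toLin'.injective (LinearMap.ext fun v => by
      obtain ⟨p, rfl⟩ : v ∈ cy J w₀ := h1 ▸ Submodule.mem_top
      simp only [toLin'_apply, ← mulVec_mulVec, hx, ← ev_X_mul, hk]))
    refine ⟨x, mem_univ _, Prod.ext ?_ ?_⟩
    · simp only [h3, ← cnj_mul, mul_inv_cancel, cnj_one]
    · simpa only [ev_one, ← hx] using hk 1
  · rw [cy_cnj, ← cnj_mul, inv_mul_cancel, cnj_one, h1]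
    exact eq_top_iff.2 fun _ _ => Submodule.mem_top

/-- the recursion obtained by counting pairs -/
theorem pair_count (Ψ : Fn F) (hΨ : ∀ n h M, Ψ n (cnj h M) = Ψ n M)
    (hc : ∀ a b A B D, Ψ (a + b) (cat A B D) = Ψ a A * Ψ b D) (n : ℕ) :
    (Fintype.card F : ℂ) ^ n * ((Nat.card (G F n) : ℂ)⁻¹ * ∑ M, Ψ n M) =
      ∑ jk ∈ antidiagonal n, ((Nat.card (G F jk.1) : ℂ)⁻¹ *
        ∑ A, ∑ w, if cy A w = ⊤ then Ψ jk.1 A else 0) *
        ((Nat.card (G F jk.2) : ℂ)⁻¹ * ∑ M, Ψ jk.2 M) := by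
  have h1 : (Fintype.card F : ℂ) ^ n * ∑ M, Ψ n M = ∑ jk ∈ antidiagonal n,
      ∑ M, ∑ v, if finrank F (cy M v) = jk.1 then Ψ n M else 0 := by
    rw [sum_comm, mul_sum]
    refine sum_congr rfl fun M _ => ?_
    rw [sum_comm, sum_congr rfl fun v _ => ?_, sum_const, card_univ, nsmul_eq_mul,
      Fintype.card_fun, Fintype.card_fin, Nat.cast_pow]
    have : finrank F (cy M v) ≤ n := by simpa using Submodule.finrank_le (cy M v)
    rw [Nat.sum_antidiagonal_eq_sum_range_succ fun j _ => if finrank F (cy M v) = j then Ψ n M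
      else 0, sum_ite_eq, if_pos (mem_range.2 (by omega))]
  rw [mul_left_comm, h1, mul_sum]
  refine sum_congr rfl ?_
  rintro ⟨a, b⟩ hab
  obtain rfl : a + b = n := mem_antidiagonal.1 hab
  have h2 := sum_cy (Nat.le_add_right a b) _ (hΨ _)
  have h3 : ∀ (A : Mat F a) (D : Mat F b), ∑ w, (if cy A w = ⊤ then Ψ a A * Ψ b D else 0) =
      (∑ w, if cy A w = ⊤ then Ψ a A else 0) * Ψ b D := fun A D => by
    simp only [sum_mul, ite_mul, zero_mul]
  simp only [sum_cy_E, card_Pb, hc, h3, sum_const, card_univ, nsmul_eq_mul, ← mul_sum,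
    ← sum_mul] at h2
  have := card_G_ne (F := F) (a + b)
  have := card_G_ne (F := F) a
  have := card_G_ne (F := F) b
  have := card_Rm_ne (F := F) a b
  field_simp
  refine mul_left_cancel₀ this ?_
  linear_combination h2

end GLH.Cl
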