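import Cfsg.Agent.Lib.Block.BlockProd
import Cfsg.Agent.Lib.Grp.PGrp

/-!
# S4536, package G6: block theory of a centraliser that is a direct product
-/

set_option autoImplicit false
set_option linter.unusedSectionVars false

namespace GLH.Df

open Cfsg CT GT BT Finset
open scoped ComplexConjugate Classical

variable {p : ℕ} [hp : Fact p.Prime] {M : Ideal AlgInt} (hM : IsPModular p M)
variable {Γ Γ₁ Γ₂ : Type*} [Group Γ] [Finite Γ] [Group Γ₁] [Finite Γ₁] [Group Γ₂] [Finite Γ₂]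

theorem sum_bset_ite {A : Type*} [AddCommMonoid A] (B : Set (IrrCharacter Γ))
    (f : IrrCharacter Γ → A) : ∑ χ ∈ bset B, f χ = ∑ χ, if χ ∈ B then f χ else 0 := by
  rw [bset_eq, sum_filter]

include hM in
theorem blockCoeff_prod (θ₁ : IrrCharacter Γ₁) (θ₂ : IrrCharacter Γ₂) (g₁ : Γ₁) (g₂ : Γ₂) :
    blockCoeff (blockOf M (irrProd θ₁ θ₂).1) (g₁, g₂) =
      blockCoeff (blockOf M θ₁.1) g₁ * blockCoeff (blockOf M θ₂.1) g₂ := by
  rw [blockCoeff_eq_sum_bset, blockCoeff_eq_sum_bset, blockCoeff_eq_sum_bset, sum_bset_ite,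
    sum_bset_ite, sum_bset_ite, sum_irr_prod, Nat.card_prod, Nat.cast_mul, mul_inv,
    mul_mul_mul_comm, sum_mul_sum]
  congr 1
  refine sum_congr rfl fun φ _ => sum_congr rfl fun ψ _ => ?_
  have : irrProd φ ψ ∈ blockOf M (irrProd θ₁ θ₂).1 ↔
      φ ∈ blockOf M θ₁.1 ∧ ψ ∈ blockOf M θ₂.1 := sameBlock_irrProd_iff hM θ₁ φ θ₂ ψ
  by_cases h1 : φ ∈ blockOf M θ₁.1 <;> by_cases h2 : ψ ∈ blockOf M θ₂.1 <;>
    simp [this, h1, h2]
  ring

include hM in
theorem prod_le_defect {θ₁ : IrrCharacter Γ₁} {θ₂ : IrrCharacter Γ₂} {D₁ : Subgroup Γ₁}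
    {D₂ : Subgroup Γ₂} (h₁ : IsDefectGroup p M (blockOf M θ₁.1) D₁)
    (h₂ : IsDefectGroup p M (blockOf M θ₂.1) D₂) {D : Subgroup (Γ₁ × Γ₂)}
    (hD : IsDefectGroup p M (blockOf M (irrProd θ₁ θ₂).1) D) :
    ∃ x : Γ₁ × Γ₂, (D₁.prod D₂).map (MulAut.conj x).toMonoidHom ≤ D := by
  have q₁ := isPGroup_of_isDefectGroup h₁
  have q₂ := isPGroup_of_isDefectGroup h₂
  obtain ⟨g₁, c₁, s₁⟩ := isDefectGroup_iff_isSylowIn.1 h₁
  obtain ⟨g₂, c₂, s₂⟩ := isDefectGroup_iff_isSylowIn.1 h₂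
  refine le_defect_of_blockCoeff hM (isPBlock_blockOf _) hD (g := (g₁, g₂)) ?_ ?_ ?_
  · rw [blockCoeff_prod hM]
    intro h
    rcases mem_or_mem_of_mul_mem_locIdeal hM c₁.1 c₂.1 h with h | h
    · exact c₁.2.1 h
    · exact c₂.2.1 h
  · rw [isPGroup_iff_forall_isPElt] at q₁ q₂ ⊢
    rintro ⟨a, b⟩ ⟨ha, hb⟩
    obtain ⟨k, hk⟩ := (q₁ a ha).exists_pow_eq_one
    obtain ⟨l, hl⟩ := (q₂ b hb).exists_pow_eq_one
    refine isPElt_of_pow_eq_one (k := k + l) (Prod.ext ?_ ?_)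
    · simp [pow_add, pow_mul, hk]
    · simp [pow_add, mul_comm (p ^ k), pow_mul, hl]
  · rw [centralizer_singleton_prod]
    exact Subgroup.prod_mono s₁.le s₂.le

theorem pRegularPart_comp {Δ : Type*} [Group Δ] [Finite Δ] (e : Γ ≃* Δ) (θ : Δ → ℂ) :
    pRegularPart p (fun g => θ (e g)) = fun g => pRegularPart p θ (e g) := by
  funext g
  rw [pRegularPart_apply, pRegularPart_apply, MulEquiv.orderOf_eq]

include hM in
/-- second main theorem for a centraliser that is a direct product -/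
theorem step (φ : Γ₁ × Γ₂ →* Γ) (hφ : Function.Injective φ) {u : Γ} (hu : IsPElt p u)
    (hr : φ.range = Subgroup.centralizer ({u} : Set Γ)) {B : Set (IrrCharacter Γ)}
    (hB : IsPBlock M B) {χ : IrrCharacter Γ} (hχ : χ ∈ B) {P : Subgroup Γ}
    (hP : IsDefectGroup p M B P) {θ₁ : IrrCharacter Γ₁} {θ₂ : IrrCharacter Γ₂}
    (h : ip (pRegularPart p (irrProd θ₁ θ₂).1) (fun g => χ.1 (u * φ g)) ≠ 0)
    {D₁ : Subgroup Γ₁} {D₂ : Subgroup Γ₂} (h₁ : IsDefectGroup p M (blockOf M θ₁.1) D₁)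
    (h₂ : IsDefectGroup p M (blockOf M θ₂.1) D₂) :
    ∃ x : Γ, ∀ a ∈ D₁, ∀ b ∈ D₂, x * φ (a, b) * x⁻¹ ∈ P := by
  let e : Γ₁ × Γ₂ ≃* Subgroup.centralizer ({u} : Set Γ) :=
    (MonoidHom.ofInjective hφ).trans (MulEquiv.subgroupCongr hr)
  have he : ∀ g, (e g : Γ) = φ g := fun g => rfl
  let ξ := irrCongr e (irrProd θ₁ θ₂)
  have hb : IsPBlock M (blockOf M ξ.1) := isPBlock_blockOf _
  have hξ : ξ ∈ blockOf M ξ.1 := mem_blockOf_self hM ξ
  have hind : IsInducedBlock M _ (blockOf M ξ.1) B := by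
    by_contra hn
    apply h
    have h1 : pRegularPart p (blockPart (blockOf M ξ.1)
        fun c : Subgroup.centralizer ({u} : Set Γ) => χ.1 (u * c)) = 0 := by
      funext y
      rw [pRegularPart_apply]
      split_ifs with hy
      · rfl
      · exact second_main hM hB hχ hu hb hn y hy
    have h2 : (irrProd θ₁ θ₂).1 = fun g => ξ.1 (e g) := by
      funext g
      simp [ξ]
    have h3 := ip_comp_mulEquiv e (pRegularPart p ξ.1)
      fun c : Subgroup.centralizer ({u} : Set Γ) => χ.1 (u * c)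
    rw [h2, pRegularPart_comp]
    refine h3.trans ?_
    rw [← blockPart_irr_of_mem hξ, ← blockPart_pRegularPart hM hb (irr_isClassFunction ξ),
      ip_blockPart_left_eq_right, ip_pRegularPart_left_eq_right, h1, ip_zero_right]
  obtain ⟨D, hD⟩ := exists_isDefectGroup (p := p) hM
    (isPBlock_blockOf (M := M) (irrProd θ₁ θ₂))
  obtain ⟨y, hy⟩ := prod_le_defect hM h₁ h₂ hD
  have hD' := isDefectGroup_mapSet e hD
  rw [mapSet_blockOf] at hD'
  obtain ⟨D', hD1, hD2⟩ := exists_defect_ge_of_isInducedBlock hM hind hD'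
  obtain ⟨z, hz⟩ := exists_conj_of_isDefectGroup hM hB hD1 hP
  refine ⟨z * φ y, fun a ha b hb => ?_⟩
  have m1 : y * (a, b) * y⁻¹ ∈ D := hy ⟨(a, b), ⟨ha, hb⟩, rfl⟩
  have m2 : φ (y * (a, b) * y⁻¹) ∈ D' := hD2 ⟨e _, ⟨_, m1, rfl⟩, rfl⟩
  rw [← hz]
  refine ⟨_, m2, ?_⟩
  simp [mul_assoc]

theorem ip_prod (θ₁ : Γ₁ → ℂ) (θ₂ : Γ₂ → ℂ) (Φ : Γ₁ × Γ₂ → ℂ) :
    ip (prodFun θ₁ θ₂) Φ = ip θ₂ fun b => ip (fun a => Φ (a, b)) θ₁ := by
  have := Fintype.ofFinite Γ₁
  have := Fintype.ofFinite Γ₂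
  simp only [ip_def, Fintype.sum_prod_type_right, Nat.card_prod, Nat.cast_mul, mul_inv, map_mul,
    map_sum, map_inv₀, map_natCast, prodFun_apply, mul_sum, Complex.conj_conj]
  exact sum_congr rfl fun b _ => sum_congr rfl fun a _ => by ring

theorem pRegularPart_prodFun (θ₁ : Γ₁ → ℂ) (θ₂ : Γ₂ → ℂ) :
    pRegularPart p (prodFun θ₁ θ₂) = prodFun (pRegularPart p θ₁) (pRegularPart p θ₂) := by
  funext g
  simp only [pRegularPart_apply, prodFun_apply, Prod.orderOf, hp.out.dvd_lcm]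
  by_cases h1 : p ∣ orderOf g.1 <;> by_cases h2 : p ∣ orderOf g.2 <;> simp [h1, h2]

theorem exists_right {θ₁ : IrrCharacter Γ₁} {Φ : Γ₁ × Γ₂ → ℂ} (hΦ : IsClassFunction _ Φ)
    {y : Γ₂} (hy : IsPRegular p y) (h : ip (pRegularPart p θ₁.1) (fun a => Φ (a, y)) ≠ 0) :
    ∃ θ₂ : IrrCharacter Γ₂, ip (pRegularPart p (irrProd θ₁ θ₂).1) Φ ≠ 0 := by
  by_contra! hc
  have h1 : IsClassFunction Γ₂ fun b => ip (fun a => Φ (a, b)) (pRegularPart p θ₁.1) := by
    intro b x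
    beta_reduce
    congr 1
    funext a
    have := hΦ (a, b) (1, x)
    simpa using this
  have h2 := (h1.pRegularPart (p := p)).eq_zero_of_ip_eq_zero fun θ₂ => by
    have := hc θ₂
    rw [irrProd_val, pRegularPart_prodFun, ip_prod] at this
    rw [ip_pRegularPart_left_eq_right, ← conj_ip, this, map_zero]
  have h3 := congrFun h2 y
  rw [pRegularPart_apply, if_neg hy, ← conj_ip] at h3
  exact h (by simpa using h3)

omit [Finite Γ] in
theorem card_le_of_section {X V : Type*} [Group X] [Group V] {s : ℕ}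
    (h : SectionalPRankLE p s X) (ι : Γ →* X) (hι : Function.Injective ι) (f : Γ →* V)
    (hf : Function.Surjective f) (hc : ∀ a b : V, a * b = b * a) (he : ∀ a : V, a ^ p = 1) :
    Nat.card V ≤ p ^ s := by
  let e := MonoidHom.ofInjective hι
  let f' : ι.range →* V := f.comp e.symm.toMonoidHom
  have hf' : Function.Surjective f' := hf.comp e.symm.surjective
  let q := QuotientGroup.quotientKerEquivOfSurjective f' hf'
  have h1 := h ι.range f'.ker ⊤ ⟨⟨fun a b => Subtype.ext (q.injective (by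
    simp only [Subgroup.coe_mul, map_mul]; exact hc _ _))⟩⟩ fun a _ => q.injective (by
    rw [map_pow, he, map_one])
  rwa [Subgroup.card_top, Nat.card_congr q.toEquiv] at h1

omit [Finite Γ] in
theorem card_le_of_le {X E : Subgroup Γ} {s : ℕ} (h : SectionalPRankLE p s X) (hE : E ≤ X)
    (hc : ∀ a ∈ E, ∀ b ∈ E, a * b = b * a) (he : ∀ a ∈ E, a ^ p = 1) : Nat.card E ≤ p ^ s :=
  card_le_of_section h (Subgroup.inclusion hE) (Subgroup.inclusion_injective hE) (MonoidHom.id E)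
    Function.surjective_id (fun a b => Subtype.ext (hc a a.2 b b.2))
    fun a => Subtype.ext (he a a.2)

/-- two non-cyclic factors give a section of rank four -/
theorem four_le {X : Type*} [Group X] {s : ℕ} (h : SectionalPRankLE p s X) (q₁ : IsPGroup p Γ₁)
    (q₂ : IsPGroup p Γ₂) (c₁ : ¬ IsCyclic Γ₁) (c₂ : ¬ IsCyclic Γ₂) (ι : Γ₁ × Γ₂ →* X)
    (hι : Function.Injective ι) : 4 ≤ s := by
  have e₁ := isElementaryAbelian_quotient_frattini q₁
  have e₂ := isElementaryAbelian_quotient_frattini q₂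
  have h1 := card_le_of_section h ι hι
    ((QuotientGroup.mk' (frattini Γ₁)).prodMap (QuotientGroup.mk' (frattini Γ₂)))
    ((QuotientGroup.mk'_surjective _).prodMap (QuotientGroup.mk'_surjective _))
    (fun a b => Prod.ext
      (congrArg Subtype.val (e₁.1.is_comm.comm ⟨a.1, trivial⟩ ⟨b.1, trivial⟩))
      (congrArg Subtype.val (e₂.1.is_comm.comm ⟨a.2, trivial⟩ ⟨b.2, trivial⟩)))
    fun a => Prod.ext (e₁.2 a.1 trivial) (e₂.2 a.2 trivial)
  rw [Nat.card_prod, ← Subgroup.index_eq_card, ← Subgroup.index_eq_card] at h1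
  have l₁ := Nat.le_of_dvd (Nat.pos_of_ne_zero (frattini Γ₁).index_ne_zero_of_finite)
    (sq_dvd_index_frattini q₁ c₁)
  have l₂ := Nat.le_of_dvd (Nat.pos_of_ne_zero (frattini Γ₂).index_ne_zero_of_finite)
    (sq_dvd_index_frattini q₂ c₂)
  have h2 := (Nat.mul_le_mul l₁ l₂).trans h1
  rw [← pow_add] at h2
  exact (Nat.pow_le_pow_iff_right hp.out.one_lt).1 h2

end GLH.Df
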