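import Cfsg.Agent.Lib.GL.BaseL
import Cfsg.Agent.Lib.GL.DefA

/-!
# S4536, package G6: matrices (block diagonal embedding, Sylvester, eigenvalues of `p`-parts)
-/

set_option autoImplicit false
set_option linter.unusedSectionVars false

namespace GLH.Df

open Finset Matrix Polynomial Cfsg GT
open scoped Classical

universe u

variable {F : Type u} [Field F] [Fintype F]

theorem cat_inj {a b : ℕ} {A A' : Mat F a} {B B' : Matrix (Fin a) (Fin b) F} {D D' : Mat F b}
    (h : cat A B D = cat A' B' D') : A = A' ∧ B = B' ∧ D = D' := by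
  have := (reindex finSumFinEquiv finSumFinEquiv).injective h
  rw [fromBlocks_inj] at this
  exact ⟨this.1, this.2.1, this.2.2.2⟩

/-- the block diagonal embedding -/
noncomputable def dg (a b : ℕ) : G F a × G F b →* G F (a + b) where
  toFun x := ⟨cat x.1.1 0 x.2.1, cat (x.1⁻¹).1 0 (x.2⁻¹).1,
    by rw [cat_mul]; simp [cat_one], by rw [cat_mul]; simp [cat_one]⟩
  map_one' := Units.ext cat_one
  map_mul' x y := Units.ext (by simp [cat_mul])

theorem dg_val {a b : ℕ} (x : G F a × G F b) : (dg a b x).1 = cat x.1.1 0 x.2.1 := rfl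

theorem dg_injective (a b : ℕ) : Function.Injective (dg (F := F) a b) := fun x y h => by
  obtain ⟨h1, -, h2⟩ := cat_inj (congrArg Units.val h)
  exact Prod.ext (Units.ext h1) (Units.ext h2)

theorem det_dg {a b : ℕ} (x : G F a × G F b) :
    GeneralLinearGroup.det (dg a b x) =
      GeneralLinearGroup.det x.1 * GeneralLinearGroup.det x.2 :=
  Units.ext (det_cat _ _ _)

theorem exists_dg_of_commute {a b : ℕ} {v : G F b} (hv : IsUnit (v.1 - 1)) {g : G F (a + b)}
    (hg : Commute (dg a b (1, v)) g) : ∃ x : G F a × G F b, dg a b x = g ∧ Commute v x.2 := by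
  obtain ⟨X, hX⟩ := (reindex (finSumFinEquiv (m := a) (n := b)) finSumFinEquiv).surjective g.1
  have h1 : (dg a b (1, v)).1 * g.1 = g.1 * (dg a b (1, v)).1 := congrArg Units.val hg
  rw [dg_val, ← hX, cat, ← fromBlocks_toBlocks X] at h1
  simp only [reindex_apply, submatrix_mul_equiv] at h1
  rw [← reindex_apply, ← reindex_apply] at h1
  have h2 := (reindex (finSumFinEquiv (m := a) (n := b)) finSumFinEquiv).injective h1
  simp only [fromBlocks_multiply, fromBlocks_inj, Units.val_one, Matrix.one_mul, Matrix.zero_mul,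
    Matrix.mul_one, Matrix.mul_zero, add_zero, zero_add] at h2
  obtain ⟨-, h3, h4, h5⟩ := h2
  obtain ⟨w, hw⟩ := hv
  have e1 : X.toBlocks₁₂ = 0 := by
    have : X.toBlocks₁₂ * w.1 = 0 := by rw [hw, Matrix.mul_sub, ← h3, Matrix.mul_one, sub_self]
    have h6 := congrArg (· * (w⁻¹).1) this
    simpa [Matrix.mul_assoc] using h6
  have e2 : X.toBlocks₂₁ = 0 := by
    have : w.1 * X.toBlocks₂₁ = 0 := by rw [hw, Matrix.sub_mul, h4, Matrix.one_mul, sub_self]
    have h6 := congrArg ((w⁻¹).1 * ·) this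
    simpa [← Matrix.mul_assoc] using h6
  have e3 : g.1 = cat X.toBlocks₁₁ 0 X.toBlocks₂₂ := by
    rw [← hX, cat, ← e1, ← e2, fromBlocks_toBlocks]
  have h7 := g.isUnit
  rw [e3, isUnit_cat] at h7
  exact ⟨(h7.1.unit, h7.2.unit), Units.ext e3.symm, Units.ext h5⟩

theorem commute_dg {a b : ℕ} {v : G F b} (x : G F a × G F b) (h : Commute v x.2) :
    Commute (dg a b (1, v)) (dg a b x) :=
  Commute.map (Prod.ext (by simp) h.eq : Commute ((1, v) : G F a × G F b) x) _

/-- the embedding of `G_a × C(v)` -/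
noncomputable def dgC (a : ℕ) {b : ℕ} (v : G F b) :
    G F a × Subgroup.centralizer ({v} : Set (G F b)) →* G F (a + b) :=
  (dg a b).comp ((MonoidHom.id _).prodMap (Subgroup.subtype _))

theorem dgC_apply (a : ℕ) {b : ℕ} (v : G F b)
    (x : G F a × Subgroup.centralizer ({v} : Set (G F b))) : dgC a v x = dg a b (x.1, x.2.1) := rfl

theorem dgC_injective (a : ℕ) {b : ℕ} (v : G F b) : Function.Injective (dgC a v) :=
  (dg_injective a b).comp (Function.injective_id.prodMap Subtype.val_injective)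

theorem range_dgC (a : ℕ) {b : ℕ} {v : G F b} (hv : IsUnit (v.1 - 1)) :
    (dgC a v).range = Subgroup.centralizer ({dg a b (1, v)} : Set (G F (a + b))) := by
  ext g
  rw [Subgroup.mem_centralizer_singleton_iff]
  constructor
  · rintro ⟨x, rfl⟩
    exact (commute_dg (x.1, x.2.1)
      (Subgroup.mem_centralizer_singleton_iff.1 x.2.2 : Commute _ _).symm).symm
  · intro h
    obtain ⟨x, rfl, hx⟩ := exists_dg_of_commute hv (Commute.symm h)
    exact ⟨(x.1, ⟨x.2, Subgroup.mem_centralizer_singleton_iff.2 hx.symm⟩), rfl⟩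

theorem range_dg (a : ℕ) {b : ℕ} {v : G F b} (hv : IsUnit (v.1 - 1))
    (hc : v ∈ Subgroup.center (G F b)) :
    (dg a b).range = Subgroup.centralizer ({dg a b (1, v)} : Set (G F (a + b))) := by
  ext g
  rw [Subgroup.mem_centralizer_singleton_iff]
  constructor
  · rintro ⟨x, rfl⟩
    exact (commute_dg x (Subgroup.mem_center_iff.1 hc x.2).symm).symm
  · intro h
    obtain ⟨x, rfl, -⟩ := exists_dg_of_commute hv (Commute.symm h)
    exact ⟨x, rfl⟩

variable {p : ℕ} [hp : Fact p.Prime]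

theorem exists_common_pow {Γ Δ : Type*} [Group Γ] [Finite Γ] [Group Δ] [Finite Δ] (p : ℕ)
    [Fact p.Prime] (g : Γ) (h : Δ) : ∃ e : ℕ, g ^ e = pPart p g ∧ h ^ e = pPart p h := by
  obtain ⟨e, he⟩ := exists_pPart_eq_pow p (g, h)
  have h1 := map_pPart (p := p) (MonoidHom.fst Γ Δ) (g, h)
  have h2 := map_pPart (p := p) (MonoidHom.snd Γ Δ) (g, h)
  rw [he] at h1 h2
  exact ⟨e, h1, h2⟩

/-- Sylvester -/
theorem cop_eq (y : H (1 : Fˣ →* ℂˣ)) {a b : ℕ} {D : G F a} (hD : IsPRegular p D) {A : G F b}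
    (hA : IsUnit ((pPart p A).1 - 1)) : cop y.1 D.1 A.1 = y.1 (a + b) (cat D.1 0 A.1) := by
  obtain ⟨e, e1, e2⟩ := exists_common_pow p D A
  rw [hD.pPart_eq] at e1
  let L : Matrix (Fin a) (Fin b) F →+ Matrix (Fin a) (Fin b) F :=
    { toFun := fun Y => D.1 * Y - Y * A.1
      map_zero' := by simp
      map_add' := fun Y Z => by simp only [Matrix.mul_add, Matrix.add_mul]; abel }
  have hL : Function.Injective L := by
    rw [injective_iff_map_eq_zero]
    intro Y hY
    have h1 : D.1 * Y = Y * A.1 := sub_eq_zero.1 hY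
    have h2 : ∀ k : ℕ, (D ^ k).1 * Y = Y * (A ^ k).1 := by
      intro k
      induction k with
      | zero => simp
      | succ k ih =>
        rw [pow_succ, pow_succ, Units.val_mul, Units.val_mul, Matrix.mul_assoc, h1,
          ← Matrix.mul_assoc, ih, Matrix.mul_assoc]
    have h3 := h2 e
    rw [e1, e2] at h3
    obtain ⟨w, hw⟩ := hA
    have : Y * w.1 = 0 := by rw [hw, Matrix.mul_sub, ← h3]; simp
    have h6 := congrArg (· * (w⁻¹).1) this
    simpa [Matrix.mul_assoc] using h6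
  have h : ∀ B, y.1 (a + b) (cat D.1 B A.1) = y.1 (a + b) (cat D.1 0 A.1) := by
    intro B
    obtain ⟨Y, rfl⟩ := Finite.surjective_of_injective hL B
    let h : G F (a + b) := ⟨cat 1 Y 1, cat 1 (-Y) 1, by rw [cat_mul]; simp [cat_one],
      by rw [cat_mul]; simp [cat_one]⟩
    rw [y.2.2 _ h (cat D.1 0 A.1)]
    have : cnj h (cat D.1 0 A.1) = cat D.1 (L Y) A.1 := by
      change cat 1 (-Y) 1 * cat D.1 0 A.1 * cat 1 Y 1 = cat D.1 (D.1 * Y - Y * A.1) A.1
      rw [cat_mul, cat_mul]
      simp [sub_eq_add_neg]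
    rw [this]
    simp [dt]
  rw [cop, sum_congr rfl fun B _ => h B, sum_const, card_univ, nsmul_eq_mul,
    inv_mul_cancel_left₀ (Nat.cast_ne_zero.2 Fintype.card_ne_zero)]

theorem eq_one_of_nilpotent (hF : p ≠ ringChar F) {k : ℕ} {t : G F k} (ht : IsPElt p t)
    (h : IsNilpotent (t.1 - 1)) : t = 1 := by
  rcases subsingleton_or_nontrivial (Mat F k) with hs | hs
  · exact Units.ext (Subsingleton.elim _ _)
  have : Fact (ringChar F).Prime := ⟨CharP.prime_ringChar F⟩
  have : CharP (Mat F k) (ringChar F) :=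
    charP_of_injective_algebraMap (algebraMap F (Mat F k)).injective _
  obtain ⟨n, hn⟩ := h
  have h1 : (t.1 - 1) ^ ringChar F ^ n = 0 :=
    pow_eq_zero_of_le (Nat.lt_pow_self (CharP.prime_ringChar F).one_lt).le hn
  rw [sub_pow_char_pow_of_commute _ _ (Commute.one_right _), one_pow, sub_eq_zero] at h1
  have h2 : IsPElt (ringChar F) t := isPElt_of_pow_eq_one (k := n) (Units.ext h1)
  exact ht.eq_one_of_isPRegular (h2.isPRegular_of_ne hF)

variable {K : Type} [Field K] [Fintype K] [Algebra F K]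

theorem nilpotent_aeval {k : ℕ} {A : Mat F k} {x : Kˣ} (h : A.charpoly = mp F k x) {f : F[X]}
    (hf : aeval (x : K) f = 0) : IsNilpotent (aeval A f) := by
  obtain ⟨g, hg⟩ := pow_dvd_pow_of_dvd (minpoly.dvd F (x : K) hf)
    (k / (minpoly F (x : K)).natDegree)
  refine ⟨k / (minpoly F (x : K)).natDegree, ?_⟩
  rw [← map_pow, hg, ← mp, ← h, map_mul, aeval_self_charpoly, zero_mul]

theorem isUnit_aeval {k : ℕ} {A : Mat F k} {x : Kˣ} (h : A.charpoly = mp F k x) {f : F[X]}
    (hf : aeval (x : K) f ≠ 0) : IsUnit (aeval A f) := by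
  have hi : Irreducible (minpoly F (x : K)) := minpoly.irreducible (Algebra.IsIntegral.isIntegral _)
  have h1 : IsCoprime (minpoly F (x : K)) f := hi.coprime_iff_not_dvd.2 fun ⟨g, hg⟩ => hf (by
    rw [hg, map_mul, minpoly.aeval, zero_mul])
  obtain ⟨a, b, hab⟩ := h1.pow_left (m := k / (minpoly F (x : K)).natDegree)
  have h2 := congrArg (aeval A) hab
  rw [← mp, ← h, map_add, map_mul, aeval_self_charpoly, mul_zero, zero_add, map_mul, map_one] at h2
  exact IsUnit.of_mul_eq_one _ (mul_eq_one_comm.1 h2)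

theorem isUnit_pPart_sub {k : ℕ} {A : G F k} {x : Kˣ} (h : A.1.charpoly = mp F k x)
    (hx : pPart p x ≠ 1) : IsUnit ((pPart p A).1 - 1) := by
  obtain ⟨e, e1, e2⟩ := exists_common_pow p A x
  have := isUnit_aeval h (f := X ^ e - 1) (by
    rw [map_sub, map_pow, aeval_X, map_one, sub_ne_zero, ← Units.val_pow_eq_pow_val, e2]
    exact fun h => hx (Units.ext h))
  rwa [map_sub, map_pow, aeval_X, map_one, ← Units.val_pow_eq_pow_val, e1] at this

/-- scalar matrices -/
noncomputable def sc (k : ℕ) : Fˣ →* G F k := Units.map (algebraMap F (Mat F k) : F →* Mat F k)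

theorem sc_val (k : ℕ) (c : Fˣ) : (sc k c).1 = algebraMap F (Mat F k) c := rfl

theorem sc_mem_center (k : ℕ) (c : Fˣ) : sc k c ∈ Subgroup.center (G F k) :=
  Subgroup.mem_center_iff.2 fun g => Units.ext (Algebra.commutes (c : F) g.1).symm

theorem det_sc (k : ℕ) (c : Fˣ) : GeneralLinearGroup.det (sc k c) = c ^ k :=
  Units.ext (by simp [sc_val, Algebra.algebraMap_eq_smul_one])

theorem dg_sc (a b : ℕ) (c : Fˣ) : dg a b (sc a c, sc b c) = sc (a + b) c := by
  refine Units.ext ?_
  rw [dg_val, sc_val, sc_val, sc_val, Algebra.algebraMap_eq_smul_one,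
    Algebra.algebraMap_eq_smul_one, Algebra.algebraMap_eq_smul_one, ← cat_one, cat, cat,
    reindex_apply, reindex_apply, ← smul_zero (c : F), ← smul_zero (A := Matrix (Fin b) (Fin a) F) (c : F),
    ← fromBlocks_smul, smul_zero, smul_zero]
  rfl

theorem isUnit_sc_sub {k : ℕ} {c : Fˣ} (hc : c ≠ 1) : IsUnit ((sc k c).1 - 1) := by
  rw [sc_val, ← map_one (algebraMap F (Mat F k)), ← map_sub]
  exact (IsUnit.mk0 _ (sub_ne_zero.2 fun h => hc (Units.ext h))).map _

theorem pPart_pow_eq_sc (hF : p ≠ ringChar F) {k : ℕ} {A : G F k} {x : Kˣ}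
    (h : A.1.charpoly = mp F k x) {j : ℕ} {c : Fˣ} (hc : IsPElt p c)
    (hx : pPart p x ^ j = emb K c) : pPart p A ^ j = sc k c := by
  obtain ⟨e, e1, e2⟩ := exists_common_pow p A x
  have h1 := nilpotent_aeval h (f := C (c⁻¹ : Fˣ).1 * (X ^ e) ^ j - 1) (by
    rw [map_sub, map_mul, map_pow, map_pow, aeval_X, map_one, ← Units.val_pow_eq_pow_val, e2,
      ← Units.val_pow_eq_pow_val, hx, aeval_C, sub_eq_zero]
    change algebraMap F K _ * algebraMap F K _ = 1
    rw [← map_mul]
    simp)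
  rw [map_sub, map_mul, map_pow, map_pow, aeval_X, map_one, ← Units.val_pow_eq_pow_val, e1,
    ← Units.val_pow_eq_pow_val, aeval_C, ← sc_val, ← Units.val_mul] at h1
  have h2 := eq_one_of_nilpotent hF (((hc.inv).map (sc k)).mul_of_commute
    ((isPElt_pPart p A).pow j) (Subgroup.mem_center_iff.1 (sc_mem_center k _) _).symm) h1
  rw [map_inv, inv_mul_eq_one] at h2
  exact h2.symm

end GLH.Df
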