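import Cfsg.Agent.Lib.GL.HaB
import Cfsg.Agent.Lib.GL.DefB
import Mathlib.Algebra.Module.PID
import Mathlib.Algebra.Polynomial.Module.FiniteDimensional
import Mathlib.FieldTheory.Finite.GaloisField

/-!
# Primitives are determined by their values on the indecomposable classes (package G2b)
-/

set_option autoImplicit false
set_option linter.unusedSectionVars false

namespace GLH.Cl

open Finset Matrix Module Cfsg Mk Ha Polynomial
open scoped Classical

universe u

variable {F : Type u} [Field F] [Fintype F] {a b n : ℕ}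

theorem finrank_prod_sub {V W : Type*} [AddCommGroup V] [Module F V] [AddCommGroup W] [Module F W]
    [FiniteDimensional F V] [FiniteDimensional F W] (K : Submodule F (V × W)) :
    finrank F K = finrank F (K.map (LinearMap.fst F V W)) +
      finrank F (K.comap (LinearMap.inr F V W)) := by
  have h := ((LinearMap.fst F V W).domRestrict K).finrank_range_add_finrank_ker
  rw [LinearMap.range_domRestrict, LinearMap.ker_domRestrict, ← Submodule.finrank_map_subtype_eq,
    Submodule.map_comap_subtype, ← LinearMap.range_inr, inf_comm, ← Submodule.map_comap_eq,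
    ← (Submodule.equivMapOfInjective _ LinearMap.inr_injective _).finrank_eq] at h
  exact h.symm

/-- the commutant -/
def Cm (M : Mat F n) : Submodule F (Mat F n) where
  carrier := {Y | M * Y = Y * M}
  add_mem' := fun h h' => by
    rw [Set.mem_ofPred_eq] at h h' ⊢; rw [mul_add, add_mul, h, h']
  zero_mem' := by simp
  smul_mem' := fun c Y h => by
    rw [Set.mem_ofPred_eq] at h ⊢; rw [Matrix.mul_smul, Matrix.smul_mul, h]

theorem finrank_Cm_le (h : G F n) (M : Mat F n) : finrank F (Cm M) ≤ finrank F (Cm (cnj h M)) := by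
  let L : Mat F n →ₗ[F] Mat F n := (LinearMap.mulLeft F h.1).comp (LinearMap.mulRight F (h⁻¹).1)
  refine (Submodule.finrank_mono fun Y hY => ?_).trans (Submodule.finrank_map_le L _)
  refine ⟨cnj h Y, ?_, by simp [L, cnj, Matrix.mul_assoc]⟩
  have hY : M * Y = Y * M := hY
  change cnj h M * cnj h Y = cnj h Y * cnj h M
  simp only [cnj, Matrix.mul_assoc, Units.mul_inv_cancel_left]
  rw [← Matrix.mul_assoc M, hY, Matrix.mul_assoc]

/-- block matrices, linearly -/
noncomputable def rbL : (Rm F b a × Mat F b × Mat F a × Rm F a b) ≃ₗ[F] Mat F (a + b) where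
  toFun z := rb z.2.2.1 z.2.2.2 z.1 z.2.1
  invFun M := ((rbE.symm M).2.2.1, (rbE.symm M).2.2.2, (rbE.symm M).1, (rbE.symm M).2.1)
  map_add' x y := by simp only [rb, Prod.fst_add, Prod.snd_add, ← fromBlocks_add]; rfl
  map_smul' c x := by simp only [rb, Prod.smul_fst, Prod.smul_snd, ← fromBlocks_smul]; rfl
  left_inv z := by simp [rbE, rb]
  right_inv M := rbE.apply_symm_apply M

/-- the commutant of a block triangular matrix -/
noncomputable def KB (A : Mat F a) (B : Rm F a b) (D : Mat F b) :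
    Submodule F (Rm F b a × Mat F b × Mat F a × Rm F a b) := (Cm (cat A B D)).comap rbL.toLinearMap

theorem mem_KB {A : Mat F a} {B : Rm F a b} {D : Mat F b} {R : Rm F b a} {S : Mat F b} {P : Mat F a}
    {Q : Rm F a b} : (R, S, P, Q) ∈ KB A B D ↔ A * P + B * R = P * A ∧
      A * Q + B * S = P * B + Q * D ∧ D * R = R * A ∧ D * S = R * B + S * D := by
  change cat A B D * rb P Q R S = rb P Q R S * cat A B D ↔ _
  simp only [cat, rb, ← coe_reindexAlgEquiv F F, ← map_mul, EmbeddingLike.apply_eq_iff_eq]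
  simp [fromBlocks_multiply]

theorem finrank_KB (A : Mat F a) (B : Rm F a b) (D : Mat F b) :
    finrank F (KB A B D) = finrank F (Cm (cat A B D)) := by
  rw [KB, Submodule.comap_equiv_eq_map_symm, LinearEquiv.finrank_map_eq]

theorem finrank_Cm_lt {A : Mat F a} {B : Rm F a b} {D : Mat F b} 
    (h : ∀ Q : Rm F a b, B ≠ A * Q - Q * D) :
    finrank F (Cm (cat A B D)) < finrank F (Cm (cat A 0 D)) := by
  rw [← finrank_KB, ← finrank_KB, finrank_prod_sub (KB A B D), finrank_prod_sub (KB A 0 D),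
    finrank_prod_sub ((KB A B D).comap _), finrank_prod_sub ((KB A 0 D).comap _),
    finrank_prod_sub (((KB A B D).comap _).comap _), finrank_prod_sub (((KB A 0 D).comap _).comap _)]
  refine add_lt_add_of_le_of_lt (Submodule.finrank_mono ?_) (add_lt_add_of_le_of_lt
    (Submodule.finrank_mono ?_) (add_lt_add_of_lt_of_le (Submodule.finrank_lt_finrank_of_lt
      (lt_of_le_of_ne ?_ fun e => ?_)) (Submodule.finrank_mono ?_)))
  · rintro _ ⟨⟨R, S, P, Q⟩, hz, rfl⟩
    exact ⟨(R, 0, 0, 0), mem_KB.2 (by simpa using (mem_KB.1 hz).2.2.1), rfl⟩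
  · rintro _ ⟨⟨S, P, Q⟩, hz, rfl⟩
    exact ⟨(S, 0, 0), mem_KB.2 (by simpa using (mem_KB.1 hz).2.2.2), rfl⟩
  · rintro _ ⟨⟨P, Q⟩, hz, rfl⟩
    exact ⟨(P, 0), mem_KB.2 (by simpa using (mem_KB.1 hz).1), rfl⟩
  · obtain ⟨⟨P, Q⟩, hz, rfl : P = 1⟩ := e.ge ⟨(1, 0), mem_KB.2 (by simp), rfl⟩
    exact h Q (eq_sub_of_add_eq (by simpa using (mem_KB.1 hz).2.1.symm))
  · exact fun Q hz => mem_KB.2 (by simpa using mem_KB.1 hz)

/-- decomposable matrices -/
def Dec (M : Mat F n) : Prop := ∃ a b, 0 < a ∧ 0 < b ∧ ∃ (e : a + b = n) (A : Mat F a)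
  (D : Mat F b) (h : G F n), cnj h (e ▸ cat A 0 D) = M

theorem exists_cnj {V : Type*} [AddCommGroup V] [Module F V] (β : Basis (Fin n) F V)
    (T : V →ₗ[F] V) {M : Mat F n} (e : (Fin n → F) ≃ₗ[F] V) (he : ∀ v, e (M *ᵥ v) = T (e v)) :
    ∃ h : G F n, cnj h (LinearMap.toMatrix β β T) = M := by
  let g := e.trans β.equivFun
  let x : G F n := ⟨LinearMap.toMatrix' g.toLinearMap, LinearMap.toMatrix' g.symm.toLinearMap,
    by rw [← LinearMap.toMatrix'_comp]; simp, by rw [← LinearMap.toMatrix'_comp]; simp⟩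
  have hx : ∀ v, x.1 *ᵥ v = β.repr (e v) := fun v => by
    rw [← toLin'_apply, toLin'_toMatrix']; rfl
  refine ⟨x, (eq_cnj (toLin'.injective (LinearMap.ext fun v => ?_))).symm⟩
  simp only [toLin'_apply, ← mulVec_mulVec, hx, he, LinearMap.toMatrix_mulVec_repr]

theorem dec_of_prod {V W : Type*} [AddCommGroup V] [Module F V] [AddCommGroup W] [Module F W]
    [Nontrivial V] [Nontrivial W] (T : V →ₗ[F] V) (T' : W →ₗ[F] W) {M : Mat F n}
    (e : (Fin n → F) ≃ₗ[F] V × W) (he : ∀ v, e (M *ᵥ v) = T.prodMap T' (e v)) : Dec M := by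
  have := e.finiteDimensional
  have : FiniteDimensional F V := .of_surjective (LinearMap.fst F V W) LinearMap.fst_surjective
  have : FiniteDimensional F W := .of_surjective (LinearMap.snd F V W) LinearMap.snd_surjective
  obtain rfl : n = finrank F V + finrank F W := by simpa using e.finrank_eq
  obtain ⟨h, hh⟩ := exists_cnj (((finBasis F V).prod (finBasis F W)).reindex finSumFinEquiv) _ e he
  refine ⟨_, _, finrank_pos, finrank_pos, rfl, LinearMap.toMatrix (finBasis F V) (finBasis F V) T,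
    LinearMap.toMatrix (finBasis F W) (finBasis F W) T', h, ?_⟩
  rw [← hh, cat, ← LinearMap.toMatrix_prodMap]
  congr 1
  ext i j
  simp [LinearMap.toMatrix_apply]

/-- the power basis -/
noncomputable def pbs {g : F[X]} (h : g.Monic) : Basis (Fin g.natDegree) F (AdjoinRoot g) :=
  (AdjoinRoot.powerBasis' h).basis

/-- a cyclic matrix with given characteristic polynomial -/
noncomputable def Jm (n : ℕ) (g : F[X]) : Mat F n :=
  if h : g.Monic ∧ g.natDegree = n then Algebra.leftMulMatrix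
    ((pbs h.1).reindex (finCongr h.2)) (AdjoinRoot.root g) else 0

theorem Jm_eq {g : F[X]} (h : g.Monic) : Jm g.natDegree g =
    Algebra.leftMulMatrix (pbs h) (AdjoinRoot.root g) := by
  rw [Jm, dif_pos ⟨h, rfl⟩]
  rfl

theorem charpoly_Jm {g : F[X]} (h : g.Monic) (hn : g.natDegree = n) : (Jm n g).charpoly = g := by
  subst hn
  rw [Jm_eq h]
  refine (charpoly_leftMulMatrix (AdjoinRoot.powerBasis' h)).trans ?_
  simpa [h.leadingCoeff] using AdjoinRoot.minpoly_root h.ne_zero

theorem exists_cnj_Jm {g : F[X]} (h : g.Monic) {M : Mat F n}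
    (e : AEval' (toLin' M) ≃ₗ[F[X]] F[X] ⧸ Ideal.span {g}) :
    g.natDegree = n ∧ ∃ h, cnj h (Jm n g) = M := by
  let e' := (AEval'.of (toLin' M)).trans (e.restrictScalars F)
  obtain rfl : n = g.natDegree := by
    simpa [finrank_quotient_span_eq_natDegree] using e'.finrank_eq
  refine ⟨rfl, ?_⟩
  rw [Jm_eq h]
  refine exists_cnj (pbs h) (Algebra.lmul F _ (AdjoinRoot.root g)) e' fun v => ?_
  change e (AEval'.of (toLin' M) (toLin' M v)) = _
  rw [← AEval'.X_smul_of, map_smul]
  rfl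

theorem dec_or_cyc (hn : 0 < n) (M : Mat F n) : Dec M ∨ ∃ (f : F[X]) (k : ℕ), f.Monic ∧
    Irreducible f ∧ k * f.natDegree = n ∧ ∃ h, cnj h (Jm n (f ^ k)) = M := by
  obtain ⟨ι, _, p, hp, k, ⟨e₀⟩⟩ := Module.equiv_directSum_of_isTorsion
    (Module.AEval.isTorsion_of_finiteDimensional F (Fin n → F) (toLin' M))
  let e := e₀.trans (DirectSum.linearEquivFunOnFintype _ _ _)
  have : Nonempty (Fin n) := ⟨⟨0, hn⟩⟩
  have : Nontrivial (AEval' (toLin' M)) := (AEval'.of (toLin' M)).injective.nontrivial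
  have := e.injective.nontrivial
  obtain ⟨i, hi⟩ : ∃ i, Nontrivial (F[X] ⧸ F[X] ∙ p i ^ k i) := by
    by_contra! h
    exact not_subsingleton (∀ i, F[X] ⧸ F[X] ∙ p i ^ k i) inferInstance
  let φ := (LinearMap.proj i).comp e.toLinearMap
  let ψ := e.symm.toLinearMap.comp (LinearMap.single F[X] _ i)
  have h : ∀ q, φ (ψ q) = q := fun q => by simp [φ, ψ]
  by_cases h0 : LinearMap.ker φ = ⊥
  · let e' := (LinearEquiv.ofBijective φ ⟨LinearMap.ker_eq_bot.1 h0, fun q => ⟨_, h q⟩⟩).trans
      (Submodule.quotEquivOfEq _ (Ideal.span {normalize (p i) ^ k i})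
        (Ideal.span_singleton_eq_span_singleton.2 (associated_normalize (p i)).pow_pow))
    have hm := monic_normalize (hp i).ne_zero
    obtain ⟨h1, h2⟩ := exists_cnj_Jm (hm.pow _) e'
    exact .inr ⟨_, k i, hm, (associated_normalize (p i)).irreducible (hp i),
      by rw [← h1, hm.natDegree_pow], h2⟩
  have := Submodule.nontrivial_iff_ne_bot.2 h0
  let e' : AEval' (toLin' M) ≃ₗ[F[X]] (F[X] ⧸ F[X] ∙ p i ^ k i) × LinearMap.ker φ :=
    { toFun := fun v => (φ v, ⟨v - ψ (φ v), by simp [h]⟩)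
      invFun := fun z => ψ z.1 + z.2
      map_add' := fun v w => Prod.ext (map_add _ _ _) (Subtype.ext (by simp; abel))
      map_smul' := fun c v => Prod.ext (map_smul _ _ _) (Subtype.ext (by simp [smul_sub]))
      left_inv := fun v => by simp
      right_inv := fun z => by
        have := LinearMap.mem_ker.1 z.2.2
        exact Prod.ext (by simp [h, this]) (Subtype.ext (by simp [h, this])) }
  refine .inl (dec_of_prod (V := F[X] ⧸ F[X] ∙ p i ^ k i) (W := LinearMap.ker φ)
    (Algebra.lsmul F F _ (X : F[X])) (Algebra.lsmul F F _ (X : F[X]))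
    ((AEval'.of (toLin' M)).trans (e'.restrictScalars F)) fun v => ?_)
  change e' (AEval'.of (toLin' M) (toLin' M v)) = _
  rw [← AEval'.X_smul_of, map_smul]
  rfl

theorem det_aeval_pow {d k : ℕ} {J : Mat F n} {J₀ : Mat F d} (h : J.charpoly = J₀.charpoly ^ k)
    (u : F[X]) : (aeval J u).det = (aeval J₀ u).det ^ k := by
  have hn : n = d * k := by
    simpa [(charpoly_monic J₀).natDegree_pow, mul_comm] using congrArg natDegree h
  let L := AlgebraicClosure F
  have key : ∀ (m : ℕ) (A : Mat F m), algebraMap F L (aeval A u).det =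
      (aeval (A.map (algebraMap F L)) (u.map (algebraMap F L))).det := fun m A => by
    rw [aeval_map_algebraMap, RingHom.map_det]
    exact congrArg det (aeval_algHom_apply (Algebra.ofId F L).mapMatrix A u).symm
  apply (algebraMap F L).injective
  rw [map_pow, key, key]
  have h' : (J.map (algebraMap F L)).charpoly = (J₀.map (algebraMap F L)).charpoly ^ k := by
    rw [charpoly_map, charpoly_map, h, Polynomial.map_pow]
  generalize J.map (algebraMap F L) = A, J₀.map (algebraMap F L) = A₀ at h'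
  refine Submonoid.closure_induction (fun v hv => ?_) (by simp)
    (fun v w _ _ hv hw => by simp only [map_mul, det_mul, hv, hw, mul_pow])
    (IsAlgClosed.splits (u.map (algebraMap F L)))
  obtain ⟨c, rfl⟩ | ⟨c, rfl⟩ := hv
  · simp [Algebra.algebraMap_eq_smul_one, hn, pow_mul]
  have k2 : ∀ (m : ℕ) (B : Matrix (Fin m) (Fin m) L),
      (aeval B (X + C c)).det = (-1) ^ m * B.charpoly.eval (-c) := fun m B => by
    rw [eval_charpoly, show (-1 : L) ^ m = (-1) ^ Fintype.card (Fin m) by simp, ← det_smul]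
    congr 1
    rw [neg_one_smul, neg_sub, map_neg, sub_neg_eq_add, map_add, aeval_X, aeval_C]
    rfl
  rw [k2, k2, h', eval_pow, mul_pow, hn, pow_mul]

variable {μ : Fˣ →* ℂˣ}

theorem prim_eq_zero {y : H μ} (hy : y ∈ Pr μ n) (h : ∀ M, ¬ Dec M → y.1 n M = 0) : y = 0 := by
  have key : ∀ m, ∀ M : Mat F n, finrank F (Cm M) = m → y.1 n M = 0 := by
    intro m
    induction m using Nat.strong_induction_on with
    | _ m ih =>
    intro M hm
    by_cases hM : Dec M
    swap
    · exact h M hM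
    obtain ⟨a, b, ha, hb, rfl, A, D, g, rfl⟩ := hM
    have h1 := (mul_eq_zero.1 (hy.2 a b ha hb A D)).resolve_left (inv_ne_zero (card_Rm_ne a b))
    have h2 : ∀ B, y.1 _ (cat A B D) =
        if ∃ Q : Rm F a b, B = A * Q - Q * D then y.1 _ (cat A 0 D) else 0 := fun B => by
      split_ifs with hB
      · obtain ⟨Q, rfl⟩ := hB
        let x : G F (a + b) := ⟨cat 1 Q 1, cat 1 (-Q) 1, by simp [cat_mul, cat_one],
          by simp [cat_mul, cat_one]⟩
        have e : cat A (A * Q - Q * D) D = cnj x (cat A 0 D) := eq_cnj (by simp [x, cat_mul])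
        have e' : dt μ x = 1 := by
          rw [dt, show GeneralLinearGroup.det x = 1 from Units.ext (by simp [x, det_cat])]; simp
        rw [y.2.2 _ x (cat A 0 D), e, e', one_mul]
      · exact ih _ (hm ▸ (finrank_Cm_lt fun Q e => hB ⟨Q, e⟩).trans_le (finrank_Cm_le g _)) _ rfl
    rw [sum_congr rfl fun B _ => h2 B, ← sum_filter, sum_const, nsmul_eq_mul, mul_eq_zero,
      Nat.cast_eq_zero, card_eq_zero] at h1
    have h3 := h1.resolve_left (ne_empty_of_mem (mem_filter.2 ⟨mem_univ 0, 0, by simp⟩))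
    rw [y.2.2 _ g] at h3
    exact (mul_eq_zero.1 h3).resolve_left (Units.ne_zero _)
  refine H.ext fun k M => ?_
  by_cases hk : k = n
  · subst hk; exact key _ M rfl
  · exact hy.1 k hk M

theorem val_Jm_eq_zero (y : H μ) {f : F[X]} (hf : f.Monic) (hi : Irreducible f) {k : ℕ}
    (hn : k * f.natDegree = n) (hk : ¬ orderOf μ ∣ k) : y.1 n (Jm n (f ^ k)) = 0 := by
  by_contra h0
  refine hk (orderOf_dvd_of_pow_eq_one (MonoidHom.ext fun c => Units.ext ?_))
  have := Fact.mk hi
  have := (AdjoinRoot.powerBasis' hf).finite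
  have := Module.finite_of_finite F (M := AdjoinRoot f)
  obtain ⟨z, hz⟩ := FiniteField.norm_surjective F (AdjoinRoot f) c
  obtain ⟨u, rfl⟩ := AdjoinRoot.mk_surjective z
  have h1 : (aeval (Jm n (f ^ k)) u).det = c ^ k := by
    rw [det_aeval_pow (J₀ := Jm _ f) (k := k), Jm_eq hf, aeval_algHom_apply,
      ← Algebra.norm_eq_matrix_det, AdjoinRoot.aeval_eq, hz]
    rw [charpoly_Jm hf rfl, charpoly_Jm (hf.pow k) (by rw [hf.natDegree_pow, hn])]
  obtain ⟨g, hg⟩ : IsUnit (aeval (Jm n (f ^ k)) u) := by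
    rw [isUnit_iff_isUnit_det, h1]; exact c.isUnit.pow k
  have h2 := y.2.2 n g (Jm n (f ^ k))
  rw [← eq_cnj (M' := Jm n (f ^ k)) (by
    rw [hg]; simpa using congrArg (aeval (Jm n (f ^ k))) (mul_comm u X)), dt,
    show GeneralLinearGroup.det g = c ^ k from Units.ext (by simp [hg, h1])] at h2
  simpa using (mul_eq_right₀ h0).1 h2.symm

variable {K : Type} [Field K] [Fintype K] [Algebra F K] [hO : Orb.{u}]

theorem mp_rep (x : Kˣ) : mp F n (Th.mk (1 : Fˣ) x).rep = mp F n x := by
  rw [mp, mp, (hO.minpoly_eq _ _).2 (Th.mk_rep _)]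

theorem charpoly_Jm_mp {x : Kˣ} (hx : x ∈ XX F K n) : (Jm n (mp F n x)).charpoly = mp F n x := by
  have hm := minpoly.monic (Algebra.IsIntegral.isIntegral (R := F) (x : K))
  refine charpoly_Jm (hm.pow _) ?_
  rw [mp, hm.natDegree_pow, Nat.div_mul_cancel (hO.deg_one (F := F) x ▸ (hO.mem_XX x n).1 hx)]

theorem vanish' (C : Ctx F K) (hn : 0 < n) (hN : n ≤ C.N) {y : H μ} (hy : y ∈ Pr μ n)
    (h : ∀ θ : Th K (1 : Fˣ), orderOf μ * deg θ ∣ n → y.1 n (Jm n (mp F n θ.rep)) = 0) :
    y = 0 := by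
  refine prim_eq_zero hy fun M hM => ?_
  obtain ⟨f, k, hf, hi, hk, g, rfl⟩ := (dec_or_cyc hn M).resolve_left hM
  suffices y.1 n (Jm n (f ^ k)) = 0 by
    rw [y.2.2 n g] at this
    exact (mul_eq_zero.1 this).resolve_left (Units.ne_zero _)
  by_cases h1 : orderOf μ ∣ k
  swap
  · exact val_Jm_eq_zero y hf hi hk h1
  have hk0 : 0 < k := Nat.pos_of_ne_zero fun e => by simp [e] at hk; omega
  by_cases hX : f = X
  · refine y.2.1 _ _ fun hu => ?_
    rw [isUnit_iff_isUnit_det, det_eq_sign_charpoly_coeff,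
      charpoly_Jm (hf.pow k) (by rw [hf.natDegree_pow, hk]), hX] at hu
    simp [hk0.ne] at hu
  obtain ⟨x, rfl⟩ := hO.exists_root C hf hi hX ((Nat.le_mul_of_pos_left _ hk0).trans (hk ▸ hN))
  have := h (Th.mk 1 x) (by rw [hO.deg_one, ← hk]; exact Nat.mul_dvd_mul_right h1 _)
  rwa [mp_rep, mp, ← hk, Nat.mul_div_cancel _ hi.natDegree_pos, hk] at this

theorem finrank_le_card {S : Submodule ℂ (H μ)} {ι : Type*} (s : Finset ι) (J : ι → Mat F n)
    (h : ∀ y ∈ S, (∀ i ∈ s, y.1 n (J i) = 0) → y = 0) : finrank ℂ S ≤ s.card := by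
  let L : S →ₗ[ℂ] (s → ℂ) :=
    { toFun := fun y i => y.1.1 n (J i)
      map_add' := fun _ _ => rfl
      map_smul' := fun _ _ => rfl }
  have : Function.Injective L := fun y z e => Subtype.ext (sub_eq_zero.1
    (h _ (sub_mem y.2 z.2) fun i hi => sub_eq_zero.2 (congrFun e ⟨i, hi⟩)))
  simpa using LinearMap.finrank_le_finrank_of_injective this

instance clsB : ClsB F where
  vanish C n hn hN := ⟨fun θ => Jm n (mp F n θ.rep), fun x hx => by
    simp only [mp_rep, charpoly_Jm_mp hx], fun μ y hy h => vanish' C hn hN hy h⟩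
  finrank_le C n hn hN μ := finrank_le_card _ (fun θ => Jm n (mp F n θ.rep)) fun y hy h =>
    vanish' C hn hN hy fun θ hθ => h θ (mem_filter.2 ⟨mem_univ _, hθ⟩)
  finrank_reg_le {K} _ _ _ C n hn hN μ := finrank_le_card _ (fun θ => Jm n (mp F n θ.rep)) <| by
    rintro _ ⟨y, hy, rfl⟩ h
    refine vanish' C hn hN (HallA.mulL_Pr _ hy) fun θ hθ => ?_
    by_cases e : par C.p θ = θ
    · exact h θ (mem_filter.2 ⟨mem_univ _, e, hθ⟩)
    have hx : θ.rep ∈ XX F K n := (hO.mem_XX _ _).2 (by rw [Th.mk_rep]; exact Dvd.dvd.trans (dvd_mul_left _ _) hθ)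
    have h1 : C.p ∣ orderOf θ.rep := by
      by_contra h1
      exact e (by rw [par, GT.pRegPart_eq_self_iff.2 h1, Th.mk_rep])
    have h2 : θ.rep ^ orderOf (Jm n (mp F n θ.rep)) = 1 := by
      by_contra h2
      have := Df.isUnit_aeval (charpoly_Jm_mp hx)
        (f := X ^ orderOf (Jm n (mp F n θ.rep)) - 1) (by
          simpa [sub_eq_zero, ← Units.val_pow_eq_pow_val] using h2)
      rw [map_sub, map_pow, aeval_X, pow_orderOf_eq_one, map_one, sub_self] at this
      have : Nonempty (Fin n) := ⟨⟨0, hn⟩⟩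
      exact not_isUnit_zero ‹_›
    exact mul_eq_zero_of_left (if_pos (h1.trans (orderOf_dvd_of_pow_eq_one h2))) _

end GLH.Cl
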