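import Cfsg.Agent.Lib.GL.ClA

/-!
# The primitives attached to conjugacy classes (package G2a)
-/

set_option autoImplicit false
set_option linter.unusedSectionVars false

namespace GLH.Cl

open Finset Matrix Module Cfsg Mk Ha Polynomial
open scoped Classical ComplexConjugate

universe u

theorem expTo_unique {A : Type*} [CommRing A] {N : ℕ} {π π' Φ : ℕ → A} (h : ExpTo N π Φ)
    (h' : ExpTo N π' Φ) (n : ℕ) : n < N → π (n + 1) = π' (n + 1) := by
  induction n using Nat.strong_induction_on with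
  | _ n ih =>
  intro hn
  have := (h.2 (n + 1) hn).symm.trans (h'.2 (n + 1) hn)
  rw [sum_range_succ, sum_range_succ, sum_congr rfl fun k hk => by
    rw [ih k (mem_range.1 hk) ((mem_range.1 hk).trans hn)]] at this
  simpa [h.1] using this

theorem expTo_congr {A : Type*} [CommRing A] {N : ℕ} {π π' Φ : ℕ → A} (h : ExpTo N π Φ)
    (e : ∀ n, 0 < n → n ≤ N → π n = π' n) : ExpTo N π' Φ :=
  ⟨h.1, fun n hn => (h.2 n hn).trans (sum_congr rfl fun k hk => by
    rw [e _ k.succ_pos ((mem_range.1 hk).trans_le hn)])⟩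

theorem expTo_map {A B : Type*} [CommRing A] [CommRing B] {N : ℕ} {π Φ : ℕ → A} (h : ExpTo N π Φ)
    (T : A →+* B) : ExpTo N (fun n => T (π n)) fun n => T (Φ n) :=
  ⟨by simp [h.1], fun n hn => by simpa using congrArg T (h.2 n hn)⟩

theorem expTo_of_rel {A : Type*} [CommRing A] {π Φ : ℕ → A} (h : ExpRel π Φ) (N : ℕ) :
    ExpTo N π Φ := ⟨h.1, fun n _ => h.2 n⟩

variable {F : Type u} [Field F] [Fintype F] {n : ℕ}

/-- indicator of the divisors of the powers of `f` -/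
noncomputable def dv (f : F[X]) : F[X] →* ℂ where
  toFun φ := if ∃ k, φ ∣ f ^ k then 1 else 0
  map_one' := if_pos ⟨0, one_dvd _⟩
  map_mul' φ φ' := by
    by_cases h : (∃ k, φ ∣ f ^ k) ∧ ∃ k, φ' ∣ f ^ k
    · rw [if_pos h.1, if_pos h.2, mul_one, if_pos]
      obtain ⟨⟨i, hi⟩, j, hj⟩ := h
      exact ⟨i + j, by rw [pow_add]; exact mul_dvd_mul hi hj⟩
    · rw [if_neg fun ⟨k, hk⟩ => h ⟨⟨k, (dvd_mul_right _ _).trans hk⟩, k,
        (dvd_mul_left _ _).trans hk⟩]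
      rcases not_and_or.1 h with h | h <;> simp [h]

theorem dv_apply (f φ : F[X]) : dv f φ = if ∃ k, φ ∣ f ^ k then 1 else 0 := rfl

theorem gl_mem (c : MF F) (n : ℕ) : c.gl n ∈ Hn 1 n := fun _ hk _ => if_neg fun h => hk h.1

theorem gl_zero (c : MF F) : c.gl 0 = 1 := H.ext fun k M => by
  rw [H.one_val]
  split_ifs with h
  · subst h; rw [gl_val, if_pos (isUnit_Mat_zero M), c.zero]
  · exact gl_mem c 0 k h M

theorem ip_gl (y : H (1 : Fˣ →* ℂˣ)) (c : MF F) :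
    ipH n y (c.gl n) = (Nat.card (G F n) : ℂ)⁻¹ * ∑ M, y.1 n M * conj (c.c n M) := by
  rw [ipH_eq]
  refine congrArg _ (sum_congr rfl fun M _ => ?_)
  rw [gl_val]
  split_ifs with h
  · rfl
  · rw [y.2.1 n M h, zero_mul, zero_mul]

theorem sum_uni {ψ : AddChar F ℂ} (hψ : ψ ≠ 1) : (Nat.card (Ub F n) : ℂ)⁻¹ *
    ∑ M : Mat F n, (if Uni M then ψ (-sd M) else 0) = if n ≤ 1 then 1 else 0 := by
  split_ifs with h
  · have : ∀ M : Mat F n, sd M = 0 := fun M =>
      sum_eq_zero fun i _ => ex_out _ (by omega)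
    simp only [this, neg_zero, AddChar.map_zero_eq_one, ← card_uni, ← card_Ub]
    exact inv_mul_cancel₀ (Nat.cast_ne_zero.2 Nat.card_pos.ne')
  obtain ⟨t, ht⟩ := AddChar.ne_one_iff.1 hψ
  let Y : Mat F n := single ⟨0, by omega⟩ ⟨1, by omega⟩ (-t)
  have hY : ∀ i j, ex Y i j = if i = 0 ∧ j = 1 then -t else 0 := fun i j => by
    by_cases c : i < n ∧ j < n
    · simp [ex_mk _ c.1 c.2, Y, single_apply, Fin.ext_iff, eq_comm]
    · rw [ex_out _ (by omega), if_neg (by omega)]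
  have h1 : sd Y = -t := by
    rw [sd, sum_eq_single_of_mem 0 (mem_range.2 (by omega)) fun i _ hi => by simp [hY, hi]]
    simp [hY]
  have h2 : ∀ M : Mat F n, Uni (M + Y) ↔ Uni M := fun M => by
    simp only [uni_iff, ex_add, hY]
    exact and_congr (forall₂_congr fun i _ => by rw [if_neg (by omega), add_zero])
      (forall₃_congr fun i j _ => by rw [if_neg (by omega), add_zero])
  have h3 := Equiv.sum_comp (Equiv.addRight Y) fun M => if Uni M then ψ (-sd M) else 0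
  simp only [Equiv.coe_addRight, h2, sd_add, h1, neg_add, neg_neg, AddChar.map_add_eq_mul] at h3
  refine mul_eq_zero_of_right _ (by_contra fun h0 => ht ((mul_eq_left₀ h0).1 ?_))
  simpa only [sum_mul, ite_mul, zero_mul] using h3

variable [hA : HallA F] [hB : HallB F] [hS : AbsA.{u}]

theorem expRel_func {μ : Fˣ →* ℂˣ} (δ : ℕ → H μ →ₗ[ℂ] ℂ)
    (hδ : ∀ a b x y, x ∈ Hn μ a → y ∈ Hn μ b → δ (a + b) (x * y) = δ a x * δ b y) {π Φ : ℕ → H μ}
    (h : ExpRel π Φ) (hπ : ∀ k, 0 < k → π k ∈ Hn μ k) (hΦ : ∀ k, Φ k ∈ Hn μ k) (n : ℕ) :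
    n * δ n (Φ n) = ∑ k ∈ range n, δ (k + 1) (π (k + 1)) * δ (n - 1 - k) (Φ (n - 1 - k)) := by
  have := congrArg (δ n) (h.2 n)
  rw [← nsmul_eq_mul, map_nsmul, map_sum, nsmul_eq_mul] at this
  refine this.trans (sum_congr rfl fun k hk => ?_)
  rw [← hδ _ _ _ _ (hπ _ k.succ_pos) (hΦ _), show k + 1 + (n - 1 - k) = n by
    have := mem_range.1 hk; omega]

theorem exists_pf (c : MF F) : ∃ π : ℕ → H (1 : Fˣ →* ℂˣ), ExpRel π c.gl ∧ ∀ k, 0 < k →
    π k ∈ Pr 1 k ∧ ∀ y ∈ Pr 1 k, ipH k y (π k) = k * ipH k y (c.gl k) := by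
  choose π hπ using fun N => hS.prim_of_mult (psh (1 : Fˣ →* ℂˣ)) N c.gl (gl_mem c) (gl_zero c)
    fun a b x y _ hx hy => hA.gl_mult c hx hy
  refine ⟨π 0, ⟨gl_zero c, fun n => (expTo_congr (hπ n).1 fun k hk _ => ?_).2 n le_rfl⟩, (hπ 0).2⟩
  obtain ⟨h1, h2⟩ := (hπ n).2 k hk
  obtain ⟨h3, h4⟩ := (hπ 0).2 k hk
  have h5 : π n k - π 0 k ∈ Pr 1 k := sub_mem h1 h3
  refine sub_eq_zero.1 (hA.eq_zero h5.1 ?_)
  rw [ipH_sub', sub_eq_zero]
  exact (h2 _ h5).trans (h4 _ h5).symm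

/-- the logarithmic derivative of a multiplicative function -/
noncomputable def pf (c : MF F) : ℕ → H (1 : Fˣ →* ℂˣ) := (exists_pf c).choose

theorem pf_rel (c : MF F) : ExpRel (pf c) c.gl := (exists_pf c).choose_spec.1

theorem pf_mem (c : MF F) (hn : 0 < n) : pf c n ∈ Pr 1 n := ((exists_pf c).choose_spec.2 n hn).1

theorem ip_pf (c : MF F) (hn : 0 < n) {y : H (1 : Fˣ →* ℂˣ)} (hy : y ∈ Pr 1 n) :
    ipH n y (pf c n) = n * ipH n y (c.gl n) := ((exists_pf c).choose_spec.2 n hn).2 y hy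

theorem pf_supp (f : F[X]) (hn : 0 < n) {M : Mat F n} (h : (pf (.ofPoly (dv f)) n).1 n M ≠ 0) :
    ∃ k, M.charpoly ∣ f ^ k := by
  obtain ⟨n, rfl⟩ := Nat.exists_eq_succ_of_ne_zero hn.ne'
  have h1 := expTo_of_rel (pf_rel (.ofPoly (dv f))) (n + 1)
  have h2 := expTo_map h1 (mulOp (.ofPoly (dv f))).toRingHom
  have h3 : (fun n => (mulOp (MF.ofPoly (dv f))).toRingHom ((MF.ofPoly (dv f)).gl n)) =
      (MF.ofPoly (dv f)).gl := funext fun k => H.ext fun j M => by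
    change dv f M.charpoly * (if _ then dv f M.charpoly else 0) = if _ then dv f M.charpoly else 0
    rw [dv_apply]
    split_ifs <;> simp
  rw [h3] at h2
  by_contra h0
  rw [expTo_unique h1 h2 n n.lt_succ_self] at h
  exact h (mul_eq_zero_of_left (if_neg h0) _)

variable {K : Type} [Field K] [Fintype K] [Algebra F K] [hO : Orb.{u}]

omit hA hB hS

theorem mm (x : Kˣ) : (minpoly F (x : K)).Monic := minpoly.monic (Algebra.IsIntegral.isIntegral _)

theorem mi (x : Kˣ) : Irreducible (minpoly F (x : K)) :=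
  minpoly.irreducible (Algebra.IsIntegral.isIntegral _)

theorem md (x : Kˣ) : 0 < (minpoly F (x : K)).natDegree := (mi x).natDegree_pos

theorem mem_XX' {x : Kˣ} : x ∈ XX F K n ↔ (minpoly F (x : K)).natDegree ∣ n := by
  rw [hO.mem_XX, hO.deg_one]

theorem dvd_iff (x : Kˣ) (M : Mat F n) : (∃ k, M.charpoly ∣ minpoly F (x : K) ^ k) ↔
    (minpoly F (x : K)).natDegree ∣ n ∧ M.charpoly = mp F n x := by
  refine ⟨fun ⟨k, hk⟩ => ?_, fun h => ⟨_, h.2.dvd⟩⟩
  obtain ⟨i, -, hi⟩ := (dvd_prime_pow (mi x).prime k).1 hk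
  have h1 := eq_of_monic_of_associated (charpoly_monic M) ((mm x).pow i) hi
  have h2 : n = i * (minpoly F (x : K)).natDegree := by
    simpa [(mm x).natDegree_pow] using congrArg natDegree h1
  exact ⟨h2 ▸ dvd_mul_left _ _, by rw [h1, mp, h2, Nat.mul_div_cancel _ (md x)]⟩

theorem minpoly_eq_of_dvd (hn : 0 < n) {x y : Kˣ} (hx : x ∈ XX F K n) {k : ℕ}
    (h : mp F n x ∣ minpoly F (y : K) ^ k) : minpoly F (x : K) = minpoly F (y : K) :=
  eq_of_monic_of_associated (mm x) (mm y) ((mi x).associated_of_dvd (mi y)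
    ((mi x).prime.dvd_of_dvd_pow ((dvd_pow_self _ (Nat.div_pos
      (Nat.le_of_dvd hn (mem_XX'.1 hx)) (md x)).ne').trans h)))

theorem gl_dv (x : Kˣ) (M : Mat F n) : ((MF.ofPoly (dv (minpoly F (x : K)))).gl n).1 n M =
    dv (minpoly F (x : K)) M.charpoly := by
  rw [gl_val]
  split_ifs with h
  · rfl
  · refine (if_neg fun e => h ?_).symm
    simpa using Df.isUnit_aeval ((dvd_iff x M).1 e).2 (f := X) (by simp)

theorem q_ne (hn : 0 < n) : ((Fintype.card F ^ n - 1 : ℕ) : ℂ) ≠ 0 :=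
  Nat.cast_ne_zero.2 (Nat.sub_ne_zero_of_lt (Nat.one_lt_pow hn.ne' Fintype.one_lt_card))

include hA hB hS

theorem eps_pf (hn : 0 < n) {x : Kˣ} (hx : x ∈ XX F K n) :
    ((Fintype.card F ^ n - 1 : ℕ) : ℂ) * ipH n (pf (.ofPoly (dv (minpoly F (x : K)))) n)
      ((MF.ofPoly 1).gl n) = (minpoly F (x : K)).natDegree := by
  obtain ⟨n, rfl⟩ := Nat.exists_eq_succ_of_ne_zero hn.ne'
  let c := MF.ofPoly (dv (minpoly F (x : K)))
  have h1 := expRel_func (fun n => ipL n ((MF.ofPoly 1).gl n))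
    (fun a b x y hx hy => hA.gl_mult _ hx hy) (pf_rel c) (fun k hk => (pf_mem c hk).1) (gl_mem c)
  have h2 : ∀ n, ipL n ((MF.ofPoly 1).gl n) (c.gl n) =
      (Nat.card (G F n) : ℂ)⁻¹ * ∑ M, c.c n M := fun n => by
    simp only [ipL_apply, ip_gl, c, gl_dv]
    simp [MF.ofPoly]
  have h3 := logder_eq (a := fun n => ipL n ((MF.ofPoly 1).gl n) (c.gl n))
    (e := fun n => ipL n ((MF.ofPoly 1).gl n) (pf c n)) (q := Fintype.card F) (md (F := F) x) (by
    simp only [gl_zero, ipL_apply, ipH_one]) h1 (fun n => by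
      simp only [h2]
      refine (pair_count c.c c.conj c.cat n).trans (sum_congr rfl fun jk _ => congrArg (· * _) ?_)
      simp only [c, MF.ofPoly, dv_apply, dvd_iff, ← ite_and]
      split_ifs with h
      · simp only [h, true_and]
        rw [sum_cyc (g := mp F jk.1 x) ((mm x).pow _)
          (by rw [mp, (mm x).natDegree_pow, Nat.div_mul_cancel h]), inv_mul_cancel₀ (card_G_ne _)]
      · simp [h]) n
  rw [if_pos (mem_XX'.1 hx)] at h3
  rw [Nat.cast_sub (Nat.one_le_pow _ _ Fintype.card_pos), Nat.cast_pow, Nat.cast_one]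
  exact h3

variable (F) in
/-- the class primitives -/
noncomputable def cp (n : ℕ) (x : Kˣ) : H (1 : Fˣ →* ℂˣ) :=
  ((minpoly F (x : K)).natDegree : ℂ)⁻¹ • pf (.ofPoly (dv (minpoly F (x : K)))) n

theorem cp_mem (hn : 0 < n) (x : Kˣ) : cp F n x ∈ Pr 1 n := Submodule.smul_mem _ _ (pf_mem _ hn)

theorem cp_congr {x y : Kˣ} (h : Th.mk (1 : Fˣ) x = Th.mk 1 y) : cp F n x = cp F n y := by
  rw [cp, cp, (hO.minpoly_eq x y).2 h]

theorem cp_supp (hn : 0 < n) {x : Kˣ} {M : Mat F n} (h : (cp F n x).1 n M ≠ 0) :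
    M.charpoly = mp F n x := ((dvd_iff x M).1 (pf_supp _ hn (right_ne_zero_of_mul h))).2

theorem ip_cp_pf (hn : 0 < n) {x : Kˣ} (hx : x ∈ XX F K n) (c : F[X] →* ℂ) :
    ipH n (cp F n x) (pf (.ofPoly c) n) =
      n * conj (c (mp F n x)) / ((Fintype.card F ^ n - 1 : ℕ) : ℂ) := by
  have h1 : ipH n (cp F n x) ((MF.ofPoly c).gl n) =
      conj (c (mp F n x)) * ipH n (cp F n x) ((MF.ofPoly 1).gl n) := by
    rw [ip_gl, ip_gl, mul_left_comm, mul_sum _ _ (conj _)]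
    refine congrArg _ (sum_congr rfl fun M _ => ?_)
    by_cases h : (cp F n x).1 n M = 0
    · simp [h]
    · simp [MF.ofPoly, cp_supp hn h, mul_comm]
  have h2 : ((minpoly F (x : K)).natDegree : ℂ) ≠ 0 := Nat.cast_ne_zero.2 (md x).ne'
  rw [ip_pf _ hn (cp_mem hn x), h1, cp, ipH_smul, eq_div_iff (q_ne hn)]
  field_simp
  linear_combination n * conj (c (mp F n x)) * eps_pf hn hx

theorem ip_cp (hn : 0 < n) {x : Kˣ} (hx : x ∈ XX F K n) (y : Kˣ) :
    ipH n (cp F n x) (cp F n y) = if Th.mk (1 : Fˣ) x = Th.mk 1 y then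
      ((n / deg (Th.mk (1 : Fˣ) x) : ℕ) : ℂ) / ((Fintype.card F ^ n - 1 : ℕ) : ℂ) else 0 := by
  rw [cp.eq_1 F n y, ipH_smul', ip_cp_pf hn hx, dv_apply]
  split_ifs with h1 h2 h2
  · rw [hO.deg_one, Nat.cast_div (mem_XX'.1 hx) (Nat.cast_ne_zero.2 (md x).ne'),
      (hO.minpoly_eq x y).2 h2]
    simp only [map_inv₀, map_natCast, map_one]; ring
  · exact absurd ((hO.minpoly_eq x y).1 (minpoly_eq_of_dvd hn hx h1.choose_spec)) h2
  · exact absurd ⟨_, by rw [mp, (hO.minpoly_eq x y).2 h2]⟩ h1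
  · simp

theorem uni_dv {M : Mat F n} (h : Uni M) : dv (minpoly F ((1 : Kˣ) : K)) M.charpoly = 1 :=
  MF_uni (.ofPoly (dv (minpoly F ((1 : Kˣ) : K)))) (if_pos ⟨1, by
    simp [charpoly, det_unique, minpoly.one]⟩) n M h

theorem gg_pf_one {ψ : AddChar F ℂ} (hψ : ψ ≠ 1) (n : ℕ) :
    gg ψ (n + 1) (pf (.ofPoly (dv (minpoly F ((1 : Kˣ) : K)))) (n + 1)).1 = (-1) ^ n := by
  let c := MF.ofPoly (dv (minpoly F ((1 : Kˣ) : K)))
  have h1 := expRel_func (ggL ψ) (fun a b x y hx hy => hB.gg_mul hψ hx hy) (pf_rel c)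
    (fun k hk => (pf_mem c hk).1) (gl_mem c)
  have h2 : ∀ n, ggL ψ n (c.gl n) = if n ≤ 1 then 1 else 0 := fun n => by
    rw [ggL_apply, gg_eq, ← sum_uni hψ]
    refine congrArg _ (sum_congr rfl fun M _ => ?_)
    split_ifs with h
    · rw [gl_dv, uni_dv h, one_mul]
    · rfl
  simp only [h2, ggL_apply] at h1
  change gg ψ (n + 1) (pf c (n + 1)).1 = _
  induction n with
  | zero => simpa using (h1 1).symm
  | succ n ih =>
    have := h1 (n + 2)
    rw [sum_range_succ, sum_range_succ, sum_eq_zero fun k hk => by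
      rw [if_neg (by have := mem_range.1 hk; omega), mul_zero], if_neg (by omega),
      if_pos (by omega), if_pos (by omega), ih] at this
    linear_combination -this

theorem span_cp (C : Ctx F K) (hn : 0 < n) (hN : n ≤ C.N) :
    Pr 1 n ≤ Submodule.span ℂ {z | ∃ x ∈ XX F K n, z = cp F n x} := by
  let v : {θ : Th K (1 : Fˣ) // deg θ ∣ n} → H (1 : Fˣ →* ℂˣ) := fun θ => cp F n θ.1.rep
  have hx : ∀ θ : {θ : Th K (1 : Fˣ) // deg θ ∣ n}, θ.1.rep ∈ XX F K n := fun θ =>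
    (hO.mem_XX _ _).2 (by rw [Th.mk_rep]; exact θ.2)
  have h1 : LinearIndependent ℂ v := Fintype.linearIndependent_iff.2 fun g hg i => by
    have := congrArg (ipL n (v i)) hg
    simp only [map_sum, map_smul, ipL_apply, v, ip_cp hn (hx _), Th.mk_rep, Subtype.coe_inj,
      smul_eq_mul, mul_ite, mul_zero, sum_ite_eq', mem_univ, if_true, map_zero] at this
    exact (mul_eq_zero.1 this).resolve_right (div_ne_zero (Nat.cast_ne_zero.2
      (Nat.div_pos (Nat.le_of_dvd hn i.2) (hO.deg_pos _)).ne') (q_ne hn))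
  have : FiniteDimensional ℂ (Pr (1 : Fˣ →* ℂˣ) n) :=
    have := hA.fin (1 : Fˣ →* ℂˣ) n
    Submodule.finiteDimensional_of_le (S₂ := Hn 1 n) fun _ h => h.1
  refine (Submodule.eq_of_le_of_finrank_le (S₁ := Submodule.span ℂ (Set.range v))
    (Submodule.span_le.2 ?_) ?_).ge.trans (Submodule.span_mono ?_)
  · rintro _ ⟨θ, rfl⟩; exact cp_mem hn _
  · simpa [finrank_span_eq_card h1, Fintype.card_subtype] using ClsB.finrank_le C hn hN 1
  · rintro _ ⟨θ, rfl⟩; exact ⟨_, hx θ, rfl⟩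

theorem pf_eq (C : Ctx F K) (hn : 0 < n) (hN : n ≤ C.N) (c : F[X] →* ℂ) :
    pf (.ofPoly c) n = ∑ x ∈ XX F K n, c (mp F n x) • cp F n x := by
  have h1 : pf (.ofPoly c) n - ∑ x ∈ XX F K n, c (mp F n x) • cp F n x ∈ Pr 1 n :=
    sub_mem (pf_mem _ hn) (sum_mem fun x _ => Submodule.smul_mem _ _ (cp_mem hn x))
  refine sub_eq_zero.1 (hA.eq_zero h1.1 (ipH_eq_zero_of_span (span_cp C hn hN h1) ?_))
  rintro _ ⟨y, hy, rfl⟩
  rw [ipH_sub', ip_cp_pf hn hy, ipH_sum_right, sub_eq_zero]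
  simp only [ipH_smul', ip_cp hn hy, mul_ite, mul_zero]
  rw [← sum_filter, sum_congr (s₂ := univ.filter fun ξ => Th.mk 1 ξ = Th.mk (1 : Fˣ) y) ?_
    fun x hx => by rw [mp, (hO.minpoly_eq _ _).2 (mem_filter.1 hx).2, ← mp], sum_const, ← deg,
    nsmul_eq_mul, Nat.cast_div ((hO.mem_XX _ _).1 hy) (Nat.cast_ne_zero.2 (hO.deg_pos _).ne')]
  · have : (deg (Th.mk (1 : Fˣ) y) : ℂ) ≠ 0 := Nat.cast_ne_zero.2 (hO.deg_pos _).ne'
    field_simp
  · ext x
    simp only [mem_filter, mem_univ, true_and, hO.mem_XX]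
    exact ⟨fun h => h.2.symm, fun h => ⟨h ▸ (hO.mem_XX _ _).1 hy, h.symm⟩⟩

instance clsA : ClsA F where
  exists_cp {K} _ _ _ C := ⟨cp F,
    { prim := fun _ x hn _ _ => cp_mem hn x
      frob := fun _ x => (cp_congr ((hO.mk_eq _ _ _).2 ⟨1, 0, by simp⟩)).symm
      supp := fun _ _ _ hn _ _ h => cp_supp hn h
      norm := fun _ x hn _ hx => by rw [ip_cp hn hx, if_pos rfl]
      gg_cp := fun n x hn _ hx => by
        split_ifs with h
        · obtain ⟨n, rfl⟩ := Nat.exists_eq_succ_of_ne_zero hn.ne'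
          rw [h, cp, ← ggL_apply, map_smul, ggL_apply, gg_pf_one C.ψ_ne]
          simp [minpoly.one, ← C_1, -map_one]
        rw [gg_eq]
        refine mul_eq_zero_of_right _ (sum_eq_zero fun M _ => ?_)
        split_ifs with hM
        swap
        · rfl
        refine mul_eq_zero_of_left (by_contra fun h0 => h (Units.ext ?_)) _
        have h1 := uni_dv (K := K) hM
        rw [cp_supp hn h0, dv_apply, ite_eq_left_iff] at h1
        obtain ⟨k, hk⟩ := by_contra fun e => zero_ne_one (h1 e)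
        have h2 := minpoly.aeval F (x : K)
        rw [minpoly_eq_of_dvd hn hx hk] at h2
        simpa [minpoly.one, sub_eq_zero] using h2
      span := fun _ _ hn hN hy => span_cp C hn hN hy
      logder := fun c => expTo_congr (expTo_of_rel (pf_rel _) _) fun _ hn hN => pf_eq C hn hN c }⟩

end GLH.Cl
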