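import Cfsg.Agent.Lib.GL.BaseL
import Mathlib.Data.Nat.Fib.Basic
import Mathlib.GroupTheory.GroupAction.FixingSubgroup

/-!
# S4536, package G7b: combinatorial and numerical lemmas
-/

set_option autoImplicit false

namespace GLH.CnB

open Finset SFock
open scoped Classical

theorem card_Par_le (w : ℕ) : (Par w).card ≤ Nat.fib (w + 1) := by
  induction w using Nat.twoStepInduction with
  | zero =>
    exact card_le_one_iff_subset_singleton.2 ⟨0, fun a ha => mem_singleton.2 (Multiset.eq_zero_iff_forall_notMem.2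
      fun x hx => ((mem_Par.1 ha).1 x hx).ne' (Multiset.sum_eq_zero_iff.1 (mem_Par.1 ha).2 x hx))⟩
  | one =>
    refine card_le_one_iff_subset_singleton.2 ⟨{1}, fun a ha => mem_singleton.2 ?_⟩
    rw [mem_Par] at ha
    obtain ⟨x, hx⟩ := Multiset.exists_mem_of_ne_zero (s := a) (by rintro rfl; simp at ha)
    obtain ⟨b, rfl⟩ := Multiset.exists_cons_of_mem hx
    have h1 := ha.1 x hx
    have h2 := ha.2
    rw [Multiset.sum_cons] at h2
    rw [Multiset.eq_zero_iff_forall_notMem.2 fun y hy => (ha.1 y (Multiset.mem_cons_of_mem hy)).ne'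
      (Multiset.sum_eq_zero_iff.1 (by omega) y hy), show x = 1 by omega]
    rfl
  | more w h0 h1 =>
    rw [Nat.fib_add_two]
    refine (card_le_card (t := (Par w).image (fun ν => (ν.count 1 + 2) ::ₘ ν.filter (· ≠ 1)) ∪
      (Par (w + 1)).image (1 ::ₘ ·)) fun a ha => ?_).trans ((card_union_le _ _).trans
      (add_le_add (card_image_le.trans h0) (card_image_le.trans h1)))
    rw [mem_Par] at ha
    obtain ⟨x, hx, h⟩ : ∃ x ∈ a, x = 1 ∨ 1 ∉ a := by
      by_cases h : 1 ∈ a
      · exact ⟨1, h, Or.inl rfl⟩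
      · exact (Multiset.exists_mem_of_ne_zero (s := a) (by rintro rfl; simp at ha)).imp fun _ hx => ⟨hx, Or.inr h⟩
    obtain ⟨b, rfl⟩ := Multiset.exists_cons_of_mem hx
    have h2 := ha.2
    have h3 := fun y hy => ha.1 y (Multiset.mem_cons_of_mem hy)
    rw [Multiset.sum_cons] at h2
    rcases h with rfl | h
    · exact mem_union_right _ (mem_image_of_mem _ (mem_Par.2 ⟨h3, by omega⟩))
    · rw [Multiset.mem_cons, not_or] at h
      have h4 := ha.1 x hx
      refine mem_union_left _ (mem_image.2 ⟨b + Multiset.replicate (x - 2) 1, mem_Par.2 ⟨fun y hy =>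
        (Multiset.mem_add.1 hy).elim (h3 y) fun e => by rw [Multiset.eq_of_mem_replicate e]; exact one_pos, ?_⟩, ?_⟩)
      · rw [Multiset.sum_add, Multiset.sum_replicate, smul_eq_mul]; omega
      · rw [Multiset.count_add, Multiset.count_eq_zero.2 h.2, Multiset.count_replicate_self, Multiset.filter_add,
          Multiset.filter_eq_self.2 fun y hy => ne_of_mem_of_not_mem hy h.2, Multiset.filter_eq_nil.2 fun y hy =>
            not_not.2 (Multiset.eq_of_mem_replicate hy), add_zero, show 0 + (x - 2) + 2 = x by omega]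

theorem sum_add_wt {p : ℕ} (hp : 0 < p) {S T : Finset ℕ} (h : res p S = res p T) :
    ∑ x ∈ S, x + p * wt p T = ∑ x ∈ T, x + p * wt p S := by
  have h1 := sum_eq_wt hp S
  have h2 := sum_eq_wt hp T
  have h3 := two_mul_sum_rk p S
  have h4 := two_mul_sum_rk p T
  have h5 : S.card = T.card := by simpa [res] using congrArg Multiset.card h
  have h6 : ∑ x ∈ S, x % p = ∑ x ∈ T, x % p := congrArg Multiset.sum h
  rw [h] at h3
  have h7 : ∑ x ∈ S, rk p S x = ∑ x ∈ T, rk p T x := by omega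
  rw [Finset.sum_add_distrib, ← Finset.mul_sum] at h1 h2
  rw [h7, h6] at h1
  omega

variable {N : ℕ}

theorem sum_eq_sz {T : Finset ℕ} (h : T.card = N) : ∑ x ∈ T, x = d0 N + sz N T := by
  have := sum_range_card_le T
  rw [h] at this
  exact (Nat.add_sub_cancel' this).symm

theorem sz_add_wt {p : ℕ} (hp : 0 < p) {S T : Finset ℕ} (hS : S.card = N) (hT : T.card = N) (h : res p S = res p T) :
    sz N S + p * wt p T = sz N T + p * wt p S := by
  have := sum_add_wt hp h
  rw [sum_eq_sz hS, sum_eq_sz hT] at this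
  omega

theorem wt_range (p N : ℕ) : wt p (range N) = 0 := sum_eq_zero fun _ hx => card_eq_zero.2
  (filter_eq_empty_iff.2 fun _ hy h => h.2 (mem_range.2 ((mem_range.1 hy).trans (mem_range.1 hx))))

theorem sz_range (N : ℕ) : sz N (range N) = 0 := by simp [sz, d0]

theorem res_one {T : Finset ℕ} (h : T.card = N) : res 1 T = Multiset.replicate N 0 := by
  simp [res, Nat.mod_one, h]

theorem wt_one {T : Finset ℕ} (h : T.card = N) : wt 1 T = sz N T := by
  have := sz_add_wt one_pos h (card_range N) ((res_one h).trans (res_one (card_range N)).symm)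
  rw [wt_range, sz_range] at this
  omega

theorem eq_of_wt_zero {p : ℕ} (hp : 0 < p) {S T : Finset ℕ} (hS : S.card = N) (hT : T.card = N)
    (h : res p S = res p T) (h0 : wt p T = 0) (h1 : sz N S ≤ sz N T) : S = T := by
  have h2 := sz_add_wt hp hS hT h
  rw [h0] at h2
  have h3 : wt p S = 0 := (Nat.mul_eq_zero.1 (by omega : p * wt p S = 0)).resolve_left hp.ne'
  exact card_le_one.1 (card_le_one_of_wt hp (c := res p T) (G := {S, T}) (by simp [h, h0, h3])) S (by simp) T (by simp)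

theorem eq_range {T : Finset ℕ} (hT : T.card = N) (h : sz N T = 0) : T = range N :=
  eq_of_wt_zero one_pos hT (card_range N) ((res_one hT).trans (res_one (card_range N)).symm) (wt_range 1 N)
    (h.le.trans (Nat.zero_le _))

/-- bead sets with given size and residues -/
noncomputable def SZ (N e w : ℕ) (c : Multiset ℕ) : Finset (Finset ℕ) := (SS N (d0 N + w)).filter (res e · = c)

theorem mem_SZ {e w : ℕ} {c : Multiset ℕ} {T : Finset ℕ} :
    T ∈ SZ N e w c ↔ T.card = N ∧ sz N T = w ∧ res e T = c := by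
  rw [SZ, mem_filter, mem_SS, and_assoc]
  exact and_congr_right fun h => by rw [sum_eq_sz h, add_right_inj]

theorem card_SZ_le {e w : ℕ} (he : 0 < e) {T : Finset ℕ} (hT : T.card = N) (h : wt e T = w + 1) :
    (SZ N e (sz N T) (res e T)).card ≤ e * (e + 1) ^ w := by
  rw [← card_eq_card_image_qt he fun S hS => (mem_SZ.1 hS).2.2]
  refine (card_multisets_le (range e) w fun m hm => ?_).trans (by rw [card_range])
  obtain ⟨S, hS, rfl⟩ := mem_image.1 hm
  obtain ⟨h1, h2, h3⟩ := mem_SZ.1 hS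
  refine ⟨fun x hx => ?_, by rw [sum_qt_fst, ← h, wt_eq_of_res he h3 (by rw [sum_eq_sz h1, sum_eq_sz hT, h2])]⟩
  obtain ⟨y, -, h4, rfl⟩ := mem_qt hx
  exact ⟨h4, mem_range.2 (Nat.mod_lt _ he)⟩

theorem card_SZ_one (w : ℕ) (c : Multiset ℕ) : (SZ N 1 w c).card ≤ Nat.fib (w + 1) := by
  refine le_trans ?_ (card_Par_le w)
  refine card_le_card_of_injOn (fun T => (qt 1 T).map Prod.fst) (fun T hT => mem_Par.2 ⟨fun x hx => ?_, ?_⟩)
    fun S hS T hT h => eq_of_qt one_pos ((mem_SZ.1 hS).2.2.trans (mem_SZ.1 hT).2.2.symm) ?_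
  · obtain ⟨y, hy, rfl⟩ := Multiset.mem_map.1 hx
    obtain ⟨z, -, h4, rfl⟩ := mem_qt hy
    exact h4
  · rw [sum_qt_fst, wt_one (mem_SZ.1 hT).1, (mem_SZ.1 hT).2.1]
  · have key : ∀ T, ((qt 1 T).map Prod.fst).map (fun x => (x, 0)) = qt 1 T := fun T => by
      rw [Multiset.map_map]
      refine (Multiset.map_congr rfl fun y hy => ?_).trans (Multiset.map_id _)
      obtain ⟨z, -, -, rfl⟩ := mem_qt hy
      simp [Nat.mod_one]
    rw [← key S, ← key T]
    exact congrArg _ h

/-- `k + 1` or `k` -/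
noncomputable def bf (P : Prop) (k : ℕ) : ℕ := if P then k + 1 else k

theorem bf_pos {P : Prop} (h : P) (k : ℕ) : bf P k = k + 1 := if_pos h

theorem bf_neg {P : Prop} (h : ¬ P) (k : ℕ) : bf P k = k := if_neg h

theorem bf_mono (P : Prop) {k l : ℕ} (h : k ≤ l) : bf P k ≤ bf P l := by unfold bf; split_ifs <;> omega

/-- the invariant choice functions -/
noncomputable def fixc {X Y : Type*} [Fintype X] (S : X → Finset Y) (g : X → X) : Finset (X → Y) :=
  {l ∈ Fintype.piFinset S | ∀ x, l (g x) = l x}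

theorem mem_fixc {X Y : Type*} [Fintype X] {S : X → Finset Y} {g : X → X} {l : X → Y} :
    l ∈ fixc S g ↔ (∀ x, l x ∈ S x) ∧ ∀ x, l (g x) = l x := by simp [fixc]

theorem card_pairs {A X Y : Type*} [CommGroup A] [Fintype A] [Fintype X] [MulAction A X] (B : Subgroup A)
    (S : X → Finset Y) (J : X → Prop) (hJ : ∀ a ∈ B, ∀ x, J x → J (a • x)) (x0 : X) :
    ∑ a with a ∈ B, #(fixc S (a • ·)) ≤
      Nat.card ↥(B ⊓ fixingSubgroup A {x | J x}) * ∏ x, bf (J x ∧ x ≠ x0) (S x).card := by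
  obtain ⟨r, r1, r2, r3⟩ : ∃ r : X → X, (∀ x, ∃ b ∈ B, b • r x = x) ∧ (∀ b ∈ B, ∀ x, r (b • x) = r x) ∧ r x0 = x0 := by
    let R := MulAction.orbitRel B X
    refine ⟨fun x => if R x x0 then x0 else (Quotient.mk R x).out, fun x => ?_, fun b hb x => ?_, if_pos (R.refl x0)⟩
    · beta_reduce
      split_ifs with h
      · exact let ⟨b, e⟩ := h; ⟨b, b.2, e⟩
      · exact let ⟨b, e⟩ := R.symm (Quotient.mk_out (s := R) x); ⟨b, b.2, e⟩
    · have : R (b • x) x := ⟨⟨b, hb⟩, rfl⟩
      simp only [Quotient.sound this, (⟨R.trans (R.symm this), R.trans this⟩ : R (b • x) x0 ↔ R x x0)]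
  have r4 : ∀ x, r (r x) = r x := fun x => let ⟨b, hb, e⟩ := r1 x; (r2 b hb _).symm.trans (congrArg r e)
  have r5 : ∀ x, J x → J (r x) := fun x hx => by
    obtain ⟨b, hb, e⟩ := r1 x
    rw [← inv_smul_smul b (r x), e]
    exact hJ _ (inv_mem hb) x hx
  let enc : (Σ _ : A, X → Y) → X → Option Y := fun a x => if J x ∧ x ≠ r x ∧ x = a.1 • r x then none else some (a.2 x)
  have key : ∀ a a', a.1 ∈ B → enc a = enc a' → ∀ x, J x → a.1 • r x ≠ r x → a.1 • r x = a'.1 • r x :=
    fun a a' hB e x hx h => by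
      have := congrFun e (a.1 • r x)
      simp only [enc, r2 _ hB, r4, hJ _ hB _ (r5 x hx), h, ne_eq, not_false_eq_true, and_self, if_true, true_and] at this
      by_contra e
      simp [e] at this
  have key2 : ∀ a a', a.1 ∈ B → a'.1 ∈ B → enc a = enc a' → ∀ x, J x → a.1 • r x = a'.1 • r x :=
    fun a a' ha ha' e x hx => by_contra fun e' => by
      by_cases h : a.1 • r x = r x
      · exact e' (key a' a ha' e.symm x hx fun h' => e' (h.trans h'.symm)).symm
      · exact e' (key a a' ha e x hx h)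
  rw [← card_sigma, Nat.subtype_card {a | a ∈ B ∧ ∀ x, J x → a • x = x} fun a => by simp [mem_fixingSubgroup_iff]]
  refine (card_le_mul_card_image_of_maps_to (f := enc)
    (t := Fintype.piFinset fun x => if J x ∧ x ≠ x0 then insertNone (S x) else (S x).map .some)
    (fun a ha => Fintype.mem_piFinset.2 fun x => ?_) #{a | a ∈ B ∧ ∀ x, J x → a • x = x} fun f _ => ?_).trans
    (le_of_eq ?_)
  · have := (mem_fixc.1 (mem_sigma.1 ha).2).1 x
    simp only [enc]
    split_ifs with h h' h'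
    · simp
    · simpa using this
    · exact (h ⟨h'.1, fun e => h'.2.1 (by rw [e, r3])⟩).elim
    · simpa using this
  · refine not_lt.1 fun hlt => hlt.not_ge ?_
    obtain ⟨a0, h0⟩ := card_pos.1 (Nat.zero_lt_of_lt hlt)
    simp only [mem_filter, mem_sigma, mem_univ, true_and] at h0
    refine card_le_card_of_injOn (fun a => a0.1⁻¹ * a.1) (fun a ha => ?_) fun a ha a' ha' e => ?_
    · simp only [coe_filter, mem_filter, mem_sigma, mem_univ, true_and, Set.mem_ofPred_eq] at ha ⊢
      refine ⟨mul_mem (inv_mem h0.1.1) ha.1.1, fun x hx => ?_⟩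
      obtain ⟨b, -, e⟩ := r1 x
      rw [← e, smul_smul, mul_comm, mul_smul, mul_smul, key2 a a0 ha.1.1 h0.1.1 (ha.2.trans h0.2.symm) x hx,
        inv_smul_smul]
    · simp only [coe_filter, mem_filter, mem_sigma, mem_univ, true_and, Set.mem_ofPred_eq, mem_fixc] at ha ha'
      have e1 := congrFun (ha.2.trans ha'.2.symm)
      replace e : a.1 = a'.1 := mul_left_cancel e
      refine Sigma.ext e (heq_of_eq (funext fun x => ?_))
      by_cases h : J x ∧ x ≠ r x ∧ x = a.1 • r x
      · have := e1 (r x)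
        simp only [enc, r4, ne_eq, not_true_eq_false, false_and, and_false, if_false, Option.some.injEq] at this
        rw [h.2.2, ha.1.2.2, e, ha'.1.2.2, this]
      · have := e1 x
        simp only [enc, ← e, h, if_false, Option.some.injEq] at this
        exact this
  · rw [Fintype.card_piFinset]
    refine congrArg _ (prod_congr rfl fun x _ => ?_)
    split_ifs with h <;> simp [bf, h]

theorem prod_le {X : Type*} [Fintype X] {a f b g : X → ℕ} (h : ∀ x, a x * f x ≤ b x * g x) :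
    (∏ x, a x) * ∏ x, f x ≤ (∏ x, b x) * ∏ x, g x := by
  rw [← prod_mul_distrib, ← prod_mul_distrib]
  exact prod_le_prod' fun x _ => h x

theorem two_mul_fib (w : ℕ) : Nat.fib (w + 1 + 1) ≤ 2 ^ w := by
  induction w with
  | zero => simp
  | succ w ih => rw [Nat.fib_add_two, pow_succ]; have := @Nat.fib_le_fib_succ (w + 1); omega

theorem fib_le (w : ℕ) : Nat.fib (w + 5 + 1) ≤ 2 ^ (w + 3) := by
  induction w with
  | zero => decide
  | succ w ih =>
    rw [show w + 1 + 5 + 1 = w + 5 + 2 from rfl, Nat.fib_add_two, pow_succ]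
    have := @Nat.fib_le_fib_succ (w + 5)
    omega

/-- the bound for the number of labels if `p ∣ q - 1` -/
noncomputable def Tb {X : Type*} [Fintype X] (n : X → ℕ) (x0 : X) (v : ℕ) : ℕ :=
  ∏ x, bf (n x ≠ 0 ∧ x ≠ x0) (Nat.fib (n x / v + 1))

section
variable {X : Type*} [Fintype X] {n : X → ℕ} {x0 : X}

theorem Tb_le (h0 : n x0 ≠ 0) {v : ℕ} (h : ∀ x, v ∣ n x) {x1 : X} {a b : ℕ}
    (h1 : x1 ≠ x0 → a * (Nat.fib (n x1 / v + 1) + 1) ≤ b * 2 ^ (n x1 / v)) (h2 : x1 = x0 → a ≤ b)
    (h3 : n x1 ≠ 0) : 2 * a * Tb n x0 v ≤ b * 2 ^ ((∑ x, n x) / v) := by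
  have := prod_le (a := fun x => (if x = x0 then 2 else 1) * if x = x1 then a else 1)
    (b := fun x => if x = x1 then b else 1) (g := fun x => 2 ^ (n x / v))
    (f := fun x => bf (n x ≠ 0 ∧ x ≠ x0) (Nat.fib (n x / v + 1))) fun x => by
    unfold bf
    by_cases h4 : n x = 0
    · simp [h4, (ne_of_apply_ne n (h4 ▸ h0.symm) : x ≠ x0), (ne_of_apply_ne n (h4 ▸ h3.symm) : x ≠ x1)]
    obtain ⟨w, hw⟩ : ∃ w, n x / v = w + 1 := Nat.exists_eq_add_one_of_ne_zero fun e =>
      h4 (by rw [← Nat.div_mul_cancel (h x), e, zero_mul])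
    have h5 := two_mul_fib w
    have h6 := Nat.one_le_two_pow (n := w)
    by_cases e0 : x = x0 <;> by_cases e1 : x = x1
    · simp only [e0 ▸ hw, e0, ← e1, ne_eq, not_true_eq_false, and_false, if_false, if_true]
      have := h2 (e1 ▸ e0)
      rw [pow_succ]
      nlinarith
    · simp only [e0, e0 ▸ e1, ne_eq, not_true_eq_false, and_false, if_false, if_true, e0 ▸ hw]
      rw [pow_succ]
      omega
    · subst e1
      simpa [e0, h4] using h1 e0
    · simp only [hw, e0, e1, h4, ne_eq, not_false_eq_true, and_self, if_false, if_true]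
      rw [pow_succ]
      omega
  rwa [prod_mul_distrib, prod_ite_eq', prod_ite_eq', prod_ite_eq', if_pos (mem_univ _), if_pos (mem_univ _),
    if_pos (mem_univ _), prod_pow_eq_pow_sum, ← Nat.sum_div fun x _ => h x] at this

theorem Tb_le' (h0 : n x0 ≠ 0) {v : ℕ} (h : ∀ x, v ∣ n x) : 2 * Tb n x0 v ≤ 2 ^ ((∑ x, n x) / v) := by
  simpa using Tb_le h0 h (a := 1) (b := 1) (fun e => (e rfl).elim) (fun _ => le_rfl) h0

theorem Tb_eq (h : ∀ x ≠ x0, n x = 0) (v : ℕ) : Tb n x0 v = Nat.fib (n x0 / v + 1) := by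
  rw [Tb, prod_eq_single x0 (fun x _ hx => by simp [h x hx, bf]) (by simp)]
  simp [bf]

theorem num_odd (w : ℕ) : 2 ^ (w + 1) * (w + 6) ≤ 2 * 3 ^ (w + 2) := by
  induction w with
  | zero => decide
  | succ w ih => rw [pow_succ, pow_succ 3]; have := Nat.one_le_two_pow (n := w + 1); nlinarith

theorem num_two (w : ℕ) : 2 * w + 7 ≤ 2 ^ (w + 3) := by
  induction w with
  | zero => decide
  | succ w ih => rw [pow_succ]; omega

theorem sum_Tb_le {A : Type*} {U : Finset A} {v : A → ℕ} {u1 : A} (h0 : n x0 ≠ 0) {p s : ℕ} (hp : p.Prime)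
    (hs : 2 ≤ s) (hW : ∑ x, n x ≤ s + 1) (h1 : u1 ∈ U) (hv1 : v u1 = 1)
    (hv : ∀ u ∈ U, (∀ x, v u ∣ n x) ∧ (u ≠ u1 → p ∣ v u))
    (hc : ∀ m, 0 < m → (∀ u ∈ U, v u ∣ m) → U.card ≤ m)
    (hsp : p = 2 → n x0 = 4 → (∀ x ≠ x0, n x = 0) → 4 ≤ s ∨ ∀ u ∈ U, v u ∣ 2) :
    ∑ u ∈ U, Tb n x0 (v u) ≤ p ^ s := by
  rw [← add_sum_erase _ _ h1, hv1]
  have a0 : ∀ x, n x ≤ ∑ x, n x := fun x => single_le_sum (f := n) (fun _ _ => Nat.zero_le _) (mem_univ x)
  have a1 := Tb_le' h0 fun x => one_dvd (n x)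
  have a2 : ∀ x, n x ≠ 0 → (U.erase u1).card + 1 ≤ n x := fun x hx =>
    card_erase_add_one h1 ▸ hc _ (Nat.pos_of_ne_zero hx) fun u hu => (hv u hu).1 x
  have a3 : ∀ c, (∀ k, k ≤ (∑ x, n x) / p → ∀ u ∈ U, (∑ x, n x) / v u = k → Tb n x0 (v u) ≤ c) →
      ∑ u ∈ U.erase u1, Tb n x0 (v u) ≤ (U.erase u1).card * c := fun c h => sum_le_card_nsmul _ _ c fun u hu => by
    have hu' := hv u (mem_of_mem_erase hu)
    exact h _ (Nat.div_le_div_left (Nat.le_of_dvd (Nat.pos_of_dvd_of_pos (hu'.1 x0) (Nat.pos_of_ne_zero h0))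
      (hu'.2 (ne_of_mem_erase hu))) hp.pos) u (mem_of_mem_erase hu) rfl
  have a4 : ∀ h, (∑ x, n x) / p ≤ h + 1 → ∑ u ∈ U.erase u1, Tb n x0 (v u) ≤ (U.erase u1).card * 2 ^ h :=
    fun h e => a3 _ fun k hk u hu e' => by
      have := (Tb_le' h0 (hv u hu).1).trans (Nat.pow_le_pow_right two_pos (e'.le.trans (hk.trans e)))
      rw [pow_succ] at this
      omega
  have a5 : 2 ^ ∑ x, n x ≤ 2 * 2 ^ s := pow_succ' 2 s ▸ Nat.pow_le_pow_right two_pos hW
  rw [Nat.div_one] at a1
  rcases eq_empty_or_nonempty (U.erase u1) with h | ⟨u, hu⟩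
  · have := Nat.pow_le_pow_left hp.two_le s
    rw [h, sum_empty]
    omega
  have a6 : ∀ x, p ∣ n x := fun x =>
    ((hv u (mem_of_mem_erase hu)).2 (ne_of_mem_erase hu)).trans ((hv u (mem_of_mem_erase hu)).1 x)
  have a7 : ∀ x, n x ≠ 0 → p ≤ n x := fun x hx => Nat.le_of_dvd (Nat.pos_of_ne_zero hx) (a6 x)
  rcases hp.eq_two_or_odd' with rfl | ho
  · obtain ⟨h, e⟩ := dvd_sum fun x (_ : x ∈ univ) => a6 x
    by_cases h2 : ∀ x ≠ x0, n x = 0
    · have e1 : ∑ x, n x = n x0 := sum_eq_single x0 (fun x _ hx => h2 x hx) (by simp)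
      have b1 := a3 (Nat.fib (h + 1)) fun k hk u _ e' => by
        rw [Tb_eq h2, ← e1, e']
        exact Nat.fib_mono (by omega)
      have b2 := a2 x0 h0
      have b3 := Nat.pow_le_pow_right two_pos hs
      have b7 := card_erase_add_one h1
      rw [Tb_eq h2, Nat.div_one, ← e1, e]
      rw [e] at a5 hW e1
      generalize (U.erase u1).card = c at *
      rcases h with _ | _ | _ | _ | h
      · omega
      · norm_num at b1 ⊢; omega
      · have b4 := Nat.pow_le_pow_right two_pos (show 3 ≤ s by omega)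
        rcases hsp rfl e1.symm h2 with h3 | h3
        · have := Nat.pow_le_pow_right two_pos h3
          norm_num at b1 ⊢; omega
        · have := hc 2 two_pos h3
          norm_num at b1 ⊢; omega
      · norm_num at b1 ⊢; omega
      · have b4 := fib_le (2 * h + 3)
        have b5 := two_mul_fib (h + 3)
        have b6 := num_two h
        rw [show 2 * h + 3 + 3 = (h + 3) + (h + 3) by ring, pow_add] at b4
        rw [show 2 * (h + 1 + 1 + 1 + 1) = (h + 3) + (h + 3) + 2 by ring, pow_add, pow_add] at a5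
        rw [show 2 * (h + 1 + 1 + 1 + 1) + 1 = 2 * h + 3 + 5 + 1 by ring]
        have := b1.trans (Nat.mul_le_mul (show c ≤ 2 ^ (h + 3) by omega) b5)
        omega
    · push Not at h2
      obtain ⟨x1, h2, h3⟩ := h2
      have b1 := Tb_le h0 (fun x => one_dvd (n x)) (a := 4) (b := 3) (fun _ => by
        obtain ⟨w, hw⟩ : ∃ w, n x1 = w + 1 + 1 := ⟨n x1 - 2, by have := a7 x1 h3; omega⟩
        have := two_mul_fib (w + 1)
        have := Nat.one_le_two_pow (n := w)
        rw [Nat.div_one, hw, pow_succ, pow_succ]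
        rw [pow_succ] at *
        omega) (fun e => (h2 e).elim) h3
      have b2 : n x0 + n x1 ≤ ∑ x, n x := by
        rw [← sum_pair h2.symm]
        exact sum_le_sum_of_subset (subset_univ _)
      have b3 := a2 x0 h0
      have b4 := a2 x1 h3
      have b5 := a7 x0 h0
      have b6 := a7 x1 h3
      obtain ⟨h, rfl⟩ : ∃ k, h = k + 2 := ⟨h - 2, by omega⟩
      have b7 := a4 (h + 1) (by omega)
      have b8 := Nat.mul_le_mul_right (2 ^ (h + 1)) (show (U.erase u1).card ≤ 2 ^ h by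
        have := @Nat.lt_two_pow_self h; omega)
      rw [Nat.div_one] at b1
      rw [e, show 2 * (h + 2) = h + (h + 1) + 3 by ring, pow_add, pow_add] at b1 a5
      omega
  · have b0 : 3 ≤ p := by have := hp.two_le; obtain ⟨k, rfl⟩ := ho; omega
    have b1 := a7 x0 h0
    have b2 := a0 x0
    have b3 := a2 x0 h0
    obtain ⟨w, e⟩ : ∃ w, ∑ x, n x = w + 3 := ⟨∑ x, n x - 3, by omega⟩
    have b4 := a4 w ((Nat.div_le_div_left b0 three_pos).trans (by omega))
    have b5 := num_odd w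
    have b6 := (Nat.pow_le_pow_right three_pos (show w + 2 ≤ s by omega)).trans (Nat.pow_le_pow_left b0 s)
    have b7 := Nat.mul_le_mul_right (2 ^ w) (show (U.erase u1).card ≤ w + 2 by omega)
    rw [e, pow_add] at a1
    rw [pow_succ] at b5
    nlinarith

end

end GLH.CnB
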