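import Cfsg.Agent.Lib.GL.CnB1
import Mathlib.NumberTheory.Basic

/-!
# S4536, package G7b: the count
-/

set_option autoImplicit false
set_option linter.unusedSectionVars false

namespace GLH

open Finset SFock Cfsg GT
open scoped Classical

universe u

namespace CnB

theorem msz_pl {ι : Type*} [Fintype ι] {N : ℕ} {deg : ι → ℕ} {par : ι → ι} {Λ : ι → Finset ℕ} (h : PL N par Λ)
    (hd : ∀ i, 0 < deg i) {i : ι} (hi : par i = i) :
    msz N par (fun i => deg i / deg (par i)) Λ i = sz N (Λ i) := by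
  rw [msz, sum_eq_single i (fun j hj hne => by
    rw [h j fun e => hne (e.symm.trans (by simpa using hj)), sz_range, mul_zero]) (by simp [hi]), hi,
    Nat.div_self (hd i), one_mul]

theorem pow_eq_self_of_isPElt {Γ : Type*} [Group Γ] {p q o : ℕ} [hp : Fact p.Prime] (h : (q : ZMod p) ^ o = 1)
    {ζ : Γ} {k : ℕ} (hζ : ζ ^ p ^ k = 1) {i : ℕ} (hi : o * p ^ k ∣ i) : ζ ^ q ^ i = ζ := by
  obtain ⟨t, rfl⟩ := hi
  have h1 : (p : ℤ) ∣ (q : ℤ) ^ o - 1 := (ZMod.intCast_zmod_eq_zero_iff_dvd _ p).1 (by push_cast; rw [h, sub_self])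
  have h2 : ((p ^ k : ℕ) : ℤ) ∣ ((1 : ℕ) : ℤ) - (q ^ (o * p ^ k) : ℕ) := by
    have := (pow_dvd_pow _ k.le_succ).trans (dvd_sub_pow_of_dvd_sub h1 k)
    rw [one_pow, ← pow_mul] at this
    exact_mod_cast dvd_sub_comm.1 this
  have h3 := ((Nat.modEq_iff_dvd.2 h2).pow t).of_dvd (orderOf_dvd_of_pow_eq_one hζ)
  rw [one_pow, ← pow_mul] at h3
  rw [pow_eq_pow_iff_modEq.2 h3, pow_one]

variable {F : Type u} [Field F] [Fintype F] {K : Type} [Field K] [Fintype K] [Algebra F K] [hO : Orb.{u}]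

/-- the action of `Fˣ` on the orbits -/
@[reducible] noncomputable def actMul (m : Fˣ) : MulAction Fˣ (Th K m) where
  smul := fun z O => act z O
  one_smul := act_one
  mul_smul a b O := (act_act a b O).symm

theorem ee_act (p : ℕ) (z : Fˣ) {m : Fˣ} (O : Th K m) : ee p (act z O) = ee p O := by rw [ee, ee, hO.deg_act]

theorem par_act (p : ℕ) [Fact p.Prime] {z : Fˣ} (hz : IsPRegular p z) {m : Fˣ} (O : Th K m) :
    par p (act z O) = act z (par p O) := by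
  induction O using Th.ind with | h ξ =>
  rw [hO.act_mk, hO.par_mk, hO.par_mk, hO.act_mk]
  nth_rewrite 1 [← pPart_mul_pRegPart p ξ]
  rw [mul_left_comm, pRegPart_mul_eq (Commute.all _ _) (isPElt_pPart p ξ)
    ((hz.map _).mul_of_commute (isPRegular_pRegPart p ξ) (Commute.all _ _))]

theorem par_act_iff (p : ℕ) [Fact p.Prime] {z : Fˣ} (hz : IsPRegular p z) {m : Fˣ} (O : Th K m) :
    par p (act z O) = act z O ↔ par p O = O := by
  rw [par_act p hz]; exact (actE z m).injective.eq_iff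

theorem act_mk_iff {z : Fˣ} {ξ : Kˣ} :
    act z (Th.mk (1 : Fˣ) ξ) = Th.mk 1 ξ ↔ ∃ i : ℕ, emb K z * ξ = ξ ^ Fintype.card F ^ i := by
  rw [hO.act_mk, eq_comm, hO.mk_eq]
  exact ⟨fun ⟨i, j, h⟩ => ⟨i, by simpa using h⟩, fun ⟨i, h⟩ => ⟨i, 0, by simpa using h⟩⟩

theorem pow_mul_eq {z : Fˣ} {ξ : Kˣ} {i : ℕ} (h : emb K z * ξ = ξ ^ Fintype.card F ^ i) (t : ℕ) :
    emb K (z ^ t) * ξ = ξ ^ Fintype.card F ^ (i * t) := by
  induction t with
  | zero => simp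
  | succ t ih =>
    rw [Nat.mul_succ, pow_add (Fintype.card F), pow_mul, ← ih, mul_pow, ← h, ← map_pow, pow_succ, map_mul, mul_assoc]
    congr 2
    exact Units.ext (by simp [FiniteField.pow_card_pow])

theorem emb_inj : Function.Injective (emb K : Fˣ → Kˣ) := Units.map_injective (algebraMap F K).injective

theorem dvd_deg {z : Fˣ} {θ : Th K (1 : Fˣ)} (h : act z θ = θ) : orderOf z ∣ deg θ := by
  induction θ using Th.ind with | h ξ =>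
  obtain ⟨i, h⟩ := act_mk_iff.1 h
  have := pow_mul_eq h (deg (Th.mk (1 : Fˣ) ξ))
  rw [(mem_filter.1 ((hO.mem_XX ξ _).2 (Dvd.intro_left i rfl))).2, mul_eq_right] at this
  exact orderOf_dvd_of_pow_eq_one (emb_inj (this.trans (map_one _).symm))

theorem act_pow_eq (p : ℕ) [Fact p.Prime] {z : Fˣ} (hz : IsPRegular p z) {θ : Th K (1 : Fˣ)}
    (h : act z (par p θ) = par p θ) : act (z ^ orderOf (Fintype.card F : ZMod p)) θ = θ := by
  induction θ using Th.ind with | h ξ =>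
  rw [hO.par_mk] at h
  obtain ⟨i, h⟩ := act_mk_iff.1 h
  obtain ⟨k, hk⟩ := (isPElt_pPart p ξ).exists_pow_eq_one
  obtain ⟨t, t1, t2⟩ := Nat.chineseRemainder ((isPRegular_iff_coprime.1 hz).pow_right k) 1 0
  have h1 := pow_mul_eq h (t * orderOf (Fintype.card F : ZMod p))
  rw [pow_mul z, pow_eq_pow_iff_modEq.2 t1, pow_one] at h1
  refine act_mk_iff.2 ⟨i * (t * orderOf (Fintype.card F : ZMod p)), ?_⟩
  rw [← pPart_mul_pRegPart p ξ, mul_pow, ← h1, mul_left_comm, pow_eq_self_of_isPElt (pow_orderOf_eq_one _) hk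
    (Dvd.dvd.mul_left (mul_comm t _ ▸ mul_dvd_mul_left _ ((Nat.modEq_zero_iff_dvd).1 t2)) i)]

theorem act_zpowers {z m : Fˣ} (hm : m ∈ Subgroup.zpowers z) {θ : Th K (1 : Fˣ)} (h : act z θ = θ) : act m θ = θ :=
  letI := actMul (K := K) (1 : Fˣ)
  (Subgroup.zpowers_le (H := MulAction.stabilizer Fˣ θ)).2 h hm

variable (C : Ctx F K) {n : ℕ} {Λ₀ : Th K (1 : Fˣ) → Finset ℕ}

variable (Λ₀) in
/-- the `p'`-elements fixing the class -/
def Bg : Subgroup Fˣ where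
  carrier := {z | IsPRegular C.p z ∧ ∀ θ, sz C.N (Λ₀ (act z θ)) = sz C.N (Λ₀ θ) ∧
    res (ee C.p θ) (Λ₀ (act z θ)) = res (ee C.p θ) (Λ₀ θ)}
  one_mem' := ⟨isPRegular_one, fun θ => by simp [act_one]⟩
  mul_mem' := fun {a b} ha hb => ⟨ha.1.mul_of_commute hb.1 (Commute.all _ _), fun θ => by
    have := ha.2 (act b θ)
    rw [act_act, ee_act] at this
    exact ⟨this.1.trans (hb.2 θ).1, this.2.trans (hb.2 θ).2⟩⟩
  inv_mem' := fun {a} ha => ⟨ha.1.inv, fun θ => by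
    have := ha.2 (act a⁻¹ θ)
    rw [act_act, ee_act, mul_inv_cancel, act_one] at this
    exact ⟨this.1.symm, this.2.symm⟩⟩

variable (Λ₀) in
/-- the weight -/
noncomputable abbrev ww (θ : Th K (1 : Fˣ)) : ℕ := wt (ee C.p θ) (Λ₀ θ)

variable (Λ₀) in
/-- the possible components of a label -/
noncomputable abbrev Su (u : Fˣ) (θ : Th K (1 : Fˣ)) : Finset (Finset ℕ) :=
  SZ C.N (ee C.p θ) (sz C.N (Λ₀ θ) / orderOf u) (res (ee C.p θ) (Λ₀ θ))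

variable (Λ₀) in
/-- the possible `p`-parts -/
noncomputable def Up : Finset Fˣ := {u | IsPElt C.p u ∧ ∀ θ, orderOf u ∣ sz C.N (Λ₀ θ)}

variable {C} (h1 : ALab C.N deg n Λ₀) (h2 : PL C.N (par C.p) Λ₀)
include h1

theorem ww_act {z : Fˣ} (hz : z ∈ Bg C Λ₀) (θ : Th K (1 : Fˣ)) : ww C Λ₀ (act z θ) = ww C Λ₀ θ := by
  have := sz_add_wt ((hO.pdat C 1).e_pos θ) (h1.1 _) (h1.1 _) (hz.2 θ).2
  rw [(hz.2 θ).1, add_right_inj] at this
  rw [ww, ee_act]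
  exact (Nat.eq_of_mul_eq_mul_left ((hO.pdat C 1).e_pos θ) this).symm

include h2

theorem eq_of_cls {Λ : Th K (1 : Fˣ) → Finset ℕ} (h : ALab C.N deg n Λ) (hc : Cls C Λ Λ₀) {θ : Th K (1 : Fˣ)}
    (h0 : ww C Λ₀ (par C.p θ) = 0) : Λ θ = Λ₀ θ := by
  have P := hO.pdat C (1 : Fˣ)
  obtain ⟨a1, a2⟩ := hc _ (P.par_par θ)
  have a3 : msz C.N (par C.p) (rho C.p) Λ₀ _ = _ := msz_pl h2 hO.deg_pos (P.par_par θ)
  have a4 : rho C.p (par C.p θ) = 1 := by rw [rho, P.par_par, Nat.div_self (hO.deg_pos _)]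
  rw [a3, msz, ← add_sum_erase _ _ (a := par C.p θ) (by simp [P.par_par]), a4, one_mul] at a1
  have a5 := eq_of_wt_zero (P.e_pos _) (h.1 _) (h1.1 _) a2 h0 (by omega)
  by_cases e : par C.p θ = θ
  · rwa [e] at a5
  rw [a5, add_eq_left, sum_eq_zero_iff] at a1
  rw [h2 θ e, eq_range (h.1 θ) ((Nat.mul_eq_zero.1 (a1 θ (by simpa using Ne.symm e))).resolve_left fun e' => ?_)]
  exact (hO.deg_pos θ).ne' (by rw [P.deg_eq θ, e', zero_mul])

theorem good {b : Fˣ} (hb : b ∈ Bg C Λ₀) (hb' : ∀ θ, ww C Λ₀ θ ≠ 0 → act b θ = θ) :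
    Good C n Λ₀ (b ^ orderOf (Fintype.card F : ZMod C.p)) := by
  have P := hO.pdat C (1 : Fˣ)
  have a1 := fun θ (h : ww C Λ₀ (par C.p θ) ≠ 0) => act_pow_eq C.p hb.1 (hb' _ h)
  have a2 := pow_mem hb (orderOf (Fintype.card F : ZMod C.p))
  refine ⟨a2.1, fun Λ h hc => ?_, fun m hm θ h => ?_⟩
  · obtain ⟨Λ', e⟩ := exists_pull_of_inv (Λ := Λ) fun θ => by
      by_cases h0 : ww C Λ₀ (par C.p θ) = 0
      · rw [eq_of_cls h1 h2 h hc h0, eq_of_cls h1 h2 h hc (by rwa [par_act _ a2.1, ww_act h1 a2])]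
        by_cases e : par C.p θ = θ
        · exact eq_of_wt_zero (P.e_pos θ) (h1.1 _) (h1.1 _) (a2.2 θ).2 (e ▸ h0 :) (a2.2 θ).1.le
        · rw [h2 θ e, h2 _ ((par_act_iff _ a2.1 θ).not.2 e)]
      · rw [a1 θ h0]
    exact ⟨Λ', (hO.alab_pull (one_mem _)).1 (e ▸ h), e⟩
  · have a3 : ∀ θ, ww C Λ₀ (par C.p θ) ≠ 0 → ∀ θ' : Th K (1 : Fˣ), toTh m θ' = toTh m θ → θ' = θ :=
      fun θ h θ' e => by
        obtain ⟨j, rfl⟩ := exists_act_of_toTh_eq e.symm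
        exact act_zpowers (pow_mem hm j) (a1 θ h)
    have a4 : ∀ θ, ww C Λ₀ (par C.p θ) ≠ 0 → deg (toTh m θ) = deg θ := fun θ h => by
      rw [← hO.sum_deg_toTh (one_mem _ : (1 : Fˣ) ∈ _),
        sum_eq_single θ (fun θ' h' e => (e (a3 θ h θ' (mem_filter.1 h').2)).elim) (by simp)]
    refine ⟨?_, a3 θ h⟩
    rw [rho, rho, ← toTh_par _ (one_mem _), a4 θ h, a4 _ (by rwa [P.par_par])]

theorem card_LL_le (m : Fˣ) : Nat.card (LL C n Λ₀ m) ≤ if (pPart C.p m, pRegPart C.p m) ∈ Up C Λ₀ ×ˢ univ.filter (· ∈ Bg C Λ₀)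
    then #(fixc (Su C Λ₀ (pPart C.p m)) (act (pRegPart C.p m))) else 0 := by
  let f : (Th K m → Finset ℕ) → Th K (1 : Fˣ) → Finset ℕ :=
    fun Λ θ => if par C.p θ = θ then Λ (toTh m θ) else range C.N
  have a0 := isPRegular_pRegPart C.p m
  have a1 : ∀ Λ θ, f Λ (act (pRegPart C.p m) θ) = f Λ θ := fun Λ θ => by
    simp only [f, par_act_iff _ a0, toTh_act_of_mem (one_mem _) (pRegPart_mem_zpowers C.p m)]
  have a2 : ∀ Λ ∈ LL C n Λ₀ m, ∀ θ, (f Λ θ).card = C.N ∧ orderOf (pPart C.p m) * sz C.N (f Λ θ) = sz C.N (Λ₀ θ) ∧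
      res (ee C.p θ) (f Λ θ) = res (ee C.p θ) (Λ₀ θ) := fun Λ h θ => by
    simp only [f]
    split_ifs with e
    · obtain ⟨b1, b2⟩ := h.2.2 θ e
      have b3 : msz C.N (par C.p) (rho C.p) Λ₀ _ = _ := msz_pl h2 hO.deg_pos e
      have b4 : msz C.N (par C.p) (rho C.p) Λ _ = _ := msz_pl h.2.1 hO.deg_pos
        ((toTh_par _ (one_mem _) θ).symm.trans (congrArg _ e))
      rw [hO.msz_pull _ _ _ _ _ e, b3, b4] at b1
      exact ⟨h.1.1 _, b1, b2⟩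
    · simp [h2 θ e, sz_range]
  rcases (LL C n Λ₀ m).eq_empty_or_nonempty with h | ⟨Λ, h⟩
  · simp [h]
  have a3 : pPart C.p m ∈ Up C Λ₀ := mem_filter.2 ⟨mem_univ _, isPElt_pPart _ m, fun θ => Dvd.intro _ (a2 Λ h θ).2.1⟩
  rw [if_pos (mem_product.2 ⟨a3, mem_filter.2 ⟨mem_univ _, a0, fun θ => ⟨by rw [← (a2 Λ h _).2.1, a1, (a2 Λ h θ).2.1], by
      rw [← ee_act _ (pRegPart C.p m), ← (a2 Λ h _).2.2, a1, ee_act, (a2 Λ h θ).2.2]⟩⟩⟩), Nat.card_coe_set_eq,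
    ← Set.ncard_coe_finset]
  refine Set.ncard_le_ncard_of_injOn f (fun Λ h => mem_coe.2 (mem_fixc.2 ⟨fun θ => mem_SZ.2
    ⟨(a2 Λ h θ).1, by rw [← (a2 Λ h θ).2.1, Nat.mul_div_cancel_left _ (orderOf_pos _)], (a2 Λ h θ).2.2⟩, a1 Λ⟩))
    fun Λ h Λ' h' e => funext fun O => ?_
  by_cases e' : par C.p O = O
  · have := congrFun e (par C.p (Th.mk 1 O.rep))
    simp only [f, (hO.pdat C 1).par_par, if_true, toTh_par _ (one_mem _), hO.toTh_mk (one_mem _), Th.mk_rep, e'] at this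
    exact this
  · rw [h.2.1 O e', h'.2.1 O e']

theorem sum_le (x0 : Th K (1 : Fˣ)) : ∃ b ∈ Bg C Λ₀, (∀ θ, ww C Λ₀ θ ≠ 0 → act b θ = θ) ∧
    ∑ m : Fˣ, Nat.card (LL C n Λ₀ m) ≤ orderOf b * ∑ u ∈ Up C Λ₀,
      ∏ θ, bf (ww C Λ₀ θ ≠ 0 ∧ θ ≠ x0) (Su C Λ₀ u θ).card := by
  let _ := actMul (K := K) (1 : Fˣ)
  obtain ⟨b, hb⟩ := (Subgroup.isCyclic_iff_exists_zpowers_eq_top _).1
    (inferInstance : IsCyclic ↥(Bg C Λ₀ ⊓ fixingSubgroup Fˣ {θ | ww C Λ₀ θ ≠ 0}))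
  have hb' := hb.le (Subgroup.mem_zpowers b)
  refine ⟨b, hb'.1, fun θ h => (mem_fixingSubgroup_iff _).1 hb'.2 θ h, (sum_le_sum fun m _ => card_LL_le h1 h2 m).trans ?_⟩
  refine le_trans (le_of_eq (sum_image (g := fun m => (pPart C.p m, pRegPart C.p m)) (f := fun x =>
    if x ∈ Up C Λ₀ ×ˢ univ.filter (· ∈ Bg C Λ₀) then #(fixc (Su C Λ₀ x.1) (act x.2)) else 0)
    fun m _ m' _ e => by rw [← pPart_mul_pRegPart C.p m, (Prod.mk.inj e).1, (Prod.mk.inj e).2, pPart_mul_pRegPart]).symm) ((sum_le_sum_of_subset (subset_univ _)).trans ?_)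
  rw [sum_ite_mem, univ_inter, sum_product, mul_sum]
  rw [← Nat.card_zpowers, hb]
  exact sum_le_sum fun u _ => card_pairs (Bg C Λ₀) (Su C Λ₀ u) (ww C Λ₀ · ≠ 0)
    (fun a ha θ h => (ww_act h1 ha θ).trans_ne h) x0

theorem count {s : ℕ} (hs : 2 ≤ s) (w1 : W C Λ₀ ≤ s + 1) (w2 : ¬ C.p ∣ Fintype.card F - 1 → W C Λ₀ ≤ s)
    (w3 : Special C Λ₀ → 4 ≤ s) (hn : 0 < n) :
    ∃ m₀, Good C n Λ₀ m₀ ∧ ∑ m : Fˣ, Nat.card (LL C n Λ₀ m) ≤ orderOf m₀ * C.p ^ s := by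
  have q1 : ∀ u : Fˣ, orderOf u ∣ Fintype.card F - 1 := fun u => Fintype.card_units F ▸ orderOf_dvd_card
  have q2 : (1 : Fˣ) ∈ Up C Λ₀ := mem_filter.2 ⟨mem_univ _, isPElt_one, fun θ => by simp⟩
  by_cases hq : C.p ∣ Fintype.card F - 1
  · have a1 : (Fintype.card F : ZMod C.p) = 1 := by
      have := (ZMod.natCast_eq_zero_iff _ _).2 hq
      rwa [Nat.cast_sub Fintype.card_pos, Nat.cast_one, sub_eq_zero] at this
    have a2 : ∀ θ : Th K (1 : Fˣ), ee C.p θ = 1 := fun θ => by rw [ee, a1, one_pow, orderOf_one]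
    have a3 : ∀ θ, ww C Λ₀ θ = sz C.N (Λ₀ θ) := fun θ => by rw [ww, a2, wt_one (h1.1 θ)]
    obtain ⟨x0, -, h0⟩ := exists_ne_zero_of_sum_ne_zero (h1.2.trans_ne hn.ne')
    obtain ⟨b, b1, b2, b3⟩ := sum_le h1 h2 x0
    refine ⟨_, good h1 h2 b1 b2, b3.trans ?_⟩
    rw [a1, orderOf_one, pow_one]
    refine Nat.mul_le_mul_left _ ((sum_le_sum fun u _ => prod_le_prod' fun θ _ => ?_).trans
      (sum_Tb_le (n := fun θ => sz C.N (Λ₀ θ)) (v := orderOf) (right_ne_zero_of_mul h0) C.hp hs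
        ((sum_congr rfl fun θ _ => a3 θ).ge.trans w1) q2 orderOf_one
        (fun u hu => ⟨(mem_filter.1 hu).2.2, (mem_filter.1 hu).2.1.dvd_orderOf⟩)
        (fun m hm h => (card_le_card fun u hu => mem_filter.2 ⟨mem_univ _, orderOf_dvd_iff_pow_eq_one.1 (h u hu)⟩).trans
          (IsCyclic.card_pow_eq_one_le hm)) fun e e4 e0 => ?_))
    · rw [a3, Su, a2]
      exact bf_mono _ (card_SZ_one _ _)
    · refine (em (4 ∣ Fintype.card F - 1)).imp (fun h => w3 ⟨e, h, x0, e4, fun θ h' => eq_range (h1.1 θ) (e0 θ h')⟩)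
        fun h u hu => ?_
      obtain ⟨j, hj, e'⟩ := (Nat.dvd_prime_pow Nat.prime_two (m := 2)).1 (e4 ▸ (mem_filter.1 hu).2.2 x0 :)
      have := q1 u
      rw [e'] at this ⊢
      interval_cases j
      exacts [by decide, by decide, (h this).elim]
  have a1 : Up C Λ₀ = {1} := eq_singleton_iff_unique_mem.2 ⟨q2, fun u hu => by_contra fun h =>
    hq (((mem_filter.1 hu).2.1.dvd_orderOf h).trans (q1 u))⟩
  have a2 : orderOf (Fintype.card F : ZMod C.p) ∣ C.p - 1 := ZMod.orderOf_dvd_card_sub_one fun h => by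
    obtain ⟨k, hk, e⟩ := FiniteField.card F (ringChar F)
    exact C.p_ne ((Nat.prime_dvd_prime_iff_eq C.hp hk).1 (C.hp.dvd_of_dvd_pow (e ▸ (ZMod.natCast_eq_zero_iff _ _).1 h)))
  have a3 := C.hp.one_lt
  have a4 := Nat.le_of_dvd (by omega) a2
  have a5 := Nat.pos_of_dvd_of_pos a2 (by omega)
  obtain ⟨x0, h0⟩ : ∃ x0, (∃ θ, ww C Λ₀ θ ≠ 0) → ww C Λ₀ x0 ≠ 0 := by
    by_cases h : ∃ θ, ww C Λ₀ θ ≠ 0
    · exact h.imp fun _ h _ => h
    · exact ⟨Th.mk 1 1, fun h' => (h h').elim⟩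
  obtain ⟨b, b1, b2, b3⟩ := sum_le h1 h2 x0
  refine ⟨_, good h1 h2 b1 b2, b3.trans ?_⟩
  generalize ho : orderOf (Fintype.card F : ZMod C.p) = o at *
  have a6 := Nat.gcd_pos_of_pos_right (orderOf b) a5
  have a7 : ∀ θ, ww C Λ₀ θ = 0 → (Su C Λ₀ 1 θ).card ≤ 1 := fun θ h => card_le_one_iff_subset_singleton.2 ⟨Λ₀ θ,
    fun T hT => mem_singleton.2 (eq_of_wt_zero ((hO.pdat C 1).e_pos θ) (mem_SZ.1 hT).1 (h1.1 θ) (mem_SZ.1 hT).2.2 h
      ((mem_SZ.1 hT).2.1.le.trans (Nat.div_le_self _ _)))⟩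
  have a8 : ∀ θ, ww C Λ₀ θ ≠ 0 → (orderOf b).gcd o * (Su C Λ₀ 1 θ).card < C.p ^ ww C Λ₀ θ := fun θ h => by
    obtain ⟨w, e⟩ := Nat.exists_eq_add_one_of_ne_zero h
    have c1 := card_SZ_le ((hO.pdat C 1).e_pos θ) (h1.1 θ) e
    have c2 : (orderOf b).gcd o * ee C.p θ ≤ o := by
      rw [ee, orderOf_one, Nat.div_one, orderOf_pow' _ (hO.deg_pos θ).ne', ho]
      exact (Nat.mul_le_mul_right _ (Nat.le_of_dvd (Nat.gcd_pos_of_pos_left _ a5) (Nat.dvd_gcd (Nat.gcd_dvd_right _ _)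
        ((Nat.gcd_dvd_left _ _).trans (dvd_deg (b2 θ h)))))).trans (Nat.mul_div_le _ _)
    have c3 := Nat.pow_le_pow_left (show ee C.p θ + 1 ≤ C.p by
      have := Nat.le_mul_of_pos_left (ee C.p θ) a6; omega) w
    rw [Su, orderOf_one, Nat.div_one, e, pow_succ']
    refine (Nat.mul_le_mul_left _ c1).trans_lt ?_
    rw [← mul_assoc]
    exact Nat.mul_lt_mul_of_lt_of_le (by omega) c3 (by positivity)
  rw [a1, sum_singleton, orderOf_pow' _ a5.ne']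
  nth_rewrite 1 [← Nat.div_mul_cancel (Nat.gcd_dvd_left (orderOf b) o)]
  rw [mul_assoc]
  refine Nat.mul_le_mul_left _ ?_
  by_cases h : ∃ θ, ww C Λ₀ θ ≠ 0
  · have := prod_le (a := fun θ => if θ = x0 then (orderOf b).gcd o else 1) (b := fun _ => 1)
      (g := fun θ => C.p ^ ww C Λ₀ θ) (f := fun θ => bf (ww C Λ₀ θ ≠ 0 ∧ θ ≠ x0) (Su C Λ₀ 1 θ).card) fun θ => by
      by_cases e : θ = x0
      · simpa [e, bf] using (a8 x0 (h0 h)).le
      by_cases e' : ww C Λ₀ θ = 0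
      · simpa [e, e', bf] using a7 θ e'
      · simpa [e, e', bf] using (Nat.le_mul_of_pos_left _ a6).trans_lt (a8 θ e')
    rw [prod_ite_eq', if_pos (mem_univ _), prod_const_one, one_mul, prod_pow_eq_pow_sum] at this
    exact this.trans (Nat.pow_le_pow_right C.hp.pos (w2 hq))
  · push Not at h
    refine (Nat.mul_le_mul (Nat.le_of_dvd a5 (Nat.gcd_dvd_right _ _)) (prod_le_one' fun θ _ => ?_)).trans
      (by have := Nat.le_self_pow (show s ≠ 0 by omega) C.p; omega)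
    simpa [h θ, bf] using a7 θ (h θ)

end CnB

instance instCntB [Orb.{u}] : CntB.{u} :=
  ⟨fun _ _ _ _ h1 h2 _ hs w1 w2 w3 hn => CnB.count h1 h2 hs w1 w2 w3 hn⟩

end GLH
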