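import Cfsg.Agent.Lib.GL.Defs
import Cfsg.Agent.Lib.Block.Cover
import Mathlib.FieldTheory.Finite.Basic

/-!
# The big field, the pairing between `F_{q^n}ˣ` and itself, orbits, truncation
-/

set_option autoImplicit false
set_option linter.unusedSectionVars false

namespace GLH

open Finset Matrix Polynomial Cfsg
open scoped Classical

universe u

variable {F : Type u} [Field F] [Fintype F]

theorem cat_mul {a b : ℕ} (A A' : Mat F a) (B B' : Matrix (Fin a) (Fin b) F) (D D' : Mat F b) :
    cat A B D * cat A' B' D' = cat (A * A') (A * B' + B * D') (D * D') := by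
  simp [cat, fromBlocks_multiply]

theorem cat_one {a b : ℕ} : cat (1 : Mat F a) 0 (1 : Mat F b) = 1 := by simp [cat]

theorem exists_cat_pow {a b : ℕ} (A : Mat F a) (B : Matrix (Fin a) (Fin b) F) (D : Mat F b)
    (k : ℕ) : ∃ B', cat A B D ^ k = cat (A ^ k) B' (D ^ k) := by
  induction k with
  | zero => exact ⟨0, by simp [cat_one]⟩
  | succ k ih =>
    obtain ⟨B', h⟩ := ih
    exact ⟨_, by rw [pow_succ, h, cat_mul, ← pow_succ, ← pow_succ]⟩

theorem cat_one_pow {a b : ℕ} (B : Matrix (Fin a) (Fin b) F) (k : ℕ) :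
    cat (1 : Mat F a) B (1 : Mat F b) ^ k = cat 1 ((k : F) • B) 1 := by
  induction k with
  | zero => simp [cat_one]
  | succ k ih => rw [pow_succ, ih, cat_mul]; simp [add_smul, add_comm]

theorem dvd_orderOf_cat {p : ℕ} (hp : p.Prime) (h : p ≠ ringChar F) {a b : ℕ} (A : Mat F a)
    (B : Matrix (Fin a) (Fin b) F) (D : Mat F b) :
    p ∣ orderOf (cat A B D) ↔ p ∣ orderOf A ∨ p ∣ orderOf D := by
  constructor
  · intro hd
    obtain ⟨B', hB⟩ := exists_cat_pow A B D (orderOf A * orderOf D)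
    rw [pow_mul A, pow_orderOf_eq_one, one_pow, mul_comm (orderOf A), pow_mul D,
      pow_orderOf_eq_one, one_pow] at hB
    have h1 : cat A B D ^ (orderOf D * orderOf A * ringChar F) = 1 := by
      rw [pow_mul, hB, cat_one_pow]; simp [cat_one]
    have h2 := hd.trans (orderOf_dvd_of_pow_eq_one h1)
    rcases (Nat.Prime.dvd_mul hp).1 h2 with h3 | h3
    · exact ((Nat.Prime.dvd_mul hp).1 h3).symm
    · exact absurd ((Nat.prime_dvd_prime_iff_eq hp (CharP.prime_ringChar F)).1 h3) h
  · obtain ⟨B', hB⟩ := exists_cat_pow A B D (orderOf (cat A B D))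
    rw [pow_orderOf_eq_one, ← cat_one] at hB
    have hA := congrArg (fun M => blk M 0 a) hB
    have hD := congrArg (fun M => blk M a b) hB
    simp only [blk_cat_left, blk_cat_right] at hA hD
    rintro (h | h)
    · exact h.trans (orderOf_dvd_of_pow_eq_one hA.symm)
    · exact h.trans (orderOf_dvd_of_pow_eq_one hD.symm)

theorem orderOf_cnj {n : ℕ} (h : G F n) (M : Mat F n) : orderOf (cnj h M) = orderOf M := by
  have : SemiconjBy h.1 (cnj h M) M := by
    simp [SemiconjBy, cnj, ← Matrix.mul_assoc]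
  refine Nat.dvd_antisymm (orderOf_dvd_of_pow_eq_one ?_) (orderOf_dvd_of_pow_eq_one ?_)
  · have h1 := this.pow_right (orderOf M)
    rw [SemiconjBy, pow_orderOf_eq_one, one_mul] at h1
    exact (Units.mul_right_inj h).1 (by rw [h1, mul_one])
  · have h1 := this.pow_right (orderOf (cnj h M))
    rw [SemiconjBy, pow_orderOf_eq_one, mul_one] at h1
    exact (Units.mul_left_inj h).1 (by rw [← h1, one_mul])

/-- the indicator of the `p`-regular invertible matrices -/
noncomputable def MF.reg (p : ℕ) (hp : p.Prime) (h : p ≠ ringChar F) : MF F where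
  c := fun _ M => if p ∣ orderOf M then 0 else 1
  conj := fun _ g M => by rw [orderOf_cnj]
  cat := fun _ _ A B D => by
    simp only [dvd_orderOf_cat hp h]
    by_cases hA : p ∣ orderOf A <;> by_cases hD : p ∣ orderOf D <;> simp [hA, hD]
  zero := fun M => by
    rw [Mat_zero_eq M, orderOf_one, if_neg fun h => hp.one_lt.ne' (Nat.dvd_one.1 h)]

variable (F) in
/-- all choices: a bound `N`, a big field `K`, faithful characters, the prime `p` -/
structure Ctx (K : Type) [Field K] [Fintype K] [Algebra F K] where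
  /-- bound for the degrees and number of beads -/
  N : ℕ
  N_pos : 0 < N
  big : ∀ d, 0 < d → d ≤ N → d ∣ Module.finrank F K
  /-- generator of `Kˣ` -/
  g : Kˣ
  gen : ∀ x : Kˣ, x ∈ Subgroup.zpowers g
  /-- faithful character of `Kˣ` -/
  ω : Kˣ →* ℂˣ
  ω_inj : Function.Injective ω
  /-- nontrivial additive character -/
  ψ : AddChar F ℂ
  ψ_ne : ψ ≠ 1
  /-- the prime -/
  p : ℕ
  hp : p.Prime
  p_ne : p ≠ ringChar F
  /-- the maximal ideal -/
  M : Ideal AlgInt
  hM : IsPModular p M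

variable {K : Type} [Field K] [Fintype K] [Algebra F K]

instance Ctx.fact_prime (C : Ctx F K) : Fact C.p.Prime := ⟨C.hp⟩

variable (K) in
/-- `Fˣ → Kˣ` -/
def emb : Fˣ →* Kˣ := Units.map (algebraMap F K : F →* K)

variable (F K) in
/-- the units of the subfield with `q ^ n` elements -/
noncomputable def XX (n : ℕ) : Finset Kˣ := univ.filter fun x => x ^ Fintype.card F ^ n = x

variable (F) in
/-- the minimal polynomial of `x` to the power making its degree `n` -/
noncomputable def mp (n : ℕ) (x : Kˣ) : F[X] :=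
  minpoly F (x : K) ^ (n / (minpoly F (x : K)).natDegree)

namespace Ctx
variable (C : Ctx F K)

/-- generator of `XX F K n` -/
def γ (n : ℕ) : Kˣ := C.g ^ ((Fintype.card K - 1) / (Fintype.card F ^ n - 1))

/-- discrete logarithm -/
noncomputable def dl (n : ℕ) (ξ : Kˣ) : ℕ := if h : ∃ a : ℕ, C.γ n ^ a = ξ then Nat.find h else 0

/-- the pairing on `XX F K n` -/
noncomputable def pr (n : ℕ) (ξ x : Kˣ) : ℂ := (C.ω x ^ C.dl n ξ : ℂˣ)

/-- the character of `Fˣ` attached to `m` -/
noncomputable def mu (m : Fˣ) : Fˣ →* ℂˣ := (C.ω.comp (emb K)) ^ C.dl 1 (emb K m)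

/-- truncation to the `p`-regular elements -/
noncomputable def reg : MF F := MF.reg C.p C.hp C.p_ne

end Ctx

variable (K) in
/-- the orbit relation of Frobenius and multiplication by `m` -/
def rel (m : Fˣ) (ξ η : Kˣ) : Prop := ∃ i j : ℕ, η = emb K m ^ j * ξ ^ Fintype.card F ^ i

variable (K) in
/-- the orbits -/
def Th (m : Fˣ) : Type := Quot (rel K m)

/-- the orbit of `ξ` -/
def Th.mk (m : Fˣ) (ξ : Kˣ) : Th K m := Quot.mk _ ξ

/-- a representative -/
noncomputable def Th.rep {m : Fˣ} (O : Th K m) : Kˣ := Quot.out O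

theorem Th.mk_rep {m : Fˣ} (O : Th K m) : Th.mk m O.rep = O := Quot.out_eq O

noncomputable instance instFintypeTh (m : Fˣ) : Fintype (Th K m) :=
  @Fintype.ofFinite _ (Quot.finite _)

/-- the length of an orbit -/
noncomputable def deg {m : Fˣ} (O : Th K m) : ℕ := (univ.filter fun ξ => Th.mk m ξ = O).card

/-- the orbit of the `p'`-part -/
noncomputable def par (p : ℕ) {m : Fˣ} (O : Th K m) : Th K m := Th.mk m (GT.pRegPart p O.rep)

/-- the relative degree -/
noncomputable def rho (p : ℕ) {m : Fˣ} (O : Th K m) : ℕ := deg O / deg (par p O)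

/-- the hook length of an orbit -/
noncomputable def ee (p : ℕ) {m : Fˣ} (O : Th K m) : ℕ :=
  orderOf ((Fintype.card F : ZMod p) ^ (deg O / orderOf m))

/-- passage to the orbits of `m'` (meaningful when `m` is a power of `m'`) -/
noncomputable def toTh {m : Fˣ} (m' : Fˣ) (O : Th K m) : Th K m' := Th.mk m' O.rep

/-- multiplication by an element of `Fˣ` -/
noncomputable def act (z : Fˣ) {m : Fˣ} (O : Th K m) : Th K m := Th.mk m (emb K z * O.rep)

/-- `χ` is fixed by `μ ∘ det` -/
def Fix (μ : Fˣ →* ℂˣ) {n : ℕ} (χ : G F n → ℂ) : Prop := ∀ g, dt μ g * χ g = χ g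

/-- the line of `H μ` attached to `χ` -/
noncomputable def Ln (μ : Fˣ →* ℂˣ) {n : ℕ} (χ : G F n → ℂ) : Submodule ℂ (H μ) :=
  Submodule.span ℂ {y | ∃ θ : IrrCharacter (NR μ.ker n), CT.LiesOver (NR μ.ker n) χ θ.1 ∧
    y = tw μ θ.1}

/-- the sum of the lines of the `μ`-fixed irreducible characters satisfying `Q` -/
noncomputable def Lns (μ : Fˣ →* ℂˣ) (n : ℕ) (Q : IrrCharacter (G F n) → Prop) :
    Submodule ℂ (H μ) := ⨆ (χ : IrrCharacter (G F n)) (_ : Fix μ χ.1 ∧ Q χ), Ln μ χ.1

theorem ctx_realise_eqns : True := by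
  have := @emb.eq_1.{0}
  have := @XX.eq_1.{0}
  have := @mp.eq_1.{0}
  have := @Ctx.γ.eq_1.{0}
  have := @Ctx.dl.eq_1.{0}
  have := @Ctx.pr.eq_1.{0}
  have := @Ctx.mu.eq_1.{0}
  have := @Ctx.reg.eq_1.{0}
  have := @rel.eq_1.{0}
  have := @Th.mk.eq_1.{0}
  have := @Th.rep.eq_1.{0}
  have := @deg.eq_1.{0}
  have := @par.eq_1.{0}
  have := @rho.eq_1.{0}
  have := @ee.eq_1.{0}
  have := @toTh.eq_1.{0}
  have := @act.eq_1.{0}
  have := @Fix.eq_1.{0}
  have := @Ln.eq_1.{0}
  have := @Lns.eq_1.{0}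
  trivial

end GLH
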