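import Cfsg.Agent.Lib.GL.DefB

/-!
# S4536, package G6: weights and the hook step
-/

set_option autoImplicit false
set_option linter.unusedSectionVars false

namespace GLH.Df

open Finset Matrix Polynomial Cfsg GT SFock CT BT
open scoped Classical ComplexConjugate

universe u

attribute [local irreducible] hmul gg

theorem wt_range (j N : ℕ) : wt j (range N) = 0 :=
  sum_eq_zero fun _ hx => card_eq_zero.2 (filter_eq_empty_iff.2 fun _ hy h =>
    h.2 (mem_range.2 ((mem_range.1 hy).trans (mem_range.1 hx))))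

theorem two_mul_d0 (N : ℕ) : 2 * d0 N + N = N * N := by
  induction N with
  | zero => simp [d0]
  | succ N ih =>
    rw [d0, sum_range_succ, ← d0]
    nlinarith

theorem sum_eq_sz {N : ℕ} {S : Finset ℕ} (h : S.card = N) : ∑ x ∈ S, x = d0 N + sz N S := by
  have h1 := d0_le_sum (en_strictMono h).injective
  have h2 : ∑ x ∈ S, x = ∑ i, en N S i := by
    conv_lhs => rw [← image_en h]
    exact sum_image fun x _ y _ hxy => (en_strictMono h).injective hxy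
  rw [sz]
  omega

theorem wt_one {N : ℕ} {S : Finset ℕ} (h : S.card = N) : wt 1 S = sz N S := by
  have h1 := sum_eq_wt one_pos S
  have h2 := two_mul_sum_rk 1 S
  have h3 : SFock.res 1 S = Multiset.replicate N 0 := by
    rw [Multiset.eq_replicate]
    refine ⟨by simp [SFock.res, h], fun b hb => ?_⟩
    obtain ⟨x, -, rfl⟩ := Multiset.mem_map.1 hb
    exact Nat.mod_one x
  rw [h3] at h2
  simp only [Multiset.map_replicate, Multiset.count_replicate_self, Multiset.sum_replicate,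
    smul_eq_mul] at h2
  simp only [Nat.mod_one, zero_add, one_mul] at h1
  have h4 := sum_eq_sz h
  have h5 := two_mul_d0 N
  omega

theorem wt_two_ne {N : ℕ} {S : Finset ℕ} (h : S.card = N) (hs : sz N S = 2 ∨ sz N S = 4) :
    wt 2 S ≠ 0 := by
  intro h0
  have h1 := sum_eq_wt two_pos S
  have h2 := two_mul_sum_rk 2 S
  have h3 : SFock.res 2 S = Multiset.replicate ((SFock.res 2 S).count 0) 0 +
      Multiset.replicate ((SFock.res 2 S).count 1) 1 := by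
    ext c
    rw [Multiset.count_add, Multiset.count_replicate, Multiset.count_replicate]
    by_cases c0 : c = 0
    · simp [c0]
    by_cases c1 : c = 1
    · simp [c1]
    rw [if_neg (Ne.symm c0), if_neg (Ne.symm c1), add_zero, Multiset.count_eq_zero]
    intro hc
    obtain ⟨x, -, rfl⟩ := Multiset.mem_map.1 hc
    omega
  have h6 : ∑ x ∈ S, x % 2 = (SFock.res 2 S).sum := rfl
  have h7 : (SFock.res 2 S).card = N := by simp [SFock.res, h]
  generalize (SFock.res 2 S).count 0 = a at h3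
  generalize (SFock.res 2 S).count 1 = b at h3
  rw [h3] at h2 h6 h7
  simp [Multiset.count_replicate] at h2 h6 h7
  rw [sum_add_distrib, ← mul_sum, h0, h6] at h1
  have h4 := sum_eq_sz h
  have h5 := two_mul_d0 N
  subst h7
  have h8 : (2 * sz (a + b) S : ℤ) = ((a : ℤ) - b) * ((a : ℤ) - b - 1) := by
    zify at h1 h2 h4 h5 h
    nlinarith
  generalize (a : ℤ) - b = t at h8
  have h9 : t * (t - 1) = 4 ∨ t * (t - 1) = 8 := by omega
  have l1 : t ≤ 4 := by rcases h9 with h9 | h9 <;> nlinarith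
  have l2 : -4 ≤ t := by rcases h9 with h9 | h9 <;> nlinarith
  interval_cases t <;> omega

theorem wt_succ {N j : ℕ} (hj : 0 < j) {S T : Finset ℕ} (hS : S.card = N) (hT : T.card = N)
    (h : SFock.res j S = SFock.res j T) (hs : sz N T = sz N S + j) : wt j T = wt j S + 1 := by
  have h1 := sum_eq_wt hj S
  have h2 := sum_eq_wt hj T
  have h3 := two_mul_sum_rk j S
  have h4 := two_mul_sum_rk j T
  have h6 : ∑ x ∈ S, x % j = ∑ x ∈ T, x % j := congrArg Multiset.sum h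
  rw [h] at h3
  have h7 : ∑ x ∈ S, rk j S x = ∑ x ∈ T, rk j T x := by omega
  rw [Finset.sum_add_distrib, ← Finset.mul_sum] at h1 h2
  rw [h7, h6] at h1
  have h8 := sum_eq_sz hS
  have h9 := sum_eq_sz hT
  exact Nat.eq_of_mul_eq_mul_left hj (by rw [mul_add]; omega)

variable {F : Type u} [Field F] [Fintype F] {K : Type} [Field K] [Fintype K] [Algebra F K]
variable [hA : HallA F] [hB : HallB F] [hO : Orb.{u}] [hS : AbsA.{u}] [hT : AbsB.{u}]
variable {C : Ctx F K} {π : Th K (1 : Fˣ) → ℕ → H (1 : Fˣ →* ℂˣ)}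

theorem cf_sum {ι : Type*} (s : Finset ι) (f : ι → H (1 : Fˣ →* ℂˣ)) (n : ℕ) :
    H.cf (∑ i ∈ s, f i) n = ∑ i ∈ s, H.cf (f i) n := by
  induction s using Finset.induction_on with
  | empty => rfl
  | insert a s ha ih => rw [sum_insert ha, sum_insert ha, cf_add, ih]

/-- expansion in the irreducible characters -/
theorem mem_span_of_Hn (hb : Base C π) {n : ℕ} (hn : n ≤ C.N) {f : H (1 : Fˣ →* ℂˣ)}
    (hf : f ∈ Hn 1 n) : f ∈ Submodule.span ℂ
      {y | ∃ Λ, ALab C.N deg n Λ ∧ ipH n f (sL C.N π Λ) ≠ 0 ∧ y = sL C.N π Λ} := by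
  choose L h1 h2 using hb.all n hn
  have : f = ∑ χ : IrrCharacter (G F n), ip (H.cf f n) χ.1 • sL C.N π (L χ) := by
    refine eq_of_cf hf (Submodule.sum_mem _ fun χ _ =>
      Submodule.smul_mem _ _ (hb.toModel.sL_mem hn (h1 χ))) ?_
    rw [cf_sum]
    conv_lhs => rw [(hA.isClassFunction_cf f n).eq_sum_irr]
    exact sum_congr rfl fun χ _ => by rw [cf_smul, ← h2]
  rw [this]
  refine Submodule.sum_mem _ fun χ _ => ?_
  by_cases h0 : ip (H.cf f n) χ.1 = 0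
  · rw [h0, zero_smul]; exact zero_mem _
  · refine Submodule.smul_mem _ _ (Submodule.subset_span ⟨L χ, h1 χ, ?_, rfl⟩)
    rw [← this, ipH, ← h2]
    exact h0

theorem exists_of_ne_zero (hb : Base C π) {n : ℕ} (hn : n ≤ C.N) {f : H (1 : Fˣ →* ℂˣ)}
    (hf : f ∈ Hn 1 n) (L : H (1 : Fˣ →* ℂˣ) →ₗ[ℂ] ℂ) (h : L f ≠ 0) :
    ∃ Λ, ALab C.N deg n Λ ∧ ipH n f (sL C.N π Λ) ≠ 0 ∧ L (sL C.N π Λ) ≠ 0 := by
  by_contra! hc
  refine h ((Submodule.span_le.2 ?_ : _ ≤ LinearMap.ker L) (mem_span_of_Hn hb hn hf))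
  rintro _ ⟨Λ, a1, a2, rfl⟩
  exact hc Λ a1 a2

/-- `x ↦ ⟨x * g, y⟩` -/
noncomputable def mulIp (n : ℕ) (g y : H (1 : Fˣ →* ℂˣ)) : H (1 : Fˣ →* ℂˣ) →ₗ[ℂ] ℂ :=
  (ipL n y).comp (LinearMap.mulRight ℂ g)

theorem mulIp_apply (n : ℕ) (g y x : H (1 : Fˣ →* ℂˣ)) : mulIp n g y x = ipH n (x * g) y := rfl

theorem par_eq_of_ne {Λ : Th K (1 : Fˣ) → Finset ℕ} (hPL : PL C.N (par C.p) Λ)
    {θ : Th K (1 : Fˣ)} (h : Λ θ ≠ range C.N) : par C.p θ = θ := by
  by_contra h1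
  exact h (hPL θ h1)

/-- the product formula on `p`-regular times `p`-singular elements -/
theorem ip_mul_eq {a b : ℕ} {f g : H (1 : Fˣ →* ℂˣ)} (hf : f ∈ Hn 1 a) (hg : g ∈ Hn 1 b)
    (y : H (1 : Fˣ →* ℂˣ)) (h1 : ∀ D : G F a, f.1 a D.1 ≠ 0 → IsPRegular C.p D)
    (h2 : ∀ A : G F b, g.1 b A.1 ≠ 0 → IsUnit ((pPart C.p A).1 - 1)) :
    ipH (a + b) (f * g) y =
      ip (prodFun (H.cf f a) (H.cf g b)) fun x => H.cf y (a + b) (dg a b x) := by
  rw [hA.adj hf hg, ip_def, Nat.card_prod, Nat.cast_mul, Fintype.sum_prod_type]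
  congr 1
  refine sum_congr rfl fun D _ => sum_congr rfl fun A _ => ?_
  simp only [prodFun_apply, H.cf]
  by_cases e1 : f.1 a D.1 = 0
  · simp [e1]
  by_cases e2 : g.1 b A.1 = 0
  · simp [e2]
  rw [cop_eq y (h1 D e1) (h2 A e2), dg_val]

theorem reg_of_ne {n : ℕ} (f : H (1 : Fˣ →* ℂˣ)) (D : G F n)
    (h : (mulOp C.reg f).1 n D.1 ≠ 0) : IsPRegular C.p D := by
  have := congrFun (cf_reg' C f n) D
  rw [pRegularPart_apply] at this
  intro hd
  rw [if_pos hd] at this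
  exact h this

/-- removing a hook -/
theorem hook (hb : Base C π) {n : ℕ} (hn : n ≤ C.N) {Λ : Th K (1 : Fˣ) → Finset ℕ}
    (hΛ : ALab C.N deg n Λ) (hPL : PL C.N (par C.p) Λ) {θ : Th K (1 : Fˣ)} {j : ℕ} (hj : 0 < j)
    (hw : wt j (Λ θ) ≠ 0) {ζ : Kˣ} (hζ : ζ ∈ XX F K (j * deg θ)) (hζp : IsPElt C.p ζ)
    (hζ1 : ζ ≠ 1) :
    ∃ n' Λ₁, n = n' + j * deg θ ∧ ALab C.N deg n' Λ₁ ∧ (∀ i, i ≠ θ → Λ₁ i = Λ i) ∧
      SFock.res j (Λ₁ θ) = SFock.res j (Λ θ) ∧ sz C.N (Λ θ) = sz C.N (Λ₁ θ) + j ∧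
      ∃ (A : G F (j * deg θ)) (x : Kˣ), pPart C.p x = ζ ∧ A.1.charpoly = mp F (j * deg θ) x ∧
        ip (pRegularPart C.p (H.cf (sL C.N π Λ₁) n'))
          (fun D => H.cf (sL C.N π Λ) (n' + j * deg θ) (dg _ _ (D, A))) ≠ 0 := by
  have hθ : par C.p θ = θ := par_eq_of_ne hPL fun h => hw (by rw [h, wt_range])
  obtain ⟨n', Λ', rfl, a1, -, a2⟩ := hS.exists_hook hb.sys hn hj hΛ hw
  have hn' : n' ≤ C.N := by omega
  have hk : j * deg θ ≤ C.N := by omega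
  have hk0 : 0 < j * deg θ := Nat.mul_pos hj (hO.deg_pos θ)
  obtain ⟨ϖ, c, hc, b1, b2, b3⟩ := hb.sing θ j ζ hθ hj hk hζ hζp
  obtain ⟨Dr, d1, -, d2, -⟩ := hB.der hk0 (hb.sys.prim θ j hj hk)
  have hχ := hb.toModel.sL_mem hn hΛ
  set z := Dr (sL C.N π Λ) with hz
  have hzm : z ∈ Hn 1 n' := d2 n' _ hχ
  have hook' : ∀ Λ₁, ALab C.N deg n' Λ₁ → ipH n' z (sL C.N π Λ₁) ≠ 0 →
      (∀ i, i ≠ θ → Λ₁ i = Λ i) ∧ SFock.res j (Λ₁ θ) = SFock.res j (Λ θ) ∧
        sz C.N (Λ θ) = sz C.N (Λ₁ θ) + j := by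
    intro Λ₁ h1 h2
    rw [Ne, ipH_eq_zero_comm, hz, ← d1 n' _ _ (hb.toModel.sL_mem hn' h1)] at h2
    exact hS.hook_res hb.sys hj hn h1 hΛ h2
  have hz0 : z ≠ 0 := by
    intro h0
    apply a2
    have := d1 n' _ (sL C.N π Λ) (hb.toModel.sL_mem hn' a1)
    rw [← hz, h0, ipH_zero_right] at this
    exact this
  have hTz : mulOp C.reg z ≠ 0 := by
    intro h0
    refine hz0 (hT.T_inj hb.sys (hO.pdat C 1) hb.tsys hn' ?_ h0)
    refine Submodule.span_mono ?_ (mem_span_of_Hn hb hn' hzm)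
    rintro _ ⟨Λ₁, h1, h2, rfl⟩
    refine ⟨Λ₁, h1, fun i hi => ?_, rfl⟩
    rw [(hook' Λ₁ h1 h2).1 i (by rintro rfl; exact hi hθ), hPL i hi]
  have hTm : mulOp C.reg z ∈ Hn 1 n' := mulL_Hn _ hzm
  have h3 : ipL n' (mulOp C.reg z) z ≠ 0 := by
    intro h0
    refine hTz (hA.eq_zero hTm ?_)
    rw [ipL_apply] at h0
    rw [mulOp_eq, Ctx.reg, ipH_reg, reg_reg]
    exact h0
  obtain ⟨Λ₁, c1, c2, c3⟩ := exists_of_ne_zero hb hn' hzm _ h3
  obtain ⟨c4, c5, c6⟩ := hook' Λ₁ c1 c2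
  have hx : mulOp C.reg (sL C.N π Λ₁) ∈ Hn 1 n' := mulL_Hn _ (hb.toModel.sL_mem hn' c1)
  have h4 : ipH (n' + j * deg θ) (mulOp C.reg (sL C.N π Λ₁) * π θ j) (sL C.N π Λ) ≠ 0 := by
    rw [d1 n' _ _ hx, ← hz, mulOp_eq, Ctx.reg, ipH_reg]
    exact c3
  have h5 : ipH (n' + j * deg θ) (mulOp C.reg (sL C.N π Λ₁) * (ϖ - c • π θ j))
      (sL C.N π Λ) = 0 := by
    rw [mul_comm (mulOp C.reg (sL C.N π Λ₁)), ← mulIp_apply]
    refine (Submodule.span_le.2 ?_ : _ ≤ LinearMap.ker (mulIp _ _ _)) b2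
    rintro _ ⟨θ', k, e1, e2, rfl⟩
    by_contra h0
    rw [SetLike.mem_coe, LinearMap.mem_ker, mulIp_apply, mul_comm (π θ' k),
      ← mulIp_apply] at h0
    obtain ⟨Λ₂, f1, -, f2⟩ := exists_of_ne_zero hb hn' hx _ h0
    rw [mulIp_apply, ← e2] at f2
    have hk1 : 0 < k := Nat.pos_of_ne_zero fun h => by rw [h] at e2; omega
    have := (hS.hook_res hb.sys hk1 (by rw [e2]; exact hn) f1 (by rw [e2]; exact hΛ) f2).2.2
    rw [(hS.sz_eq_zero (hΛ.1 θ')).2 (hPL θ' e1)] at this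
    omega
  rw [mul_sub, ipH_sub_left, mul_smul_comm, ipH_smul_left, sub_eq_zero] at h5
  have h6 := mul_ne_zero hc h4
  rw [← h5, ip_mul_eq hx b1 _ (reg_of_ne _) (fun A hA' => by
    obtain ⟨x, -, e1, e2⟩ := b3 _ hA'
    exact isUnit_pPart_sub e2 (by rwa [e1])), ip_prod, ip_def] at h6
  obtain ⟨A, -, hA'⟩ := exists_ne_zero_of_sum_ne_zero (right_ne_zero_of_mul h6)
  obtain ⟨x, -, e1, e2⟩ := b3 _ (left_ne_zero_of_mul hA')
  refine ⟨n', Λ₁, rfl, c1, c4, c5, c6, A, x, e1, e2, ?_⟩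
  have := right_ne_zero_of_mul hA'
  rwa [conj_ip, cf_reg'] at this

end GLH.Df
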