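import Cfsg.Agent.Lib.GL.DefC

/-!
# S4536, package G6: elementary abelian subgroups of defect groups
-/

set_option autoImplicit false
set_option linter.unusedSectionVars false

namespace GLH.Df

open Finset Matrix Polynomial Cfsg GT SFock CT BT
open scoped Classical ComplexConjugate

universe u

attribute [local irreducible] hmul gg

theorem isClassFunction_shift {Γ Δ : Type*} [Group Γ] [Group Δ] {χ : Γ → ℂ}
    (hχ : IsClassFunction Γ χ) (φ : Δ →* Γ) {u : Γ}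
    (h : φ.range = Subgroup.centralizer ({u} : Set Γ)) :
    IsClassFunction Δ fun g => χ (u * φ g) := by
  intro g x
  have h1 : φ x ∈ Subgroup.centralizer ({u} : Set Γ) := h ▸ ⟨x, rfl⟩
  rw [Subgroup.mem_centralizer_singleton_iff] at h1
  beta_reduce
  rw [map_mul, map_mul, map_inv, ← hχ (u * φ g) (φ x), ← mul_assoc, ← mul_assoc, ← h1,
    mul_assoc (φ x)]

theorem pPart_prod {Γ Δ : Type*} [Group Γ] [Finite Γ] [Group Δ] [Finite Δ] (p : ℕ)
    [Fact p.Prime] (g : Γ) (h : Δ) : pPart p (g, h) = (pPart p g, pPart p h) :=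
  Prod.ext (map_pPart (p := p) (MonoidHom.fst Γ Δ) (g, h))
    (map_pPart (p := p) (MonoidHom.snd Γ Δ) (g, h))

theorem ip_shift {Γ : Type*} [Group Γ] [Finite Γ] (c : Γ) (α β : Γ → ℂ) :
    ip (fun g => α (c * g)) (fun g => β (c * g)) = ip α β := by
  have := Fintype.ofFinite Γ
  rw [ip_def, ip_def]
  congr 1
  exact Equiv.sum_comp (Equiv.mulLeft c) fun g => α g * conj (β g)

theorem sz_range (N : ℕ) : sz N (range N) = 0 := by simp [sz, d0]

theorem eq_of_single {ι : Type*} [Fintype ι] {N n : ℕ} {d : ι → ℕ} {Λ : ι → Finset ℕ}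
    (h : ALab N d n Λ) {i : ι} (h' : ∀ j, j ≠ i → Λ j = range N) : n = d i * sz N (Λ i) := by
  rw [← h.2]
  exact Fintype.sum_eq_single i fun j hj => by rw [h' j hj, sz_range, mul_zero]

variable {F : Type u} [Field F] [Fintype F] {K : Type} [Field K] [Fintype K] [Algebra F K]

theorem mem_NR_conj {R : Subgroup Fˣ} {n : ℕ} {g : G F n} (hg : g ∈ NR R n) (x : G F n) :
    x * g * x⁻¹ ∈ NR R n := (normal_NR R n).conj_mem g hg x

theorem mem_NR {R : Subgroup Fˣ} {n : ℕ} {g : G F n} :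
    g ∈ NR R n ↔ GeneralLinearGroup.det g ∈ R := Iff.rfl

theorem dg_mem_NR {R : Subgroup Fˣ} {a b : ℕ} {x : G F a} {y : G F b} (hx : x ∈ NR R a)
    (hy : y ∈ NR R b) : dg a b (x, y) ∈ NR R (a + b) := by
  rw [mem_NR, det_dg]
  exact mul_mem hx hy

theorem conj_mem_of_ip {p : ℕ} [Fact p.Prime] {M : Ideal AlgInt} (hM : IsPModular p M) {a k : ℕ}
    {f : G F a → ℂ} {A : G F k} {B : Set (IrrCharacter (G F (a + k)))} (hB : IsPBlock M B)
    {χ : IrrCharacter (G F (a + k))} (hχ : χ ∈ B) {P : Subgroup (G F (a + k))}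
    (hP : IsDefectGroup p M B P)
    (h : ip (pRegularPart p f) (fun D => χ.1 (dg a k (D, A))) ≠ 0) :
    ∃ x, x * dg a k (1, pPart p A) * x⁻¹ ∈ P := by
  rw [ip_def] at h
  obtain ⟨D, -, hD⟩ := exists_ne_zero_of_sum_ne_zero (right_ne_zero_of_mul h)
  have h1 : IsPRegular p D := fun hd => left_ne_zero_of_mul hD (by
    rw [pRegularPart_apply, if_pos hd])
  by_contra! hc
  refine right_ne_zero_of_mul hD ?_
  rw [apply_eq_zero_of_not_conj_defect hM hB hP hχ (isPPart_iff.2 ?_) hc, map_zero]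
  rw [← map_pPart, pPart_prod, h1.pPart_eq]

variable [hA : HallA F] [hB : HallB F] [hO : Orb.{u}] [hS : AbsA.{u}] [hT : AbsB.{u}]
variable {C : Ctx F K} {π : Th K (1 : Fˣ) → ℕ → H (1 : Fˣ →* ℂˣ)}

theorem ee_pos (C : Ctx F K) (θ : Th K (1 : Fˣ)) : 0 < ee C.p θ := (hO.pdat C 1).e_pos θ

theorem exists_zeta (C : Ctx F K) (θ : Th K (1 : Fˣ)) (hk : ee C.p θ * deg θ ≤ C.N) :
    ∃ ζ ∈ XX F K (ee C.p θ * deg θ), ζ ^ C.p = 1 ∧ ζ ≠ 1 := by
  have hk0 : 0 < ee C.p θ * deg θ := Nat.mul_pos (ee_pos C θ) (hO.deg_pos θ)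
  have h1 := hO.orderOf_γ C hk0 hk
  have h2 : 1 ≤ Fintype.card F ^ (ee C.p θ * deg θ) := Nat.one_le_pow _ _ Fintype.card_pos
  have h3 : C.p ∣ orderOf (C.γ (ee C.p θ * deg θ)) := by
    rw [h1, ← ZMod.natCast_eq_zero_iff, Nat.cast_sub h2, Nat.cast_pow, mul_comm, pow_mul,
      Nat.cast_one, sub_eq_zero]
    have := pow_orderOf_eq_one ((Fintype.card F : ZMod C.p) ^ (deg θ / orderOf (1 : Fˣ)))
    rw [← ee] at this
    rwa [orderOf_one, Nat.div_one] at this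
  have h4 := orderOf_pow_orderOf_div (orderOf_pos _).ne' h3
  refine ⟨_, ?_, h4 ▸ pow_orderOf_eq_one _, fun h => C.hp.one_lt.ne' (by rw [← h4, h, orderOf_one])⟩
  rw [XX, mem_filter]
  refine ⟨mem_univ _, ?_⟩
  rw [pow_right_comm, ← Nat.sub_add_cancel h2, pow_succ, ← h1, pow_orderOf_eq_one, one_mul]

theorem W_succ {Λ Λ₁ : Th K (1 : Fˣ) → Finset ℕ} {θ : Th K (1 : Fˣ)}
    (h : ∀ i, i ≠ θ → Λ₁ i = Λ i) (h' : wt (ee C.p θ) (Λ θ) = wt (ee C.p θ) (Λ₁ θ) + 1) :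
    W C Λ = W C Λ₁ + 1 := by
  rw [W, W, ← add_sum_erase _ _ (mem_univ θ), ← add_sum_erase _ _ (mem_univ θ), h',
    sum_congr rfl fun i hi => by rw [← h i (ne_of_mem_erase hi)]]
  ring

theorem exists_elem (hb : Base C π) (R : Subgroup Fˣ) (n : ℕ) : n ≤ C.N →
    ∀ Λ : Th K (1 : Fˣ) → Finset ℕ, ALab C.N deg n Λ → PL C.N (par C.p) Λ →
    (∀ θ, wt (ee C.p θ) (Λ θ) ≠ 0 → ∀ v : G F (ee C.p θ * deg θ), v ^ C.p = 1 →
      IsUnit (v.1 - 1) → v ∈ NR R _) →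
    ∀ B : Set (IrrCharacter (G F n)), IsPBlock C.M B → ∀ χ ∈ B, χ.1 = H.cf (sL C.N π Λ) n →
    ∀ P, IsDefectGroup C.p C.M B P → ∃ E : Subgroup (G F n), E ≤ P ⊓ NR R n ∧
      (∀ a ∈ E, ∀ b ∈ E, a * b = b * a) ∧ (∀ a ∈ E, a ^ C.p = 1) ∧ Nat.card E = C.p ^ W C Λ := by
  induction n using Nat.strong_induction_on with | _ n ih =>
  intro hn Λ hΛ hPL hR B hB' χ hχ e P hP
  by_cases hW : W C Λ = 0
  · refine ⟨⊥, bot_le, ?_, ?_, by rw [hW, Subgroup.card_bot, pow_zero]⟩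
    · intro a ha b _
      rw [Subgroup.mem_bot.1 ha, one_mul, mul_one]
    · intro a ha
      rw [Subgroup.mem_bot.1 ha, one_pow]
  obtain ⟨θ, -, hw⟩ := exists_ne_zero_of_sum_ne_zero hW
  have hj := ee_pos C θ
  have hk0 : 0 < ee C.p θ * deg θ := Nat.mul_pos hj (hO.deg_pos θ)
  have hk : ee C.p θ * deg θ ≤ C.N := by
    obtain ⟨n', -, h, -⟩ := hS.exists_hook hb.sys hn hj hΛ hw
    omega
  obtain ⟨ζ, z1, z2, z3⟩ := exists_zeta C θ hk
  obtain ⟨n', Λ₁, rfl, a1, a2, a3, a4, A, x, a5, a6, a7⟩ := hook hb hn hΛ hPL hj hw z1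
    (isPElt_of_pow_eq_one (k := 1) (by rwa [pow_one])) z3
  have hn' : n' ≤ C.N := by omega
  have hθ : par C.p θ = θ := par_eq_of_ne hPL fun h => hw (by rw [h, wt_range])
  have v1 : IsUnit ((pPart C.p A).1 - 1) := isUnit_pPart_sub a6 (by rwa [a5])
  have v2 : pPart C.p A ^ C.p = 1 := by
    rw [pPart_pow_eq_sc C.p_ne a6 isPElt_one (by rw [a5, z2, map_one]), map_one]
  have v3 : pPart C.p A ≠ 1 := by
    intro h
    rw [h, Units.val_one, sub_self, isUnit_zero_iff] at v1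
    have := congrFun (congrFun v1 ⟨0, hk0⟩) ⟨0, hk0⟩
    simp at this
  set v := pPart C.p A with hv
  have hr := range_dgC n' v1
  obtain ⟨θ₂, h2⟩ := exists_right (θ₁ := hb.chr hn' a1)
    (isClassFunction_shift (irr_isClassFunction χ) _ hr)
    (y := ⟨pRegPart C.p A, pRegPart_mem_centralizer_pPart C.p A⟩)
    (isPRegular_coe.1 (isPRegular_pRegPart C.p A)) (by
      simp only [dgC_apply, ← map_mul, Prod.mk_mul_mk, one_mul, hv, pPart_mul_pRegPart, e]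
      exact a7)
  obtain ⟨D₁, d1⟩ := exists_isDefectGroup (p := C.p) C.hM
    (isPBlock_blockOf (M := C.M) (hb.chr hn' a1))
  obtain ⟨D₂, d2⟩ := exists_isDefectGroup (p := C.p) C.hM (isPBlock_blockOf (M := C.M) θ₂)
  have hvp : IsPElt C.p v := isPElt_pPart _ _
  obtain ⟨g, hg⟩ := step C.hM (dgC n' v) (dgC_injective n' v)
    ((isPElt_of_pow_eq_one (g := ((1, v) : G F n' × G F _)) (k := 1)
      (by simp [v2])).map (dg _ _)) hr hB' hχ hP h2 d1 d2
  have hw' := wt_succ hj (a1.1 θ) (hΛ.1 θ) a3 a4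
  obtain ⟨E, e1, e2, e3, e4⟩ := ih n' (by omega) hn' Λ₁ a1
    (fun i hi => by rw [a2 i (by rintro rfl; exact hi hθ), hPL i hi])
    (fun i hi => hR i (by
      by_cases h : i = θ
      · rwa [h]
      · rwa [← a2 i h])) _ (isPBlock_blockOf _) _ (mem_blockOf_self C.hM _) rfl D₁ d1
  let v' : Subgroup.centralizer ({v} : Set (G F _)) :=
    ⟨v, Subgroup.mem_centralizer_singleton_iff.2 rfl⟩
  have hv' : Subgroup.zpowers v' ≤ D₂ := by
    have hc : Subgroup.zpowers v' ≤ Subgroup.center _ := by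
      rw [Subgroup.zpowers_le, Subgroup.mem_center_iff]
      exact fun y => Subtype.ext (Subgroup.mem_centralizer_singleton_iff.1 y.2)
    have : (Subgroup.zpowers v').Normal := ⟨fun a ha y => by
      rw [Subgroup.mem_center_iff.1 (hc ha) y, mul_inv_cancel_right]; exact ha⟩
    exact le_isDefectGroup_of_normal C.hM (isPBlock_blockOf _) d2
      (isPElt_coe.1 hvp : IsPElt C.p v').isPGroup_zpowers
  let f := (MulAut.conj g).toMonoidHom.comp (dg (F := F) n' (ee C.p θ * deg θ))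
  have hf : Function.Injective f := (MulAut.conj g).injective.comp (dg_injective _ _)
  refine ⟨(E.prod (Subgroup.zpowers v)).map f, ?_, ?_, ?_, ?_⟩
  · rintro _ ⟨⟨a, b⟩, ⟨ha, i, rfl⟩, rfl⟩
    exact ⟨hg a (e1 ha).1 (v' ^ i) (hv' ⟨i, rfl⟩),
      mem_NR_conj (dg_mem_NR (e1 ha).2 (zpow_mem (hR θ hw v v2 v1) i)) g⟩
  · rintro _ ⟨⟨a, b⟩, ⟨ha, i, rfl⟩, rfl⟩ _ ⟨⟨a', b'⟩, ⟨ha', i', rfl⟩, rfl⟩
    rw [← map_mul, ← map_mul]
    exact congrArg f (Prod.ext (e2 a ha a' ha') (Commute.zpow_zpow_self v i i').eq)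
  · rintro _ ⟨⟨a, b⟩, ⟨ha, i, rfl⟩, rfl⟩
    rw [← map_pow, ← map_one f]
    refine congrArg f (Prod.ext (e3 a ha) ?_)
    change (v ^ i) ^ C.p = 1
    rw [← zpow_natCast, ← _root_.zpow_mul, mul_comm i, _root_.zpow_mul, zpow_natCast, v2,
      _root_.one_zpow]
  · rw [Subgroup.card_map_of_injective hf, Nat.card_congr (Subgroup.prodEquiv _ _).toEquiv,
      Nat.card_prod, e4, Nat.card_zpowers, orderOf_eq_prime v2 v3, W_succ a2 hw', pow_succ]

theorem card_le_mul {p n : ℕ} (hp : 0 < p) {E : Subgroup (G F n)} (h : ∀ a ∈ E, a ^ p = 1) :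
    Nat.card E ≤ Nat.card ↥(E ⊓ NR ⊥ n) * p := by
  let f : E →* Fˣ := GeneralLinearGroup.det.comp E.subtype
  have h1 : Nat.card f.ker = Nat.card ↥(E ⊓ NR ⊥ n) := by
    rw [← Subgroup.card_map_of_injective E.subtype_injective]
    congr 2
    ext g
    constructor
    · rintro ⟨x, hx, rfl⟩
      exact ⟨x.2, hx⟩
    · rintro ⟨h1, h2⟩
      exact ⟨⟨g, h1⟩, h2, rfl⟩
  have h2 : Nat.card f.range ≤ p := by
    refine le_trans ?_ (IsCyclic.card_pow_eq_one_le (α := Fˣ) hp)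
    rw [← Nat.card_eq_finsetCard]
    refine Nat.card_le_card_of_injective (fun y => ⟨y.1, ?_⟩) fun a b hab =>
      Subtype.ext (congrArg (·.1) hab)
    obtain ⟨x, hx⟩ := y.2
    rw [mem_filter, ← hx, ← map_pow, show x ^ p = 1 from Subtype.ext (h x x.2), map_one]
    exact ⟨mem_univ _, rfl⟩
  rw [← f.ker.card_mul_index, Subgroup.index_ker, h1]
  exact Nat.mul_le_mul_left _ h2

end GLH.Df
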