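import Cfsg.Agent.Lib.GL.DefD

/-!
# S4536, package G6: the exceptional configuration and the instance
-/

set_option autoImplicit false
set_option linter.unusedSectionVars false

namespace GLH.Df

open Finset Matrix Polynomial Cfsg GT SFock CT BT
open scoped Classical ComplexConjugate

universe u

attribute [local irreducible] hmul gg

variable {F : Type u} [Field F] [Fintype F] {K : Type} [Field K] [Fintype K] [Algebra F K]

theorem exists_gen {p : ℕ} [Fact p.Prime] (h2 : p = 2) (h4 : 4 ∣ Fintype.card F - 1) :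
    ∃ z : Fˣ, IsPElt p z ∧ z ^ 2 ≠ 1 ∧ ∀ t : Fˣ, IsPElt p t → t ∈ Subgroup.zpowers z := by
  subst h2
  obtain ⟨g, hg⟩ := IsCyclic.exists_generator (α := Fˣ)
  have h1 : ∀ t : Fˣ, IsPElt 2 t → t ∈ Subgroup.zpowers (pPart 2 g) := by
    intro t ht
    obtain ⟨i, rfl⟩ := hg t
    exact ⟨i, by rw [← ht.pPart_eq]; exact (pPart_zpow g i).symm⟩
  refine ⟨_, isPElt_pPart 2 g, fun h => ?_, h1⟩
  have h3 : 4 ∣ orderOf g := by
    rwa [orderOf_eq_card_of_forall_mem_zpowers hg, Nat.card_eq_fintype_card, Fintype.card_units]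
  have h5 := orderOf_pow_orderOf_div (orderOf_pos g).ne' h3
  obtain ⟨i, hi⟩ := h1 _ ⟨2, h5⟩
  have h6 : (g ^ (orderOf g / 4)) ^ 2 = 1 := by
    rw [← hi, ← zpow_natCast, ← _root_.zpow_mul, mul_comm i, _root_.zpow_mul, zpow_natCast, h,
      _root_.one_zpow]
  have := orderOf_dvd_of_pow_eq_one h6
  rw [h5] at this
  omega

theorem not_cyclic_aux {p : ℕ} [Fact p.Prime] (h2 : p = 2) {z : Fˣ} (z1 : IsPElt p z)
    (z2 : z ^ 2 ≠ 1) (z3 : ∀ t : Fˣ, IsPElt p t → t ∈ Subgroup.zpowers z) {a b : ℕ} (hab : a = b)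
    (hb : Odd b) {D : Subgroup (G F (a + b))} (hD : IsPGroup p D) (hs : sc _ z ∈ D)
    {x : G F (a + b)} (hu : x * dg a b (1, sc b z) * x⁻¹ ∈ D) {v : G F (a + b)} (hv : v ∈ D)
    (hv2 : v ^ 2 = sc _ z) : ¬ IsCyclic ↥(D ⊓ NR ⊥ (a + b)) := by
  subst h2
  intro hc
  set w := x * dg a b (1, sc b z) * x⁻¹ with hw
  have d1 : GeneralLinearGroup.det w = z ^ b := by
    rw [hw, map_mul, map_mul, det_dg, map_one, det_sc, map_inv, one_mul, mul_inv_cancel_comm]
  obtain ⟨k, hk⟩ := z1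
  have h1 : z ∈ Subgroup.zpowers (z ^ b) := by
    rw [mem_zpowers_pow_iff, hk]
    exact Nat.Coprime.pow_right k (Nat.coprime_two_right.2 hb)
  obtain ⟨i, hi⟩ := Subgroup.zpowers_le.2 h1
    (z3 _ ((isPElt_of_mem hD hv).map GeneralLinearGroup.det))
  have m1 : v * w ^ (-i) ∈ D ⊓ NR ⊥ (a + b) := Subgroup.mem_inf.2 ⟨mul_mem hv (zpow_mem hu _), by
    rw [mem_NR, map_mul, map_zpow, d1, ← hi, Subgroup.mem_bot]
    simp⟩
  have m2 : w ^ 2 * (sc _ z)⁻¹ ∈ D ⊓ NR ⊥ (a + b) :=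
    Subgroup.mem_inf.2 ⟨mul_mem (pow_mem hu _) (inv_mem hs), by
      rw [mem_NR, map_mul, map_pow, d1, map_inv, det_sc, Subgroup.mem_bot, hab,
        ← pow_mul, mul_two, mul_inv_cancel]⟩
  have c0 : ∀ g, Commute g (sc (a + b) z) := fun g =>
    Subgroup.mem_center_iff.1 (sc_mem_center _ z) g
  have c1 : Commute (v * w ^ (-i)) (w ^ 2 * (sc _ z)⁻¹) :=
    congrArg Subtype.val (hc.commGroup.mul_comm ⟨_, m1⟩ ⟨_, m2⟩)
  have c2 : Commute v (w ^ 2) := by
    have h3 : Commute (v * w ^ (-i)) (w ^ 2) := by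
      simpa using c1.mul_right (c0 _)
    have h4 : Commute (w ^ i) (w ^ 2) := (Commute.refl w).zpow_left i |>.pow_right 2
    simpa using h3.mul_left h4
  have c3 : Commute (dg a b (1, sc b (z ^ 2))) (x⁻¹ * v * x) := by
    have h3 : dg a b (1, sc b (z ^ 2)) = x⁻¹ * w ^ 2 * x := by
      rw [hw, conj_pow, ← map_pow]
      simp [mul_assoc]
    rw [h3]
    have := c2.symm.map (MulAut.conj x⁻¹).toMonoidHom
    simpa using this
  obtain ⟨y, y1, -⟩ := exists_dg_of_commute (isUnit_sc_sub z2) c3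
  have h5 : dg a b (y ^ 2) = dg a b (sc a z, sc b z) := by
    rw [map_pow, y1, dg_sc, sq]
    calc x⁻¹ * v * x * (x⁻¹ * v * x) = x⁻¹ * v ^ 2 * x := by simp [sq, mul_assoc]
      _ = _ := by rw [hv2, (c0 _).eq, inv_mul_cancel_right]
  have h6 : GeneralLinearGroup.det y.2 ^ 2 = z ^ b := by
    rw [← det_sc b z, ← map_pow]
    exact congrArg (fun t => GeneralLinearGroup.det t.2) (dg_injective a b h5)
  have h7 : IsPElt 2 (GeneralLinearGroup.det y.2) := isPElt_of_pow_eq_one (k := k + 1) (by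
    rw [pow_succ', pow_mul, h6, pow_right_comm, ← hk, pow_orderOf_eq_one, one_pow])
  obtain ⟨l, hl⟩ := z3 _ h7
  have h8 : z ^ (l * 2 - b : ℤ) = 1 := by
    rw [_root_.zpow_sub, _root_.zpow_mul, zpow_natCast, ← h6, ← hl]
    simp
  have h9 := orderOf_dvd_iff_zpow_eq_one.2 h8
  have hk0 : k ≠ 0 := by
    rintro rfl
    exact z2 (by rw [orderOf_eq_one_iff.1 hk, one_pow])
  have h10 : (2 : ℤ) ∣ orderOf z := by
    rw [hk]
    exact_mod_cast dvd_pow_self 2 hk0
  have := h10.trans h9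
  obtain ⟨c, rfl⟩ := hb
  push_cast at this
  omega

variable [hA : HallA F] [hB : HallB F] [hO : Orb.{u}] [hS : AbsA.{u}] [hT : AbsB.{u}]
variable {C : Ctx F K} {π : Th K (1 : Fˣ) → ℕ → H (1 : Fˣ →* ℂˣ)}

theorem emb_injective : Function.Injective (emb K : Fˣ → Kˣ) :=
  Units.map_injective (algebraMap F K).injective

theorem emb_pow (c : Fˣ) (n : ℕ) : emb K c ^ Fintype.card F ^ n = emb K c := by
  rw [← map_pow]
  congr 1
  exact Units.ext (by simp [FiniteField.pow_card_pow])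

theorem emb_mem_XX (c : Fˣ) (n : ℕ) : emb K c ∈ XX F K n :=
  mem_filter.2 ⟨mem_univ _, emb_pow c n⟩

theorem exists_sqrt (C : Ctx F K) (h4 : 4 ∣ Fintype.card F - 1) (z : Fˣ) {d : ℕ} (hd : 0 < d)
    (h : 2 * d ≤ C.N) : ∃ ζ ∈ XX F K (2 * d), ζ ^ 2 = emb K z := by
  have h1 := hO.γ_pow C one_pos two_pos (by omega)
  have h2 := hO.γ_dl C one_pos C.N_pos (emb_mem_XX z 1)
  have h3 := hO.orderOf_γ C (n := 1 * 2) two_pos (by omega)
  have hq := Fintype.card_pos (α := F)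
  obtain ⟨c, hc⟩ : ∃ c, ∑ i ∈ range 2, Fintype.card F ^ (1 * i) = c * 2 :=
    ⟨(Fintype.card F + 1) / 2, by simp [sum_range_succ]; omega⟩
  refine ⟨(C.γ (1 * 2) ^ c) ^ C.dl 1 (emb K z), mem_filter.2 ⟨mem_univ _, ?_⟩, ?_⟩
  · have h5 : C.γ (1 * 2) ^ Fintype.card F ^ 2 = C.γ (1 * 2) := by
      rw [← Nat.sub_add_cancel (Nat.one_le_pow 2 _ hq), pow_succ, ← h3, pow_orderOf_eq_one, one_mul]
    have h6 : ∀ i, C.γ (1 * 2) ^ Fintype.card F ^ (2 * i) = C.γ (1 * 2) := by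
      intro i
      induction i with
      | zero => simp
      | succ i ih => rw [mul_add, pow_add, pow_mul (C.γ (1 * 2)), ih, h5]
    rw [pow_right_comm, pow_right_comm (C.γ (1 * 2)), h6]
  · rw [pow_right_comm, ← pow_mul _ c, ← hc, h1, h2]

theorem not_isCyclic (hb : Base C π) (h2 : C.p = 2) (h4 : 4 ∣ Fintype.card F - 1) {n : ℕ}
    (hn : n ≤ C.N) {Λ : Th K (1 : Fˣ) → Finset ℕ} (hΛ : ALab C.N deg n Λ) {θ : Th K (1 : Fˣ)}
    (hθ : par C.p θ = θ) (hs : sz C.N (Λ θ) = 2) (ho : ∀ i, i ≠ θ → Λ i = range C.N)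
    (hd : Odd (deg θ)) {B : Set (IrrCharacter (G F n))} (hB' : IsPBlock C.M B)
    {χ : IrrCharacter (G F n)} (hχ : χ ∈ B) (e : χ.1 = H.cf (sL C.N π Λ) n)
    {D : Subgroup (G F n)} (hD : IsDefectGroup C.p C.M B D) : ¬ IsCyclic ↥(D ⊓ NR ⊥ n) := by
  have hPL : PL C.N (par C.p) Λ := fun i hi => ho i (by rintro rfl; exact hi hθ)
  obtain ⟨z, z1, z2, z3⟩ := exists_gen h2 h4
  have z4 : emb K z ≠ 1 := fun h => z2 (by rw [emb_injective (h.trans (map_one _).symm), one_pow])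
  have hn2 := eq_of_single hΛ ho
  rw [hs] at hn2
  have hv : ∃ v ∈ D, v ^ 2 = sc n z := by
    obtain ⟨ζ, a1, a2⟩ := exists_sqrt C h4 z (hO.deg_pos θ) (by omega)
    obtain ⟨k, hk⟩ := (z1.map (emb K)).exists_pow_eq_one
    obtain ⟨n', Λ₁, rfl, -, -, -, -, A, x, b5, b6, b7⟩ := hook hb hn hΛ hPL two_pos
      (wt_two_ne (hΛ.1 θ) (Or.inl hs)) a1 (isPElt_of_pow_eq_one (k := k + 1) (by
        rw [pow_succ', pow_mul, show ζ ^ C.p = emb K z by rw [h2, a2], hk]))
      (fun h => z4 (by rw [← a2, h, one_pow]))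
    rw [← e] at b7
    obtain ⟨g, hg⟩ := conj_mem_of_ip C.hM hB' hχ hD b7
    obtain rfl : n' = 0 := by omega
    refine ⟨_, hg, ?_⟩
    rw [conj_pow, ← map_pow, Prod.pow_mk, pPart_pow_eq_sc C.p_ne b6 z1 (by rw [b5, a2]),
      G_zero_eq (1 ^ 2), ← G_zero_eq (sc 0 z), dg_sc,
      Subgroup.mem_center_iff.1 (sc_mem_center _ z) g, mul_inv_cancel_right]
  obtain ⟨v, v1, v2⟩ := hv
  have hsc : Subgroup.zpowers (sc n z) ≤ D := by
    have hc := Subgroup.zpowers_le.2 (sc_mem_center n z)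
    have : (Subgroup.zpowers (sc n z)).Normal := ⟨fun a ha y => by
      rw [Subgroup.mem_center_iff.1 (hc ha) y, mul_inv_cancel_right]; exact ha⟩
    exact le_isDefectGroup_of_normal C.hM hB' hD (z1.map (sc n)).isPGroup_zpowers
  obtain ⟨n', Λ₁, rfl, -, -, -, -, A, x, b5, b6, b7⟩ := hook hb hn hΛ hPL one_pos
    (by rw [wt_one (hΛ.1 θ), hs]; exact two_ne_zero) (emb_mem_XX z _) (z1.map (emb K)) z4
  rw [← e] at b7
  obtain ⟨g, hg⟩ := conj_mem_of_ip C.hM hB' hχ hD b7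
  have h5 := pPart_pow_eq_sc (j := 1) C.p_ne b6 z1 (by rw [b5, pow_one])
  rw [pow_one] at h5
  rw [h5] at hg
  exact not_cyclic_aux h2 z1 z2 z3 (by omega) (by rwa [one_mul])
    (isPGroup_of_isDefectGroup hD) (Subgroup.zpowers_le.1 hsc) hg v1 v2

theorem neg_one_ne (C : Ctx F K) (h2 : C.p = 2) : (-1 : Fˣ) ≠ 1 := fun h =>
  Ring.neg_one_ne_one_of_char_ne_two (R := F) (fun h' => C.p_ne (h2.trans h'.symm))
    (congrArg Units.val h)

theorem special_odd (hb : Base C π) (h2 : C.p = 2) (h4 : 4 ∣ Fintype.card F - 1) {n : ℕ}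
    (hn : n ≤ C.N) {Λ : Th K (1 : Fˣ) → Finset ℕ} (hΛ : ALab C.N deg n Λ) {θ : Th K (1 : Fˣ)}
    (hθ : par C.p θ = θ) (hs : sz C.N (Λ θ) = 4) (ho : ∀ i, i ≠ θ → Λ i = range C.N)
    (hd : Odd (deg θ)) {B : Set (IrrCharacter (G F n))} (hB' : IsPBlock C.M B)
    {χ : IrrCharacter (G F n)} (hχ : χ ∈ B) (e : χ.1 = H.cf (sL C.N π Λ) n)
    {P : Subgroup (G F n)} (hP : IsDefectGroup C.p C.M B P) {s : ℕ}
    (hsec : SectionalPRankLE C.p s ↥(P ⊓ NR ⊥ n)) : 4 ≤ s := by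
  have hPL : PL C.N (par C.p) Λ := fun i hi => ho i (by rintro rfl; exact hi hθ)
  have z1 : IsPElt C.p (-1 : Fˣ) := isPElt_of_pow_eq_one (k := 1) (by rw [h2]; simp)
  have z2 := neg_one_ne C h2
  have z4 : emb K (-1 : Fˣ) ≠ 1 := fun h => z2 (emb_injective (h.trans (map_one _).symm))
  obtain ⟨n', Λ₁, rfl, a1, a2, -, a4, A, x, a5, a6, a7⟩ := hook hb hn hΛ hPL two_pos
    (wt_two_ne (hΛ.1 θ) (Or.inr hs)) (emb_mem_XX (-1) _) (z1.map (emb K)) z4
  have hn' : n' ≤ C.N := by omega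
  have hk : 2 * deg θ ≤ C.N := by omega
  have h5 := pPart_pow_eq_sc (j := 1) C.p_ne a6 z1 (by rw [a5, pow_one])
  rw [pow_one] at h5
  set m : G F (2 * deg θ) := sc _ (-1) with hm
  have mm : m * m = 1 := by rw [hm, ← map_mul]; simp
  have mp : IsPElt C.p m := z1.map (sc _)
  have mc : m ∈ Subgroup.center _ := sc_mem_center _ _
  have mu : IsUnit (m.1 - 1) := isUnit_sc_sub z2
  have hr := range_dg n' mu mc
  obtain ⟨θ₂, h6⟩ := exists_right (θ₁ := hb.chr hn' a1)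
    (isClassFunction_shift (irr_isClassFunction χ) _ hr) (y := pRegPart C.p A)
    (isPRegular_pRegPart C.p A) (by
      simp only [← map_mul, Prod.mk_mul_mk, one_mul, ← h5, pPart_mul_pRegPart, e]
      exact a7)
  obtain ⟨f₂, f1, f2⟩ := hA.exists_cf (χ := fun y => pRegularPart C.p θ₂.1 (m * y)) (by
    intro y g
    beta_reduce
    rw [← (irr_isClassFunction θ₂).pRegularPart (p := C.p) (m * y) g, ← mul_assoc, ← mul_assoc,
      ← mul_assoc, Subgroup.mem_center_iff.1 mc g])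
  have hx : mulOp C.reg (sL C.N π Λ₁) ∈ Hn 1 n' := mulL_Hn _ (hb.toModel.sL_mem hn' a1)
  have h7 : mulIp (n' + 2 * deg θ) f₂ (sL C.N π Λ) (mulOp C.reg (sL C.N π Λ₁)) ≠ 0 := by
    rw [mulIp_apply, ip_mul_eq hx f1 _ (reg_of_ne _) (fun y hy => by
      have h8 : IsPRegular C.p (m * y) := fun hd => hy (by
        have := congrFun f2 y
        rwa [pRegularPart_apply, if_pos hd] at this)
      have h9 := pPart_mul_eq (show Commute m (m * y) from
        (Subgroup.mem_center_iff.1 mc _).symm) mp h8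
      rw [← mul_assoc, mm, one_mul] at h9
      rwa [h9]), cf_reg', f2, ← e]
    rw [← ip_shift ((1, m) : G F n' × G F _), irrProd_val, pRegularPart_prodFun] at h6
    convert h6 using 2
    · funext g
      simp [Base.chr]
    · funext g
      rw [← map_mul, ← mul_assoc, show ((1, m) : G F n' × G F _) * (1, m) = 1 from
        Prod.ext (mul_one 1) mm, one_mul]
  obtain ⟨Λ₁', b1, -, b2⟩ := exists_of_ne_zero hb hn' hx _ h7
  rw [mulIp_apply, mul_comm (sL C.N π Λ₁'), ← mulIp_apply] at b2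
  obtain ⟨Λ₂, c1, c2, c3⟩ := exists_of_ne_zero hb hk f1 _ b2
  rw [mulIp_apply, mul_comm (sL C.N π Λ₂)] at c3
  have c4 : ∀ i, i ≠ θ → Λ₂ i = range C.N := fun i hi => by
    have := hS.sz_add hb.sys hn b1 c1 hΛ c3 i
    rw [ho i hi, sz_range] at this
    exact (hS.sz_eq_zero (c1.1 i)).1 (by omega)
  have c5 : sz C.N (Λ₂ θ) = 2 :=
    Nat.eq_of_mul_eq_mul_left (hO.deg_pos θ) (by rw [← eq_of_single c1 c4, mul_comm])
  have c6 : hb.chr hk c1 ∈ blockOf C.M θ₂.1 := by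
    by_contra hne
    apply c2
    have h8 := ip_pRegularPart_eq_zero C.hM (isPBlock_blockOf _) (mem_blockOf_self C.hM θ₂) hne
    rw [ipH, f2, ← ip_shift m]
    simp only [← mul_assoc, mm, one_mul]
    have h9 : (fun g => H.cf (sL C.N π Λ₂) (2 * deg θ) (m * g)) =
        ((hb.chr hk c1).1 m / (hb.chr hk c1).1 1) • (hb.chr hk c1).1 :=
      funext fun g => CT.irr_apply_central_mul (hb.chr hk c1) mc g
    rw [h9, ip_smul_right]
    exact mul_eq_zero_of_right _ h8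
  obtain ⟨D₁, d1⟩ := exists_isDefectGroup (p := C.p) C.hM
    (isPBlock_blockOf (M := C.M) (hb.chr hn' a1))
  obtain ⟨D₂, d2⟩ := exists_isDefectGroup (p := C.p) C.hM (isPBlock_blockOf (M := C.M) θ₂)
  obtain ⟨g, hg⟩ := step C.hM (dg n' _) (dg_injective n' _)
    ((isPElt_of_pow_eq_one (g := ((1, m) : G F n' × G F _)) (k := 1)
      (by simp [h2, sq, mm])).map (dg _ _)) hr hB' hχ hP h6 d1 d2
  have n1 := not_isCyclic hb h2 h4 hn' a1 hθ (by omega) (fun i hi => by rw [a2 i hi, ho i hi]) hd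
    (isPBlock_blockOf _) (mem_blockOf_self C.hM (hb.chr hn' a1)) rfl d1
  have n2 := not_isCyclic hb h2 h4 hk c1 hθ c5 c4 hd (isPBlock_blockOf _) c6 rfl d2
  let f := ((MulAut.conj g).toMonoidHom.comp (dg (F := F) n' (2 * deg θ))).comp
    ((D₁ ⊓ NR ⊥ n').subtype.prodMap (D₂ ⊓ NR ⊥ (2 * deg θ)).subtype)
  have hf : Function.Injective f := ((MulAut.conj g).injective.comp (dg_injective _ _)).comp
    (Subtype.val_injective.prodMap Subtype.val_injective)
  refine four_le hsec ((isPGroup_of_isDefectGroup d1).to_le inf_le_left)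
    ((isPGroup_of_isDefectGroup d2).to_le inf_le_left) n1 n2
    (f.codRestrict _ fun y => ⟨hg _ y.1.2.1 _ y.2.2.1, mem_NR_conj (dg_mem_NR y.1.2.2 y.2.2.2) g⟩)
    fun a b h => hf (congrArg Subtype.val h)

theorem ee_eq_one (C : Ctx F K) (h : C.p ∣ Fintype.card F - 1) (θ : Th K (1 : Fˣ)) :
    ee C.p θ = 1 := by
  rw [← ZMod.natCast_eq_zero_iff, Nat.cast_sub Fintype.card_pos, Nat.cast_one, sub_eq_zero] at h
  rw [ee, h, one_pow, orderOf_one]

/-- Package G6 -/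
instance instDefF : DefF F where
  bound := by
    intro K _ _ _ C π hb n hn Λ hΛ hPL B hB' χ hχ e P hP s hs
    have key : (∀ θ, wt (ee C.p θ) (Λ θ) ≠ 0 → ∀ v : G F (ee C.p θ * deg θ), v ^ C.p = 1 →
        IsUnit (v.1 - 1) → v ∈ NR ⊥ _) → W C Λ ≤ s := by
      intro h
      obtain ⟨E, e1, e2, e3, e4⟩ := exists_elem hb ⊥ n hn Λ hΛ hPL h B hB' χ hχ e P hP
      have := card_le_of_le hs e1 e2 e3
      rw [e4] at this
      exact (Nat.pow_le_pow_iff_right C.hp.one_lt).1 this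
    refine ⟨?_, fun h => key fun θ _ v hv _ => ?_, ?_⟩
    · obtain ⟨E, e1, e2, e3, e4⟩ := exists_elem hb ⊤ n hn Λ hΛ hPL (fun _ _ _ _ _ => trivial)
        B hB' χ hχ e P hP
      have h1 := card_le_of_le (E := E ⊓ NR ⊥ n) hs (inf_le_inf_right _ (e1.trans inf_le_left))
        (fun a ha b hb => e2 a ha.1 b hb.1) fun a ha => e3 a ha.1
      have h2 := (card_le_mul C.hp.pos e3).trans (Nat.mul_le_mul_right _ h1)
      rw [e4, ← pow_succ] at h2
      exact (Nat.pow_le_pow_iff_right C.hp.one_lt).1 h2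
    · rw [mem_NR, Subgroup.mem_bot]
      refine ((isPElt_of_pow_eq_one (k := 1) (by rwa [pow_one])).map
        GeneralLinearGroup.det).eq_one_of_isPRegular (isPRegular_of_not_dvd_card ?_ _)
      rwa [Nat.card_eq_fintype_card, Fintype.card_units]
    · rintro ⟨h2, h4, θ, a1, a2⟩
      have hθ : par C.p θ = θ := par_eq_of_ne hPL fun h => by
        rw [h, sz_range] at a1
        omega
      rcases Nat.even_or_odd (deg θ) with hd | hd
      · have h1 : W C Λ = 4 := by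
          rw [W, Fintype.sum_eq_single θ fun i hi => by rw [a2 i hi, wt_range],
            ee_eq_one C (h2 ▸ (dvd_trans (by norm_num) h4)), wt_one (hΛ.1 θ), a1]
        rw [← h1]
        refine key fun i hi v hv ⟨w, hw⟩ => ?_
        obtain rfl : i = θ := by
          by_contra hne
          exact hi (by rw [a2 i hne, wt_range])
        have h3 : w.1 * (v.1 + 1) = 0 := by
          have h5 : v ^ 2 = 1 := h2 ▸ hv
          have h6 : v.1 * v.1 = 1 := by rw [← Units.val_mul, ← sq, h5, Units.val_one]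
          rw [hw, sub_mul, mul_add, h6]
          simp [add_comm]
        have h7 : v = sc _ (-1) := Units.ext (by
          rw [sc_val, Units.val_neg, Units.val_one, map_neg, map_one]
          exact eq_neg_of_add_eq_zero_left ((Units.mul_right_eq_zero w).1 h3))
        rw [mem_NR, Subgroup.mem_bot, h7, det_sc]
        exact (hd.mul_left _).neg_one_pow
      · exact special_odd hb h2 h4 hn hΛ hθ a1 a2 hd hB' hχ e hP hs

end GLH.Df
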