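import Cfsg.Agent.Lib.GL.Abs
import Cfsg.Agent.Lib.Char.Basic
import Cfsg.Agent.Lib.Grp.PPart
import Mathlib.LinearAlgebra.Matrix.Charpoly.Basic
import Mathlib.LinearAlgebra.Matrix.GeneralLinearGroup.Defs
import Mathlib.LinearAlgebra.Matrix.Block

/-!
# The twisted Hall algebra of the groups `GL_n(F)`: definitions

For a character `μ` of `Fˣ`, `H μ` is the space of functions `f` on the invertible matrices of all
sizes with `f (h M h⁻¹) = μ (det h) f M`; the product is twisted parabolic induction.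
-/

set_option autoImplicit false
set_option linter.unusedSectionVars false

namespace GLH

open Finset Matrix Polynomial Cfsg
open scoped Classical

universe u

/-- square matrices -/
abbrev Mat (F : Type u) (n : ℕ) : Type u := Matrix (Fin n) (Fin n) F

/-- the general linear group -/
abbrev G (F : Type u) [Field F] (n : ℕ) : Type u := GL (Fin n) F

/-- functions on the matrices of all sizes -/
abbrev Fn (F : Type u) : Type u := ∀ n : ℕ, Mat F n → ℂ

variable {F : Type u} [Field F]

/-- entries, extended by zero -/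
def ext {n : ℕ} (M : Mat F n) (i j : ℕ) : F :=
  if h : i < n ∧ j < n then M ⟨i, h.1⟩ ⟨j, h.2⟩ else 0

/-- the diagonal block of size `k` starting at `i` -/
def blk {n : ℕ} (M : Mat F n) (i k : ℕ) : Mat F k := fun x y => ext M (i + x) (i + y)

/-- `M` fixes the span of the first `a` basis vectors -/
def Tri {n : ℕ} (a : ℕ) (M : Mat F n) : Prop :=
  ∀ i j : Fin n, (j : ℕ) < a → a ≤ (i : ℕ) → M i j = 0

/-- block upper triangular matrix -/
def cat {a b : ℕ} (A : Mat F a) (B : Matrix (Fin a) (Fin b) F) (D : Mat F b) : Mat F (a + b) :=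
  reindex finSumFinEquiv finSumFinEquiv (fromBlocks A B 0 D)

/-- `μ (det h)` -/
def dt (μ : Fˣ →* ℂˣ) {n : ℕ} (h : G F n) : ℂ := (μ (GeneralLinearGroup.det h) : ℂˣ)

/-- `h⁻¹ M h` -/
def cnj {n : ℕ} (h : G F n) (M : Mat F n) : Mat F n := (h⁻¹ : G F n).1 * M * h.1

theorem dt_mul (μ : Fˣ →* ℂˣ) {n : ℕ} (h k : G F n) : dt μ (h * k) = dt μ h * dt μ k := by
  simp [dt]

@[simp] theorem dt_one (μ : Fˣ →* ℂˣ) {n : ℕ} : dt μ (1 : G F n) = 1 := by simp [dt]

theorem cnj_mul {n : ℕ} (h k : G F n) (M : Mat F n) : cnj (h * k) M = cnj k (cnj h M) := by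
  simp only [cnj, _root_.mul_inv_rev, Units.val_mul, Matrix.mul_assoc]

@[simp] theorem cnj_one {n : ℕ} (M : Mat F n) : cnj 1 M = M := by simp [cnj]

theorem isUnit_cnj {n : ℕ} (h : G F n) (M : Mat F n) : IsUnit (cnj h M) ↔ IsUnit M := by
  simp [cnj]

theorem det_cat {a b : ℕ} (A : Mat F a) (B : Matrix (Fin a) (Fin b) F) (D : Mat F b) :
    (cat A B D).det = A.det * D.det := by
  simp [cat, det_fromBlocks_zero₂₁]

theorem charpoly_cat {a b : ℕ} (A : Mat F a) (B : Matrix (Fin a) (Fin b) F) (D : Mat F b) :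
    (cat A B D).charpoly = A.charpoly * D.charpoly := by
  rw [cat, charpoly_reindex, charpoly_fromBlocks_zero₂₁]

theorem isUnit_cat {a b : ℕ} (A : Mat F a) (B : Matrix (Fin a) (Fin b) F) (D : Mat F b) :
    IsUnit (cat A B D) ↔ IsUnit A ∧ IsUnit D := by
  simp only [isUnit_iff_isUnit_det, det_cat, IsUnit.mul_iff]

theorem tri_cat {a b : ℕ} (A : Mat F a) (B : Matrix (Fin a) (Fin b) F) (D : Mat F b) :
    Tri a (cat A B D) := by
  intro i j hj hi
  obtain ⟨i, rfl⟩ := finSumFinEquiv.surjective i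
  obtain ⟨j, rfl⟩ := finSumFinEquiv.surjective j
  rcases i with i | i
  · have := i.2; simp at hi; omega
  rcases j with j | j
  · simp [cat]
  · simp at hj

theorem blk_cat_left {a b : ℕ} (A : Mat F a) (B : Matrix (Fin a) (Fin b) F) (D : Mat F b) :
    blk (cat A B D) 0 a = A := by
  funext x y
  have hx := x.2
  have hy := y.2
  have h : 0 + (x : ℕ) < a + b ∧ 0 + (y : ℕ) < a + b := ⟨by omega, by omega⟩
  have e1 : (⟨0 + x, h.1⟩ : Fin (a + b)) = finSumFinEquiv (Sum.inl x) := by ext; simp
  have e2 : (⟨0 + y, h.2⟩ : Fin (a + b)) = finSumFinEquiv (Sum.inl y) := by ext; simp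
  rw [blk, ext, dif_pos h, e1, e2]
  simp [cat]

theorem blk_cat_right {a b : ℕ} (A : Mat F a) (B : Matrix (Fin a) (Fin b) F) (D : Mat F b) :
    blk (cat A B D) a b = D := by
  funext x y
  have hx := x.2
  have hy := y.2
  have h : a + (x : ℕ) < a + b ∧ a + (y : ℕ) < a + b := ⟨by omega, by omega⟩
  have e1 : (⟨a + x, h.1⟩ : Fin (a + b)) = finSumFinEquiv (Sum.inr x) := by ext; simp
  have e2 : (⟨a + y, h.2⟩ : Fin (a + b)) = finSumFinEquiv (Sum.inr y) := by ext; simp
  rw [blk, ext, dif_pos h, e1, e2]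
  simp [cat]

theorem exists_eq_cat {a b : ℕ} {M : Mat F (a + b)} (h : Tri a M) :
    ∃ B, M = cat (blk M 0 a) B (blk M a b) := by
  have key : M = cat (reindex finSumFinEquiv.symm finSumFinEquiv.symm M).toBlocks₁₁
      (reindex finSumFinEquiv.symm finSumFinEquiv.symm M).toBlocks₁₂
      (reindex finSumFinEquiv.symm finSumFinEquiv.symm M).toBlocks₂₂ := by
    have h0 : (reindex finSumFinEquiv.symm finSumFinEquiv.symm M).toBlocks₂₁ = 0 := by
      funext i j
      exact h _ _ (by simp) (by simp)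
    rw [cat, ← h0, fromBlocks_toBlocks]
    simp
  refine ⟨(reindex finSumFinEquiv.symm finSumFinEquiv.symm M).toBlocks₁₂, ?_⟩
  conv_rhs => rw [key, blk_cat_left, blk_cat_right]
  conv_rhs => arg 2; rw [← key]
  exact key

variable [Fintype F]

/-- twisted parabolic induction -/
noncomputable def hmul (μ : Fˣ →* ℂˣ) (f g : Fn F) : Fn F := fun n M =>
  ∑ ab ∈ antidiagonal n, (Nat.card {h : G F n // Tri ab.1 h.1} : ℂ)⁻¹ *
    ∑ h : G F n, if Tri ab.1 (cnj h M) then
      dt μ h * f ab.1 (blk (cnj h M) 0 ab.1) * g ab.2 (blk (cnj h M) ab.1 ab.2) else 0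

/-- the twisted class functions -/
def HS (μ : Fˣ →* ℂˣ) : Submodule ℂ (Fn F) where
  carrier := {f | (∀ n M, ¬ IsUnit M → f n M = 0) ∧
    ∀ n (h : G F n) M, f n M = dt μ h * f n (cnj h M)}
  add_mem' := by
    rintro f g ⟨hf, hf'⟩ ⟨hg, hg'⟩
    refine ⟨fun n M h => by simp [hf n M h, hg n M h], fun n h M => ?_⟩
    simp only [Pi.add_apply, mul_add, ← hf', ← hg']
  zero_mem' := ⟨fun _ _ _ => rfl, fun _ _ _ => by simp⟩
  smul_mem' := by
    rintro c f ⟨hf, hf'⟩
    refine ⟨fun n M h => by simp [hf n M h], fun n h M => ?_⟩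
    simp only [Pi.smul_apply, smul_eq_mul]
    rw [hf' n h M]; ring

theorem hmul_mem {μ : Fˣ →* ℂˣ} {f g : Fn F} (hf : f ∈ HS μ) (hg : g ∈ HS μ) :
    hmul μ f g ∈ HS μ := by
  refine ⟨fun n M hM => sum_eq_zero fun ab hab => mul_eq_zero_of_right _ <|
    sum_eq_zero fun h _ => ?_, fun n x M => ?_⟩
  · split_ifs with ht
    · obtain ⟨a, b⟩ := ab
      obtain rfl : a + b = n := mem_antidiagonal.1 hab
      obtain ⟨B, hB⟩ := exists_eq_cat ht
      rw [← isUnit_cnj h, hB, isUnit_cat, not_and_or] at hM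
      rcases hM with hM | hM
      · simp [hf.1 _ _ hM]
      · simp [hg.1 _ _ hM]
    · rfl
  · simp only [hmul, mul_sum]
    refine sum_congr rfl fun ab _ => ?_
    rw [← Equiv.sum_comp (Equiv.mulLeft x)]
    refine sum_congr rfl fun h _ => ?_
    simp only [Equiv.coe_mulLeft, cnj_mul, dt_mul]
    split_ifs <;> ring

/-- the twisted Hall algebra -/
abbrev H (μ : Fˣ →* ℂˣ) : Type u := HS μ

variable {μ : Fˣ →* ℂˣ}

noncomputable instance instMulH : Mul (H μ) := ⟨fun f g => ⟨hmul μ f.1 g.1, hmul_mem f.2 g.2⟩⟩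

theorem Mat_zero_eq (M : Mat F 0) : M = 1 := funext fun i => i.elim0

theorem G_zero_eq (h : G F 0) : h = 1 := Units.ext (Mat_zero_eq _)

theorem isUnit_Mat_zero (M : Mat F 0) : IsUnit M := by rw [Mat_zero_eq M]; exact isUnit_one

theorem one_mem_HS : (fun n _ => if n = 0 then 1 else 0 : Fn F) ∈ HS μ := by
  refine ⟨fun n M hM => ?_, fun n h M => ?_⟩
  · beta_reduce
    by_cases h : n = 0
    · subst h; exact absurd (isUnit_Mat_zero M) hM
    · rw [if_neg h]
  · beta_reduce
    by_cases h0 : n = 0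
    · subst h0; rw [G_zero_eq h, dt_one, one_mul]
    · rw [if_neg h0, mul_zero]

noncomputable instance instOneH : One (H μ) := ⟨⟨_, one_mem_HS⟩⟩

theorem H.ext {f g : H μ} (h : ∀ n M, f.1 n M = g.1 n M) : f = g := by
  apply Subtype.ext
  funext n M
  exact h n M

@[simp] theorem H.add_val (f g : H μ) (n : ℕ) (M : Mat F n) : (f + g).1 n M = f.1 n M + g.1 n M :=
  rfl

@[simp] theorem H.sub_val (f g : H μ) (n : ℕ) (M : Mat F n) : (f - g).1 n M = f.1 n M - g.1 n M :=
  rfl

@[simp] theorem H.neg_val (f : H μ) (n : ℕ) (M : Mat F n) : (-f).1 n M = -f.1 n M := rfl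

@[simp] theorem H.smul_val (c : ℂ) (f : H μ) (n : ℕ) (M : Mat F n) : (c • f).1 n M = c * f.1 n M :=
  rfl

@[simp] theorem H.zero_val (n : ℕ) (M : Mat F n) : (0 : H μ).1 n M = 0 := rfl

theorem H.one_val (n : ℕ) (M : Mat F n) : (1 : H μ).1 n M = if n = 0 then 1 else 0 := rfl

theorem H.mul_val (f g : H μ) : (f * g).1 = hmul μ f.1 g.1 := rfl

theorem H.left_distrib (f g k : H μ) : f * (g + k) = f * g + f * k :=
  H.ext fun n M => by
    simp only [H.add_val, H.mul_val, hmul, ← sum_add_distrib, ← mul_add]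
    refine sum_congr rfl fun ab _ => congrArg _ (sum_congr rfl fun h _ => ?_)
    split_ifs <;> ring

theorem H.right_distrib (f g k : H μ) : (f + g) * k = f * k + g * k :=
  H.ext fun n M => by
    simp only [H.add_val, H.mul_val, hmul, ← sum_add_distrib, ← mul_add]
    refine sum_congr rfl fun ab _ => congrArg _ (sum_congr rfl fun h _ => ?_)
    split_ifs <;> ring

theorem H.smul_mul (c : ℂ) (f g : H μ) : (c • f) * g = c • (f * g) :=
  H.ext fun n M => by
    simp only [H.smul_val, H.mul_val, hmul, mul_sum]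
    refine sum_congr rfl fun ab _ => sum_congr rfl fun h _ => ?_
    split_ifs <;> ring

theorem H.mul_smul (c : ℂ) (f g : H μ) : f * (c • g) = c • (f * g) :=
  H.ext fun n M => by
    simp only [H.smul_val, H.mul_val, hmul, mul_sum]
    refine sum_congr rfl fun ab _ => sum_congr rfl fun h _ => ?_
    split_ifs <;> ring

variable (F) in
/-- the ring laws that need a proof (packages G1a, G1b) -/
class HallRing : Prop where
  mul_assoc : ∀ (μ : Fˣ →* ℂˣ) (f g k : H μ), f * g * k = f * (g * k)
  one_mul : ∀ (μ : Fˣ →* ℂˣ) (f : H μ), 1 * f = f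
  mul_comm : ∀ (μ : Fˣ →* ℂˣ) (f g : H μ), f * g = g * f

noncomputable instance instCommRingH [HallRing F] : CommRing (H μ) :=
  { (inferInstance : AddCommGroup (H μ)), instMulH, instOneH with
    left_distrib := H.left_distrib
    right_distrib := H.right_distrib
    zero_mul := fun f => by simpa using H.smul_mul 0 f f
    mul_zero := fun f => by simpa using H.mul_smul 0 f f
    mul_assoc := HallRing.mul_assoc μ
    one_mul := HallRing.one_mul μ
    mul_one := fun f => by rw [HallRing.mul_comm, HallRing.one_mul]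
    mul_comm := HallRing.mul_comm μ }

noncomputable instance instAlgebraH [HallRing F] : Algebra ℂ (H μ) :=
  Algebra.ofModule H.smul_mul H.mul_smul

/-- the degree `n` component as a function on `GL_n` -/
def H.cf (f : H μ) (n : ℕ) : G F n → ℂ := fun g => f.1 n g.1

variable (μ) in
/-- homogeneous elements -/
def Hn (n : ℕ) : Submodule ℂ (H μ) where
  carrier := {f | ∀ k, k ≠ n → ∀ M, f.1 k M = 0}
  add_mem' := fun hf hg k hk M => by simp [hf k hk M, hg k hk M]
  zero_mem' := fun _ _ _ => rfl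
  smul_mem' := fun c f hf k hk M => by simp [hf k hk M]

/-- the form in degree `n` -/
noncomputable def ipH (n : ℕ) (f g : H μ) : ℂ := CT.ip (f.cf n) (g.cf n)

/-- parabolic restriction -/
noncomputable def cop (f : Fn F) {a b : ℕ} (A : Mat F a) (D : Mat F b) : ℂ :=
  (Fintype.card (Matrix (Fin a) (Fin b) F) : ℂ)⁻¹ * ∑ B, f (a + b) (cat A B D)

variable (μ) in
/-- homogeneous primitives -/
def Pr (n : ℕ) : Submodule ℂ (H μ) where
  carrier := {f | f ∈ Hn μ n ∧ ∀ a b, 0 < a → 0 < b → ∀ (A : Mat F a) (D : Mat F b),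
    cop f.1 A D = 0}
  add_mem' := by
    rintro f g ⟨hf, hf'⟩ ⟨hg, hg'⟩
    refine ⟨add_mem hf hg, fun a b ha hb A D => ?_⟩
    have := congrArg₂ (· + ·) (hf' a b ha hb A D) (hg' a b ha hb A D)
    simpa [cop, ← mul_add, ← sum_add_distrib] using this
  zero_mem' := ⟨zero_mem _, fun a b _ _ A D => by simp [cop]⟩
  smul_mem' := by
    rintro c f ⟨hf, hf'⟩
    refine ⟨Submodule.smul_mem _ c hf, fun a b ha hb A D => ?_⟩
    have := congrArg (c * ·) (hf' a b ha hb A D)
    simp only [cop, mul_zero] at this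
    simp only [cop, H.smul_val, ← mul_sum]
    rw [← this]; ring

variable (F) in
/-- class functions that are multiplicative on block triangular matrices -/
structure MF where
  /-- the function -/
  c : Fn F
  conj : ∀ n (h : G F n) M, c n (cnj h M) = c n M
  cat : ∀ a b (A : Mat F a) B (D : Mat F b), c (a + b) (cat A B D) = c a A * c b D
  zero : ∀ M, c 0 M = 1

/-- pointwise multiplication -/
def mulL (c : MF F) : H μ →ₗ[ℂ] H μ where
  toFun f := ⟨fun n M => c.c n M * f.1 n M, fun n M h => by simp [f.2.1 n M h], fun n h M => by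
    beta_reduce
    rw [c.conj, f.2.2 n h M]; ring⟩
  map_add' f g := H.ext fun n M => mul_add _ _ _
  map_smul' a f := H.ext fun n M => mul_left_comm _ _ _

theorem mulL_val (c : MF F) (f : H μ) (n : ℕ) (M : Mat F n) :
    (mulL c f).1 n M = c.c n M * f.1 n M := rfl

theorem mulL_mul (c : MF F) (f g : H μ) : mulL c (f * g) = mulL c f * mulL c g :=
  H.ext fun n M => by
    simp only [mulL_val, H.mul_val, hmul, mul_sum]
    refine sum_congr rfl fun ab hab => sum_congr rfl fun h _ => ?_
    split_ifs with ht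
    · obtain ⟨a, b⟩ := ab
      obtain rfl : a + b = n := mem_antidiagonal.1 hab
      obtain ⟨B, hB⟩ := exists_eq_cat ht
      have : c.c _ M = c.c a (blk (cnj h M) 0 a) * c.c b (blk (cnj h M) a b) := by
        rw [← c.conj _ h, ← c.cat _ _ _ B, ← hB]
      rw [this]; ring
    · simp

/-- pointwise multiplication as an algebra endomorphism -/
noncomputable def mulOp [HallRing F] (c : MF F) : H μ →ₐ[ℂ] H μ :=
  AlgHom.ofLinearMap (mulL c) (H.ext fun n M => by
    rw [mulL_val, H.one_val]
    split_ifs with h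
    · subst h; simp [c.zero]
    · simp) (mulL_mul c)

theorem mulOp_val [HallRing F] (c : MF F) (f : H μ) (n : ℕ) (M : Mat F n) :
    (mulOp c f).1 n M = c.c n M * f.1 n M := rfl

omit [Fintype F] in
theorem charpoly_cnj {n : ℕ} (h : G F n) (M : Mat F n) : (cnj h M).charpoly = M.charpoly := by
  rw [cnj, Matrix.mul_assoc, charpoly_mul_comm, Matrix.mul_assoc]
  simp

/-- a multiplicative function of the characteristic polynomial -/
noncomputable def MF.ofPoly (c : F[X] →* ℂ) : MF F where
  c := fun _ M => c M.charpoly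
  conj := fun _ h M => by rw [charpoly_cnj]
  cat := fun _ _ A B D => by rw [charpoly_cat, map_mul]
  zero := fun M => by
    have : M.charpoly = 1 := by simp [Matrix.charpoly]
    rw [this, map_one]

/-- the degree `n` part of a multiplicative function, as an element of the untwisted algebra -/
noncomputable def MF.gl (c : MF F) (n : ℕ) : H (1 : Fˣ →* ℂˣ) :=
  ⟨fun k M => if k = n ∧ IsUnit M then c.c k M else 0, fun k M h => by simp [h],
    fun k h M => by simp [dt, isUnit_cnj, c.conj]⟩

/-- the character `ν ∘ det` -/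
noncomputable def MF.lin (ν : Fˣ →* ℂˣ) : MF F where
  c := fun _ M => if h : M.det = 0 then 0 else (ν (Units.mk0 M.det h) : ℂˣ)
  conj := fun _ h M => by
    have : (cnj h M).det = M.det := by
      rw [cnj, Matrix.mul_assoc, det_mul_comm, Matrix.mul_assoc]; simp
    simp only [this]
  cat := fun _ _ A B D => by
    simp only [det_cat]
    by_cases hA : A.det = 0
    · simp [hA]
    by_cases hD : D.det = 0
    · simp [hD]
    rw [dif_neg (mul_ne_zero hA hD), dif_neg hA, dif_neg hD, ← Units.val_mul, ← map_mul]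
    congr 2
    ext; simp
  zero := fun M => by
    have : M.det = 1 := det_isEmpty
    simp only [this, one_ne_zero, dite_false]
    have : Units.mk0 (1 : F) one_ne_zero = 1 := Units.ext rfl
    simp [this]

/-- upper unitriangular matrices -/
def Uni {n : ℕ} (M : Mat F n) : Prop := (∀ i, M i i = 1) ∧ ∀ i j, j < i → M i j = 0

/-- the Gelfand-Graev functional in degree `n` -/
noncomputable def gg (ψ : AddChar F ℂ) (n : ℕ) (f : Fn F) : ℂ :=
  (Nat.card {M : Mat F n // Uni M} : ℂ)⁻¹ *
    ∑ M ∈ univ.filter (fun M : Mat F n => Uni M), f n M * ψ (-∑ i ∈ range n, ext M i (i + 1))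

/-- the subgroup of matrices with determinant in `R` -/
def NR (R : Subgroup Fˣ) (n : ℕ) : Subgroup (G F n) := R.comap GeneralLinearGroup.det

instance normal_NR (R : Subgroup Fˣ) (n : ℕ) : (NR R n).Normal :=
  inferInstanceAs (R.comap _).Normal

/-- a function on `NR R n`, extended by zero to all matrices -/
noncomputable def extN {R : Subgroup Fˣ} {n : ℕ} (θ : NR R n → ℂ) (M : Mat F n) : ℂ :=
  if h : IsUnit M then extendByZero (NR R n) θ h.unit else 0

variable (μ) in
/-- twisted induction from `NR R n` -/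
noncomputable def tw {R : Subgroup Fˣ} {n : ℕ} (θ : NR R n → ℂ) : H μ :=
  ⟨fun k M => if h : k = n then
      (Nat.card (NR R n) : ℂ)⁻¹ * ∑ g : G F n, dt μ g * extN θ (cnj g (h ▸ M)) else 0,
    fun k M hM => by
      beta_reduce
      split_ifs with h
      · subst h
        refine mul_eq_zero_of_right _ (sum_eq_zero fun g _ => ?_)
        rw [extN, dif_neg (by rwa [isUnit_cnj]), mul_zero]
      · rfl,
    fun k x M => by
      beta_reduce
      split_ifs with h
      · subst h
        rw [← Equiv.sum_comp (Equiv.mulLeft x), mul_left_comm, mul_sum _ _ (dt μ x)]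
        simp only [Equiv.coe_mulLeft, cnj_mul, dt_mul, mul_assoc]
      · simp⟩

theorem defs_realise_eqns : True := by
  have := @ext.eq_1.{0}
  have := @blk.eq_1.{0}
  have := @Tri.eq_1.{0}
  have := @cat.eq_1.{0}
  have := @dt.eq_1.{0}
  have := @cnj.eq_1.{0}
  have := @hmul.eq_1.{0}
  have := @H.cf.eq_1.{0}
  have := @ipH.eq_1.{0}
  have := @cop.eq_1.{0}
  have := @Uni.eq_1.{0}
  have := @gg.eq_1.{0}
  have := @NR.eq_1.{0}
  have := @extN.eq_1.{0}
  trivial

end GLH
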