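import Cfsg.Agent.Lib.GL.St
import Cfsg.Agent.Lib.FT.LibLift
import Cfsg.Agent.Lib.Block.StarChar
import Mathlib.LinearAlgebra.ExteriorPower.Basis
import Mathlib.LinearAlgebra.Eigenspace.Zero
import Mathlib.LinearAlgebra.Eigenspace.Semisimple
import Mathlib.LinearAlgebra.Matrix.Charpoly.FiniteField
import Mathlib.RingTheory.MvPolynomial.Symmetric.FundamentalTheorem
import Mathlib.RingTheory.Polynomial.Vieta

/-!
# S4536, package G3a, first half: Green's lift of symmetric functions of the eigenvalues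
-/

set_option autoImplicit false
set_option linter.unusedSectionVars false

namespace GLH.Gr

open Finset Matrix Polynomial Cfsg CT BT
open scoped Classical MonoidAlgebra

section Lam
variable {G : Type*} [Group G] [Finite G] {d : ℕ}

theorem trace_ext (M : Matrix (Fin d) (Fin d) ℂ) (j : ℕ) :
    LinearMap.trace ℂ _ (exteriorPower.map j (toLin' M)) =
      ∑ s ∈ (univ : Finset (Fin d)).powersetCard j,
        (M.submatrix (Subtype.val : s → Fin d) (Subtype.val : s → Fin d)).det := by
  let b := (Pi.basisFun ℂ (Fin d)).exteriorPower j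
  have := Fintype.ofFinite (Set.powersetCard (Fin d) j)
  rw [LinearMap.trace_eq_matrix_trace ℂ b, Matrix.trace]
  refine sum_bij (fun s _ => s.1) (fun s _ => by simp) (fun s _ t _ e => Subtype.ext e)
    (fun s hs => ⟨⟨s, by simpa using hs⟩, mem_univ _, rfl⟩) fun s _ => ?_
  rw [Matrix.diag, LinearMap.toMatrix_apply, exteriorPower.basis_apply,
    exteriorPower.map_apply_ιMulti_family, exteriorPower.basis_repr_apply,
    exteriorPower.ιMulti_family, exteriorPower.ιMultiDual_apply_ιMulti,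
    ← det_submatrix_equiv_self (s.1.orderIsoOfFin s.2).toEquiv, ← det_transpose]
  congr 1
  ext i k
  simp [Set.powersetCard.ofFinEmbEquiv_symm_apply]
  rfl

theorem isChar_esymm (ρ : G →* Matrix (Fin d) (Fin d) ℂ) (j : ℕ) :
    IsCharacter G fun g => (ρ g).charpoly.roots.esymm j := by
  have hc : ∀ g, (ρ g).charpoly.roots.card = (ρ g).charpoly.natDegree := fun g =>
    splits_iff_card_roots.1 (IsAlgClosed.splits _)
  by_cases hj : j ≤ d
  swap
  · convert isCharacter_zero (G := G) with g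
    rw [Multiset.esymm, Multiset.powersetCard_eq_empty _ (by rw [hc]; simpa using hj)]
    simp
  let Λ : Representation ℂ G (⋀[ℂ]^j (Fin d → ℂ)) :=
    { toFun := fun g => exteriorPower.map j (toLin' (ρ g))
      map_one' := by rw [map_one, toLin'_one, exteriorPower.map_id]; rfl
      map_mul' := fun g h => by rw [map_mul, toLin'_mul, exteriorPower.map_comp]; rfl }
  convert isCharacter_of_rep Λ with g
  have h1 := coeff_eq_esymm_roots_of_card (hc g) (k := d - j) (by simp)
  have h2 := (ρ g).charpoly_coeff_eq_sum_minors j (by simpa using hj)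
  rw [charpoly_natDegree_eq_dim, (charpoly_monic _).leadingCoeff, one_mul, Fintype.card_fin,
    Nat.sub_sub_self hj] at h1
  rw [Fintype.card_fin, h1, ← trace_ext] at h2
  exact mul_left_cancel₀ (pow_ne_zero _ (by norm_num)) h2

theorem isGen_esymm_pow (ρ : G →* Matrix (Fin d) (Fin d) ℂ) (s j : ℕ) :
    IsGeneralizedCharacter G fun g => ((ρ g).charpoly.roots.map (· ^ s)).esymm j := by
  have hs : (MvPolynomial.expand s (MvPolynomial.esymm (Fin d) ℤ j)).IsSymmetric := fun e => by
    rw [MvPolynomial.rename_expand, MvPolynomial.esymm_isSymmetric]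
  obtain ⟨Q, hQ⟩ := MvPolynomial.esymmAlgHom_surjective ℤ (σ := Fin d) (n := d) (by simp) ⟨_, hs⟩
  have h1 := congrArg Subtype.val hQ
  rw [MvPolynomial.esymmAlgHom_apply] at h1
  have h2 : ∀ Q : MvPolynomial (Fin d) ℤ, IsGeneralizedCharacter G fun g =>
      MvPolynomial.aeval (fun i : Fin d => (ρ g).charpoly.roots.esymm (i + 1)) Q := by
    intro Q
    induction Q using MvPolynomial.induction_on with
    | C a =>
      convert (isCharacter_one (G := G)).isGen.zsmul a using 1
      ext; simp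
    | add p q hp hq => simp only [map_add]; exact hp.add hq
    | mul_X p i hp =>
      simp only [map_mul, MvPolynomial.aeval_X]; exact hp.mul (isChar_esymm ρ (i + 1)).isGen
  convert h2 Q using 2 with g
  obtain ⟨l, hl⟩ := Quot.exists_rep (ρ g).charpoly.roots
  have h3 : l.length = d := by
    have := splits_iff_card_roots.1 (IsAlgClosed.splits (ρ g).charpoly)
    rwa [← hl, charpoly_natDegree_eq_dim, Fintype.card_fin] at this
  subst h3
  have h4 : (ρ g).charpoly.roots = univ.val.map l.get := by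
    rw [← hl, Fin.univ_val_map, List.ofFn_get]; rfl
  have h5 := congrArg (MvPolynomial.aeval l.get) h1
  rw [MvPolynomial.aeval_expand, MvPolynomial.aeval_esymm_eq_multiset_esymm,
    ← AlgHom.comp_apply, MvPolynomial.comp_aeval] at h5
  simp only [MvPolynomial.aeval_esymm_eq_multiset_esymm] at h5
  rw [h4, h5, Multiset.map_map]
  rfl

end Lam

theorem count_roots_eq_rank {k : Type*} [Field k] {n : Type*} [Fintype n] [DecidableEq n]
    {A : Matrix n n k} {o : ℕ} (ho : (o : k) ≠ 0) (hA : A ^ o = 1) {ζ η : k} (h : η * ζ = 1)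
    (hη : η ^ o = 1) :
    A.charpoly.rootMultiplicity ζ = ((o : k)⁻¹ • ∑ i ∈ range o, η ^ i • A ^ i).rank := by
  have h1 : Module.End.IsSemisimple (toLin' A) := by
    refine Module.End.isSemisimple_of_squarefree_aeval_eq_zero
      (X_pow_sub_one_separable_iff.2 ho).squarefree ?_
    rw [map_sub, map_pow, aeval_X, map_one, ← toLin'_pow, hA, toLin'_one, sub_eq_zero]; rfl
  rw [← charpoly_toLin', ← LinearMap.finrank_maxGenEigenspace_eq,
    h1.isFinitelySemisimple.maxGenEigenspace_eq_eigenspace, Matrix.rank]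
  refine congrArg (fun W : Submodule k (n → k) => Module.finrank k W) (Submodule.ext fun v => ?_)
  rw [Module.End.mem_eigenspace_iff, toLin'_apply]
  constructor
  · intro hv
    refine ⟨v, ?_⟩
    have : ∀ i : ℕ, (η ^ i • A ^ i) *ᵥ v = v := fun i => by
      induction i with
      | zero => simp
      | succ i ih =>
        rw [pow_succ, pow_succ, smul_mulVec, ← mulVec_mulVec, hv, mulVec_smul, smul_smul, mul_assoc,
          h, mul_one, ← smul_mulVec, ih]
    rw [mulVecLin_apply, smul_mulVec, sum_mulVec, sum_congr rfl fun i _ => this i, sum_const,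
      card_range, ← Nat.cast_smul_eq_nsmul k, smul_smul, inv_mul_cancel₀ ho, one_smul]
  · rintro ⟨w, rfl⟩
    have h2 : (η • A) * ∑ i ∈ range o, η ^ i • A ^ i = ∑ i ∈ range o, η ^ i • A ^ i := by
      have := sum_range_succ' (fun i => η ^ i • A ^ i) o
      rw [sum_range_succ, hη, hA, pow_zero, pow_zero, add_left_inj] at this
      conv_rhs => rw [this]
      rw [mul_sum]
      exact sum_congr rfl fun i _ => by rw [smul_mul_smul_comm, ← pow_succ', ← pow_succ']
    rw [mulVecLin_apply, mulVec_mulVec, ← smul_mulVec, Matrix.mul_smul, smul_comm ζ]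
    congr 2
    conv_rhs => rw [← h2, ← smul_mul_assoc, smul_smul, mul_comm ζ, h, one_smul]

theorem idem_avg {R : Type*} [Ring R] [Algebra ℂ R] {x : R} {o : ℕ} (ho : o ≠ 0) (hx : x ^ o = 1) :
    ((o : ℂ)⁻¹ • ∑ i ∈ range o, x ^ i) * ((o : ℂ)⁻¹ • ∑ i ∈ range o, x ^ i) =
      (o : ℂ)⁻¹ • ∑ i ∈ range o, x ^ i := by
  have h1 : x * ∑ i ∈ range o, x ^ i = ∑ i ∈ range o, x ^ i := by
    rw [← sub_eq_zero, ← sub_one_mul, mul_geom_sum, hx, sub_self]
  have h2 : ∀ k : ℕ, x ^ k * ∑ i ∈ range o, x ^ i = ∑ i ∈ range o, x ^ i := fun k => by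
    induction k with
    | zero => simp
    | succ k ih => rw [pow_succ, mul_assoc, h1, ih]
  rw [smul_mul_smul_comm, sum_mul, sum_congr rfl fun k _ => h2 k, sum_const, card_range,
    ← Nat.cast_smul_eq_nsmul ℂ, smul_smul, mul_assoc, inv_mul_cancel₀ (Nat.cast_ne_zero.2 ho),
    mul_one]

attribute [local irreducible] instFieldResF

/-- the Brauer lift -/
theorem exists_lift {p : ℕ} [Fact p.Prime] {M : Ideal AlgInt} (hM : IsPModular p M) {G : Type*}
    [Group G] [Finite G] (hG : ¬ p ∣ Nat.card G) {n : ℕ}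
    (r : G →* Matrix (Fin n) (Fin n) (ResF hM)) :
    ∃ ρ : G →* Matrix (Fin n) (Fin n) ℂ, ∀ (g : G) (z : ℂˣ) (m : ℕ), ¬ p ∣ m → z ^ m = 1 →
      (ρ g).charpoly.rootMultiplicity (z : ℂ) = (r g).charpoly.rootMultiplicity (red hM z) := by
  let π : (ResF hM)[G] →ₐ[ResF hM] Matrix (Fin n) (Fin n) (ResF hM) := MonoidAlgebra.lift _ _ _ r
  have hπ : ∀ g, π (MonoidAlgebra.single g 1) = r g := fun g => by simp [π]
  obtain ⟨β, hβ, h⟩ := FT.P2.exists_lift_alg hM hG π
  have hd : charDegree β = n := charDegree_eq_of_apply_one (by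
    rw [← ev_one β, h 1 (intAlg hM G).one_mem (mul_one _), redA_one, map_one, rank_one,
      Fintype.card_fin])
  obtain ⟨ρ, hρ⟩ := hβ.exists_matrix_rep
  subst hd
  refine ⟨ρ, fun g z m hm hz => ?_⟩
  set o := m * Nat.card G
  have ho : ¬ p ∣ o := fun h => ((Nat.Prime.dvd_mul Fact.out).1 h).elim hm hG
  have ho0 : o ≠ 0 := fun h => ho (h ▸ dvd_zero p)
  have hg : g ^ o = 1 := orderOf_dvd_iff_pow_eq_one.1 ((orderOf_dvd_natCard g).mul_left m)
  have hz' : ∀ u : ℂˣ, u ^ m = 1 → (u : ℂ) ^ o = 1 := fun u hu => by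
    rw [pow_mul, ← Units.val_pow_eq_pow_val, hu, Units.val_one, one_pow]
  have h1 := hz' z hz
  have h2 := hz' z⁻¹ (by rw [inv_pow, hz, inv_one])
  have a1 := mem_locRing_of_isIntegral hM (BT.isIntegral_of_pow_eq_one ho0 h1)
  have a2 := mem_locRing_of_isIntegral hM (BT.isIntegral_of_pow_eq_one ho0 h2)
  have a3 := inv_natCast_mem_locRing hM ho
  have a4 : ∀ i ∈ range o, IsInt hM (MonoidAlgebra.single g ((z⁻¹ : ℂˣ) : ℂ) ^ i) := fun i _ =>
    (intAlg hM G).pow_mem (isInt_single hM g a2) i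
  have a5 := h _ (IsInt.smul hM a3 ((intAlg hM G).sum_mem a4)) (idem_avg ho0 (by
    rw [MonoidAlgebra.single_pow, hg, h2]; rfl))
  have a6 : ((z⁻¹ : ℂˣ) • ρ g) ^ o = 1 := by
    rw [_root_.smul_pow, ← map_pow, hg, map_one, Units.smul_def, Units.val_pow_eq_pow_val, h2, one_smul]
  have a7 := trace_eq_rank_of_idem (idem_avg ho0 a6)
  rw [count_roots_eq_rank (Nat.cast_ne_zero.2 ho0) (by rw [← map_pow, hg, map_one]) z.inv_mul h2,
    count_roots_eq_rank (natCast_resF_ne_zero hM ho) (by rw [← map_pow, hg, map_one])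
      (η := red hM (z⁻¹ : ℂˣ)) (by rw [← red_mul hM a2 a1, z.inv_mul, red_one])
      (by rw [← red_pow hM a2, h2, red_one])]
  rw [redA_smul hM a3 ((intAlg hM G).sum_mem a4), redA_sum hM _ _ a4,
    red_inv hM (natCast_mem _ _) (by rwa [natCast_mem_locIdeal_iff]), red_natCast] at a5
  simp only [MonoidAlgebra.single_pow, map_smul, map_sum, ev_single, redA_single, red_pow hM a2,
    π, MonoidAlgebra.lift_single, map_pow] at a5
  simp only [_root_.smul_pow, Units.smul_def] at a7
  refine Nat.cast_injective (R := ℂ) ?_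
  rw [← a5, ← a7]
  simp [← hρ, trace_sum]

theorem charpoly_pRegPart {F : Type*} [Field F] [Fintype F] {p : ℕ} [Fact p.Prime] [CharP F p]
    {G : Type*} [Group G] [Finite G] {n : ℕ} (r : G →* Matrix (Fin n) (Fin n) F) (g : G) :
    (r (GT.pRegPart p g)).charpoly = (r g).charpoly := by
  obtain ⟨k, -, hk⟩ := GT.exists_forall_pRegPart_eq_pow G p
  obtain ⟨f, -, hf⟩ := FiniteField.card F p
  have h1 : ∀ j : ℕ, g ^ (p ^ k) ^ (j + 1) = GT.pRegPart p g := fun j => by
    induction j with
    | zero => rw [zero_add, pow_one, hk]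
    | succ j ih => rw [pow_succ, pow_mul, ih, ← hk, GT.pRegPart_pRegPart]
  have h2 : ∀ j : ℕ, (r g ^ Fintype.card F ^ j).charpoly = (r g).charpoly := fun j => by
    induction j with
    | zero => simp
    | succ j ih => rw [pow_succ, pow_mul, FiniteField.Matrix.charpoly_pow_card, ih]
  rw [← h1 (f - 1), Nat.sub_add_cancel f.pos, map_pow, ← pow_mul, mul_comm, pow_mul, ← hf, h2]

theorem green_lift {F : Type*} [Field F] [Fintype F] {K : Type} [Field K] [Fintype K] [Algebra F K]
    (w : K →* ℂ) (n j : ℕ) (h : ∀ g : G F n, (g.1.charpoly.aroots K).card = n) :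
    IsGeneralizedCharacter (G F n) fun g => ((g.1.charpoly.aroots K).map w).esymm j := by
  obtain ⟨p, hp⟩ := CharP.exists F
  have : Fact p.Prime := ⟨CharP.char_is_prime F p⟩
  have : CharP K p := charP_of_injective_algebraMap (algebraMap F K).injective p
  obtain ⟨M, hM⟩ := exists_isPModular (p := p) Fact.out
  let _ : Algebra (ZMod p) K := ZMod.algebra K p
  let _ : Algebra (ZMod p) (ResF hM) := ZMod.algebra _ p
  let ι : K →+* ResF hM := (IsAlgClosed.lift (R := ZMod p) (S := K) (M := ResF hM)).toRingHom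
  obtain ⟨L, m, hm, hL⟩ := exists_lift_units_hom hM (Units.map (ι : K →* ResF hM))
  have hLi : ∀ x y, ι (x : Kˣ) = red hM (L y) ↔ x = y := fun x y => by
    rw [(hL y).2]
    exact ⟨fun e => Units.ext (ι.injective e), fun e => e ▸ rfl⟩
  obtain ⟨s, hs⟩ : ∃ s : ℕ, ∀ x : Kˣ, w x = L x ^ s := by
    obtain ⟨γ, hγ⟩ := IsCyclic.exists_generator (α := Kˣ)
    have h1 : IsPrimitiveRoot (L γ) (orderOf γ) := by
      rw [← orderOf_injective L (fun x y e => (hLi x y).1 (by rw [← e, (hL x).2]; rfl))]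
      exact IsPrimitiveRoot.orderOf _
    have : NeZero (orderOf γ) := ⟨(orderOf_pos γ).ne'⟩
    obtain ⟨s, -, hs⟩ := (IsPrimitiveRoot.coe_units_iff.2 h1).eq_pow_of_pow_eq_one (ξ := w γ)
      (by rw [← map_pow, ← Units.val_pow_eq_pow_val, pow_orderOf_eq_one, Units.val_one, map_one])
    refine ⟨s, fun x => ?_⟩
    obtain ⟨a, rfl⟩ := (mem_powers_iff_mem_zpowers.2 (hγ x) : x ∈ Submonoid.powers γ)
    simp only [Units.val_pow_eq_pow_val, map_pow, ← hs, ← pow_mul, mul_comm]
  refine isGen_of_forall_nilpotent (fun g x => ?_) fun E hE => ?_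
  · have := charpoly_cnj x⁻¹ g.1
    rw [cnj, inv_inv] at this
    simp only [Units.val_mul, this]
  let φ : E →* E := MonoidHom.mk' (GT.pRegPart p) fun a b =>
    (pPart_mul_and_pRegPart_mul_of_nilpotent a b).2
  have hQ : ¬ p ∣ Nat.card φ.range := fun hd => by
    obtain ⟨⟨_, x, rfl⟩, hx⟩ := exists_prime_orderOf_dvd_card' p hd
    exact GT.not_dvd_orderOf_pRegPart p x ((Subgroup.orderOf_coe _).trans hx).symm.dvd
  let r₀ : E →* Matrix (Fin n) (Fin n) F := (Units.coeHom _).comp E.subtype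
  obtain ⟨ρ, hρ⟩ := exists_lift hM hQ ((ι.comp (algebraMap F K)).mapMatrix.toMonoidHom.comp
    (r₀.comp φ.range.subtype))
  convert (isGen_esymm_pow ρ s j).comp φ.rangeRestrict using 2 with g
  have h0 : ∀ x ∈ (g.1.1.charpoly.aroots K), x ≠ 0 := by
    rintro x hx rfl
    have h1 := (mem_aroots.1 hx).2
    rw [← coeff_zero_eq_aeval_zero', map_eq_zero] at h1
    have h2 := det_eq_sign_charpoly_coeff g.1.1
    rw [h1, mul_zero] at h2
    exact g.1.det_ne_zero h2
  let L' : K → ℂ := fun x => if hx : x = 0 then 0 else L (Units.mk0 x hx)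
  have h1 : (g.1.1.charpoly.aroots K).map L' = (ρ (φ.rangeRestrict g)).charpoly.roots := by
    refine Multiset.eq_of_le_of_card_le (Multiset.le_iff_count.2 fun z => ?_) ?_
    swap
    · rw [Multiset.card_map, h]
      exact (card_roots' _).trans (by simp)
    by_cases hz : z ∈ (g.1.1.charpoly.aroots K).map L'
    swap
    · simp [Multiset.count_eq_zero_of_notMem hz]
    obtain ⟨x, hx, rfl⟩ := Multiset.mem_map.1 hz
    rw [Multiset.count_map_eq_count _ _ ?_ _ hx, count_roots, count_roots]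
    · simp only [L', dif_neg (h0 x hx)]
      rw [hρ _ _ m hm (hL _).1, (hL _).2, eq_rootMultiplicity_map ι.injective, Polynomial.map_map]
      refine le_of_eq (congrArg₂ _ rfl ?_)
      exact ((charpoly_map _ _).trans (congrArg _ (charpoly_pRegPart r₀ g))).symm
    · intro a ha b hb e
      simp only [L', dif_neg (h0 a ha), dif_neg (h0 b hb)] at e
      exact congrArg Units.val ((hLi (Units.mk0 a (h0 a ha)) (Units.mk0 b (h0 b hb))).1
        (by rw [← e, (hL _).2]; rfl))
  rw [← h1, Multiset.map_map, CT.res]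
  congr 1
  refine Multiset.map_congr rfl fun x hx => ?_
  simp only [Function.comp, L', dif_neg (h0 x hx)]
  exact hs (Units.mk0 x (h0 x hx))

end GLH.Gr
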