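import Cfsg.Agent.Lib.GL.GrA
import Mathlib.RingTheory.PowerSeries.Derivative
import Mathlib.Dynamics.PeriodicPts.Defs
import Mathlib.Algebra.Polynomial.Eval.Subring

/-!
# S4536, package G3a, second half: the necklace argument and the instance `Green`
-/

set_option autoImplicit false
set_option linter.unusedSectionVars false

namespace GLH.Gr

open Finset Function
open scoped Classical

universe u

section Exp
variable {B : Type*} [CommRing B] [Algebra ℂ B] {D : ℕ} {π π' Φ Ψ : ℕ → B}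

theorem cancel {n : ℕ} (hn : n ≠ 0) {x y : B} (h : (n : B) * x = n * y) : x = y := by
  have := congrArg ((n : ℂ)⁻¹ • ·) h
  simpa only [← nsmul_eq_mul, ← Nat.cast_smul_eq_nsmul ℂ, smul_smul,
    inv_mul_cancel₀ (Nat.cast_ne_zero.2 hn : (n : ℂ) ≠ 0), one_smul] using this

theorem _root_.GLH.ExpRel.to (h : ExpRel π Φ) (D : ℕ) : ExpTo D π Φ := ⟨h.1, fun n _ => h.2 n⟩

theorem _root_.GLH.ExpTo.mono (h : ExpTo D π Φ) {E : ℕ} (hE : E ≤ D) : ExpTo E π Φ :=
  ⟨h.1, fun n hn => h.2 n (hn.trans hE)⟩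

theorem _root_.GLH.ExpTo.unique (h : ExpTo D π Φ) (h' : ExpTo D π' Ψ)
    (e : ∀ k, 0 < k → k ≤ D → π k = π' k) (n : ℕ) (hn : n ≤ D) : Φ n = Ψ n := by
  induction n using Nat.strong_induction_on with
  | _ n ih =>
  rcases n.eq_zero_or_pos with rfl | h0
  · rw [h.1, h'.1]
  refine cancel h0.ne' ?_
  rw [h.2 n hn, h'.2 n hn]
  exact sum_congr rfl fun k hk => by
    rw [e _ k.succ_pos ((mem_range.1 hk).trans_le hn), ih _ (by omega) (by omega)]

theorem _root_.GLH.ExpTo.diff (h : ExpTo D π Φ) (h' : ExpTo D π' Ψ) (h0 : 0 < D)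
    (e : ∀ k, 0 < k → k < D → π k = π' k) : (D : B) * Φ D - D * Ψ D = π D - π' D := by
  obtain ⟨D, rfl⟩ := Nat.exists_eq_succ_of_ne_zero h0.ne'
  have := (h.mono D.le_succ).unique (h'.mono D.le_succ) fun k a b => e k a (by omega)
  rw [h.2 _ le_rfl, h'.2 _ le_rfl, sum_range_succ, sum_range_succ, sum_congr rfl fun k hk => by
    rw [e _ k.succ_pos (by simpa using hk), this _ (by omega)]]
  simp [h.1, h'.1]

theorem exists_expRel (π : ℕ → B) : ∃ Φ, ExpRel π Φ := by
  let Φ : ℕ → B := fun n => Nat.strongRec (fun n ih => if n = 0 then 1 else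
    (n : ℂ)⁻¹ • ∑ k : Fin n, π (k + 1) * ih (n - 1 - k) (by omega)) n
  have h : ∀ n, Φ n = if n = 0 then 1 else (n : ℂ)⁻¹ • ∑ k : Fin n, π (k + 1) * Φ (n - 1 - k) :=
    fun n => Nat.strongRec_eq _ n
  refine ⟨Φ, by rw [h, if_pos rfl], fun n => ?_⟩
  rcases eq_or_ne n 0 with rfl | h0
  · simp
  rw [h, if_neg h0, ← nsmul_eq_mul, ← Nat.cast_smul_eq_nsmul ℂ, smul_smul,
    mul_inv_cancel₀ (Nat.cast_ne_zero.2 h0), one_smul, sum_range]

open PowerSeries in
theorem expRel_iff : ExpRel π Φ ↔ Φ 0 = 1 ∧ d⁄dX B (mk Φ) = mk (fun k => π (k + 1)) * mk Φ := by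
  refine and_congr_right fun _ => ?_
  simp only [PowerSeries.ext_iff, coeff_derivative, coeff_mul, coeff_mk,
    Nat.sum_antidiagonal_eq_sum_range_succ fun a b => π (a + 1) * Φ b]
  refine ⟨fun h n => by simpa [mul_comm] using h (n + 1), fun h n => ?_⟩
  cases n with
  | zero => simp
  | succ n => simpa [mul_comm] using h n

open PowerSeries in
theorem _root_.GLH.ExpRel.mul (h : ExpRel π Φ) (h' : ExpRel π' Ψ) :
    ExpRel (π + π') fun n => ∑ x ∈ antidiagonal n, Φ x.1 * Ψ x.2 := by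
  have e : (mk fun n => ∑ x ∈ antidiagonal n, Φ x.1 * Ψ x.2) = mk Φ * mk Ψ := by
    ext; simp [coeff_mul]
  have e' : (mk fun k => (π + π') (k + 1)) = mk (fun k => π (k + 1)) + mk fun k => π' (k + 1) := by
    ext; simp
  refine expRel_iff.2 ⟨by simp [h.1, h'.1], ?_⟩
  rw [e, e', Derivation.leibniz, (expRel_iff.1 h).2, (expRel_iff.1 h').2, smul_eq_mul, smul_eq_mul]
  ring

theorem expRel_zero : ExpRel (0 : ℕ → B) fun n => if n = 0 then 1 else 0 :=
  ⟨rfl, fun n => by by_cases h : n = 0 <;> simp [h]⟩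

theorem _root_.GLH.ExpRel.map {B' : Type*} [CommRing B'] (f : B →+* B') (h : ExpRel π Φ) :
    ExpRel (fun k => f (π k)) fun k => f (Φ k) :=
  ⟨by simp [h.1], fun n => by simpa using congrArg f (h.2 n)⟩

/-- substitution `u ↦ c u ^ m` -/
noncomputable def sb (m : ℕ) (c : B) (f : ℕ → B) (n : ℕ) : B :=
  if m ∣ n then c ^ (n / m) * f (n / m) else 0

theorem _root_.GLH.ExpRel.sb (h : ExpRel π Φ) {m : ℕ} (hm : 0 < m) (c : B) :
    ExpRel (sb m c fun k => m * π k) (sb m c Φ) := by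
  refine ⟨by simp [Gr.sb, h.1], fun n => ?_⟩
  by_cases hn : m ∣ n
  swap
  · rw [Gr.sb, if_neg hn, mul_zero, sum_eq_zero fun k hk => ?_]
    by_cases hk' : m ∣ k + 1
    · rw [Gr.sb.eq_1 m c Φ, if_neg fun h => hn ?_, mul_zero]
      have := mem_range.1 hk
      rw [show n = k + 1 + (n - 1 - k) by omega]
      exact dvd_add hk' h
    · rw [Gr.sb, if_neg hk', zero_mul]
  obtain ⟨r, rfl⟩ := hn
  rw [Gr.sb, if_pos (dvd_mul_right _ _), Nat.mul_div_cancel_left _ hm, Nat.cast_mul, mul_assoc,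
    mul_left_comm (r : B), h.2, mul_sum, mul_sum]
  have e : ∀ j, m * (j + 1) - 1 + 1 = m * (j + 1) := fun j => Nat.sub_add_cancel (Nat.mul_pos hm j.succ_pos)
  refine sum_of_injOn (fun j => m * (j + 1) - 1) (fun i _ j _ h => ?_) (fun j hj => ?_)
    (fun k hk hk' => ?_) fun j hj => ?_
  · have := congrArg (· + 1) h
    simp only [e] at this
    simpa using Nat.eq_of_mul_eq_mul_left hm this
  · rw [mem_coe, mem_range, Nat.lt_iff_add_one_le, e]
    exact Nat.mul_le_mul_left _ (mem_range.1 hj)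
  · rw [Gr.sb, if_neg, zero_mul]
    rintro ⟨j, hj⟩
    obtain ⟨j, rfl⟩ := Nat.exists_eq_succ_of_ne_zero (n := j) (by rintro rfl; simp at hj)
    refine hk' ⟨j, mem_coe.2 (mem_range.2 (Nat.le_of_mul_le_mul_left ?_ hm)), by simp [← hj]⟩
    rw [← hj]; exact mem_range.1 hk
  · obtain ⟨t, rfl⟩ := Nat.exists_eq_add_of_lt (mem_range.1 hj)
    have e1 : m * (j + t + 1) - 1 - (m * (j + 1) - 1) = m * t := by
      have := e j
      have : m * (j + t + 1) = m * (j + 1) + m * t := by ring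
      omega
    simp only [Gr.sb, e, e1, dvd_mul_right, if_true, Nat.mul_div_cancel_left _ hm]
    rw [show j + t + 1 - 1 - j = t by omega]
    ring

/-- logarithmic derivatives of series with coefficients in `Z` up to degree `D` -/
def LS (Z : Subring B) (D : ℕ) : AddSubgroup (ℕ → B) where
  carrier := {π | ∃ Φ, ExpRel π Φ ∧ ∀ n ≤ D, Φ n ∈ Z}
  zero_mem' := ⟨_, expRel_zero, fun n _ => by split_ifs <;> simp⟩
  add_mem' := by
    rintro π π' ⟨Φ, h1, h2⟩ ⟨Ψ, h3, h4⟩
    refine ⟨_, h1.mul h3, fun n hn => sum_mem fun x hx => ?_⟩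
    have := mem_antidiagonal.1 hx
    exact mul_mem (h2 _ (by omega)) (h4 _ (by omega))
  neg_mem' := by
    rintro π ⟨Φ, h1, h2⟩
    obtain ⟨Ψ, h3⟩ := exists_expRel (-π)
    refine ⟨Ψ, h3, fun n hn => ?_⟩
    induction n using Nat.strong_induction_on with
    | _ n ih =>
    cases n with
    | zero => rw [h3.1]; exact one_mem _
    | succ n =>
      have := ((h1.mul h3).to _).unique (expRel_zero.to (n + 1)) (by simp) _ le_rfl
      rw [Nat.sum_antidiagonal_succ, h1.1, one_mul, if_neg n.succ_ne_zero,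
        add_eq_zero_iff_eq_neg] at this
      rw [this]
      refine neg_mem (sum_mem fun x hx => ?_)
      have := mem_antidiagonal.1 hx
      exact mul_mem (h2 _ (by omega)) (ih _ (by omega) (by omega))

variable {Z : Subring B}

theorem mem_LS (h : ExpTo D π Φ) (hZ : ∀ n ≤ D, Φ n ∈ Z) (e : ∀ k, 0 < k → k ≤ D → π k = π' k) :
    π' ∈ LS Z D := by
  obtain ⟨Ψ, h'⟩ := exists_expRel π'
  exact ⟨Ψ, h', fun n hn => h.unique (h'.to D) e n hn ▸ hZ n hn⟩

theorem LS_top (h : ExpRel π Φ) (h0 : 0 < D) (hZ : ∀ n < D, Φ n ∈ Z) :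
    π - Pi.single D (D * Φ D) ∈ LS Z D := by
  obtain ⟨Ψ, h'⟩ := exists_expRel (π - Pi.single D (D * Φ D))
  refine ⟨Ψ, h', fun n hn => ?_⟩
  rcases hn.lt_or_eq with hn | rfl
  · exact (h.to n).unique (h'.to n) (fun k _ hk => by simp [(hk.trans_lt hn).ne]) n le_rfl ▸ hZ n hn
  have := (h.to n).diff (h'.to n) h0 fun k _ hk => by simp [hk.ne]
  rw [cancel (x := Ψ n) (y := 0) h0.ne' (by simpa using this)]
  exact zero_mem _

theorem LS_single {c : B} (h0 : 0 < D) (h : Pi.single D (D * c) ∈ LS Z D) : c ∈ Z := by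
  obtain ⟨Φ, h1, h2⟩ := h
  have := (h1.to D).diff (expRel_zero.to D) h0 fun k _ hk => by simp [hk.ne]
  exact cancel h0.ne' (x := Φ D) (y := c) (by simpa [h0.ne'] using this) ▸ h2 D le_rfl

theorem poly_ext {f g : Polynomial B} (h : ∀ t : ℂ, f.eval (algebraMap ℂ B t) =
    g.eval (algebraMap ℂ B t)) : f = g := by
  rw [← sub_eq_zero]
  ext j
  refine (Module.forall_dual_apply_eq_zero_iff ℂ _).1 fun φ => ?_
  have h1 : (∑ i ∈ (f - g).support, Polynomial.monomial i (φ ((f - g).coeff i))) = 0 := by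
    refine Polynomial.funext fun t => ?_
    have := congrArg φ (sub_eq_zero.2 (h t))
    rw [← Polynomial.eval_sub, Polynomial.eval_eq_sum, Polynomial.sum, map_sum, map_zero] at this
    rw [Polynomial.eval_finsetSum, Polynomial.eval_zero, ← this]
    refine sum_congr rfl fun i _ => ?_
    rw [Polynomial.eval_monomial, ← map_pow, mul_comm ((f - g).coeff i), ← Algebra.smul_def,
      map_smul, smul_eq_mul, mul_comm]
  have h2 := congrArg (·.coeff j) h1
  simp only [Polynomial.finsetSum_coeff, Polynomial.coeff_monomial, sum_ite_eq',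
    Polynomial.mem_support_iff] at h2
  by_cases h3 : (f - g).coeff j = 0 <;> simp_all

end Exp

theorem exists_reps {X V : Type*} [AddCommMonoid V] (σ : X → X) (S : Finset X)
    (hS : ∀ x ∈ S, x ∈ periodicPts σ) (hσ : ∀ x ∈ S, σ x ∈ S) : ∃ L ⊆ S,
      (∀ F : X → V, (∀ x ∈ S, F (σ x) = F x) → ∑ x ∈ S, F x = ∑ x ∈ L, minimalPeriod σ x • F x) ∧
      (∀ x ∈ S, ∃ i, σ^[i] x ∈ L) ∧ ∀ x ∈ L, ∀ y ∈ L, ∀ i j, σ^[i] x = σ^[j] y → x = y := by
  rcases S.eq_empty_or_nonempty with rfl | ⟨x₀, -⟩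
  · exact ⟨∅, by simp⟩
  have : Nonempty X := ⟨x₀⟩
  let ρ : X → X := fun x => invFunOn (periodicOrbit σ) S (periodicOrbit σ x)
  have h1 : ∀ x ∈ S, ρ x ∈ S := fun x hx => invFunOn_mem ⟨x, hx, rfl⟩
  have h2 : ∀ x ∈ S, periodicOrbit σ (ρ x) = periodicOrbit σ x := fun x hx => invFunOn_eq ⟨x, hx, rfl⟩
  have h3 : ∀ x ∈ S, ∀ i, σ^[i] x ∈ S := fun x hx i => by
    induction i with
    | zero => exact hx
    | succ i ih => rw [iterate_succ_apply']; exact hσ _ ih
  have h4 : ∀ x ∈ S, ∀ i, ρ (σ^[i] x) = ρ x := fun x hx i => by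
    simp only [ρ, periodicOrbit_apply_iterate_eq (hS x hx)]
  have h5 : ∀ x ∈ S, ρ x ∈ S.filter fun x => ρ x = x := fun x hx =>
    mem_filter.2 ⟨h1 x hx, by simp only [ρ]; rw [h2 x hx]⟩
  refine ⟨S.filter fun x => ρ x = x, filter_subset _ _, fun F hF => ?_, fun x hx => ?_,
    fun x hx y hy i j e => ?_⟩
  · rw [← sum_fiberwise_of_maps_to h5]
    refine sum_congr rfl fun y hy => ?_
    obtain ⟨a1, a2⟩ := mem_filter.1 hy
    have a3 : ∀ i, F (σ^[i] y) = F y := fun i => by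
      induction i with
      | zero => rfl
      | succ i ih => rw [iterate_succ_apply', hF _ (h3 y a1 i), ih]
    have a4 : S.filter (ρ · = y) = (range (minimalPeriod σ y)).image (σ^[·] y) := by
      ext x
      simp only [mem_filter, mem_image, mem_range]
      constructor
      · rintro ⟨b1, b2⟩
        obtain ⟨i, rfl⟩ := (mem_periodicOrbit_iff (hS y a1)).1
          (b2 ▸ (h2 x b1).symm ▸ self_mem_periodicOrbit (hS x b1) : x ∈ periodicOrbit σ y)
        exact ⟨_, Nat.mod_lt i (minimalPeriod_pos_of_mem_periodicPts (hS y a1)),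
          iterate_mod_minimalPeriod_eq⟩
      · rintro ⟨i, -, rfl⟩
        exact ⟨h3 y a1 i, (h4 y a1 i).trans a2⟩
    rw [a4, sum_image (by simpa using iterate_injOn_Iio_minimalPeriod), sum_congr rfl fun i _ => a3 i,
      sum_const, card_range]
  · obtain ⟨i, hi⟩ := (mem_periodicOrbit_iff (hS x hx)).1
      (h2 x hx ▸ self_mem_periodicOrbit (hS _ (h1 x hx)))
    exact ⟨i, hi ▸ h5 x hx⟩
  · rw [← (mem_filter.1 hx).2, ← (mem_filter.1 hy).2, ← h4 x (mem_filter.1 hx).1 i, e,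
      h4 y (mem_filter.1 hy).1]

/-- the shift -/
def sh (x : Set ℕ) : Set ℕ := {i | i + 1 ∈ x}

theorem sh_iter (k : ℕ) (x : Set ℕ) : sh^[k] x = {i | i + k ∈ x} := by
  induction k with
  | zero => rfl
  | succ k ih =>
    rw [iterate_succ_apply', ih]
    ext i
    simp [sh, add_assoc, add_comm 1]

theorem per_iff {n : ℕ} {x : Set ℕ} : IsPeriodicPt sh n x ↔ ∀ i, i + n ∈ x ↔ i ∈ x := by
  rw [IsPeriodicPt, IsFixedPt, sh_iter, Set.ext_iff]; rfl

theorem per_mod {n : ℕ} {x : Set ℕ} (h : IsPeriodicPt sh n x) (i : ℕ) : i % n ∈ x ↔ i ∈ x := by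
  rw [← per_iff.1 (h.mul_const (i / n)), Nat.mod_add_div]

/-- the value of a word -/
noncomputable def vl (y n : ℕ) (x : Set ℕ) : ℕ := ∑ i ∈ range n with i ∈ x, y ^ i

theorem vl_sh (y : ℕ) {n : ℕ} {x : Set ℕ} (h : IsPeriodicPt sh n x) :
    y * vl y n (sh x) + (if 0 ∈ x then 1 else 0) = vl y n x + if 0 ∈ x then y ^ n else 0 := by
  have h1 := sum_range_succ' (fun i => if i ∈ x then y ^ i else 0) n
  rw [sum_range_succ, ← zero_add n, per_iff.1 h, zero_add, pow_zero] at h1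
  rw [vl, vl, sum_filter, sum_filter, h1, mul_sum]
  congr 1
  exact sum_congr rfl fun i _ => by by_cases h : i + 1 ∈ x <;> simp [sh, pow_succ', h]

theorem vl_mul (y : ℕ) {m : ℕ} {x : Set ℕ} (h : IsPeriodicPt sh m x) (k : ℕ) :
    vl y (m * k) x = vl y m x * ∑ i ∈ range k, y ^ (m * i) := by
  simp only [vl, sum_filter]
  induction k with
  | zero => simp
  | succ k ih =>
    rw [mul_add_one, sum_range_add, ih, sum_range_succ, mul_add, sum_mul _ _ (y ^ (m * k))]
    congr 1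
    exact sum_congr rfl fun i _ => by
      rw [add_comm (m * k), per_iff.1 (h.mul_const k)]; simp [pow_add]

/-- the periodic word of a subset -/
def wd (n : ℕ) (I : Finset ℕ) : Set ℕ := {i | i % n ∈ I}

theorem mem_wd {n i : ℕ} {I : Finset ℕ} : i ∈ wd n I ↔ i % n ∈ I := Iff.rfl

/-- the words of period `n` -/
noncomputable def Per (n : ℕ) : Finset (Set ℕ) := (range n).powerset.image (wd n)

theorem filter_word {n : ℕ} {I : Finset ℕ} (hI : I ∈ (range n).powerset) :
    (range n).filter (· ∈ wd n I) = I := by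
  ext i
  simp only [mem_filter, mem_range, mem_wd]
  exact ⟨fun ⟨a, b⟩ => by rwa [Nat.mod_eq_of_lt a] at b, fun a => by
    have := mem_range.1 (mem_powerset.1 hI a)
    exact ⟨this, by rwa [Nat.mod_eq_of_lt this]⟩⟩

theorem mem_Per {n : ℕ} (hn : 0 < n) {x : Set ℕ} : x ∈ Per n ↔ IsPeriodicPt sh n x := by
  rw [Per, mem_image]
  refine ⟨?_, fun h => ⟨(range n).filter (· ∈ x), mem_powerset.2 (filter_subset _ _), ?_⟩⟩
  · rintro ⟨I, -, rfl⟩
    exact per_iff.2 fun i => by simp [mem_wd]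
  · ext i
    simp [mem_wd, Nat.mod_lt i hn, per_mod h]

theorem exists_necklaces (V : Type*) [AddCommMonoid V] {q : ℕ} (hq : 0 < q) (N : ℕ) :
    ∃ (L : Finset (Set ℕ)) (m c v : Set ℕ → ℕ), (∀ x ∈ L, 0 < m x) ∧
      (∀ n, 0 < n → n ≤ N → ∀ f : ℕ → ℕ → V, (∀ c a, f c (q * a) = f c a) →
        (∀ c a, f c (a + (q ^ n - 1)) = f c a) →
        ∑ I ∈ (range n).powerset, f I.card (∑ i ∈ I, q ^ i) = ∑ x ∈ L, m x • if m x ∣ n then
          f (c x * (n / m x)) (v x * ∑ i ∈ range (n / m x), q ^ (m x * i)) else 0) ∧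
      ∀ k, 0 < k → k ≤ N → ∃ y ∈ L, m y = k ∧ c y = 1 ∧ (∃ j, v y = q ^ j) ∧
        ∀ x ∈ L, m x = k → c x = 1 → x = y := by
  have hN := N.factorial_pos
  have hS : ∀ x ∈ Per N.factorial, x ∈ periodicPts sh := fun x hx =>
    mk_mem_periodicPts hN ((mem_Per hN).1 hx)
  obtain ⟨L, h1, h2, h3, h4⟩ := exists_reps (V := V) sh (Per N.factorial) hS
    fun x hx => (mem_Per hN).2 ((mem_Per hN).1 hx).apply
  have w1 : ∀ {n x}, IsPeriodicPt sh n x → vl 1 n (sh x) = vl 1 n x := fun h => by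
    simpa using vl_sh 1 h
  refine ⟨L, minimalPeriod sh, fun x => vl 1 (minimalPeriod sh x) x,
    fun x => vl q (minimalPeriod sh x) x,
    fun x hx => minimalPeriod_pos_of_mem_periodicPts (hS x (h1 hx)), fun n h0 hn f f1 f2 => ?_,
    fun k h0 hk => ?_⟩
  · have a1 : (Per N.factorial).filter (minimalPeriod sh · ∣ n) = Per n := by
      ext x
      rw [mem_filter, mem_Per hN, mem_Per h0, ← isPeriodicPt_iff_minimalPeriod_dvd]
      exact and_iff_right_of_imp fun h => h.trans_dvd (Nat.dvd_factorial h0 hn)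
    have a2 := h2 (fun x => if minimalPeriod sh x ∣ n then f (vl 1 n x) (vl q n x) else 0) ?_
    · rw [← sum_filter, a1, Per, sum_image fun I hI J hJ e => by
        rw [← filter_word hI, ← filter_word hJ, e]] at a2
      refine (sum_congr rfl fun I hI => by simp [vl, filter_word hI]).trans
        (a2.trans (sum_congr rfl fun x hx => ?_))
      split_ifs with h
      · obtain ⟨k, rfl⟩ := h
        rw [Nat.mul_div_cancel_left _ (Nat.pos_of_mul_pos_right h0),
          vl_mul 1 (isPeriodicPt_minimalPeriod _ _), vl_mul q (isPeriodicPt_minimalPeriod _ _)]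
        simp
      · rfl
    intro x hx
    rw [minimalPeriod_apply (hS x hx)]
    split_ifs with h
    · have b1 := isPeriodicPt_iff_minimalPeriod_dvd.2 h
      have b2 := vl_sh q b1
      have b3 := Nat.one_le_pow n q hq
      rw [w1 b1, ← f1]
      split_ifs at b2
      · rw [← f2 _ (vl q n x)]; congr 1; omega
      · congr 1
    · rfl
  have a1 : ∀ x, IsPeriodicPt sh k x → vl 1 k x = 1 →
      ∃ j, vl q k x = q ^ j ∧ sh^[j] x = {i | k ∣ i} := fun x b1 b2 => by
    rw [vl, sum_congr rfl fun i _ => one_pow i, ← card_eq_sum_ones, card_eq_one] at b2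
    obtain ⟨j, hj⟩ := b2
    have b3 := mem_range.1 (mem_filter.1 (hj ▸ mem_singleton_self j :)).1
    refine ⟨j, by rw [vl, hj, sum_singleton], ?_⟩
    ext i
    rw [sh_iter, Set.mem_ofPred_eq, ← per_mod b1, Set.mem_ofPred_eq]
    have b4 := Finset.ext_iff.1 hj ((i + j) % k)
    rw [mem_filter, mem_range, and_iff_right (Nat.mod_lt _ h0), mem_singleton] at b4
    rw [b4, ← Nat.modEq_zero_iff_dvd, ← Nat.ModEq.add_iff_right (Nat.ModEq.refl j), zero_add,
      Nat.ModEq, Nat.mod_eq_of_lt b3]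
  have a2 : IsPeriodicPt sh k {i | k ∣ i} := per_iff.2 fun i => by simp
  have a3 : minimalPeriod sh {i | k ∣ i} = k := Nat.dvd_antisymm a2.minimalPeriod_dvd (by
    simpa using per_iff.1 (isPeriodicPt_minimalPeriod sh {i | k ∣ i}) 0)
  have a4 := (mem_Per hN).2 (a2.trans_dvd (Nat.dvd_factorial h0 hk))
  obtain ⟨i, hi⟩ := h3 _ a4
  have a5 := (minimalPeriod_apply_iterate (hS _ a4) i).trans a3
  have a6 : ∀ i, vl 1 k (sh^[i] {i | k ∣ i}) = 1 := fun i => by
    induction i with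
    | zero =>
      rw [vl, sum_eq_single 0 (fun b hb h => ?_) fun h => (h ?_).elim, pow_zero]
      swap
      · exact mem_filter.2 ⟨mem_range.2 h0, dvd_zero k⟩
      exact absurd (Nat.eq_zero_of_dvd_of_lt (mem_filter.1 hb).2 (mem_range.1 (mem_filter.1 hb).1)) h
    | succ i ih => rw [iterate_succ_apply', w1 (a2.apply_iterate i), ih]
  obtain ⟨j, b1, b2⟩ := a1 _ (a2.apply_iterate i) (a6 i)
  refine ⟨_, hi, a5, by simp only [a5, a6], ⟨j, by simp only [a5, b1]⟩, fun x hx c1 c2 => ?_⟩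
  obtain ⟨l, -, c3⟩ := a1 x (c1 ▸ isPeriodicPt_minimalPeriod _ _) (c1 ▸ c2)
  exact h4 _ hx _ hi l j (c3.trans b2.symm)

open Polynomial in
theorem necklace {A : Type*} [CommRing A] [Algebra ℂ A] (Z : Subring A) (q N : ℕ) (hq : 1 < q)
    (P : ℕ → ℕ → A) (h1 : ∀ n a, 0 < n → n ≤ N → P n (q * a) = P n a)
    (h2 : ∀ n a, 0 < n → n ≤ N → P n (a + (q ^ n - 1)) = P n a)
    (E : ℕ → ℕ → ℕ → A) (hE : ∀ s n j, n ≤ N → E s n j ∈ Z)
    (h : ∀ (s : ℕ) (t : ℂ), ExpTo N
      (fun n => ∑ I ∈ (range n).powerset, t ^ I.card • P n (s * ∑ i ∈ I, q ^ i))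
      (fun n => ∑ j ∈ range (n + 1), t ^ j • E s n j))
    (m a : ℕ) (hm : 0 < m) (Φ : ℕ → A)
    (hΦ : ExpRel (fun k => (-1) ^ (m * k - 1) * P (m * k) (a * ∑ i ∈ range k, q ^ (m * i))) Φ)
    (r : ℕ) (hr : m * r ≤ N) : Φ r ∈ Z := by
  choose G hG using fun a m => exists_expRel fun k => P (m * k) (a * ∑ i ∈ range k, q ^ (m * i))
  obtain ⟨L, μ, c, v, l1, l2, l3⟩ := exists_necklaces A[X] (zero_lt_one.trans hq) N
  let Z' : Subring A[X] := (mapRingHom Z.subtype).range
  have hZ : ∀ f, f ∈ Z' ↔ ∀ j, f.coeff j ∈ Z := fun f => by rw [mem_map_range]; simp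
  have hC : ∀ x ∈ Z, ∀ k, X ^ k * C x ∈ Z' := fun x hx k => (hZ _).2 fun j => by
    rw [mul_comm, coeff_C_mul_X_pow]; split_ifs; exacts [hx, zero_mem _]
  have h1' : ∀ j n a, 0 < n → n ≤ N → P n (q ^ j * a) = P n a := fun j n a b1 b2 => by
    induction j with
    | zero => simp
    | succ j ih => rw [pow_succ', mul_assoc, h1 _ _ b1 b2, ih]
  have h2' : ∀ j n a, 0 < n → n ≤ N → P n (a + j * (q ^ n - 1)) = P n a := fun j n a b1 b2 => by
    induction j with
    | zero => simp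
    | succ j ih => rw [add_one_mul, ← add_assoc, h2 _ _ b1 b2, ih]
  have key : ∀ D ≤ N, ∀ r m a, 0 < m → m * r = D → G a m r ∈ Z := by
    intro D hD
    induction D using Nat.strong_induction_on with
    | _ D ihD =>
    intro r
    induction r using Nat.strong_induction_on with
    | _ r ihr =>
    intro m a hm e
    rcases r.eq_zero_or_pos with rfl | hr
    · rw [(hG a m).1]; exact one_mem _
    have hD0 : 0 < D := e ▸ Nat.mul_pos hm hr
    have a1 := fun x (hx : x ∈ L) => ((hG (a * v x) (μ x)).map C).sb (l1 x hx) (X ^ c x)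
    have a2 := sum_mem fun x hx => LS_top (Z := Z') (a1 x hx) hD0 fun n hn => by
      rw [sb]
      split_ifs with hd
      · rw [← pow_mul]
        exact hC _ (ihD n hn (by omega) _ _ _ (l1 x hx) (Nat.mul_div_cancel' hd)) _
      · exact zero_mem _
    have a3 : ExpTo N (fun n => ∑ I ∈ (range n).powerset, X ^ I.card * C (P n (a * ∑ i ∈ I, q ^ i)))
        fun n => ∑ j ∈ range (n + 1), X ^ j * C (E a n j) := by
      refine ⟨poly_ext fun t => ?_, fun n hn => poly_ext fun t => ?_⟩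
      · simpa [Algebra.smul_def] using (h a t).1
      · simpa [Algebra.smul_def, eval_finsetSum, mul_comm (algebraMap ℂ A t ^ _)]
          using (h a t).2 n hn
    have a4 : ∑ x ∈ L, (sb (μ x) (X ^ c x) fun k => (μ x : A[X]) *
        C (P (μ x * k) (a * v x * ∑ i ∈ range k, q ^ (μ x * i)))) ∈ LS Z' D := by
      refine mem_LS (a3.mono hD) (fun n hn => sum_mem fun j _ => hC _ (hE _ _ _ (hn.trans hD)) _)
        fun n h0 hn => ?_
      rw [l2 n h0 (hn.trans hD) (fun c b => X ^ c * C (P n (a * b))) (fun c b => by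
        rw [mul_left_comm, h1 _ _ h0 (hn.trans hD)]) fun c b => ?_, Finset.sum_apply]
      · refine sum_congr rfl fun x _ => ?_
        rw [sb]
        split_ifs with hd
        · rw [Nat.mul_div_cancel' hd, nsmul_eq_mul, pow_mul, mul_left_comm, mul_assoc a]
        · rw [smul_zero]
      · congr 2
        rw [mul_add]
        exact h2' _ _ _ h0 (hn.trans hD)
    have a5 := sub_mem a4 a2
    rw [sum_sub_distrib, sub_sub_cancel] at a5
    have a6 := (hZ _).1 (LS_single hD0 (c := ∑ x ∈ L, sb (μ x) (X ^ c x)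
      (fun k => C (G (a * v x) (μ x) k)) D) (by
        rw [mul_sum, ← AddMonoidHom.single_apply, map_sum]; exact a5)) r
    obtain ⟨y, b1, b2, b3, ⟨j, b4⟩, b5⟩ := l3 m hm ((Nat.le_mul_of_pos_right m hr).trans (e ▸ hD))
    rw [finsetSum_coeff, ← add_sum_erase _ _ b1, add_mem_cancel_right (sum_mem fun x hx => ?_), sb,
      b2, b3, b4, ← e, if_pos (dvd_mul_right _ _), Nat.mul_div_cancel_left _ hm, pow_one, mul_comm,
      coeff_C_mul_X_pow, if_pos rfl] at a6
    · refine ((hG _ m).to r).unique ((hG a m).to r) (fun k c1 c2 => ?_) r le_rfl ▸ a6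
      rw [mul_comm a, mul_assoc, h1' _ _ _ (Nat.mul_pos hm c1)
        ((Nat.mul_le_mul_left m c2).trans (e ▸ hD))]
    rw [sb]
    split_ifs with hd
    swap
    · exact zero_mem _
    rw [← pow_mul, mul_comm, coeff_C_mul_X_pow]
    split_ifs with hk
    swap
    · exact zero_mem _
    have c1 := mem_of_mem_erase hx
    have c2 := Nat.mul_div_cancel' hd
    refine ihr _ (lt_of_le_of_ne (Nat.le_of_dvd hr (hk ▸ dvd_mul_left _ _)) fun c3 => ?_) _ _
      (l1 x c1) c2
    rw [c3] at hk c2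
    exact ne_of_mem_erase hx (b5 x c1 (Nat.eq_of_mul_eq_mul_right hr (c2.trans e.symm))
      (Nat.eq_of_mul_eq_mul_right hr (by rw [← hk, one_mul])))
  obtain ⟨Ψ, a1, a2⟩ := neg_mem (mem_LS (Z := Z) (((hG a m).sb one_pos ((-1) ^ m)).to r)
    (fun n hn => by
      rw [sb, if_pos (one_dvd _), Nat.div_one]
      exact mul_mem (pow_mem (pow_mem (neg_mem (one_mem _)) _) _)
        (key _ ((Nat.mul_le_mul_left m hn).trans hr) n m a hm rfl)) fun _ _ _ => rfl)
  refine (a1.to r).unique (hΦ.to r) (fun k hk _ => ?_) r le_rfl ▸ a2 r le_rfl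
  obtain ⟨t, ht⟩ := Nat.exists_eq_succ_of_ne_zero (Nat.mul_pos hm hk).ne'
  simp [sb, ← pow_mul, ht, pow_succ]

instance instGreen : Green.{u} where
  lift := green_lift
  necklace := necklace

end GLH.Gr
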