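import Cfsg.Agent.Lib.GL.OrbA

/-!
# Package G0, second part: twisted orbits, `p'`-parts, counting
-/

set_option autoImplicit false
set_option linter.unusedSectionVars false

namespace GLH.Ob

open Finset Cfsg GT SFock
open scoped Classical

universe u

variable {F : Type u} [Field F] [Fintype F] {K : Type} [Field K] [Fintype K] [Algebra F K]

theorem ind {m : Fˣ} {P : Th K m → Prop} (h : ∀ ξ, P (Th.mk m ξ)) (O : Th K m) : P O :=
  O.mk_rep ▸ h O.rep

theorem deg_pos {m : Fˣ} (O : Th K m) : 0 < deg O :=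
  card_pos.2 ⟨O.rep, mem_filter.2 ⟨mem_univ _, O.mk_rep⟩⟩

theorem deg_mk (m : Fˣ) (ξ : Kˣ) :
    deg (Th.mk m ξ) = orderOf m * deg (Th.mk (1 : Fˣ) (ξ ^ orderOf m)) := by
  rw [deg, deg, mul_comm, card_eq_sum_card_fiberwise (f := (· ^ orderOf m))
    (t := univ.filter fun y => Th.mk (1 : Fˣ) y = Th.mk 1 (ξ ^ orderOf m))
    fun η hη => by simpa [← mk_pow] using hη]
  refine sum_const_nat fun y hy => ?_
  obtain ⟨i, rfl⟩ := mk_one.1 (mem_filter.1 hy).2.symm
  have h : orderOf m ∣ Fintype.card K - 1 := by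
    rw [← orderOf_emb (K := K), ← Nat.card_eq_fintype_card, ← Nat.card_units]
    exact orderOf_dvd_natCard _
  refine (card_bij (fun η _ => η / ξ ^ Fintype.card F ^ i) (fun η hη => ?_)
    (fun _ _ _ _ => div_left_injective.eq_iff.1)
    fun z hz => ⟨z * ξ ^ Fintype.card F ^ i, ?_, by simp⟩).trans (card_pow_one h)
  · rw [mem_filter_univ, div_pow, (mem_filter.1 hη).2, pow_right_comm, div_self']
  · have h1 : (z * ξ ^ Fintype.card F ^ i) ^ orderOf m = (ξ ^ orderOf m) ^ Fintype.card F ^ i := by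
      rw [mul_pow, (mem_filter.1 hz).2, one_mul, pow_right_comm]
    exact mem_filter.2 ⟨mem_filter.2 ⟨mem_univ _, mk_pow.2 (h1 ▸ (mem_filter.1 hy).2)⟩, h1⟩

theorem act_mk (z m : Fˣ) (ξ : Kˣ) : act z (Th.mk m ξ) = Th.mk m (emb K z * ξ) := by
  obtain ⟨i, j, h⟩ := rel_rep (m := m) ξ
  exact (mk_eq.2 ⟨i, j, by rw [h, mul_pow, emb_pow, mul_left_comm]⟩).symm

theorem deg_act (z : Fˣ) {m : Fˣ} (O : Th K m) : deg (act z O) = deg O := by
  induction O using ind with | _ ξ =>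
  refine (card_bij (fun η _ => emb K z * η) (fun η hη => ?_) (fun _ _ _ _ => mul_left_cancel)
    fun η hη => ⟨emb K z⁻¹ * η, ?_, by simp⟩).symm
  · rw [mem_filter_univ, ← act_mk, (mem_filter.1 hη).2]
  · rw [mem_filter_univ, ← act_mk, (mem_filter.1 hη).2, act_mk, act_mk]
    simp

theorem toTh_mk {m m' : Fˣ} (h : m ∈ Subgroup.zpowers m') (ξ : Kˣ) :
    toTh m' (Th.mk m ξ) = Th.mk m' ξ := by
  obtain ⟨k, rfl⟩ := mem_powers_iff_mem_zpowers.2 h
  obtain ⟨i, j, h⟩ := rel_rep (m := m' ^ k) ξ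
  exact (mk_eq.2 ⟨i, k * j, by rw [h, map_pow, pow_mul]⟩).symm

theorem sum_deg_toTh {m m' : Fˣ} (h : m ∈ Subgroup.zpowers m') (O : Th K m') :
    ∑ O' ∈ univ.filter (fun O' : Th K m => toTh m' O' = O), deg O' = deg O := by
  rw [deg, card_eq_sum_card_fiberwise (f := Th.mk m)
    (t := univ.filter fun O' : Th K m => toTh m' O' = O) fun η hη => by
      simpa [toTh_mk h] using hη]
  refine sum_congr rfl fun O' hO => congrArg card (Finset.ext fun η => ?_)
  simp only [mem_filter, mem_univ, true_and, iff_and_self]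
  rintro rfl
  rw [← toTh_mk h, (mem_filter.1 hO).2]

theorem alab_pull {m m' : Fˣ} (h : m ∈ Subgroup.zpowers m') {N n : ℕ} {Λ : Th K m' → Finset ℕ} :
    ALab N deg n (Λ ∘ toTh m' : Th K m → Finset ℕ) ↔ ALab N deg n Λ := by
  refine and_congr ⟨fun h1 => ind fun ξ => toTh_mk h ξ ▸ h1 _, fun h1 _ => h1 _⟩ (Eq.congr_left ?_)
  rw [← sum_fiberwise _ (toTh m')]
  refine sum_congr rfl fun O _ => ?_
  rw [← sum_deg_toTh h, sum_mul]
  exact sum_congr rfl fun O' hO => by rw [Function.comp, (mem_filter.1 hO).2]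

section
variable (p : ℕ) [Fact p.Prime]

theorem reg_mul (m : Fˣ) (i j : ℕ) (ξ : Kˣ) : pRegPart p (emb K m ^ j * ξ ^ Fintype.card F ^ i) =
    pRegPart p (emb K m) ^ j * pRegPart p ξ ^ Fintype.card F ^ i := by
  rw [pRegPart_mul (Commute.all _ _), pRegPart_pow, pRegPart_pow]

theorem par_mk (m : Fˣ) (ξ : Kˣ) : par p (Th.mk m ξ) = Th.mk m (pRegPart p ξ) := by
  obtain ⟨i, j, h⟩ := rel_rep (m := m) ξ
  obtain ⟨k, hk⟩ := exists_pRegPart_eq_pow p (emb K m)
  exact (mk_eq.2 ⟨i, k * j, by rw [h, reg_mul, hk, pow_mul]⟩).symm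

theorem par_eq_iff (m : Fˣ) (ξ : Kˣ) : par p (Th.mk m ξ) = Th.mk m ξ ↔
    par p (Th.mk (1 : Fˣ) (ξ ^ orderOf m)) = Th.mk 1 (ξ ^ orderOf m) := by
  rw [par_mk, par_mk, mk_pow, pRegPart_pow]

theorem deg_eq {m : Fˣ} (O : Th K m) : deg O = rho p O * deg (par p O) := by
  induction O using ind with | _ ξ =>
  obtain ⟨k, hk⟩ := exists_pRegPart_eq_pow p ξ
  refine (Nat.div_mul_cancel ?_).symm
  rw [par_mk, deg_mk m ξ, deg_mk, hk, pow_right_comm]
  exact mul_dvd_mul_left _ (deg_pow_dvd _ k)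

theorem toTh_par (m : Fˣ) (θ : Th K (1 : Fˣ)) : par p (toTh m θ) = toTh m (par p θ) := by
  induction θ using ind with | _ ξ =>
  rw [par_mk, toTh_mk (one_mem _), toTh_mk (one_mem _), par_mk]

theorem fib_le {m : Fˣ} (O : Th K m) {ξ η : Kˣ} (h : Th.mk m ξ = Th.mk m η) (hξ : IsPRegular p ξ)
    (hη : IsPRegular p η) : (univ.filter fun x => Th.mk m x = O ∧ pRegPart p x = ξ).card ≤
      (univ.filter fun x => Th.mk m x = O ∧ pRegPart p x = η).card := by
  obtain ⟨i, j, e⟩ := mk_eq.1 h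
  refine card_le_card_of_injOn (fun x => emb K m ^ j * x ^ Fintype.card F ^ i) (fun x hx => ?_)
    fun _ _ _ _ e => frob_inj (mul_left_cancel e)
  obtain ⟨h1, h2⟩ := (mem_filter.1 hx).2
  refine mem_filter.2 ⟨mem_univ _, (mk_eq.2 ⟨i, j, rfl⟩).symm.trans h1, ?_⟩
  rw [reg_mul, h2, ← hη.pRegPart_eq, e, reg_mul, hξ.pRegPart_eq]

theorem deg_eq_fib {m : Fˣ} (O : Th K m) {ξ : Kˣ} (hξ : IsPRegular p ξ) (h : Th.mk m ξ = par p O) :
    deg O = (univ.filter fun η => Th.mk m η = par p O ∧ IsPRegular p η).card *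
      (univ.filter fun x => Th.mk m x = O ∧ pRegPart p x = ξ).card := by
  rw [deg, card_eq_sum_card_fiberwise (f := pRegPart p)
    (t := univ.filter fun η => Th.mk m η = par p O ∧ IsPRegular p η) fun η hη => by
      simp [← (mem_filter.1 hη).2, par_mk, isPRegular_pRegPart]]
  refine sum_const_nat fun η hη => ?_
  obtain ⟨h1, h2⟩ := (mem_filter.1 hη).2
  rw [filter_filter]
  exact (fib_le p O (h1.trans h.symm) h2 hξ).antisymm (fib_le p O (h.trans h1.symm) hξ h2)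

theorem fib_self (m : Fˣ) {ξ : Kˣ} (hξ : IsPRegular p ξ) :
    (univ.filter fun x => Th.mk m x = Th.mk m ξ ∧ pRegPart p x = ξ).card = orderOf (pPart p m) := by
  rw [← orderOf_emb (K := K), map_pPart, ← Nat.card_zpowers, Nat.card_eq_fintype_card,
    Fintype.card_subtype]
  refine card_bij (fun x _ => pPart p x) (fun x hx => ?_) (fun x hx y hy e => ?_) fun z hz => ?_
  · obtain ⟨i, j, rfl⟩ := mk_eq.1 (mem_filter.1 hx).2.1.symm
    rw [mem_filter_univ, pPart_mul (Commute.all _ _), pPart_pow, pPart_pow, hξ.pPart_eq, one_pow,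
      mul_one]
    exact pow_mem (Subgroup.mem_zpowers _) _
  · rw [← pPart_mul_pRegPart p x, ← pPart_mul_pRegPart p y, (mem_filter.1 hx).2.2,
      (mem_filter.1 hy).2.2, show pPart p x = pPart p y from e]
  · obtain ⟨k, rfl⟩ := mem_powers_iff_mem_zpowers.2 (mem_filter.1 hz).2
    have h1 : IsPElt p (pPart p (emb K m) ^ k) := pPart_pow (p := p) (emb K m) k ▸ isPElt_pPart p _
    obtain ⟨l, hl⟩ := exists_pPart_eq_pow p (emb K m)
    exact ⟨_ * ξ, mem_filter.2 ⟨mem_univ _, (mk_eq.2 ⟨0, l * k, by simp [hl, pow_mul]⟩).symm,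
      pRegPart_mul_eq (Commute.all _ _) h1 hξ⟩, pPart_mul_eq (Commute.all _ _) h1 hξ⟩

theorem par_par {m : Fˣ} (O : Th K m) : par p (par p O) = par p O := by
  induction O using ind with | _ ξ =>
  rw [par_mk, par_mk, pRegPart_pRegPart]

theorem card_fib {m : Fˣ} (O : Th K m) {ξ : Kˣ} (hξ : IsPRegular p ξ) (h : Th.mk m ξ = par p O) :
    (univ.filter fun x => Th.mk m x = O ∧ pRegPart p x = ξ).card =
      orderOf (pPart p m) * rho p O := by
  have h1 := deg_eq_fib p O hξ h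
  have h2 := deg_eq_fib p (par p O) hξ (h.trans (par_par p O).symm)
  have h3 := deg_pos (par p O)
  rw [par_par, ← h, fib_self p m hξ, h] at h2
  rw [deg_eq p O, h2] at h1
  rw [h2] at h3
  exact Nat.eq_of_mul_eq_mul_left (Nat.pos_of_mul_pos_right h3) (h1.symm.trans (by ring))

theorem sum_fib (m : Fˣ) (s : Th K m → ℕ) {ξ : Kˣ} (hξ : IsPRegular p ξ) :
    ∑ x ∈ univ.filter (pRegPart p · = ξ), s (Th.mk m x) = orderOf (pPart p m) *
      ∑ O ∈ univ.filter (par p · = Th.mk m ξ), rho p O * s O := by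
  rw [← sum_fiberwise_of_maps_to (g := Th.mk m) (t := univ.filter (par p · = Th.mk m ξ))
    fun x hx => by simp [par_mk, (mem_filter.1 hx).2], mul_sum]
  refine sum_congr rfl fun O hO => ?_
  rw [← mul_assoc, ← card_fib p O hξ (mem_filter.1 hO).2.symm, filter_filter]
  simp only [and_comm]
  exact sum_const_nat fun x hx => by rw [(mem_filter.1 hx).2.2]

theorem msz_pull (m : Fˣ) (N : ℕ) (Λ : Th K m → Finset ℕ) (θ : Th K (1 : Fˣ)) (h : par p θ = θ) :
    msz N (par p) (rho p) (Λ ∘ toTh m) θ =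
      orderOf (pPart p m) * msz N (par p) (rho p) Λ (toTh m θ) := by
  have h1 := sum_fib p m (fun O => sz N (Λ O)) (isPRegular_pRegPart p θ.rep)
  have h2 := sum_fib p 1 (fun O => sz N (Λ (toTh m O))) (isPRegular_pRegPart p θ.rep)
  simp only [toTh_mk (one_mem _), pPart_one, orderOf_one, one_mul] at h2
  rw [← toTh_mk (one_mem _), h2, show Th.mk 1 (pRegPart p θ.rep) = θ from h] at h1
  exact h1

theorem ee_dvd (m : Fˣ) (θ : Th K (1 : Fˣ)) : ee p θ ∣ ee p (toTh m θ) := by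
  induction θ using ind with | _ ξ =>
  obtain ⟨k, hk⟩ := deg_pow_dvd (F := F) ξ (orderOf m)
  rw [toTh_mk (one_mem _), ee, ee, deg_mk m, orderOf_one, Nat.div_one, hk,
    Nat.mul_div_cancel_left _ (orderOf_pos m), pow_mul]
  exact orderOf_pow_dvd k

theorem cls_pull (m : Fˣ) (N : ℕ) {Λ Λ' : Th K m → Finset ℕ}
    (h : SameCls N (par p) (rho p) (ee p) Λ Λ') :
    SameCls N (par p) (rho p) (ee p) (Λ ∘ toTh m : Th K (1 : Fˣ) → Finset ℕ) (Λ' ∘ toTh m) := by
  intro θ hθ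
  obtain ⟨h1, h2⟩ := h (toTh m θ) (by rw [toTh_par, hθ])
  refine ⟨by rw [msz_pull p m N Λ θ hθ, msz_pull p m N Λ' θ hθ, h1], ?_⟩
  simpa only [res, Multiset.map_map, Function.comp_def, Nat.mod_mod_of_dvd _ (ee_dvd p m θ)] using
    congrArg (Multiset.map (· % ee p θ)) h2

end

variable (C : Ctx F K)
include C

theorem pdat (m : Fˣ) : PDat (deg (K := K) (m := m)) (par C.p) (rho C.p) (ee C.p) := by
  refine ⟨par_par C.p, deg_eq C.p, fun O => ?_, ind fun ξ h => ?_⟩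
  · refine orderOf_pos_iff.2 (isOfFinOrder_iff_pow_eq_one.2 ⟨C.p - 1,
      Nat.sub_pos_of_lt C.hp.one_lt, ZMod.pow_card_sub_one_eq_one (pow_ne_zero _ fun h => ?_)⟩)
    obtain ⟨k, h1, h2⟩ := FiniteField.card F (ringChar F)
    exact C.p_ne ((Nat.prime_dvd_prime_iff_eq C.hp h1).1
      (C.hp.dvd_of_dvd_pow (h2 ▸ (ZMod.natCast_eq_zero_iff _ _).1 h)))
  · have h1 : C.p ∣ orderOf (ξ ^ orderOf m) := by_contra fun e => h ((par_eq_iff ..).2 (by
      rw [par_mk, IsPRegular.pRegPart_eq e]))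
    have h2 := deg_eq C.p (Th.mk m ξ)
    have h3 := deg_mk m (pRegPart C.p ξ)
    rw [← par_mk] at h3
    rw [deg_mk, h3, mul_left_comm, Nat.mul_right_inj (orderOf_pos m).ne'] at h2
    refine orderOf_dvd_of_pow_eq_one ?_
    rw [h3, Nat.mul_div_cancel_left _ (orderOf_pos m), ← pow_mul, mul_comm, ← h2, ← Nat.cast_pow,
      ← Nat.cast_one, ZMod.natCast_eq_natCast_iff]
    exact ((Nat.modEq_iff_dvd' (Nat.one_le_pow _ _ Fintype.card_pos)).2 (h1.trans
      (orderOf_dvd_of_pow_eq_one (mem_XX''.1 ((mem_XX _ _).2 dvd_rfl))))).symm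

theorem card_up (m : Fˣ) {n : ℕ} (h0 : 0 < n) (hn : n ≤ C.N) (P : Th K m → Prop)
    (Q : Th K (1 : Fˣ) → Prop) (h : ∀ ξ, P (Th.mk m ξ) ↔ Q (Th.mk 1 (ξ ^ orderOf m))) :
    (univ.filter fun O => P O ∧ deg O ∣ n).card =
      (univ.filter fun θ => Q θ ∧ orderOf m * deg θ ∣ n).card := by
  refine card_bij (fun O _ => Th.mk 1 (O.rep ^ orderOf m)) (fun O hO => ?_)
    (fun O _ O' _ e => by rw [← O.mk_rep, mk_pow.2 e, Th.mk_rep]) fun θ hθ => ?_
  · rw [mem_filter_univ, ← h, ← deg_mk, Th.mk_rep]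
    exact (mem_filter.1 hO).2
  obtain ⟨h1, k, rfl⟩ := (mem_filter.1 hθ).2
  have h2 : 0 < deg θ * k := Nat.pos_of_mul_pos_left (mul_assoc _ _ k ▸ h0)
  have h3 : deg θ * k * orderOf m ≤ C.N := by rwa [mul_comm, ← mul_assoc]
  obtain ⟨c, hc⟩ : orderOf m ∣ ∑ i ∈ range (orderOf m), Fintype.card F ^ (deg θ * k * i) := by
    have h4 : ((Fintype.card F : ℕ) : ZMod (orderOf m)) = 1 := by
      rw [← Nat.cast_one, ZMod.natCast_eq_natCast_iff]
      refine ((Nat.modEq_iff_dvd' Fintype.card_pos).2 ?_).symm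
      rw [← Nat.card_eq_fintype_card, ← Nat.card_units]
      exact orderOf_dvd_natCard _
    simp [← ZMod.natCast_eq_zero_iff, h4]
  have h4 : Th.mk 1 ((C.γ (deg θ * k * orderOf m) ^ (c * C.dl (deg θ * k) θ.rep)) ^ orderOf m) =
      θ := by
    rw [← pow_mul, mul_comm (c * _), ← mul_assoc, ← hc, pow_mul,
      γ_pow C h2 (orderOf_pos m) h3, γ_dl C h2 ((Nat.le_mul_of_pos_right _ (orderOf_pos m)).trans h3)
        ((mem_XX _ _).2 (θ.mk_rep.symm ▸ dvd_mul_right _ _)), Th.mk_rep]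
  exact ⟨Th.mk m _, mem_filter.2 ⟨mem_univ _, (h _).2 (h4.symm ▸ h1), by
    rw [deg_mk, h4]; exact dvd_mul_right _ _⟩, (mk_pow.1 (Th.mk_rep _)).trans h4⟩

omit C

instance instOrb : Orb.{u} where
  mk_eq _ _ _ := mk_eq
  deg_one := deg_one
  minpoly_eq := minpoly_eq
  mem_XX := mem_XX
  map_mp := map_mp
  exists_root := exists_root
  splits := splits
  card_XX := card_XX
  orderOf_γ := orderOf_γ
  γ_dl := γ_dl
  γ_pow := γ_pow
  pr_γ_pow := pr_γ_pow
  pr_comm := pr_comm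
  sum_pr := sum_pr
  mem_XX_one := mem_XX_one
  mu_mul := mu_mul
  mu_bij := mu_bij
  orderOf_mu := orderOf_mu
  mu_ker := mu_ker
  deg_pos := deg_pos
  pdat := pdat
  par_mk := par_mk
  act_mk := act_mk
  deg_act := deg_act
  toTh_mk := toTh_mk
  sum_deg_toTh := sum_deg_toTh
  card_fibre p _ θ _ h h' := by simpa using card_fib p θ h h'
  ee_dvd p _ m θ _ := ee_dvd p m θ
  alab_pull := alab_pull
  msz_pull := msz_pull
  cls_pull := cls_pull
  card_deg C m _ h0 hn := by simpa using card_up C m h0 hn (fun _ => True) (fun _ => True) (by simp)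
  card_deg_par C m _ h0 hn := card_up C m h0 hn _ _ (par_eq_iff C.p m)

end GLH.Ob
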