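import Cfsg.Agent.Lib.GL.MkC

/-!
# Multiplicativity of the Gelfand-Graev functional; the package `HallB`
-/

set_option autoImplicit false
set_option linter.unusedSectionVars false

namespace GLH.Mk

open Finset Matrix Module
open scoped Classical ComplexConjugate

universe u

variable {F : Type u} [Field F] [Fintype F] {μ : Fˣ →* ℂˣ} {a b N : ℕ}

theorem uni_iff {M : Mat F N} :
    Uni M ↔ (∀ i, i < N → ex M i i = 1) ∧ ∀ i j, j < i → ex M i j = 0 := by
  refine and_congr ⟨fun h i hi => (ex_mk M hi hi).trans (h _), fun h i => (ex_val M i i).symm.trans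
    (h i i.2)⟩ ⟨fun h i j hj => ?_, fun h i j hj => (ex_val M i j).symm.trans (h i j hj)⟩
  unfold ex
  split_ifs
  · exact h _ _ hj
  · rfl

theorem uni_one : Uni (1 : Mat F N) := ⟨one_apply_eq, fun _ _ h => one_apply_ne h.ne'⟩

theorem uni_mul {M M' : Mat F N} (h : Uni M) (h' : Uni M') : Uni (M * M') := by
  refine ⟨fun i => ?_, fun i j hj => ?_⟩ <;> rw [mul_apply]
  · rw [sum_eq_single_of_mem i (mem_univ i), h.1, h'.1, mul_one]
    intro l _ hl
    rcases lt_or_gt_of_ne hl with c | c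
    · rw [h.2 _ _ c, zero_mul]
    · rw [h'.2 _ _ c, mul_zero]
  · refine sum_eq_zero fun l _ => ?_
    rcases lt_or_ge l i with c | c
    · rw [h.2 _ _ c, zero_mul]
    · rw [h'.2 _ _ (hj.trans_le c), mul_zero]

theorem det_uni {M : Mat F N} (h : Uni M) : M.det = 1 := by
  rw [det_of_isUpperTriangular fun i j hj => h.2 i j hj]
  exact prod_eq_one fun i _ => h.1 i

theorem isUnit_uni {M : Mat F N} (h : Uni M) : IsUnit M := by
  rw [isUnit_iff_isUnit_det, det_uni h]; exact isUnit_one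

variable (F N) in
/-- the unitriangular group -/
def Ub : Subgroup (G F N) where
  carrier := {h | Uni h.1}
  mul_mem' := uni_mul
  one_mem' := uni_one
  inv_mem' := fun {g} hg => by
    have key : ∀ m : ℕ, Uni (g ^ m).1 := fun m => by
      induction m with
      | zero => exact uni_one
      | succ m ih => rw [pow_succ]; exact uni_mul ih hg
    rw [inv_eq_of_mul_eq_one_left (by rw [← pow_succ, Nat.sub_add_cancel (orderOf_pos g),
      pow_orderOf_eq_one] : g ^ (orderOf g - 1) * g = 1)]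
    exact key _

theorem dt_uni {u : G F N} (h : u ∈ Ub F N) : dt μ u = 1 := by
  rw [dt, show GeneralLinearGroup.det u = 1 from Units.ext (by simpa using det_uni h), map_one,
    Units.val_one]

/-- the sum of the entries above the diagonal -/
def sd (M : Mat F N) : F := ∑ i ∈ range N, ex M i (i + 1)

theorem sd_mul {M M' : Mat F N} (h : Uni M) (h' : Uni M') : sd (M * M') = sd M + sd M' := by
  rw [sd, sd, sd, ← sum_add_distrib]
  refine sum_congr rfl fun i hi => ?_
  rw [mem_range] at hi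
  by_cases c : i + 1 < N
  · rw [ex_mk _ hi c, ex_mk _ hi c, ex_mk _ hi c, mul_apply,
      Fintype.sum_eq_add ⟨i + 1, c⟩ ⟨i, hi⟩ (by simp), h.1, h'.1, mul_one, one_mul]
    intro l hl
    simp only [ne_eq, Fin.ext_iff] at hl
    rcases lt_or_ge l.1 i with d | d
    · rw [h.2 _ _ d, zero_mul]
    · rw [h'.2 _ _ (Fin.lt_def.2 (by simp only; omega)), mul_zero]
  · rw [ex_out _ (by omega), ex_out _ (by omega), ex_out _ (by omega), add_zero]

theorem uni_cnj {u : G F N} (hu : u ∈ Ub F N) {M : Mat F N} : Uni (cnj u M) ↔ Uni M := by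
  have key : ∀ {u : G F N}, u ∈ Ub F N → ∀ {M : Mat F N}, Uni M → Uni (cnj u M) :=
    fun hq _ h => uni_mul (uni_mul (inv_mem hq :) h) hq
  exact ⟨fun h => by simpa [← cnj_mul] using key (inv_mem hu) h, key hu⟩

theorem sd_cnj {u : G F N} (hu : u ∈ Ub F N) {M : Mat F N} (h : Uni M) : sd (cnj u M) = sd M := by
  have e : u.1 * cnj u M = M * u.1 := by rw [cnj, Matrix.mul_assoc, Units.mul_inv_cancel_left]
  have := congrArg sd e
  rw [sd_mul hu ((uni_cnj hu).2 h), sd_mul h hu, add_comm] at this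
  exact add_right_cancel this

theorem sd_add (M M' : Mat F N) : sd (M + M') = sd M + sd M' := by
  simp only [sd, ex_add, sum_add_distrib]

theorem card_uni : (Nat.card {M : Mat F N // Uni M} : ℂ) = ∑ M : Mat F N, if Uni M then 1 else 0 := by
  rw [sum_boole, Nat.card_eq_fintype_card, Fintype.card_subtype]

theorem card_Ub : Nat.card (Ub F N) = Nat.card {M : Mat F N // Uni M} :=
  Nat.card_congr ⟨fun u => ⟨u.1.1, u.2⟩, fun M => ⟨(isUnit_uni M.2).unit, M.2⟩,
    fun _ => Subtype.ext (Units.ext rfl), fun _ => rfl⟩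

theorem gg_eq (ψ : AddChar F ℂ) (f : Fn F) : gg ψ N f = (Nat.card (Ub F N) : ℂ)⁻¹ *
    ∑ M : Mat F N, if Uni M then f N M * ψ (-sd M) else 0 := by
  rw [gg, sum_filter, card_Ub]; rfl

variable (ψ : AddChar F ℂ) (a b : ℕ) (f g : H μ) in
/-- the function on double cosets -/
noncomputable def dg (h : G F N) : ℂ :=
  dt μ h * ∑ M : Mat F N, if Uni M then tr a b f g (cnj h M) * ψ (-sd M) else 0

variable {ψ : AddChar F ℂ} {f g : H μ}

theorem dg_mul (h : a + b = N) (t : G F N) {u q : G F N} (hu : u ∈ Ub F N) (hq : q ∈ Pb F N a) :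
    dg ψ a b f g (u * t * q) = dg ψ a b f g t := by
  rw [dg, dg, ← sum_cnj u⁻¹, mul_sum, mul_sum]
  refine sum_congr rfl fun M _ => ?_
  simp only [uni_cnj (inv_mem hu)]
  split_ifs with c
  · rw [← cnj_mul, mul_assoc u, inv_mul_cancel_left, cnj_mul, tr_cnj f g h hq (cnj t M),
      sd_cnj (inv_mem hu) c, dt_mul, dt_mul, dt_uni hu]
    ring
  · simp

theorem tr_add {M Y : Mat F N} (hY : ∀ i j, a ≤ i ∨ j < a → ex Y i j = 0) :
    tr a b f g (M + Y) = tr a b f g M := by
  have e1 : Tri a (M + Y) ↔ Tri a M := by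
    simp only [tri_iff, ex_add]
    exact forall₂_congr fun i j => imp_congr_right fun hj => by rw [hY i j (Or.inr hj), add_zero]
  have e2 : blk (M + Y) 0 a = blk M 0 a := ex_inj fun i j hi hj => by
    rw [ex_blk _ _ _ hi hj, ex_blk _ _ _ hi hj, ex_add, hY _ _ (by omega), add_zero]
  have e3 : blk (M + Y) a b = blk M a b := ex_inj fun i j hi hj => by
    rw [ex_blk _ _ _ hi hj, ex_blk _ _ _ hi hj, ex_add, hY _ _ (by omega), add_zero]
  simp only [tr, e1, e2, e3]

theorem exists_step {W : Submodule F (Fin N → F)} (h : a + b = N) (hW : finrank F W = a)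
    (h0 : W ⊓ E F N b ≠ ⊥) : ∃ (i j : Fin N), j.1 = i.1 + 1 ∧ (∃ v ∈ W ⊓ E F N j, v i ≠ 0) ∧
      Pi.single j (1 : F) ∉ W ⊔ E F N j := by
  by_contra! H
  obtain ⟨v, hv, v0⟩ := Submodule.exists_mem_ne_zero_of_ne_bot h0
  obtain ⟨i₀, h1, h2⟩ := exists_max_image (univ.filter fun i => v i ≠ 0) id (by
    by_contra! e
    exact v0 (funext fun i => by simpa using filter_eq_empty_iff.1 e (mem_univ i)))
  replace h1 := (mem_filter.1 h1).2
  have hb : i₀.1 < b := by
    by_contra! e
    exact h1 (mem_E.1 hv.2 _ e)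
  have P : ∀ m (hm : i₀.1 + m < N), ∃ v ∈ W ⊓ E F N (i₀ + m + 1), v ⟨i₀ + m, hm⟩ ≠ 0 := fun m => by
    induction m with
    | zero => exact fun _ => ⟨v, ⟨hv.1, mem_E.2 fun l hl => by_contra fun e =>
        absurd (Fin.le_def.1 (h2 l (by simpa using e))) (by simp only [id]; omega)⟩, h1⟩
    | succ m ih =>
      intro hm
      obtain ⟨w, hw, x, hx, e⟩ := Submodule.mem_sup.1
        (H ⟨i₀ + m, by omega⟩ ⟨i₀ + (m + 1), hm⟩ rfl (ih (by omega)))
      rw [← eq_sub_iff_add_eq] at e
      refine ⟨w, ⟨hw, e ▸ sub_mem (single_mem_E (by simp)) (mem_E.2 fun l hl =>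
        mem_E.1 hx l (by simp only; omega))⟩, ?_⟩
      rw [e, Pi.sub_apply, mem_E.1 hx _ le_rfl]
      simp
  have Q : ∀ m, i₀.1 + m ≤ N → E F N (i₀ + m) ≤ W ⊔ E F N i₀ := fun m => by
    induction m with
    | zero => exact fun _ => le_sup_right
    | succ m ih =>
      intro hm x hx
      obtain ⟨w, hw, w0⟩ := P m hm
      rw [← sub_add_cancel x ((x ⟨i₀ + m, hm⟩ / w ⟨i₀ + m, hm⟩) • w)]
      refine add_mem (ih (by omega) (mem_E.2 fun l hl => ?_))
        (Submodule.mem_sup_left (Submodule.smul_mem _ _ hw.1))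
      rcases hl.eq_or_lt with c | c
      · obtain rfl : l = ⟨i₀ + m, hm⟩ := Fin.ext c.symm
        simp [w0]
      · simp [mem_E.1 hx l c, mem_E.1 hw.2 l c]
  have e1 := Submodule.finrank_mono (Q (N - i₀) (by omega))
  have e2 := Submodule.finrank_add_le_finrank_add_finrank W (E F N i₀)
  rw [finrank_E (by omega)] at e1 e2
  omega

theorem dg_eq_zero (hψ : ψ ≠ 1) (h : a + b = N) {t : G F N}
    (h0 : im t (E F N a) ⊓ E F N b ≠ ⊥) : dg ψ a b f g t = 0 := by
  obtain ⟨i, j, hj, ⟨v, hv, v0⟩, h1⟩ :=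
    exists_step h ((finrank_im _ _).trans (finrank_E (by omega))) h0
  obtain ⟨l, l0, hl⟩ := Submodule.exists_le_ker_of_notMem h1
  obtain ⟨c, hc⟩ : ∃ c, ψ c ≠ 1 := by
    by_contra! e
    exact hψ (DFunLike.ext _ _ e)
  let r : Fin N → F := fun s => -c / (v i * l (Pi.single j 1)) * l (Pi.single s 1)
  have lr : ∀ w, r ⬝ᵥ w = -c / (v i * l (Pi.single j 1)) * l w := fun w => by
    rw [l.pi_apply_eq_sum_univ w, mul_sum]
    refine sum_congr rfl fun s _ => ?_
    rw [show (fun j => if s = j then 1 else 0) = Pi.single s (1 : F) from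
      funext fun _ => by simp [Pi.single_apply, eq_comm], smul_eq_mul]
    ring
  have r0 : ∀ s : Fin N, s.1 < j → r s = 0 := fun s hs =>
    mul_eq_zero_of_right _ (hl (Submodule.mem_sup_right (single_mem_E hs)))
  have X0 : ∀ s s' : Fin N, s'.1 ≤ s.1 → vecMulVec v r s s' = 0 := fun s s' hs => by
    rw [vecMulVec_apply]
    rcases lt_or_ge s'.1 j with d | d
    · rw [r0 _ d, mul_zero]
    · rw [mem_E.1 hv.2 s (d.trans hs), zero_mul]
  have X1 : ∀ M : Mat F N, Uni (M + vecMulVec v r) ↔ Uni M := fun M =>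
    and_congr (forall_congr' fun s => by rw [Matrix.add_apply, X0 _ _ le_rfl, add_zero])
      (forall₂_congr fun s s' => imp_congr_right fun hs => by rw [Matrix.add_apply, X0 _ _ hs.le, add_zero])
  have X2 : sd (vecMulVec v r : Mat F N) = -c := by
    rw [sd, sum_eq_single_of_mem i.1 (mem_range.2 i.2), ← hj, ex_val, vecMulVec_apply]
    · simp only [r]; field_simp
    intro s hs hs'
    rw [mem_range] at hs
    by_cases d : s + 1 < N
    · rw [ex_mk _ hs d, vecMulVec_apply]
      rcases lt_or_gt_of_ne hs' with d' | d'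
      · rw [r0 _ (by simp only; omega), mul_zero]
      · rw [mem_E.1 hv.2 _ (by simp only; omega), zero_mul]
    · exact ex_out _ (by omega)
  have X3 : ∀ M : Mat F N, tr a b f g (cnj t (M + vecMulVec v r)) = tr a b f g (cnj t M) := fun M => by
    rw [cnj, Matrix.mul_add, Matrix.add_mul, mul_vecMulVec, vecMulVec_mul]
    refine tr_add fun s s' hs => ?_
    unfold ex
    split_ifs with d
    swap
    · rfl
    rw [vecMulVec_apply]
    rcases hs with hs | hs
    · rw [mem_E.1 (mem_im.1 hv.1) _ hs, zero_mul]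
    · have e := hl (Submodule.mem_sup_left (mulVec_mem_im.2 (single_mem_E (j := ⟨s', d.2⟩) hs)))
      rw [← dotProduct_single_one (r ᵥ* _), ← dotProduct_mulVec, lr, LinearMap.mem_ker.1 e, mul_zero,
        mul_zero]
  have e := Equiv.sum_comp (Equiv.addRight (vecMulVec v r : Mat F N))
    fun M => if Uni M then tr a b f g (cnj t M) * ψ (-sd M) else 0
  have e2 : ∀ (P : Prop) (x y : ℂ), (if P then x * y else 0) = (if P then x else 0) * y :=
    fun P x y => by split_ifs <;> simp
  simp only [Equiv.coe_addRight, X1, X3, sd_add, X2, neg_add, neg_neg, AddChar.map_add_eq_mul,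
    ← mul_assoc, e2 _ _ (ψ c), ← sum_mul] at e
  rw [dg, (mul_left_eq_self₀.1 ((mul_comm _ _).trans e)).resolve_left hc, mul_zero]

theorem exists_Ub {W W' : Submodule F (Fin N → F)} (h : a + b = N) (hW : finrank F W = a)
    (h0 : W ⊓ E F N b = ⊥) (hW' : finrank F W' = a) (h1 : ∀ v ∈ W', ∀ i : Fin N, i.1 < b → v i = 0) :
    ∃ u ∈ Ub F N, im u W' = W := by
  have h2 : W ⊔ E F N b = ⊤ := Submodule.eq_top_of_finrank_eq (by
    have := Submodule.finrank_sup_add_finrank_inf_eq W (E F N b)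
    rw [h0, finrank_bot, finrank_E (by omega)] at this
    rw [finrank_fin_fun]; omega)
  choose w hw x hx e using fun j : Fin N =>
    Submodule.mem_sup.1 (h2.ge (Submodule.mem_top (x := Pi.single j (1 : F))))
  let u : Mat F N := fun i j => if j.1 < b then Pi.single (M := fun _ => F) j 1 i else w j i
  have hu : Uni u := by
    have k : ∀ i j : Fin N, j ≤ i → u i j = Pi.single (M := fun _ => F) j 1 i := fun i j hj => by
      simp only [u]
      split_ifs with c
      · rfl
      · rw [← e, Pi.add_apply, mem_E.1 (hx j) i (by have := Fin.le_def.1 hj; omega), add_zero]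
    exact ⟨fun i => by simp [k i i le_rfl], fun i j hj => by simp [k i j hj.le, hj.ne']⟩
  refine ⟨(isUnit_uni hu).unit, hu, Submodule.eq_of_le_of_finrank_eq (fun v hv => ?_)
    ((finrank_im _ _).trans (hW'.trans hW.symm))⟩
  have e1 : ∀ v ∈ W', u *ᵥ v = ∑ j, v j • w j := fun v hv => funext fun i => by
    rw [Finset.sum_apply]
    refine (sum_congr rfl fun j _ => ?_ : ∑ j, u i j * v j = _)
    simp only [u]
    split_ifs with c
    · simp [h1 v hv j c]
    · simp [mul_comm]
  have e2 := e1 _ (mem_im.1 hv)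
  rw [mulVec_mulVec, IsUnit.mul_val_inv, one_mulVec] at e2
  exact e2 ▸ Submodule.sum_mem _ fun j _ => Submodule.smul_mem _ _ (hw j)

theorem le2 : 0 + a + b ≤ b + a := by omega

local notation "𝐰" => pw F (sw 0 a b le2)

theorem uni_cat {A : Mat F b} {B : Rm F b a} {D : Mat F a} : Uni (cat A B D) ↔ Uni A ∧ Uni D := by
  simp only [uni_iff, ex_cat]
  refine ⟨fun ⟨h1, h2⟩ => ⟨⟨fun i hi => ?_, fun i j hj => ?_⟩, fun i hi => ?_, fun i j hj => ?_⟩,
    fun ⟨⟨h1, h2⟩, h3, h4⟩ => ⟨fun i hi => ?_, fun i j hj => ?_⟩⟩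
  · simpa [hi] using h1 i (by omega)
  · by_cases c : i < b
    · simpa [c, hj.trans c] using h2 i j hj
    · exact ex_out _ (by omega)
  · simpa using h1 (b + i) (by omega)
  · simpa using h2 (b + i) (b + j) (by omega)
  · split_ifs with c
    · exact h1 i c
    · exact h3 _ (by omega)
  · split_ifs with c d d
    · exact h2 _ _ hj
    · omega
    · rfl
    · exact h4 _ _ (by omega)

theorem tri2 (A : Mat F b) (B : Rm F b a) (D : Mat F a) : Tri a (cnj 𝐰 (cat A B D)) ↔ B = 0 := by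
  simp only [tri_iff, eq_zero_iff, ex_sw]
  refine ⟨fun H i j hi hj => ?_, fun H i j hj hi => ?_⟩
  · have := H (a + i) j hj (by omega)
    simp (disch := omega) only [sn, ex_cat, if_pos, if_neg] at this
    convert this using 2 <;> omega
  · by_cases c : i < a + b
    · simp (disch := omega) only [sn, ex_cat, if_pos, if_neg]
      exact H _ _ (by omega) (by omega)
    · exact ex_out _ (Or.inl (by simp (disch := omega) only [sn, if_neg]; omega))

theorem tr2 (A : Mat F b) (D : Mat F a) :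
    tr a b f g (cnj 𝐰 (cat A 0 D)) = f.1 a D * g.1 b A := by
  rw [tr, if_pos ((tri2 _ _ _).2 rfl)]
  refine congrArg₂ (· * ·) (congrArg _ (ex_inj fun i i' h1 h2 => ?_))
    (congrArg _ (ex_inj fun i i' h1 h2 => ?_)) <;> rw [ex_blk _ _ _ h1 h2, ex_sw] <;>
    simp (disch := omega) only [sn, ex_cat, if_pos, if_neg] <;> congr 1 <;> omega

theorem sd_cat (A : Mat F b) (D : Mat F a) : sd (cat A 0 D) = sd A + sd D := by
  rw [sd, sum_range_add, sd, sd]
  refine congrArg₂ (· + ·) (sum_congr rfl fun i hi => ?_) (sum_congr rfl fun i _ => ?_)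
  · rw [ex_cat, if_pos (mem_range.1 hi)]
    split_ifs
    · rfl
    · rw [ex_zero, ex_out _ (by omega)]
  · simp (disch := omega) only [ex_cat, if_neg]
    congr 1 <;> omega

theorem sum2 (Φ : Mat F (b + a) → ℂ) :
    ∑ M, (if Uni M then if Tri a (cnj 𝐰 M) then Φ M else 0 else 0) =
      ∑ A, ∑ D, if Uni A then if Uni D then Φ (cat A 0 D) else 0 else 0 := by
  rw [sum_congr rfl (g := fun M => if Tri b M then
    if Uni M then if Tri a (cnj 𝐰 M) then Φ M else 0 else 0 else 0) fun M _ => ?_, sum_tri]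
  · simp only [uni_cat, tri2, ite_and, sum_ite_irrel, sum_const_zero, sum_ite_eq', mem_univ, if_true]
  · by_cases c : Uni M
    · rw [if_pos (show Tri b M from fun i j hj hi => c.2 i j (Fin.lt_def.2 (by omega)))]
    · simp [c]

variable [hA : HallA F]

theorem gg_mul (hψ : ψ ≠ 1) (hf : f ∈ Hn μ a) (hg : g ∈ Hn μ b) :
    gg ψ (a + b) (f * g).1 = gg ψ a f.1 * gg ψ b g.1 := by
  have h1 : gg ψ (b + a) (f * g).1 = (Nat.card (Ub F (b + a)) : ℂ)⁻¹ *
      (Nat.card (Pb F (b + a) a) : ℂ)⁻¹ * ∑ h : G F (b + a), dg ψ a b f g h := by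
    rw [gg_eq]
    simp only [mul_val hf hg (add_comm a b), dg, mul_sum, sum_mul]
    rw [sum_comm]
    refine sum_congr rfl fun _ _ => ?_
    split_ifs <;> simp [mul_assoc, mul_sum]
  have hw := im_sw_inf (F := F) (le2 (a := a) (b := b))
  have hw' := fun v => mem_im_sw (F := F) (le2 (a := a) (b := b)) (v := v)
  have E0 : E F (b + a) 0 = ⊥ := Submodule.finrank_eq_zero.1 (finrank_E (Nat.zero_le _))
  simp only [zero_add (M := ℕ)] at hw hw'
  rw [add_comm a, h1, ← sum_filter_of_ne (p := fun h => im h (E F (b + a) a) ⊓ E F _ b = ⊥)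
    fun h _ e => by_contra fun e' => e (dg_eq_zero hψ (add_comm a b) e'),
    sum_dcoset _ _ 𝐰 _ (fun _ hu _ hq => dg_mul (add_comm a b) _ hu hq) _
      fun h => ⟨fun hh => ?_, ?_⟩]
  rotate_left
  · have c : ∀ t : G F (b + a), finrank F (im t (E F (b + a) a)) = a := fun t =>
      (finrank_im _ _).trans (finrank_E (by omega))
    obtain ⟨u, hu, e1⟩ := exists_Ub (add_comm a b) (c h) hh (c 𝐰)
      fun v hv i hi => (hw' v).1 hv i (Or.inl ⟨Nat.zero_le _, hi⟩)
    obtain ⟨q, hq, e2⟩ := exists_eq_mul ((im_mul _ _ _).trans e1)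
    exact ⟨u, hu, q, hq, e2⟩
  · rintro ⟨u, hu, q, hq, rfl⟩
    have := finrank_im u (im 𝐰 (E F (b + a) a) ⊓ E F _ b)
    rw [im_inf, tri_iff_im.1 fun i j hj hi => hu.2 i j (Fin.lt_def.2 (by omega)), hw, E0,
      finrank_bot, Submodule.finrank_eq_zero] at this
    rwa [im_mul, tri_iff_im.1 hq, im_mul]
  have c1 : (Nat.card (CT.mackeySub (Ub F (b + a)) (Pb F (b + a) a) 𝐰) : ℂ) =
      ∑ M : Mat F (b + a), if Uni M then if Tri a (cnj 𝐰 M) then 1 else 0 else 0 := by
    rw [← sum_units _ fun M h => if_neg (mt isUnit_uni h)]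
    simp only [← ite_and, sum_boole]
    rw [← Fintype.card_subtype, ← Nat.card_eq_fintype_card]
    exact congrArg _ (Nat.card_congr ⟨fun m => ⟨m.1.1, m.1.2, m.2⟩, fun m => ⟨⟨m.1, m.2.1⟩, m.2.2⟩,
      fun _ => rfl, fun _ => rfl⟩)
  have c2 : ∀ M : Mat F (b + a), (if Uni M then tr a b f g (cnj 𝐰 M) * ψ (-sd M) else 0) =
      if Uni M then if Tri a (cnj 𝐰 M) then tr a b f g (cnj 𝐰 M) * ψ (-sd M) else 0 else 0 :=
    fun M => by
      split_ifs with d1 d2
      · rfl
      · rw [tr, if_neg d2, zero_mul]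
      · rfl
  have c3 : ∀ (P Q : Prop) (x y : ℂ), (if P then if Q then x * y else 0 else 0) =
      (if P then x else 0) * if Q then y else 0 := fun P Q x y => by split_ifs <;> simp
  rw [c1, sum2, dg, dt_sw, sum_congr rfl fun M _ => c2 M, sum2, gg_eq, gg_eq, card_Ub, card_Ub,
    card_uni, card_uni, mul_mul_mul_comm, ← mul_inv, mul_comm (∑ M : Mat F a, _),
    mul_comm (∑ M : Mat F a, _), sum_mul_sum, sum_mul_sum, mul_sum]
  simp only [← c3, mul_one, mul_sum]
  refine sum_congr rfl fun A _ => sum_congr rfl fun D _ => congrArg _ ?_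
  split_ifs
  · rw [tr2, sd_cat, neg_add, AddChar.map_add_eq_mul]
    by_cases h : f.1 a D = 0
    · simp [h]
    · rw [sign_eq_one f h]; ring
  · simp
  · simp

instance hallB : HallB F where
  mul_comm := fun _ => hall_comm
  der := fun hk hp => ⟨Dop _ _, fun _ _ y hx => ip_Dop hx hp.1 y,
    fun _ _ _ _ hy hz => Dop_mul hk hp hy hz, fun _ _ hy => Dop_mem _ hy,
    fun _ _ h hy => Dop_eq_zero _ hy h⟩
  gg_mul := fun hψ _ _ _ _ => gg_mul hψ

end GLH.Mk
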