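import Cfsg.Agent.Lib.GL.TfA
import Cfsg.Agent.Lib.GL.BaseL
import Cfsg.Agent.Lib.GL.MkD

/-!
# S4536, package G5a: the instance `TwF`
-/

set_option autoImplicit false
set_option linter.unusedSectionVars false

namespace GLH.Tf

open Finset Matrix Cfsg CT MulAction
open scoped Classical ComplexConjugate

universe u

variable {F : Type u} [Field F] [Fintype F] {μ : Fˣ →* ℂˣ} {R : Subgroup Fˣ} {n : ℕ}

/-- `μ ∘ det` -/
def lam (μ : Fˣ →* ℂˣ) (n : ℕ) : G F n →* ℂˣ := μ.comp GeneralLinearGroup.det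

theorem ker_lam : (lam μ n).ker = NR μ.ker n := rfl

theorem NR_le (h : R ≤ μ.ker) : NR R n ≤ (lam μ n).ker := fun _ hg => h hg

theorem cf_tw (θ : NR R n → ℂ) : H.cf (tw μ θ) n = tI (lam μ n) (NR R n) θ := funext fun g => by
  refine (dif_pos rfl).trans (congrArg _ (sum_congr rfl fun x _ => congrArg _ ?_))
  exact (dif_pos (x⁻¹ * g * x).isUnit).trans (congrArg _ (Units.ext rfl))

theorem tw_mem (θ : NR R n → ℂ) : tw μ θ ∈ Hn μ n := fun _ hk _ => dif_neg hk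

theorem tc_cf (y : H μ) : Tc (lam μ n) (H.cf y n) := fun h g => y.2.2 n h g.1

theorem cf_tw_one (θ : NR R n → ℂ) : H.cf (tw 1 θ) n = ind (NR R n) θ := (cf_tw θ).trans (tI_one θ)

variable (μ R n) in
/-- `tw` as a linear map -/
noncomputable def twL : (NR R n → ℂ) →ₗ[ℂ] H μ where
  toFun := tw μ
  map_add' θ η := eq_of_cf (tw_mem _) (add_mem (tw_mem _) (tw_mem _)) (by simp only [cf_add, cf_tw, tI_add])
  map_smul' c θ := eq_of_cf (tw_mem _) (Submodule.smul_mem _ _ (tw_mem _))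
    (by simp only [cf_smul, cf_tw, tI_smul, RingHom.id_apply])

theorem ip_tw (θ : NR R n → ℂ) (y : H μ) : ipH n (tw μ θ) y = ip θ (res _ (H.cf y n)) := by
  rw [ipH, cf_tw, ip_tI _ (tc_cf y)]

theorem fix_iff {χ : IrrCharacter (G F n)} : Fix μ χ.1 ↔ ∀ g ∉ NR μ.ker n, χ.1 g = 0 :=
  Iff.trans ⟨fun h => Subtype.ext (funext fun g => h g), fun h => congrFun (congrArg Subtype.val h)⟩
    (lin_smul_eq_self_iff (lam μ n) χ)

theorem tw_mem_Ln {χ : G F n → ℂ} {θ : IrrCharacter (NR μ.ker n)} (h : LiesOver _ χ θ.1) : tw μ θ.1 ∈ Ln μ χ :=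
  Submodule.subset_span ⟨θ, h, rfl⟩

theorem Ln_le {χ : G F n → ℂ} {S : Submodule ℂ (H μ)}
    (h : ∀ θ : IrrCharacter (NR μ.ker n), LiesOver _ χ θ.1 → tw μ θ.1 ∈ S) : Ln μ χ ≤ S :=
  Submodule.span_le.2 (by rintro _ ⟨θ, h1, rfl⟩; exact h θ h1)

theorem ip_Ln_of {χ χ' : G F n → ℂ} {T : H μ →ₗ[ℂ] H μ} {x y : H μ} (hx : x ∈ Ln μ χ) (hy : y ∈ Ln μ χ')
    (h : ipH n (T x) y ≠ 0) : ∃ θ θ' : IrrCharacter (NR μ.ker n), LiesOver _ χ θ.1 ∧ LiesOver _ χ' θ'.1 ∧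
      ipH n (T (tw μ θ.1)) (tw μ θ'.1) ≠ 0 := by
  by_contra! h1
  exact h (Ln_le (S := LinearMap.ker (ipL n y ∘ₗ T)) (fun θ h2 => ipH_eq_zero_comm.1
    (Ln_le (S := LinearMap.ker (ipL n (T (tw μ θ.1)))) (fun θ' h3 => ipH_eq_zero_comm.1 (h1 θ θ' h2 h3)) hy)) hx)

theorem mem_Lns {y : H μ} (hy : y ∈ Hn μ n) {Q : IrrCharacter (G F n) → Prop}
    (h : ∀ (θ : IrrCharacter (NR μ.ker n)) (χ : IrrCharacter (G F n)), LiesOver _ χ.1 θ.1 →
      ipH n y (tw μ θ.1) ≠ 0 → Q χ) : y ∈ Lns μ n Q := by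
  have h1 : twL μ μ.ker n (res _ (H.cf y n)) = ((Nat.card (NR μ.ker n) : ℂ)⁻¹ * Nat.card (G F n)) • y :=
    eq_of_cf (tw_mem _) (Submodule.smul_mem _ _ hy) ((cf_tw _).trans ((tc_cf y).tI_res ker_lam))
  rw [← Submodule.smul_mem_iff _ (mul_ne_zero (inv_ne_zero (card_cast_ne_zero (G := NR μ.ker n)))
    (card_cast_ne_zero (G := G F n))), ← h1,
    ((tc_cf y).classFun ker_lam.ge).eq_sum_irr, map_sum]
  refine sum_mem fun θ _ => ?_
  rw [map_smul]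
  by_cases h2 : ip (res _ (H.cf y n)) θ.1 = 0
  · rw [h2, zero_smul]; exact zero_mem _
  have h3 : ipH n y (tw μ θ.1) ≠ 0 := by rwa [Ne, ipH_eq_zero_comm, ip_tw, ← conj_ip, map_eq_zero]
  have h4 := (isIrr_ind_iff_inertia_eq θ).2 (stab_eq ker_lam fun e => h3 (by rw [ipH, cf_tw, e, ip_zero_right]))
  exact Submodule.smul_mem _ _ (Submodule.mem_iSup_of_mem (⟨_, h4⟩ : IrrCharacter _) (Submodule.mem_iSup_of_mem
    ⟨fix_iff.2 fun g hg => ind_apply_eq_zero_of_normal _ hg, h θ ⟨_, h4⟩ (liesOver_ind_self θ) h3⟩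
    (tw_mem_Ln (liesOver_ind_self θ))))

theorem tw_mem_Lns (hR : R ≤ μ.ker) {Θ : NR R n → ℂ} (hΘ : IsCharacter _ Θ) :
    tw μ Θ ∈ Lns μ n fun χ => ip (ind (NR R n) Θ) χ.1 ≠ 0 :=
  mem_Lns (tw_mem _) fun θ χ h1 h2 => by
    rw [ip_tw, cf_tw, ← conj_ip, map_ne_zero] at h2
    obtain ⟨x, hx⟩ := exists_of_ip_res_tI (NR_le hR) h2
    rw [ip_ind_left _ _ (irr_isClassFunction χ), ← conj_ip, map_ne_zero]
    exact LiesOver.trans_le _ (irr_isCharacter χ) hΘ ((liesOver_conjSmul_iff (irr_isClassFunction χ) x θ).2 h1) hx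

instance cyc : IsCyclic (G F n ⧸ NR R n) :=
  have : IsCyclic (Fˣ ⧸ R) := isCyclic_of_surjective _ (QuotientGroup.mk'_surjective R)
  GT.isCyclic_quotient_of_eq_ker (f := (QuotientGroup.mk' R).comp GeneralLinearGroup.det)
    (by rw [← MonoidHom.comap_ker, QuotientGroup.ker_mk']; rfl)

theorem ind_eq {χ : IrrCharacter (G F n)} (h : ∀ ν : Fˣ →* ℂˣ, R ≤ ν.ker → Fix ν χ.1) {θ : IrrCharacter (NR R n)}
    (hθ : LiesOver _ χ.1 θ.1) : ind (NR R n) θ.1 = χ.1 ∧ stabilizer (G F n) θ = NR R n :=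
  ind_eq_of_cyclic (N := NR R n) (fun g hg =>
    let ⟨ν, h1, h2⟩ := exists_units_hom_apply_ne_one (N := R) (g := GeneralLinearGroup.det g)
      (by rw [commutator_eq_bot]; exact bot_le) hg
    fix_iff.1 (h ν h1) g h2) hθ

theorem ind_eq' {χ : IrrCharacter (G F n)} (h : Fix μ χ.1) {θ : IrrCharacter (NR μ.ker n)}
    (hθ : LiesOver _ χ.1 θ.1) : ind (NR μ.ker n) θ.1 = χ.1 := (ind_eq_of_cyclic (fix_iff.1 h) hθ).1

/-- the nondegenerate character of the unitriangular group -/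
noncomputable def psi (ψ : AddChar F ℂ) (n : ℕ) : Mk.Ub F n →* ℂ where
  toFun u := ψ (Mk.sd u.1.1)
  map_one' := by
    have := Mk.sd_mul (Mk.uni_one (F := F) (N := n)) Mk.uni_one
    rw [mul_one, left_eq_add] at this
    exact (congrArg ψ this).trans ψ.map_zero_eq_one
  map_mul' u v := by rw [← AddChar.map_add_eq_mul, ← Mk.sd_mul u.2 v.2]; rfl

theorem psi_char (ψ : AddChar F ℂ) : IsCharacter _ fun u => psi ψ n u := (isIrrCharacter_of_monoidHom _).isCharacter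

theorem gg_ip (ψ : AddChar F ℂ) (f : H μ) : gg ψ n f.1 = ip (res (Mk.Ub F n) (H.cf f n)) fun u => psi ψ n u := by
  rw [Mk.gg_eq, ip_def, ← Mk.sum_units _ fun M hM => if_neg fun h => hM (Mk.isUnit_uni h), ← sum_filter,
    sum_subtype (p := (· ∈ Mk.Ub F n)) _ (by simp [Mk.Ub])]
  exact congrArg _ (sum_congr rfl fun u _ => congrArg _ (AddChar.map_neg_eq_conj _ _))

theorem Ub_le : Mk.Ub F n ≤ NR R n := fun u hu => by
  change GeneralLinearGroup.det u ∈ R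
  rw [show GeneralLinearGroup.det u = 1 from Units.ext (by simpa using Mk.det_uni hu)]
  exact one_mem _

theorem cf_reg {p : ℕ} (hp : p.Prime) (h : p ≠ ringChar F) (f : H μ) :
    H.cf (mulL (MF.reg p hp h) f) n = pRegularPart p (H.cf f n) := funext fun g => by
  rw [BT.pRegularPart_apply_ite, ← orderOf_units]
  exact (ite_mul _ _ _ _).trans (by rw [zero_mul, one_mul]; rfl)

instance instTwF : TwF F where
  tw_mem _ _ _ := tw_mem
  tw_add μ R n := (twL μ R n).map_add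
  tw_one μ R := eq_of_cf (tw_mem _) Mk.one_mem_Hn (funext fun g => by
    have : Unique (G F 0) := ⟨⟨1⟩, G_zero_eq⟩
    rw [cf_tw, tI, Fintype.sum_subsingleton _ 1, extendByZero_of_mem _ _ (by rw [G_zero_eq (_ * _)]; exact one_mem _),
      map_one, Nat.card_unique]
    simp [H.cf, H.one_val])
  cf_tw_one := cf_tw_one
  mem_Lns hy := mem_Lns hy fun _ _ _ _ => trivial
  ip_Ln {μ n χ χ'} h _ hne x y hx hy := by_contra fun h0 => by
    obtain ⟨θ, θ', h1, h2, h3⟩ := ip_Ln_of (T := LinearMap.id) hx hy h0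
    rw [LinearMap.id_apply, ip_tw, cf_tw, ← conj_ip, map_ne_zero] at h3
    obtain ⟨g, hg⟩ := exists_of_ip_res_tI le_rfl h3
    rw [LiesOverLe, resLe_refl] at hg
    exact hne ((vanish_off_iff_unique h1).1 (fix_iff.1 h) χ'
      (irr_eq_of_ip_ne_zero hg ▸ (liesOver_conjSmul_iff (irr_isClassFunction χ') g θ').2 h2)).symm
  line {μ n χ} _ x y hx hy h0 := by
    obtain ⟨θ, hθ⟩ := exists_irr_liesUnder (NR μ.ker n) χ
    have h1 : Ln μ χ.1 ≤ Submodule.span ℂ {tw μ θ.1} := Ln_le fun θ' h => by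
      obtain ⟨g, rfl⟩ := h.mem_orbit hθ
      exact Submodule.mem_span_singleton.2 ⟨lam μ n g, eq_of_cf (Submodule.smul_mem _ _ (tw_mem _)) (tw_mem _)
        (by rw [cf_smul, cf_tw, cf_tw, ← tI_conj])⟩
    obtain ⟨a, rfl⟩ := Submodule.mem_span_singleton.1 (h1 hx)
    obtain ⟨b, rfl⟩ := Submodule.mem_span_singleton.1 (h1 hy)
    exact ⟨b / a, by rw [smul_smul, div_mul_cancel₀ _ (left_ne_zero_of_smul h0)]⟩
  tw_mem_Lns hR _ _ := tw_mem_Lns hR
  of_fix {R n χ} h θ hθ := by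
    refine ⟨(ind_eq h hθ).1, fun μ hR => ⟨?_, by rw [ipH, cf_tw, ip_tI_self (ind_eq h hθ).2 (NR_le hR)]⟩⟩
    have h1 := tw_mem_Lns hR (irr_isCharacter θ)
    rw [(ind_eq h hθ).1] at h1
    exact (iSup₂_le fun χ' h' => by rw [irr_eq_of_ip_ne_zero h'.2] : Lns μ n _ ≤ Ln μ χ.1) h1
  exists_gg ψ R n χ h f hf h1 := by
    obtain ⟨θ, hθ⟩ := exists_irr_liesUnder (NR R n) χ
    rw [gg_ip, hf, ← (ind_eq h hθ).1] at h1
    obtain ⟨g, hg⟩ := exists_gg Ub_le (psi_char ψ) h1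
    exact ⟨g • θ, (liesOver_conjSmul_iff (irr_isClassFunction χ) g θ).2 hθ, fun μ hR => by
      rw [gg_ip, cf_tw, hg _ (NR_le hR)]⟩
  gg_Ln ψ μ n χ f hf h0 x hx := Ln_le (S := LinearMap.ker (ggL ψ n)) (fun θ hθ => by_contra fun h1 => by
    rw [LinearMap.mem_ker, ggL_apply, gg_ip, cf_tw] at h1
    obtain ⟨g, hg⟩ := exists_of_ip_res_tI Ub_le h1
    rw [gg_ip, hf] at h0
    exact LiesOver.trans_le _ (irr_isCharacter χ) (psi_char ψ)
      ((liesOver_conjSmul_iff (irr_isClassFunction χ) g θ).2 hθ) hg h0) hx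
  gg_nat ψ n f hf := by
    rw [gg_ip]
    exact (hf.res _).exists_nat_ip (psi_char ψ)
  mul_Ln {_ μ a b χ₁ χ₂} h1 h2 f₁ f₂ hf₁ hf₂ e₁ e₂ x y hx hy := by
    refine Submodule.span_induction (p := fun x _ => x * y ∈ _) ?_ (by rw [Mk.zero_mul']; exact zero_mem _)
      (fun _ _ _ _ u v => by rw [H.right_distrib]; exact add_mem u v)
      (fun _ _ _ u => by rw [H.smul_mul]; exact Submodule.smul_mem _ _ u) hx
    rintro _ ⟨θ₁, k₁, rfl⟩
    refine Submodule.span_induction (p := fun y _ => _ * y ∈ _) ?_ (by rw [Mk.mul_zero']; exact zero_mem _)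
      (fun _ _ _ _ u v => by rw [H.left_distrib]; exact add_mem u v)
      (fun _ _ _ u => by rw [H.mul_smul]; exact Submodule.smul_mem _ _ u) hy
    rintro _ ⟨θ₂, k₂, rfl⟩
    obtain ⟨θ, h3, h4⟩ := HallA.tw_mul μ.ker (irr_isCharacter θ₁) (irr_isCharacter θ₂)
    have h5 := tw_mem_Lns le_rfl h3
    rwa [← cf_tw_one, h4 μ le_rfl, h4 1 (fun _ _ => rfl),
      eq_of_cf (tw_mem _) hf₁ ((cf_tw_one _).trans ((ind_eq' h1 k₁).trans e₁.symm)),
      eq_of_cf (tw_mem _) hf₂ ((cf_tw_one _).trans ((ind_eq' h2 k₂).trans e₂.symm))] at h5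
  reg_Ln {p} hp h M hM μ n χ χ' _ h2 x y hx hy h0 := by
    obtain ⟨θ, θ', h3, h4, h5⟩ := ip_Ln_of hx hy h0
    rw [ipH, cf_reg, cf_tw, cf_tw] at h5
    have := Fact.mk hp
    exact sameBlock_of hM (fix_iff.1 h2) h3 h4 h5
  lin_Ln {μ} ν n χ χ' h x hx := Ln_le (S := (Ln μ χ'.1).comap (mulL (MF.lin ν))) (fun θ hθ => by
    have h1 := tw_mem_Ln (liesOver_lin (lam ν n) hθ)
    rw [← show χ'.1 = fun g => (lam ν n g : ℂ) * χ.1 g from funext h] at h1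
    rwa [eq_of_cf (tw_mem _) (mulL_Hn (MF.lin ν) (tw_mem θ.1)) (by
      rw [cf_tw, ← mul_tI, ← cf_tw]; exact funext fun g => (cf_lin ν _ n g).symm)] at h1) hx

end GLH.Tf
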