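import Cfsg.Agent.Lib.GL.TwB

/-!
# S4536, package G5b: truncation of the twisted primitives
-/

set_option autoImplicit false
set_option linter.unusedSectionVars false

namespace GLH

open Finset Matrix Polynomial Cfsg SFock
open scoped Classical ComplexConjugate

universe u

attribute [local irreducible] hmul gg

theorem mem_Pc {ι : Type*} [Fintype ι] {par : ι → ι} {ρ : ι → ℕ} {i' i : ι} {j : ℕ} :
    i ∈ Pc par ρ i' j ↔ par i = i' ∧ ρ i ∣ j := by simp [Pc]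

theorem msz_single {ι : Type*} [Fintype ι] {N : ℕ} {par : ι → ι} {ρ : ι → ℕ} {Λ : ι → Finset ℕ}
    {i : ι} {k : ℕ} (h : ∀ j, sz N (Λ j) = if j = i then k else 0) (i' : ι) :
    msz N par ρ Λ i' = if par i = i' then ρ i * k else 0 := by
  simp only [msz, h, mul_ite, mul_zero, sum_ite_eq', mem_filter, mem_univ, true_and]

variable {F : Type u} [Field F] [Fintype F] {K : Type} [Field K] [Fintype K] [Algebra F K]
variable [hA : HallA F] [hB : HallB F] [hO : Orb.{u}] [hS : AbsA.{u}] [hW : TwF F]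
variable [hT : AbsB.{u}] [hC : ClsB F]
variable {C : Ctx F K} {π₁ : Th K (1 : Fˣ) → ℕ → H (1 : Fˣ →* ℂˣ)}

theorem rho_pos (C : Ctx F K) {m : Fˣ} (O : Th K m) : 0 < rho C.p O := by
  have h1 := (hO.pdat C m).deg_eq O
  have h2 := hO.deg_pos O
  rw [h1] at h2
  exact Nat.pos_of_mul_pos_right h2

theorem mem_Pc_iff (C : Ctx F K) {m : Fˣ} {O' O : Th K m} {n : ℕ} (h : deg O' ∣ n) :
    O ∈ Pc (par C.p) (rho C.p) O' (n / deg O') ↔ par C.p O = O' ∧ deg O ∣ n := by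
  rw [mem_Pc]
  refine and_congr_right fun e => ?_
  rw [(hO.pdat C m).deg_eq O, e, Nat.dvd_div_iff_mul_dvd h, mul_comm]

theorem rho_mul_div (C : Ctx F K) {m : Fˣ} {O : Th K m} {n : ℕ} (h : deg O ∣ n) :
    rho C.p O * (n / deg O) = n / deg (par C.p O) := by
  obtain ⟨k, rfl⟩ := h
  rw [Nat.mul_div_cancel_left _ (hO.deg_pos O)]
  conv_rhs => rw [(hO.pdat C m).deg_eq O, mul_right_comm, Nat.mul_div_cancel _ (hO.deg_pos _)]

theorem deg_par_dvd (C : Ctx F K) {m : Fˣ} (O : Th K m) : deg (par C.p O) ∣ deg O :=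
  Dvd.intro_left _ ((hO.pdat C m).deg_eq O).symm

variable (hb : Base C π₁)
include hb

theorem reg_VV {m : Fˣ} {n : ℕ} (hn : n ≤ C.N) {Q Q' : (Th K m → Finset ℕ) → Prop}
    (h : ∀ Λ Λ', Q Λ → Q' Λ' → ¬ Cls C (Λ ∘ toTh m) (Λ' ∘ toTh m)) {x y : H (C.mu m)}
    (hx : x ∈ VV C π₁ m n Q) (hy : y ∈ VV C π₁ m n Q') : ipH n (mulL C.reg x) y = 0 := by
  refine VV_ind (P := fun x => ipH n (mulL C.reg x) y = 0) (by rw [map_zero, ipH_zero_left])
    (fun _ _ h h' => by rw [map_add, ipH_add_left, h, h', add_zero]) (fun Λ h1 h2 x hx => ?_) hx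
  refine VV_ind (P := fun y => ipH n (mulL C.reg x) y = 0) (ipH_zero_right _ _)
    (fun _ _ h h' => by rw [ipH_add_right, h, h', add_zero]) (fun Λ' h1' h2' y hy => ?_) hy
  by_contra hne
  have := hW.reg_Ln C.hp C.p_ne C.hM (fix_chr hb hn h1) (fix_chr hb hn h1') hx hy hne
  exact h Λ Λ' h2 h2' (hb.cls_of_sameBlock hn (pull h1) (pull h1') this)

theorem reg_piM_orth {m : Fˣ} {n : ℕ} (h0 : 0 < n) (hn : n ≤ C.N) {O O' : Th K m} (h : deg O ∣ n)
    (h' : deg O' ∣ n) (hne : par C.p O ≠ par C.p O') :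
    ipH n (mulL C.reg (piM C π₁ m O (n / deg O))) (piM C π₁ m O' (n / deg O')) = 0 := by
  have a1 := (piM_VV hb O _ (div_pos_of_dvd hb h0 h) (by rwa [Nat.div_mul_cancel h])).1
  have a2 := (piM_VV hb O' _ (div_pos_of_dvd hb h0 h') (by rwa [Nat.div_mul_cancel h'])).1
  rw [Nat.div_mul_cancel h] at a1
  rw [Nat.div_mul_cancel h'] at a2
  refine reg_VV hb hn (fun Λ Λ' q q' hc => ?_) a1 a2
  obtain ⟨θ, rfl⟩ := toTh_surjective (K := K) (one_mem (Subgroup.zpowers m)) O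
  have e := (hc (par C.p θ) ((hO.pdat C 1).par_par θ)).1
  rw [hO.msz_pull C.p m C.N Λ _ ((hO.pdat C 1).par_par θ),
    hO.msz_pull C.p m C.N Λ' _ ((hO.pdat C 1).par_par θ), toTh_par C.p (one_mem _),
    msz_single q, msz_single q', if_pos rfl, if_neg hne.symm, mul_zero] at e
  exact (Nat.mul_pos (orderOf_pos _) (Nat.mul_pos (rho_pos C _) (div_pos_of_dvd hb h0 h))).ne' e

theorem gg_piM_div {m : Fˣ} {n : ℕ} (h0 : 0 < n) (hn : n ≤ C.N) {O : Th K m} (h : deg O ∣ n) :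
    gg C.ψ n (piM C π₁ m O (n / deg O)).1 = 1 := by
  have := (piM_VV hb O _ (div_pos_of_dvd hb h0 h) (by rwa [Nat.div_mul_cancel h])).2
  rwa [Nat.div_mul_cancel h] at this

theorem gg_eq_sum {m : Fˣ} {n : ℕ} (h0 : 0 < n) (hn : n ≤ C.N) {y : H (C.mu m)}
    (hy : y ∈ Pr (C.mu m) n) : gg C.ψ n y.1 = ∑ O ∈ univ.filter fun O : Th K m => deg O ∣ n,
      ((n / deg O : ℕ) : ℂ)⁻¹ * ipH n y (piM C π₁ m O (n / deg O)) := by
  have := LinearMap.eqOn_span (f := ggL C.ψ n) (g := ∑ O ∈ univ.filter fun O : Th K m => deg O ∣ n,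
      ((n / deg O : ℕ) : ℂ)⁻¹ • ipL n (piM C π₁ m O (n / deg O))) ?_ (Pr_le_span hb h0 hn hy)
  · simpa only [ggL_apply, LinearMap.sum_apply, LinearMap.smul_apply, ipL_apply, smul_eq_mul]
      using this
  rintro _ ⟨O, hO', rfl⟩
  have hO'' := (mem_filter.1 hO').2
  simp only [ggL_apply, LinearMap.sum_apply, LinearMap.smul_apply, ipL_apply, smul_eq_mul]
  rw [gg_piM_div hb h0 hn hO'', sum_eq_single O (fun O' h hne => by
    rw [ip_piM_div hb h0 hn hO'' (mem_filter.1 h).2, if_neg hne.symm, mul_zero])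
    (fun h => absurd hO' h), ip_piM_div hb h0 hn hO'' hO'', if_pos rfl, inv_mul_cancel₀]
  exact Nat.cast_ne_zero.2 (div_pos_of_dvd hb h0 hO'').ne'

omit hb in
variable (C π₁) in
/-- the `T`-invariant primitive over `O'` -/
noncomputable def gam (m : Fˣ) (n : ℕ) (O' : Th K m) : H (C.mu m) :=
  ∑ O ∈ Pc (par C.p) (rho C.p) O' (n / deg O'), (rho C.p O : ℂ) • piM C π₁ m O (n / deg O)

theorem gam_prim {m : Fˣ} {n : ℕ} (h0 : 0 < n) {O' : Th K m} (h : deg O' ∣ n) :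
    gam C π₁ m n O' ∈ Pr (C.mu m) n :=
  sum_mem fun _ hO' => Submodule.smul_mem _ _ (piM_div_prim hb h0 ((mem_Pc_iff C h).1 hO').2)

omit hb in
theorem ip_gam {m : Fˣ} {n : ℕ} (y : H (C.mu m)) (O' : Th K m) : ipH n y (gam C π₁ m n O') =
    ∑ O ∈ Pc (par C.p) (rho C.p) O' (n / deg O'),
      (rho C.p O : ℂ) * ipH n y (piM C π₁ m O (n / deg O)) := by
  simp only [gam, ipH_sum_right, ipH_smul_right, Complex.conj_natCast]

theorem ip_piM_gam {m : Fˣ} {n : ℕ} (h0 : 0 < n) (hn : n ≤ C.N) {O O' : Th K m} (h : deg O ∣ n)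
    (h' : deg O' ∣ n) : ipH n (piM C π₁ m O (n / deg O)) (gam C π₁ m n O') =
      if par C.p O = O' then ((n / deg O' : ℕ) : ℂ) else 0 := by
  rw [ip_gam, sum_congr rfl fun O'' h'' => by
    rw [ip_piM_div hb h0 hn h ((mem_Pc_iff C h').1 h'').2]]
  simp only [mul_ite, mul_zero, sum_ite_eq, mem_Pc_iff C h', h, and_true]
  split_ifs with e
  · rw [← Nat.cast_mul, rho_mul_div C h, e]
  · rfl

theorem reg_gam {m : Fˣ} {n : ℕ} (h0 : 0 < n) (hn : n ≤ C.N) {O' : Th K m} (h' : deg O' ∣ n) :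
    mulL C.reg (gam C π₁ m n O') = gam C π₁ m n O' := by
  have hp := gam_prim hb h0 h'
  have hd := sub_mem (hA.mulL_Pr C.reg hp) hp
  refine sub_eq_zero.1 (eq_zero_of_span hd.1 (Pr_le_span hb h0 hn hd) ?_)
  rintro _ ⟨O, hO', rfl⟩
  have h := (mem_filter.1 hO').2
  have e : ∀ x y : H (C.mu m), ipH n x (mulL C.reg y) = ipH n (mulL C.reg x) y :=
    fun x y => (ipH_reg C.hp C.p_ne n x y).symm
  rw [ipH_sub_right, e, ip_piM_gam hb h0 hn h h', ip_gam, sub_eq_zero]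
  split_ifs with hp
  · have h1 := gg_eq_sum hb h0 hn (hA.mulL_Pr C.reg (piM_div_prim hb h0 h))
    have h2 : gg C.ψ n (mulL C.reg (piM C π₁ m O (n / deg O))).1 = 1 :=
      (hA.gg_reg C.hp C.p_ne C.ψ _ n).trans (gg_piM_div hb h0 hn h)
    rw [h2] at h1
    rw [← mul_one ((n / deg O' : ℕ) : ℂ), h1, mul_sum]
    symm
    refine sum_subset_zero_on_sdiff (fun O'' h'' => ?_) (fun O'' h'' => ?_) (fun O'' h'' => ?_)
      |>.symm
    · exact mem_filter.2 ⟨mem_univ _, ((mem_Pc_iff C h').1 h'').2⟩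
    · obtain ⟨a1, a2⟩ := mem_sdiff.1 h''
      have a3 := (mem_filter.1 a1).2
      rw [reg_piM_orth hb h0 hn h a3 fun e => a2 ((mem_Pc_iff C h').2 ⟨e ▸ hp, a3⟩), mul_zero,
        mul_zero]
    · obtain ⟨a1, a2⟩ := (mem_Pc_iff C h').1 h''
      have a3 : ((n / deg O'' : ℕ) : ℂ) ≠ 0 := Nat.cast_ne_zero.2 (div_pos_of_dvd hb h0 a2).ne'
      rw [← a1, ← rho_mul_div C a2, Nat.cast_mul, mul_assoc, mul_inv_cancel_left₀ a3]
  · refine sum_eq_zero fun O'' h'' => ?_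
    obtain ⟨a1, a2⟩ := (mem_Pc_iff C h').1 h''
    rw [reg_piM_orth hb h0 hn h a2 (a1 ▸ hp), mul_zero]

theorem ip_gam_gam {m : Fˣ} {n : ℕ} (h0 : 0 < n) (hn : n ≤ C.N) {O O' : Th K m} (h : deg O ∣ n)
    (h' : deg O' ∣ n) : ipH n (gam C π₁ m n O) (gam C π₁ m n O') =
      if O = O' then (∑ j ∈ Pc (par C.p) (rho C.p) O (n / deg O), (rho C.p j : ℂ)) *
        ((n / deg O' : ℕ) : ℂ) else 0 := by
  conv_lhs => arg 2; rw [gam]
  rw [ipH_sum_left, sum_congr rfl fun j hj => by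
    rw [ipH_smul_left, ip_piM_gam hb h0 hn ((mem_Pc_iff C h).1 hj).2 h',
      ((mem_Pc_iff C h).1 hj).1], ← sum_mul]
  split_ifs
  · rfl
  · rw [mul_zero]

omit hb in
theorem sum_rho_ne {m : Fˣ} {n : ℕ} {O : Th K m} (hp : par C.p O = O) (h : deg O ∣ n) :
    (∑ j ∈ Pc (par C.p) (rho C.p) O (n / deg O), (rho C.p j : ℂ)) ≠ 0 := by
  rw [← Nat.cast_sum, Nat.cast_ne_zero]
  exact (sum_pos (fun j _ => rho_pos C j) ⟨O, (mem_Pc_iff C h).2 ⟨hp, h⟩⟩).ne'

theorem reg_piM {m : Fˣ} {n : ℕ} (h0 : 0 < n) (hn : n ≤ C.N) {O : Th K m} (h : deg O ∣ n) :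
    mulL C.reg (piM C π₁ m O (n / deg O)) =
      (∑ j ∈ Pc (par C.p) (rho C.p) (par C.p O) (n / deg (par C.p O)), (rho C.p j : ℂ))⁻¹ •
        gam C π₁ m n (par C.p O) := by
  have := fin_Pr (C.mu m) n
  have hp := (hO.pdat C m).par_par O
  have hd := (deg_par_dvd C O).trans h
  have key : (Pr (C.mu m) n).map (mulL C.reg) ≤ Submodule.span ℂ (gam C π₁ m n ''
      (univ.filter fun O : Th K m => par C.p O = O ∧ deg O ∣ n : Finset _)) := by
    refine le_span_of_orth (n := n) _ _ _ (fun O' h' => ?_) (fun O₁ h₁ O₂ h₂ hne => ?_)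
      (fun O' h' => ?_) ?_
    · exact ⟨_, gam_prim hb h0 (mem_filter.1 h').2.2, reg_gam hb h0 hn (mem_filter.1 h').2.2⟩
    · rw [ip_gam_gam hb h0 hn (mem_filter.1 h₁).2.2 (mem_filter.1 h₂).2.2, if_neg hne]
    · obtain ⟨a1, a2⟩ := (mem_filter.1 h').2
      rw [ip_gam_gam hb h0 hn a2 a2, if_pos rfl]
      exact mul_ne_zero (sum_rho_ne a1 a2) (Nat.cast_ne_zero.2 (div_pos_of_dvd hb h0 a2).ne')
    · rw [hO.card_deg_par C m h0 hn, ← hO.orderOf_mu C m]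
      exact hC.finrank_reg_le C h0 hn _
  refine sub_eq_zero.1 (eq_zero_of_span (n := n) (sub_mem (mulL_Hn _ (piM_div_prim hb h0 h).1)
    (Submodule.smul_mem _ _ (gam_prim hb h0 hd).1)) (sub_mem (key ⟨_, piM_div_prim hb h0 h, rfl⟩)
      (Submodule.smul_mem _ _ (Submodule.subset_span
        ⟨_, mem_filter.2 ⟨mem_univ _, hp, hd⟩, rfl⟩))) ?_)
  rintro _ ⟨O', h', rfl⟩
  obtain ⟨a1, a2⟩ := (mem_filter.1 h').2
  have e : ipH n (mulL C.reg (piM C π₁ m O (n / deg O))) (gam C π₁ m n O') =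
      ipH n (piM C π₁ m O (n / deg O)) (mulL C.reg (gam C π₁ m n O')) := ipH_reg C.hp C.p_ne n _ _
  rw [ipH_eq_zero_comm, ipH_sub_left, ipH_smul_left, e, reg_gam hb h0 hn a2,
    ip_piM_gam hb h0 hn h a2, ip_gam_gam hb h0 hn hd a2]
  split_ifs
  · rw [inv_mul_cancel_left₀ (sum_rho_ne hp hd), sub_self]
  · rw [mul_zero, sub_self]

theorem model_piM (m : Fˣ) : Model C (C.mu m) m (piM C π₁ m) where
  sys := sys_piM hb m
  tsys :=
    { adj := fun n x y => ipH_reg C.hp C.p_ne n x y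
      idem := fun x => reg_reg C.hp C.p_ne x
      T_pr := fun _ _ hx => hA.mulL_Pr C.reg hx
      T_π := fun O k hk hN => by
        have h0 := Nat.mul_pos hk (hO.deg_pos O)
        have h1 := reg_piM hb h0 hN (dvd_mul_left (deg O) k)
        have h2 := rho_mul_div C (dvd_mul_left (deg O) k)
        rw [Nat.mul_div_cancel _ (hO.deg_pos O)] at h1 h2
        have hd := (deg_par_dvd C O).trans (dvd_mul_left (deg O) k)
        rw [mulOp_eq, h1, gam, h2]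
        refine congrArg _ (sum_congr rfl fun j hj => ?_)
        obtain ⟨a1, a2⟩ := (mem_Pc_iff C hd).1 hj
        rw [← a1, ← rho_mul_div C a2, Nat.mul_div_cancel_left _ (rho_pos C j)] }
  gg_π := fun O k hk h => (piM_VV hb O k hk h).2
  twist := fun z O k hk h => lin_piM hb z O k hk h

end GLH
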