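import Cfsg.Agent.Lib.GL.GrB
import Cfsg.Agent.Lib.GL.TwC
import Cfsg.Agent.Lib.GL.DefB
import Cfsg.Agent.Lib.GL.OrbB
import Cfsg.Agent.Lib.GL.AbsT
import Cfsg.Agent.Lib.GL.TfB
import Cfsg.Agent.Lib.GL.ClB

/-!
# S4536, package G3c, first half: the primitives of Green's theory form a model
-/

set_option autoImplicit false
set_option linter.unusedSectionVars false

namespace GLH.Gr

open Finset Matrix Polynomial Cfsg GT Ob
open scoped Classical ComplexConjugate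

universe u

variable {F : Type u} [Field F] [Fintype F] {K : Type} [Field K] [Fintype K] [Algebra F K]

theorem one_mem_XX (n : ℕ) : (1 : Kˣ) ∈ XX F K n := by simp [mem_XX']

theorem inv_mem_XX {n : ℕ} {x : Kˣ} (h : x ∈ XX F K n) : x⁻¹ ∈ XX F K n := by
  rw [mem_XX'] at h ⊢; rw [inv_pow, h]

theorem pPart_mem_XX (p : ℕ) {n : ℕ} {x : Kˣ} (h : x ∈ XX F K n) : pPart p x ∈ XX F K n :=
  pow_mem_XX h _

theorem pReg_mem_XX (p : ℕ) {n : ℕ} {x : Kˣ} (h : x ∈ XX F K n) : pRegPart p x ∈ XX F K n :=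
  mul_mem_XX (inv_mem_XX (pPart_mem_XX p h)) h

theorem rep_mem_XX (θ : Th K (1 : Fˣ)) (k : ℕ) : θ.rep ∈ XX F K (k * deg θ) := by
  rw [mem_XX, Th.mk_rep]; exact dvd_mul_left _ _

theorem sum_frob {M : Type*} [AddCommMonoid M] (n i : ℕ) (g : Kˣ → M) :
    ∑ x ∈ XX F K n, g (x ^ Fintype.card F ^ i) = ∑ x ∈ XX F K n, g x := by
  refine sum_bij (fun x _ => x ^ Fintype.card F ^ i) (fun x hx => pow_mem_XX hx _)
    (fun x _ y _ e => frob_inj e) (fun y hy => ?_) fun _ _ => rfl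
  refine ⟨y ^ Fintype.card F ^ ((Module.finrank F K - 1) * i), pow_mem_XX hy _, ?_⟩
  rw [← pow_mul, mul_comm, pow_mul, pow_back]

theorem sum_orbit {n : ℕ} {x : Kˣ} (hx : x ∈ XX F K n) (g : Kˣ → ℂ) :
    ∑ i ∈ range n, g (x ^ Fintype.card F ^ i) = ((n / deg (Th.mk (1 : Fˣ) x) : ℕ) : ℂ) *
      ∑ y with Th.mk (1 : Fˣ) y = Th.mk 1 x, g y := by
  obtain ⟨k, rfl⟩ := (mem_XX x n).1 hx
  set d := deg (Th.mk (1 : Fˣ) x) with hd
  have h0 : 0 < d := deg_pos _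
  have h1 : ∀ k, x ^ Fintype.card F ^ (d * k) = x := fun k =>
    mem_XX'.1 ((mem_XX x _).2 (dvd_mul_right _ _))
  have h2 : (univ.filter fun y => Th.mk (1 : Fˣ) y = Th.mk 1 x) =
      (range d).image fun i => x ^ Fintype.card F ^ i := by
    ext y
    rw [mem_filter, mem_image, and_iff_right (mem_univ _), eq_comm, mk_one]
    refine ⟨fun ⟨i, hi⟩ => ⟨i % d, mem_range.2 (Nat.mod_lt _ h0), ?_⟩, fun ⟨i, _, hi⟩ => ⟨i, hi.symm⟩⟩
    rw [hi]
    conv_rhs => rw [← Nat.div_add_mod i d, pow_add, pow_mul x, h1]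
  have h3 : Set.InjOn (fun i => x ^ Fintype.card F ^ i) (range d) :=
    card_image_iff.1 (by rw [← h2, card_range]; rfl)
  rw [h2, sum_image h3, Nat.mul_div_cancel_left _ h0]
  clear hx
  induction k with
  | zero => simp
  | succ k ih =>
    rw [mul_add_one, sum_range_add, ih, Nat.cast_succ, add_one_mul]
    simp only [pow_add, pow_mul x, h1]

theorem mk_eq_of_mp {n : ℕ} (h0 : 0 < n) {x y : Kˣ} (hx : x ∈ XX F K n)
    (e : mp F n x = mp F n y) : Th.mk (1 : Fˣ) x = Th.mk 1 y := by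
  have h1 : aeval (x : K) (mp F n x) = 0 := by
    rw [mp, map_pow, minpoly.aeval, zero_pow]
    rw [← deg_one]
    exact (Nat.div_pos (Nat.le_of_dvd h0 ((mem_XX x n).1 hx)) (deg_pos _)).ne'
  rw [e, mp, map_pow] at h1
  exact (minpoly_eq x y).1 (minpoly.eq_of_irreducible_of_monic (irr_minpoly _) (eq_zero_of_pow_eq_zero h1)
    (minpoly.monic (Algebra.IsIntegral.isIntegral _))).symm

theorem det_of_mp {n : ℕ} {x : Kˣ} (hx : x ∈ XX F K n) {A : G F n} (h : A.1.charpoly = mp F n x) :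
    emb K (GeneralLinearGroup.det A) = x ^ ∑ i ∈ range n, Fintype.card F ^ i := by
  refine Units.ext ?_
  have h1 := congrArg (·.coeff 0) (map_mp hx)
  simp only [coeff_map, coeff_zero_prod, coeff_sub, coeff_X_zero, coeff_C_zero, zero_sub,
    prod_neg, card_range, prod_pow_eq_pow_sum] at h1
  change algebraMap F K A.1.det = _
  rw [det_eq_sign_charpoly_coeff, h, map_mul, h1, Fintype.card_fin, ← mul_assoc]
  simp [← mul_pow]

variable (C : Ctx F K)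

theorem pr_mul (n : ℕ) (ξ x y : Kˣ) : C.pr n ξ (x * y) = C.pr n ξ x * C.pr n ξ y := by
  simp [Ctx.pr, mul_pow]

theorem pr_pow (n : ℕ) (ξ x : Kˣ) (k : ℕ) : C.pr n ξ (x ^ k) = C.pr n ξ x ^ k := by
  simp [Ctx.pr, ← pow_mul, mul_comm]

theorem pr_one (n : ℕ) (ξ : Kˣ) : C.pr n ξ 1 = 1 := by simp [Ctx.pr]

theorem dvd_orderOf_iff {n : ℕ} (h0 : 0 < n) {x : Kˣ} {A : G F n} (h : A.1.charpoly = mp F n x) :
    C.p ∣ orderOf A.1 ↔ ¬ IsPRegular C.p x := by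
  rw [orderOf_units, ← pPart_ne_one_iff, ← pPart_eq_one_iff]
  refine ⟨mt fun h1 => ?_, fun h1 h2 => ?_⟩
  · simpa using Df.pPart_pow_eq_sc C.p_ne h (j := 1) isPElt_one (by simp [h1])
  · have := Df.isUnit_pPart_sub h h1
    have : Nonempty (Fin n) := ⟨⟨0, h0⟩⟩
    simp_all

section
variable {n : ℕ} (h0 : 0 < n) (hn : n ≤ C.N)
include h0 hn

theorem pr_mul' {ξ η x : Kˣ} (h1 : ξ ∈ XX F K n) (h2 : η ∈ XX F K n) (h3 : x ∈ XX F K n) :
    C.pr n (ξ * η) x = C.pr n ξ x * C.pr n η x := by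
  rw [pr_comm C h0 hn (mul_mem_XX h1 h2) h3, pr_mul, pr_comm C h0 hn h1 h3, pr_comm C h0 hn h2 h3]

theorem pr_pow' {ξ x : Kˣ} (h1 : ξ ∈ XX F K n) (h3 : x ∈ XX F K n) (k : ℕ) :
    C.pr n (ξ ^ k) x = C.pr n ξ (x ^ k) := by
  rw [pr_comm C h0 hn (pow_mem_XX h1 k) h3, pr_pow, pr_pow, pr_comm C h0 hn h1 h3]

theorem q_ne : ((Fintype.card F ^ n - 1 : ℕ) : ℂ) ≠ 0 := by
  rw [← card_XX C h0 hn, Nat.cast_ne_zero, card_ne_zero]
  exact ⟨1, one_mem_XX n⟩

theorem pr_pReg {ξ x : Kˣ} (h1 : ξ ∈ XX F K n) (h3 : x ∈ XX F K n) (hx : IsPRegular C.p x) :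
    C.pr n (pRegPart C.p ξ) x = C.pr n ξ x := by
  obtain ⟨k, -, hk⟩ := exists_forall_pRegPart_eq_pow Kˣ C.p
  rw [hk, pr_pow' C h0 hn h1 h3, ← hk, hx.pRegPart_eq]

theorem sum_fibre {ξ x : Kˣ} (h3 : x ∈ XX F K n) (hx : ¬ IsPRegular C.p x) :
    ∑ η ∈ XX F K n with pRegPart C.p η = ξ, C.pr n η x = 0 := by
  set u := pPart C.p (C.γ n)
  have hu : u ∈ XX F K n := pPart_mem_XX _ (γ_mem C h0 hn)
  have h1 : C.pr n u x ≠ 1 := fun h => by
    obtain ⟨k, hk⟩ := exists_forall_pPart_eq_pow Kˣ C.p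
    rw [pr_comm C h0 hn hu h3, show u = C.γ n ^ k from hk _, pr_pow, pr_γ C h0 hn h3,
      ← Units.val_pow_eq_pow_val, ← map_pow, ← hk, Units.val_eq_one,
      map_eq_one_iff _ C.ω_inj] at h
    exact hx (pPart_eq_one_iff.1 h)
  refine (mul_left_eq_self₀.1 ?_).resolve_left h1
  rw [mul_sum]
  have h2 : ∀ η, pRegPart C.p (u * η) = pRegPart C.p η := fun η =>
    pRegPart_mul_of_isPElt (isPElt_pPart _ _) (Commute.all _ _)
  refine sum_bij (fun η _ => u * η) (fun η hη => ?_) (fun _ _ _ _ e => mul_left_cancel e)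
    (fun η hη => ⟨u⁻¹ * η, ?_, by simp⟩) fun η hη => (pr_mul' C h0 hn hu (mem_filter.1 hη).1 h3).symm
  · exact mem_filter.2 ⟨mul_mem_XX hu (mem_filter.1 hη).1, (h2 η).trans (mem_filter.1 hη).2⟩
  · exact mem_filter.2 ⟨mul_mem_XX (inv_mem_XX hu) (mem_filter.1 hη).1, by
      rw [← h2, mul_inv_cancel_left, (mem_filter.1 hη).2]⟩

end

variable [hA : HallA F] [hB : HallB F] (cp : ℕ → Kˣ → H (1 : Fˣ →* ℂˣ))

/-- Green's primitives -/
noncomputable def PP (n : ℕ) (ξ : Kˣ) : H (1 : Fˣ →* ℂˣ) :=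
  (-1 : ℂ) ^ (n - 1) • ∑ x ∈ XX F K n, C.pr n ξ x • cp n x

/-- the orthogonal system -/
noncomputable def piG (θ : Th K (1 : Fˣ)) (k : ℕ) : H (1 : Fˣ →* ℂˣ) := PP C cp (k * deg θ) θ.rep

variable {C cp} (h : CP C cp)
include h

theorem cp_frob (n : ℕ) (x : Kˣ) (i : ℕ) : cp n (x ^ Fintype.card F ^ i) = cp n x := by
  induction i with
  | zero => simp
  | succ i ih => rw [pow_succ, pow_mul, h.frob, ih]

section
variable {n : ℕ} (h0 : 0 < n) (hn : n ≤ C.N)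
include h0 hn

theorem PP_prim (ξ : Kˣ) : PP C cp n ξ ∈ Pr 1 n :=
  Submodule.smul_mem _ _ (sum_mem fun x hx => Submodule.smul_mem _ _ (h.prim n x h0 hn hx))

theorem PP_congr {ξ η : Kˣ} (h1 : ξ ∈ XX F K n) (e : Th.mk (1 : Fˣ) ξ = Th.mk 1 η) :
    PP C cp n ξ = PP C cp n η := by
  obtain ⟨i, rfl⟩ := mk_one.1 e
  rw [PP, PP, ← sum_frob n i, sum_congr rfl fun x hx => ?_]
  rw [cp_frob h, pr_pow' C h0 hn h1 hx]

theorem PP_eq {ξ : Kˣ} (h1 : ξ ∈ XX F K n) :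
    PP C cp n ξ = piG C cp (Th.mk 1 ξ) (n / deg (Th.mk (1 : Fˣ) ξ)) := by
  rw [piG, Nat.div_mul_cancel ((mem_XX _ _).1 h1), PP_congr h h0 hn h1 (Th.mk_rep _).symm]

theorem ip_cp {x y : Kˣ} (hx : x ∈ XX F K n) (hy : y ∈ XX F K n) :
    ipH n (cp n x) (cp n y) = if Th.mk (1 : Fˣ) x = Th.mk 1 y then
      ((n / deg (Th.mk (1 : Fˣ) y) : ℕ) : ℂ) / ((Fintype.card F ^ n - 1 : ℕ) : ℂ) else 0 := by
  split_ifs with e
  · obtain ⟨i, rfl⟩ := mk_one.1 e.symm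
    rw [cp_frob h, h.norm n y h0 hn hy]
  rw [ipH, CT.ip_def, sum_eq_zero fun g _ => ?_, mul_zero]
  by_contra hne
  exact e (mk_eq_of_mp h0 hx ((h.supp n x _ h0 hn hx (left_ne_zero_of_mul hne)).symm.trans
    (h.supp n y _ h0 hn hy fun e => right_ne_zero_of_mul hne (by simp [H.cf, e]))))

theorem ip_PP {ξ η : Kˣ} (h1 : ξ ∈ XX F K n) (h2 : η ∈ XX F K n) :
    ipH n (PP C cp n ξ) (PP C cp n η) = if Th.mk (1 : Fˣ) η = Th.mk 1 ξ then
      ((n / deg (Th.mk (1 : Fˣ) ξ) : ℕ) : ℂ) else 0 := by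
  have a1 : ∀ y ∈ XX F K n, ipH n (∑ x ∈ XX F K n, C.pr n ξ x • cp n x) (cp n y) =
      (∑ i ∈ range n, C.pr n (ξ ^ Fintype.card F ^ i) y) / (Fintype.card F ^ n - 1 : ℕ) := by
    intro y hy
    rw [sum_congr rfl fun i _ => pr_pow' C h0 hn h1 hy _, sum_orbit hy, ipH_sum_left,
      sum_congr rfl fun x hx => by rw [ipH_smul_left, ip_cp h h0 hn hx hy, mul_ite, mul_zero],
      ← sum_filter, ← sum_mul, mul_div_assoc', mul_comm]
    congr 3
    ext x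
    simp only [mem_filter, mem_univ, true_and, and_iff_right_iff_imp, mem_XX] at hy ⊢
    exact fun e => e ▸ hy
  rw [PP, PP, ipH_smul_left, ipH_smul_right, ipH_sum_right, sum_congr rfl fun y hy => by
    rw [ipH_smul_right, a1 y hy, mul_div_assoc', mul_sum], ← sum_div, sum_comm,
    sum_congr rfl fun i _ => (sum_congr rfl fun y _ => mul_comm _ _).trans
      (sum_pr C h0 hn (pow_mem_XX h1 _) h2),
    sum_orbit h1 fun y => if y = η then ((Fintype.card F ^ n - 1 : ℕ) : ℂ) else 0, sum_ite_eq',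
    ← mul_assoc]
  have := q_ne C h0 hn
  simp only [map_pow, map_neg, map_one, ← mul_pow, mem_filter, mem_univ, true_and]
  split_ifs <;> simp [this]

theorem cp_mem {x : Kˣ} (hx : x ∈ XX F K n) :
    cp n x ∈ Submodule.span ℂ {y | ∃ i k, k * deg i = n ∧ y = piG C cp i k} := by
  have a1 : ∑ ξ ∈ XX F K n, conj (C.pr n x ξ) • PP C cp n ξ =
      ((-1) ^ (n - 1) * ((Fintype.card F ^ n - 1 : ℕ) : ℂ)) • cp n x := by
    simp only [PP, smul_comm _ ((-1 : ℂ) ^ (n - 1)), mul_smul, ← smul_sum]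
    refine congrArg _ ?_
    simp only [smul_sum, smul_smul]
    rw [sum_comm, sum_congr rfl fun y hy => by
      rw [← sum_smul, sum_congr rfl fun ξ hξ => by rw [mul_comm, pr_comm C h0 hn hξ hy],
        sum_pr C h0 hn hy hx, ite_smul, zero_smul], sum_ite_eq', if_pos hx]
  refine (Submodule.smul_mem_iff _ (mul_ne_zero (pow_ne_zero (n - 1) (neg_ne_zero.2 one_ne_zero))
    (q_ne C h0 hn))).1 (a1 ▸ sum_mem fun ξ hξ => Submodule.smul_mem _ _ (Submodule.subset_span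
      ⟨_, _, Nat.div_mul_cancel ((mem_XX _ _).1 hξ), PP_eq h h0 hn hξ⟩))

theorem mulL_cp (c : MF F) {x : Kˣ} (hx : x ∈ XX F K n) {a : ℂ}
    (ha : ∀ A : G F n, A.1.charpoly = mp F n x → c.c n A.1 = a) :
    mulL c (cp n x) = a • cp n x := by
  have := (h.prim n x h0 hn hx).1
  refine eq_of_cf (mulL_Hn c this) (Submodule.smul_mem _ _ this) (funext fun A => ?_)
  change c.c n A.1 * (cp n x).1 n A.1 = a * (cp n x).1 n A.1
  by_cases e : (cp n x).1 n A.1 = 0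
  · simp [e]
  · rw [ha A (h.supp n x _ h0 hn hx e)]

theorem reg_PP {ξ : Kˣ} (h1 : ξ ∈ XX F K n) : mulL C.reg (PP C cp n ξ) =
    (((XX F K n).filter (pRegPart C.p · = pRegPart C.p ξ)).card : ℂ)⁻¹ •
      ∑ η ∈ XX F K n with pRegPart C.p η = pRegPart C.p ξ, PP C cp n η := by
  have a1 : (((XX F K n).filter (pRegPart C.p · = pRegPart C.p ξ)).card : ℂ) ≠ 0 :=
    Nat.cast_ne_zero.2 (card_ne_zero.2 ⟨ξ, mem_filter.2 ⟨h1, rfl⟩⟩)
  simp only [PP, ← smul_sum, map_smul, map_sum]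
  rw [smul_comm, sum_comm, smul_sum, smul_sum, smul_sum]
  refine sum_congr rfl fun x hx => ?_
  rw [smul_comm, ← sum_smul, smul_smul _ _ (cp n x)]
  by_cases e : IsPRegular C.p x
  · rw [mulL_cp h h0 hn _ hx (a := 1) fun A hA => if_neg (by rwa [dvd_orderOf_iff C h0 hA, not_not]),
      one_smul, sum_congr rfl (g := fun _ => C.pr n ξ x) fun η hη => by
        rw [← pr_pReg C h0 hn (mem_filter.1 hη).1 hx e, (mem_filter.1 hη).2, pr_pReg C h0 hn h1 hx e],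
      sum_const, nsmul_eq_mul, inv_mul_cancel_left₀ a1, smul_comm]
  · rw [mulL_cp h h0 hn _ hx (a := 0) fun A hA => if_pos ((dvd_orderOf_iff C h0 hA).2 e),
      sum_fibre C h0 hn hx e]
    simp

theorem gg_PP (ξ : Kˣ) : gg C.ψ n (PP C cp n ξ).1 = 1 := by
  rw [← ggL_apply, PP, map_smul, map_sum, sum_congr rfl fun x hx => by
    rw [map_smul, ggL_apply, h.gg_cp n x h0 hn hx, smul_ite, smul_zero], sum_ite_eq',
    if_pos (one_mem_XX n), pr_one, one_smul, smul_eq_mul, ← mul_pow]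
  simp

theorem lin_PP (z : Fˣ) {ξ : Kˣ} (h1 : ξ ∈ XX F K n) :
    mulL (MF.lin (C.mu z)) (PP C cp n ξ) = PP C cp n (emb K z * ξ) := by
  have a1 : ∀ k, emb K z ∈ XX F K k := fun k => mem_XX'.2 (emb_pow z k)
  simp only [PP, map_smul, map_sum]
  refine congrArg _ (sum_congr rfl fun x hx => ?_)
  rw [mulL_cp h h0 hn _ hx (a := C.pr n (emb K z) x) fun A hA => ?_, smul_smul,
    pr_mul' C h0 hn (a1 n) h1 hx, mul_comm]
  have a2 := γ_pow C one_pos h0 (by rwa [one_mul])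
  simp only [one_mul] at a2
  conv_rhs => rw [← γ_dl C one_pos C.N_pos (a1 1), ← a2, ← pow_mul, pr_γ_pow C h0 hn _ hx, pow_mul,
    ← Units.val_pow_eq_pow_val, ← map_pow, ← det_of_mp hx hA]
  rw [lin_c]
  rfl

end

theorem sum_Pc {M : Type*} [AddCommMonoid M] (θ : Th K (1 : Fˣ)) (k : ℕ) (g : Th K (1 : Fˣ) → M) :
    ∑ η ∈ XX F K (k * deg θ) with pRegPart C.p η = pRegPart C.p θ.rep, g (Th.mk 1 η) =
      ∑ j ∈ Pc (par C.p) (rho C.p) (par C.p θ) (rho C.p θ * k), rho C.p j • g j := by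
  have a0 : deg θ ∣ k * deg θ := dvd_mul_left _ _
  have a1 : rho C.p θ * k = k * deg θ / deg (par C.p θ) := by
    rw [← rho_mul_div C a0, Nat.mul_div_cancel _ (deg_pos θ)]
  have a2 := fun j => mem_Pc_iff C (O := j) ((deg_par_dvd C θ).trans a0)
  rw [a1, ← sum_fiberwise_of_maps_to (g := Th.mk 1) fun η hη => (a2 _).2
    ⟨by rw [par_mk, (mem_filter.1 hη).2]; rfl, (mem_XX _ _).1 (mem_filter.1 hη).1⟩]
  refine sum_congr rfl fun j hj => ?_
  obtain ⟨b1, b2⟩ := (a2 j).1 hj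
  rw [sum_congr rfl (g := fun _ => g j) fun η hη => by rw [(mem_filter.1 hη).2], sum_const,
    ← Orb.card_fibre C.p j (isPRegular_pRegPart C.p θ.rep) b1.symm]
  congr 2
  ext η
  simp only [mem_filter, mem_univ, true_and, mem_XX]
  exact ⟨fun h => ⟨h.2, h.1.2⟩, fun h => ⟨⟨h.1 ▸ b2, h.2⟩, h.1⟩⟩

theorem model_piG : Model C 1 1 (piG C cp) where
  sys :=
    { deg_pos := deg_pos
      prim := fun θ k hk hN => PP_prim h (Nat.mul_pos hk (deg_pos θ)) hN _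
      orth := fun i j k l hk hl hN e => by
        have := ip_PP h (Nat.mul_pos hk (deg_pos i)) hN (rep_mem_XX i k) (e ▸ rep_mem_XX j l)
        rw [Th.mk_rep, Th.mk_rep, Nat.mul_div_cancel _ (deg_pos i)] at this
        rw [piG, piG, ← e]
        exact this.trans (by simp only [eq_comm])
      span := fun n x h0 hn hx => Submodule.span_le.2 (by
        rintro _ ⟨y, hy, rfl⟩; exact cp_mem h h0 hn hy) (h.span n x h0 hn hx) }
  tsys :=
    { adj := ipH_reg C.hp C.p_ne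
      idem := reg_reg C.hp C.p_ne
      T_pr := fun _ _ => hA.mulL_Pr _
      T_π := fun θ k hk hN => by
        have h0 := Nat.mul_pos hk (deg_pos θ)
        rw [mulOp_eq, piG, reg_PP h h0 hN (rep_mem_XX θ k), card_eq_sum_ones, Nat.cast_sum,
          sum_Pc h θ k fun _ => ((1 : ℕ) : ℂ),
          sum_congr rfl fun η hη => PP_eq h h0 hN (mem_filter.1 hη).1,
          sum_Pc h θ k fun j => piG C cp j (k * deg θ / deg j)]
        simp only [nsmul_eq_mul, Nat.cast_one, mul_one, natCast_mul_eq]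
        refine congrArg _ (sum_congr rfl fun j hj => ?_)
        obtain ⟨b1, c, b2⟩ := mem_Pc.1 hj
        rw [b2, Nat.mul_div_cancel_left _ (rho_pos C j), Nat.div_eq_of_eq_mul_left (deg_pos j)]
        rw [deg_eq C.p θ, deg_eq C.p j, b1, ← mul_assoc, mul_comm k, b2]; ring }
  gg_π := fun θ k hk hN => gg_PP h (Nat.mul_pos hk (deg_pos θ)) hN _
  twist := fun z θ k hk hN => by
    have h0 := Nat.mul_pos hk (deg_pos θ)
    rw [mulOp_eq, piG, piG, lin_PP h h0 hN z (rep_mem_XX θ k), deg_act]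
    exact PP_congr h h0 hN (mul_mem_XX (mem_XX'.2 (emb_pow z _)) (rep_mem_XX θ k))
      (Th.mk_rep _).symm

end GLH.Gr
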