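import Cfsg.Agent.Lib.GL.GrC
import Mathlib.NumberTheory.MulChar.Basic

/-!
# S4536, package G3c, second half: irreducibility and the instance `GreenB`
-/

set_option autoImplicit false
set_option linter.unusedSectionVars false

namespace GLH.Gr

open Finset Matrix Polynomial Cfsg GT Ob SFock
open scoped Classical ComplexConjugate

universe u

variable {F : Type u} [Field F] [Fintype F] {K : Type} [Field K] [Fintype K] [Algebra F K]

theorem _root_.GLH.ExpTo.congr {B : Type*} [CommRing B] {D : ℕ} {π π' Φ Ψ : ℕ → B}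
    (h : ExpTo D π Φ) (e : ∀ k, 0 < k → k ≤ D → π k = π' k) (e' : ∀ k ≤ D, Φ k = Ψ k) :
    ExpTo D π' Ψ :=
  ⟨e' 0 D.zero_le ▸ h.1, fun n hn => by
    rw [← e' n hn, h.2 n hn]
    exact sum_congr rfl fun k hk => by
      rw [e _ k.succ_pos ((mem_range.1 hk).trans_le hn), e' _ (by omega)]⟩

theorem prod_one_add_esymm (s : Multiset ℂ) (t : ℂ) :
    (s.map fun x => 1 + t * x).prod = ∑ j ∈ range (s.card + 1), t ^ j * s.esymm j := by
  have := congrArg (eval 1) (s.map (t • ·)).prod_X_add_C_eq_sum_esymm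
  simp only [← Multiset.pow_smul_esymm] at this
  simpa [eval_multiset_prod, eval_finsetSum] using this

variable (K) in
/-- the product of `f` over the roots -/
noncomputable def rootHom (f : K → ℂ) : F[X] →* ℂ where
  toFun φ := if φ = 0 then 0 else ((φ.aroots K).map f).prod
  map_one' := by simp
  map_mul' φ ψ := by
    by_cases h1 : φ = 0
    · simp [h1]
    by_cases h2 : ψ = 0
    · simp [h2]
    simp [h1, h2, aroots_mul (mul_ne_zero h1 h2)]

theorem rootHom_mp (f : K → ℂ) {n : ℕ} {x : Kˣ} (hx : x ∈ XX F K n) :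
    rootHom K f (mp F n x) = ∏ i ∈ range n, f ((x : K) ^ Fintype.card F ^ i) := by
  have h1 : mp F n x ≠ 0 := pow_ne_zero _ (minpoly.ne_zero (Algebra.IsIntegral.isIntegral _))
  change (if _ then _ else _) = _
  rw [if_neg h1, aroots_def, map_mp hx, Finset.prod, ← Function.comp_def (fun a : K => Polynomial.X - C a),
    ← Multiset.map_map, roots_multiset_prod_X_sub_C, Multiset.map_map]
  rfl

variable [hA : HallA F] [hB : HallB F]

variable (F) in
/-- the virtual characters -/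
def ZZ : Subring (H (1 : Fˣ →* ℂˣ)) where
  carrier := {f | ∀ n, IsGeneralizedCharacter (G F n) (H.cf f n)}
  mul_mem' := hA.gen_mul
  one_mem' := fun n => by
    by_cases h : n = 0
    · convert (CT.isCharacter_one (G := G F n)).isGen with g
      simp [H.cf, H.one_val, h]
    · convert (CT.isCharacter_zero (G := G F n)).isGen
      exact funext fun g => by simp [H.cf, H.one_val, h]
  add_mem' := fun ha hb n => (ha n).add (hb n)
  zero_mem' := fun _ => CT.isCharacter_zero.isGen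
  neg_mem' := fun ha n => (ha n).neg

theorem mem_ZZ {n : ℕ} {f : H (1 : Fˣ →* ℂˣ)} (h : f ∈ Hn 1 n)
    (h' : IsGeneralizedCharacter (G F n) (H.cf f n)) : f ∈ ZZ F := fun k => by
  by_cases e : k = n
  · exact e ▸ h'
  · convert (CT.isCharacter_zero (G := G F k)).isGen
    exact funext fun g => h k e _

variable {C : Ctx F K} {cp : ℕ → Kˣ → H (1 : Fˣ →* ℂˣ)} (h : CP C cp)
include h

theorem hh_mem_ZZ (θ : Th K (1 : Fˣ)) {r : ℕ} (hr : r * deg θ ≤ C.N) :
    hh (piG C cp) θ r ∈ ZZ F := by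
  rcases r.eq_zero_or_pos with rfl | r0
  · rw [(expRel_hh' (π := piG C cp) (i := θ)).1]; exact one_mem _
  have hd := (Nat.le_mul_of_pos_left _ r0).trans hr
  let w : ℕ → K →* ℂ := fun s => (powMonoidHom s).comp (MulChar.ofUnitHom C.ω).toMonoidHom
  have hw : ∀ s (x : Kˣ), w s x = (C.ω x : ℂ) ^ s := fun s x => by simp [w]
  have hc : ∀ n ≤ C.N, ∀ g : G F n, (g.1.charpoly.aroots K).card = n := fun n hn g => by
    rw [splits C (by simpa using hn)]; simp
  have a1 : ∀ s n j, ∃ f ∈ Hn (1 : Fˣ →* ℂˣ) n, n ≤ C.N → f ∈ ZZ F ∧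
      H.cf f n = fun g => ((g.1.charpoly.aroots K).map (w s)).esymm j := fun s n j => by
    by_cases hn : n ≤ C.N
    · have := green_lift (w s) n j (hc n hn)
      obtain ⟨f, b1, b2⟩ := hA.exists_cf this.isClassFunction
      exact ⟨f, b1, fun _ => ⟨mem_ZZ b1 (b2 ▸ this), b2⟩⟩
    · exact ⟨0, zero_mem _, fun h => absurd h hn⟩
  choose E e1 e2 using a1
  let P : ℕ → ℕ → H (1 : Fˣ →* ℂˣ) := fun n a => ∑ x ∈ XX F K n, (C.ω x : ℂ) ^ a • cp n x
  obtain ⟨Φ, hΦ⟩ := exists_expRel fun k => (-1) ^ (deg θ * k - 1) *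
    P (deg θ * k) (C.dl (deg θ) θ.rep * ∑ i ∈ range k, Fintype.card F ^ (deg θ * i))
  have a2 := necklace (ZZ F) (Fintype.card F) C.N Fintype.one_lt_card P (fun n a _ _ => ?_)
    (fun n a _ _ => ?_) E (fun s n j hn => (e2 s n j hn).1) (fun s t => ?_) _ _ (deg_pos θ) Φ hΦ r
    (mul_comm r _ ▸ hr)
  · refine (hΦ.to r).unique ((expRel_hh' (π := piG C cp) (i := θ)).to r) (fun k k0 hk => ?_) r le_rfl ▸ a2
    have b1 := (Nat.mul_le_mul_right (deg θ) hk).trans hr
    have b2 := γ_pow C (deg_pos θ) k0 (mul_comm k _ ▸ b1)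
    have b3 := γ_dl C (deg_pos θ) hd (one_mul (deg θ) ▸ rep_mem_XX θ 1)
    rw [piG, PP, mul_comm k, Algebra.smul_def, map_pow, map_neg, map_one]
    refine congrArg _ (sum_congr rfl fun x hx => ?_)
    conv_rhs => rw [← b3, ← b2, ← pow_mul, pr_γ_pow C (Nat.mul_pos (deg_pos θ) k0)
      (mul_comm k _ ▸ b1) _ hx, mul_comm (∑ i ∈ range k, _)]
  · simp only [P]
    rw [← sum_frob n 1 fun x => (C.ω x : ℂ) ^ a • cp n x]
    simp only [pow_one, h.frob, map_pow, Units.val_pow_eq_pow_val, pow_mul]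
  · refine sum_congr rfl fun x hx => ?_
    rw [pow_add, ← Units.val_pow_eq_pow_val _ (_ - 1), ← map_pow, mem_XX''.1 hx, map_one,
      Units.val_one, mul_one]
  refine (h.logder (rootHom K fun x => 1 + t * w s x)).congr (fun n _ _ => ?_) fun n hn => ?_
  · simp only [P, smul_sum, smul_smul]
    rw [sum_comm]
    refine sum_congr rfl fun x hx => ?_
    rw [← sum_smul, rootHom_mp _ hx, prod_one_add]
    refine congrArg (· • _) (sum_congr rfl fun I _ => ?_)
    simp only [prod_mul_distrib, prod_const, map_pow, hw, prod_pow_eq_pow_sum, pow_mul]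
  · refine eq_of_cf (fun k hk M => if_neg fun h => hk h.1)
      (sum_mem fun j _ => Submodule.smul_mem _ _ (e1 s n j)) (funext fun g => ?_)
    have b1 : H.cf (∑ j ∈ range (n + 1), t ^ j • E s n j) n g =
        ∑ j ∈ range (n + 1), t ^ j * H.cf (E s n j) n g := by
      simp only [H.cf, Submodule.coe_sum, Finset.sum_apply]; rfl
    have b2 := prod_one_add_esymm ((g.1.charpoly.aroots K).map (w s)) t
    rw [Multiset.card_map, hc n hn, Multiset.map_map] at b2
    rw [b1, sum_congr rfl fun j _ => by rw [(e2 s n j hn).2], ← b2]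
    exact (if_pos ⟨rfl, g.isUnit⟩).trans (if_neg (charpoly_monic _).ne_zero)

theorem hh_char (θ : Th K (1 : Fˣ)) {r : ℕ} (hr : r * deg θ ≤ C.N) :
    IsCharacter (G F (r * deg θ)) (H.cf (hh (piG C cp) θ r) (r * deg θ)) := by
  have a1 : sL C.N (piG C cp) (rowL C.N θ r) = hh (piG C cp) θ r := by
    rw [sL, prod_eq_single θ (fun j _ hj => by rw [rowL, if_neg hj, ss_range']) (by simp), rowL,
      if_pos rfl, AbsA.ss_row C.N_pos]
  have a2 := alab_rowL.{u} C.N_pos deg θ r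
  have a3 := (model_piG h).ip_sL hr a2 a2
  have a4 := (model_piG h).gg_sL hr a2
  rw [a1, if_pos rfl] at a3
  rw [a1, if_pos (isRow_rowL.{u} C.N_pos θ r)] at a4
  obtain ⟨χ, e | e⟩ := (hh_mem_ZZ h θ hr _).eq_irr_or_neg_of_ip_self a3
  · exact e ▸ CT.irr_isCharacter χ
  obtain ⟨k, hk⟩ := TwF.gg_nat C.ψ (f := (-1 : ℂ) • hh (piG C cp) θ r) (n := r * deg θ)
    (by rw [cf_smul, e]; simpa using CT.irr_isCharacter χ)
  rw [← ggL_apply, map_smul, ggL_apply, a4] at hk
  have : ((k + 1 : ℕ) : ℂ) = 0 := by rw [Nat.cast_succ, ← hk]; simp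
  exact absurd (Nat.cast_eq_zero.1 this) k.succ_ne_zero

theorem irr_sL {n : ℕ} (hn : n ≤ C.N) {Λ : Th K (1 : Fˣ) → Finset ℕ} (hΛ : ALab C.N deg n Λ) :
    IsIrrCharacter (G F n) (H.cf (sL C.N (piG C cp) Λ) n) := by
  have hM := model_piG h
  have a0 : ∀ θ (γ : Fin C.N → ℕ), ∑ j, γ j = sz C.N (Λ θ) → ∀ j, γ j * deg θ ≤ C.N :=
    fun θ γ e j => (Nat.mul_le_mul_right _ (e ▸ single_le_sum (fun _ _ => Nat.zero_le _)
      (mem_univ j))).trans ((hΛ.le θ).trans hn)
  have a1 : sL C.N (piG C cp) Λ ∈ ZZ F := prod_mem fun θ _ =>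
    (Submodule.span_le (p := (ZZ F).toAddSubgroup.toIntSubmodule)).2 (by
      rintro _ ⟨γ, b1, rfl⟩
      exact (ZZ F).prod_mem fun j _ => hh_mem_ZZ h θ (a0 θ γ b1 j)) (AbsA.ss_mem _ θ (hΛ.1 θ))
  have a2 : IsCharacter (G F n) (H.cf (hL C.N (piG C cp) Λ) n) := by
    have b1 := fun θ => a0 θ _ (AbsA.sum_parts.{u} (hΛ.1 θ))
    have b2 := fun θ j => AbsA.hh_mem hM.sys θ _ (b1 θ j)
    have := char_prod univ (fun θ => hP C.N (piG C cp) θ (Λ θ)) _
      (fun θ _ => prod_mem_Hn univ _ _ fun j _ => b2 θ j)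
      fun θ _ => char_prod univ _ _ (fun j _ => b2 θ j) fun j _ => hh_char h θ (b1 θ j)
    rwa [sum_congr rfl fun θ _ => by rw [← sum_mul, AbsA.sum_parts.{u} (hΛ.1 _)], hΛ.sum'] at this
  have a3 := hM.ip_sL hn hΛ hΛ
  rw [if_pos rfl] at a3
  obtain ⟨χ, e | e⟩ := (a1 n).eq_irr_or_neg_of_ip_self a3
  · exact e ▸ χ.2
  have a4 := ipH_eq_zero_of_span (n := n) (y := sL C.N (piG C cp) Λ) (AbsA.hL_sub _ hΛ.1) (by
    rintro _ ⟨Λ', ⟨b1, b2⟩, rfl⟩
    rw [hM.ip_sL hn ⟨fun i => (b1 i).1, by simp only [fun i => (b1 i).2.1, hΛ.2]⟩ hΛ, if_neg b2])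
  obtain ⟨k, hk⟩ := a2.exists_nat_ip (CT.irr_isCharacter χ)
  rw [ipH_sub_left, a3, ipH, e, CT.ip_neg_right, hk] at a4
  have : ((k + 1 : ℕ) : ℂ) = 0 := by rw [Nat.cast_succ]; linear_combination -a4
  exact absurd (Nat.cast_eq_zero.1 this) k.succ_ne_zero

theorem base_piG : Base C (piG C cp) where
  toModel := model_piG h
  irr := fun _ _ hn hΛ => irr_sL h hn hΛ
  all := fun n hn χ => by
    obtain ⟨f, b1, b2⟩ := hA.exists_cf (CT.irr_isClassFunction χ)
    by_contra! hc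
    have := ipH_eq_zero_of_span (n := n) (y := f) (AbsA.span_sL (model_piG h).sys hn b1) (by
      rintro _ ⟨Λ, c1, rfl⟩
      rw [ipH, b2]
      exact CT.ip_irr_ne (χ := ⟨_, irr_sL h hn c1⟩) fun e => hc Λ c1 (congrArg Subtype.val e).symm)
    rw [ipH, b2, CT.ip_irr_self] at this
    exact one_ne_zero this
  sing := fun θ j ζ hθ hj hN hζ hp => by
    have h0 := Nat.mul_pos hj (deg_pos θ)
    have a1 := rep_mem_XX θ j
    have a2 : ∀ ξ : Kˣ, par C.p (Th.mk (1 : Fˣ) ξ) = Th.mk 1 ξ → IsPRegular C.p ξ := fun ξ e => by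
      rw [par_mk] at e
      obtain ⟨i, hi⟩ := mk_one.1 e
      exact hi ▸ (isPRegular_pRegPart C.p ξ).pow _
    have a3 := a2 θ.rep (by rwa [Th.mk_rep])
    have a4 : (1 : Kˣ) ∈ (XX F K (j * deg θ)).filter (pRegPart C.p · = 1) :=
      mem_filter.2 ⟨one_mem_XX _, pRegPart_one⟩
    refine ⟨∑ u ∈ XX F K (j * deg θ) with pRegPart C.p u = 1,
      C.pr (j * deg θ) u ζ⁻¹ • PP C cp (j * deg θ) (u * θ.rep), 1, one_ne_zero,
      sum_mem fun u _ => Submodule.smul_mem _ _ (PP_prim h h0 hN _).1, ?_, fun M hM => ?_⟩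
    · rw [← add_sum_erase _ _ a4, pr_comm C h0 hN (one_mem_XX _) (inv_mem_XX hζ), pr_one, one_mul,
        piG, add_sub_cancel_left]
      refine sum_mem fun u hu => Submodule.smul_mem _ _ (Submodule.subset_span ?_)
      obtain ⟨b1, b2⟩ := mem_filter.1 (mem_of_mem_erase hu)
      have b3 := mul_mem_XX b1 a1
      refine ⟨_, _, fun e => ne_of_mem_erase hu ?_, Nat.div_mul_cancel ((mem_XX _ _).1 b3),
        PP_eq h h0 hN b3⟩
      have b4 := pRegPart_eq_one_iff.1 b2
      rw [← pPart_mul_eq (Commute.all _ _) b4 a3, (a2 _ e).pPart_eq]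
    by_contra! hc
    refine hM ?_
    simp only [PP, smul_sum]
    rw [sum_comm, Submodule.coe_sum, Finset.sum_apply, Finset.sum_apply]
    refine sum_eq_zero fun x hx => ?_
    simp only [smul_smul]
    rw [← sum_smul, H.smul_val]
    by_cases e : (cp (j * deg θ) x).1 (j * deg θ) M = 0
    · rw [e, mul_zero]
    have b1 := mul_mem_XX (inv_mem_XX hζ) hx
    rw [sum_congr rfl fun u hu => by
      rw [pr_mul' C h0 hN (mem_filter.1 hu).1 a1 hx, mul_left_comm, ← mul_assoc (C.pr _ u ζ⁻¹),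
        ← pr_mul], ← mul_sum, ← sum_mul, sum_fibre C h0 hN b1 fun hr => ?_, zero_mul, mul_zero,
      zero_mul]
    refine hc x hx ?_ (h.supp _ x M h0 hN hx e)
    rw [← mul_inv_cancel_left ζ x, pPart_mul_eq (Commute.all _ _) hp hr]

omit h in
instance instGreenB [hC : ClsA F] : GreenB F where
  exists_base C := (hC.exists_cp C).elim fun _ h => ⟨_, base_piG h⟩

end GLH.Gr
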