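import Cfsg.Agent.Lib.GL.MkD

/-!
# The elementary part of the twisted Hall algebra: Frobenius reciprocity and associativity
-/

set_option autoImplicit false
set_option linter.unusedSectionVars false

namespace GLH.Ha

open Finset Matrix Module Cfsg Mk
open scoped Classical ComplexConjugate

universe u

variable {F : Type u} [Field F] [Fintype F] {μ : Fˣ →* ℂˣ} {a b c n : ℕ}

theorem hc_mem' (a : ℕ) (f : H μ) : hc a f ∈ Hn μ a := fun _ h _ => if_neg h

theorem hc_val (f : H μ) (M : Mat F n) : (hc n f).1 n M = f.1 n M := if_pos rfl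

theorem mul_val_sum' (f g : H μ) (M : Mat F n) :
    (f * g).1 n M = ∑ ab ∈ antidiagonal n, (hc ab.1 f * hc ab.2 g).1 n M := by
  rw [H.mul_val, hmul]
  refine sum_congr rfl fun ab hab => ?_
  rw [mul_val (hc_mem' _ f) (hc_mem' _ g) (mem_antidiagonal.1 hab)]
  simp only [tr, mul_ite, mul_zero, mul_assoc, hc, if_true]
  rfl

theorem mul_mem' {f g : H μ} (hf : f ∈ Hn μ a) (hg : g ∈ Hn μ b) : f * g ∈ Hn μ (a + b) := by
  intro k hk M
  rw [H.mul_val, hmul]
  refine sum_eq_zero fun ab hab => mul_eq_zero_of_right _ (sum_eq_zero fun h _ => ?_)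
  have := mem_antidiagonal.1 hab
  by_cases e : ab.1 = a
  · simp [hg ab.2 (by omega)]
  · simp [hf _ e]

theorem card_Pb : (Nat.card (Pb F (a + b) a) : ℂ) =
    Nat.card (G F a) * Nat.card (G F b) * Fintype.card (Rm F a b) := by
  have h1 : (Nat.card (Pb F (a + b) a) : ℂ) =
      ∑ g : G F (a + b), if Tri a g.1 then if IsUnit g.1 then 1 else 0 else 0 := by
    simp only [Units.isUnit, if_true, sum_boole]
    rw [Nat.card_eq_fintype_card, Fintype.card_subtype]
    rfl
  rw [h1, sum_units (fun M => if Tri a M then if IsUnit M then 1 else 0 else 0)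
    fun M h => by simp [h], sum_tri, card_G, card_G, sum_mul_sum, sum_mul]
  refine sum_congr rfl fun A _ => ?_
  rw [sum_mul]
  refine sum_congr rfl fun D _ => ?_
  simp only [isUnit_cat, sum_const, card_univ, nsmul_eq_mul]
  by_cases hA : IsUnit A <;> by_cases hD : IsUnit D <;> simp [hA, hD]

/-- Frobenius reciprocity against an arbitrary twisted invariant function -/
theorem sum_mul_val {f g : H μ} (hf : f ∈ Hn μ a) (hg : g ∈ Hn μ b) (Φ : Mat F (a + b) → ℂ)
    (hΦ : ∀ h M, Φ M = dt μ h * Φ (cnj h M)) :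
    ∑ M, (f * g).1 _ M * conj (Φ M) = Nat.card (G F (a + b)) *
      ((Nat.card (G F a) : ℂ) * Nat.card (G F b))⁻¹ * ∑ A, ∑ D, f.1 a A * g.1 b D *
        conj ((Fintype.card (Rm F a b) : ℂ)⁻¹ * ∑ B, Φ (cat A B D)) := by
  have key : ∀ h : G F (a + b), ∑ M, dt μ h * tr a b f g (cnj h M) * conj (Φ M) =
      ∑ M, tr a b f g M * conj (Φ M) := fun h => by
    rw [← sum_cnj h fun M => tr a b f g M * conj (Φ M)]
    refine sum_congr rfl fun M _ => ?_
    rw [hΦ h M, map_mul]
    linear_combination (tr a b f g (cnj h M) * conj (Φ (cnj h M))) * dt_conj μ h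
  have k2 : ∑ M, tr a b f g M * conj (Φ M) =
      ∑ A, ∑ D, ∑ B, f.1 a A * g.1 b D * conj (Φ (cat A B D)) := by
    have := sum_tri (a := a) (b := b) fun M => tr a b f g M * conj (Φ M)
    simp only [tr_cat] at this
    rw [← this]
    refine sum_congr rfl fun M _ => ?_
    split_ifs with h
    · rfl
    · rw [tr, if_neg h, zero_mul]
  simp only [mul_val hf hg rfl, mul_assoc _⁻¹, ← mul_sum, sum_mul]
  rw [sum_comm, sum_congr rfl fun h _ => key h, sum_const, card_univ, nsmul_eq_mul,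
    ← Nat.card_eq_fintype_card, k2, card_Pb]
  simp only [map_mul, map_inv₀, map_natCast, map_sum, mul_sum, mul_inv]
  exact sum_congr rfl fun _ _ => sum_congr rfl fun _ _ => sum_congr rfl fun _ _ => by ring

theorem adj2 {f g : H μ} (hf : f ∈ Hn μ a) (hg : g ∈ Hn μ b) (y : H μ) :
    ipH (a + b) (f * g) y = ((Nat.card (G F a) : ℂ) * Nat.card (G F b))⁻¹ *
      ∑ A : Mat F a, ∑ D : Mat F b, f.1 a A * g.1 b D * conj (cop y.1 A D) := by
  rw [ipH_eq, sum_mul_val hf hg _ (y.2.2 _), mul_assoc, inv_mul_cancel_left₀ (card_G_ne _)]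
  rfl

theorem adj1 {f g : H μ} (hf : f ∈ Hn μ a) (hg : g ∈ Hn μ b) (y : H μ) :
    ipH (a + b) (f * g) y = ((Nat.card (G F a) : ℂ) * Nat.card (G F b))⁻¹ *
      ∑ A : G F a, ∑ D : G F b, f.1 a A.1 * g.1 b D.1 * conj (cop y.1 A.1 D.1) := by
  rw [adj2 hf hg, ← sum_units _ fun M h => by simp [f.2.1 _ _ h]]
  congr 1
  exact sum_congr rfl fun A _ => (sum_units (fun D => f.1 a A.1 * g.1 b D * conj (cop y.1 A.1 D))
    fun M h => by simp [g.2.1 _ _ h]).symm

/-- block diagonal matrices -/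
def bd (x : G F a) (z : G F b) : G F (a + b) :=
  ⟨cat x.1 0 z.1, cat (x⁻¹).1 0 (z⁻¹).1, by simp [cat_mul, cat_one], by simp [cat_mul, cat_one]⟩

theorem cnj_bd (x : G F a) (z : G F b) (A : Mat F a) (B : Rm F a b) (D : Mat F b) :
    cnj (bd x z) (cat A B D) = cat (cnj x A) ((x⁻¹).1 * B * z.1) (cnj z D) := by
  change cat (x⁻¹).1 0 (z⁻¹).1 * cat A B D * cat x.1 0 z.1 = _
  simp only [cat_mul, cnj, Matrix.zero_mul, Matrix.mul_zero, add_zero, zero_add]

theorem dt_bd (x : G F a) (z : G F b) : dt μ (bd x z) = dt μ x * dt μ z := by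
  rw [dt, dt, dt, ← Units.val_mul, ← map_mul]
  congr 2
  ext
  simp [bd, det_cat]

theorem bd_mem (x : G F a) (z : G F b) : bd x z ∈ Pb F (a + b) a := tri_cat _ _ _

theorem cop_cnj' (y : H μ) (x : G F a) (z : G F b) (A : Mat F a) (D : Mat F b) :
    cop y.1 A D = dt μ x * dt μ z * cop y.1 (cnj x A) (cnj z D) := by
  let e : Rm F a b ≃ Rm F a b :=
    { toFun := fun B => (x⁻¹).1 * B * z.1
      invFun := fun B => x.1 * B * (z⁻¹).1
      left_inv := fun B => by simp [Matrix.mul_assoc]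
      right_inv := fun B => by simp [Matrix.mul_assoc] }
  rw [cop, cop, ← e.sum_comp fun B => y.1 _ (cat (cnj x A) B (cnj z D)), mul_left_comm, mul_sum _ _
    (dt μ x * dt μ z)]
  congr 1
  refine sum_congr rfl fun B _ => ?_
  rw [y.2.2 _ (bd x z), cnj_bd, dt_bd]
  rfl

theorem cop_eq_zero (y : H μ) {A : Mat F a} {D : Mat F b} (h : ¬ (IsUnit A ∧ IsUnit D)) :
    cop y.1 A D = 0 := by
  have : ∀ B, y.1 _ (cat A B D) = 0 := fun B => y.2.1 _ _ fun e => h ((isUnit_cat _ _ _).1 e)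
  simp [cop, this]

theorem eq_zero' {f : H μ} (hf : f ∈ Hn μ n) (h : ipH n f f = 0) : f = 0 := H.ext fun k M => by
  by_cases hk : k = n
  · subst hk
    by_cases hM : IsUnit M
    · obtain ⟨g, rfl⟩ := hM
      exact congrFun (CT.ip_self_eq_zero.1 h) g
    · exact f.2.1 _ _ hM
  · exact hf k hk M

theorem eq_of_ip' {x y : H μ} (hx : x ∈ Hn μ n) (hy : y ∈ Hn μ n)
    (h : ∀ w, ipH n x w = ipH n y w) : x = y :=
  sub_eq_zero.1 (eq_zero' (sub_mem hx hy) (by rw [ipH_sub, h, sub_self]))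

theorem fin' (μ : Fˣ →* ℂˣ) (n : ℕ) : FiniteDimensional ℂ (Hn μ n) := by
  let L : Hn μ n →ₗ[ℂ] (Mat F n → ℂ) :=
    { toFun := fun f => f.1.1 n
      map_add' := fun _ _ => rfl
      map_smul' := fun _ _ => rfl }
  refine FiniteDimensional.of_injective L fun f g hf => Subtype.ext (H.ext fun k M => ?_)
  by_cases hk : k = n
  · subst hk; exact congrFun hf M
  · rw [f.2 k hk M, g.2 k hk M]

/-- matrices without rows -/
local instance uniqueL' {k : ℕ} : Unique (Rm F 0 k) :=
  inferInstanceAs (Unique (Fin 0 → Fin k → F))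

/-- matrices without columns -/
local instance uniqueR' {k : ℕ} : Unique (Rm F k 0) :=
  inferInstanceAs (Unique (Fin k → Fin 0 → F))

theorem card_Rm (a b : ℕ) : Fintype.card (Rm F a b) = Fintype.card F ^ (a * b) := by
  rw [← Nat.card_eq_fintype_card, ← Nat.card_eq_fintype_card]
  simp [Rm, Matrix, ← pow_mul, mul_comm]

/-- coassociativity -/
theorem cop_cop (w : Fn F) (A : Mat F a) (D : Mat F b) (C : Mat F c) :
    (Fintype.card (Rm F a b) : ℂ)⁻¹ * ∑ B, cop w (cat A B D) C =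
      (Fintype.card (Rm F b c) : ℂ)⁻¹ * ∑ B, cop w A (cat D B C) := by
  have h1 : ∀ B, ∑ Y : Rm F (a + b) c, w _ (cat (cat A B D) Y C) =
      ∑ Y₁ : Rm F a c, ∑ Y₂ : Rm F b c,
        w (a + b + c) (cat (b := c) (cat A B D) (rb (d := 0) Y₁ 0 Y₂ 0) C) := fun B => by
    refine (sum_rb (a := a) (b := b) (c := c) (d := 0)
      fun Y => w (a + b + c) (cat (cat A B D) Y C)).trans ?_
    simp only [Fintype.sum_unique]
    exact sum_congr rfl fun _ _ => sum_congr rfl fun _ _ => by congr <;> exact Subsingleton.elim _ _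
  have h2 : ∀ B, ∑ Y : Rm F a (b + c), w _ (cat A Y (cat D B C)) =
      ∑ Y₁ : Rm F a b, ∑ Y₂ : Rm F a c,
        w (a + (b + c)) (cat (a := a) A (rb (b := 0) Y₁ Y₂ 0 0) (cat D B C)) := fun B => by
    refine (sum_rb (a := a) (b := 0) (c := b) (d := c)
      fun Y => w (a + (b + c)) (cat A Y (cat D B C))).trans ?_
    simp only [Fintype.sum_unique]
    exact sum_congr rfl fun _ _ => sum_congr rfl fun _ _ => by congr <;> exact Subsingleton.elim _ _
  simp only [cop, ← mul_sum, h1, h2, ← mul_assoc, card_Rm]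
  congr 1
  · push_cast
    rw [← mul_inv, ← mul_inv, ← pow_add, ← pow_add]
    congr 2
    ring
  rw [sum_comm (s := univ) (t := univ) (γ := Rm F b c)]
  refine sum_congr rfl fun B _ => ?_
  rw [sum_comm]
  refine sum_congr rfl fun Y₂ _ => sum_congr rfl fun Y₁ _ => ?_
  refine val_congr w (add_assoc a b c) fun i j hi hj => ?_
  rcases lt_or_ge i a with h1 | h1 <;> rcases lt_or_ge i (a + b) with h2 | h2 <;>
    rcases lt_or_ge j a with h3 | h3 <;> rcases lt_or_ge j (a + b) with h4 | h4 <;>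
    first
    | omega
    | (simp (disch := omega) only [ex_cat, ex_rb, if_pos, if_neg] <;> congr 1 <;> omega)

theorem assoc_h {f g k : H μ} (hf : f ∈ Hn μ a) (hg : g ∈ Hn μ b) (hk : k ∈ Hn μ c) :
    f * g * k = f * (g * k) := by
  refine eq_of_ip' (mul_mem' (mul_mem' hf hg) hk) (add_assoc a b c ▸ mul_mem' hf (mul_mem' hg hk))
    fun w => ?_
  have h1 : ∀ C : Mat F c, ∑ M, (f * g).1 _ M * k.1 c C * conj (cop w.1 M C) = _ := fun C => by
    simp only [mul_right_comm _ (k.1 c C), ← sum_mul]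
    rw [sum_mul_val hf hg (fun M => cop w.1 M C) fun h M => by
      rw [cop_cnj' w h 1, cnj_one, dt_one, mul_one]]
  have h2 : ∀ A : Mat F a, ∑ M, f.1 a A * (g * k).1 _ M * conj (cop w.1 A M) = _ := fun A => by
    simp only [mul_assoc (f.1 a A), ← mul_sum]
    rw [sum_mul_val hg hk (fun M => cop w.1 A M) fun h M => by
      rw [cop_cnj' w 1 h, cnj_one, dt_one, one_mul]]
  conv_rhs => rw [add_assoc]
  rw [adj2 (mul_mem' hf hg) hk, adj2 hf (mul_mem' hg hk), sum_comm]
  simp only [h1, h2, cop_cop]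
  simp only [mul_sum, sum_mul]
  rw [sum_comm]
  refine sum_congr rfl fun A _ => ?_
  rw [sum_comm]
  refine sum_congr rfl fun D _ => sum_congr rfl fun C _ => ?_
  have := card_G_ne (F := F) (a + b)
  have := card_G_ne (F := F) (b + c)
  have := card_G_ne (F := F) a
  have := card_G_ne (F := F) b
  have := card_G_ne (F := F) c
  field_simp

theorem mul_congr {f f' g g' : H μ} (hf : ∀ m ≤ n, ∀ M, f.1 m M = f'.1 m M)
    (hg : ∀ m ≤ n, ∀ M, g.1 m M = g'.1 m M) : ∀ m ≤ n, ∀ M, (f * g).1 m M = (f' * g').1 m M := by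
  intro m hm M
  rw [H.mul_val, H.mul_val, hmul, hmul]
  refine sum_congr rfl fun ab hab => ?_
  have := mem_antidiagonal.1 hab
  simp only [hf ab.1 (by omega), hg ab.2 (by omega)]

/-- truncation -/
noncomputable def tc (n : ℕ) (f : H μ) : H μ := ∑ a ∈ range (n + 1), hc a f

theorem tc_val (f : H μ) : ∀ m ≤ n, ∀ M, f.1 m M = (tc n f).1 m M := by
  intro m hm M
  have : (tc n f).1 m M = ∑ a ∈ range (n + 1), (hc a f).1 m M := by
    simp only [tc, Submodule.coe_sum, Finset.sum_apply]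
  rw [this, sum_eq_single_of_mem m (mem_range.2 (by omega)) fun a _ h => hc_mem' a f m h.symm M,
    hc_val]

theorem tc_ind {P : H μ → Prop} (h0 : P 0) (ha : ∀ x y, P x → P y → P (x + y))
    (hh : ∀ a, ∀ x ∈ Hn μ a, P x) (f : H μ) : P (tc n f) :=
  sum_induction _ P ha h0 fun a _ => hh a _ (hc_mem' a f)

theorem assoc (f g k : H μ) : f * g * k = f * (g * k) := H.ext fun n M => by
  rw [mul_congr (mul_congr (tc_val f) (tc_val g)) (tc_val k) n le_rfl,
    mul_congr (tc_val f) (mul_congr (tc_val g) (tc_val k)) n le_rfl]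
  refine congrArg (fun x : H μ => x.1 n M) ?_
  refine tc_ind (P := fun x => x * tc n g * tc n k = x * (tc n g * tc n k))
    (by simp only [zero_mul']) (fun x y hx hy => by simp only [H.right_distrib, hx, hy])
    (fun a x hx => ?_) f
  refine tc_ind (P := fun y => x * y * tc n k = x * (y * tc n k))
    (by simp only [zero_mul', mul_zero']) (fun y y' hy hy' => by
      simp only [H.right_distrib, H.left_distrib, hy, hy']) (fun b y hy => ?_) g
  exact tc_ind (P := fun z => x * y * z = x * (y * z))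
    (by simp only [mul_zero']) (fun z z' hz hz' => by simp only [H.left_distrib, hz, hz'])
    (fun c z hz => assoc_h hx hy hz) k

theorem one_mul' (f : H μ) : 1 * f = f := H.ext fun n M => by
  rw [mul_congr (fun _ _ _ => rfl) (tc_val f) n le_rfl, tc_val f n le_rfl]
  refine congrArg (fun x : H μ => x.1 n M) ?_
  refine tc_ind (P := fun x => 1 * x = x) (mul_zero' _)
    (fun x y hx hy => by simp only [H.left_distrib, hx, hy]) (fun a x hx => ?_) f
  refine eq_of_ip' (zero_add a ▸ mul_mem' one_mem_Hn hx) hx fun w => ?_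
  conv_lhs => rw [← zero_add a]
  rw [adj2 one_mem_Hn hx, ipH_eq]
  simp [cop_left, H.one_val]

theorem mul_one' (f : H μ) : f * 1 = f := H.ext fun n M => by
  rw [mul_congr (tc_val f) (fun _ _ _ => rfl) n le_rfl, tc_val f n le_rfl]
  refine congrArg (fun x : H μ => x.1 n M) ?_
  refine tc_ind (P := fun x => x * 1 = x) (zero_mul' _)
    (fun x y hx hy => by simp only [H.right_distrib, hx, hy]) (fun a x hx => ?_) f
  refine eq_of_ip' (mul_mem' hx one_mem_Hn) hx fun w => ?_
  rw [adj2 hx one_mem_Hn, ipH_eq]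
  simp [cop_right, H.one_val]

/-- a homogeneous element from a function on the matrices of one size -/
noncomputable def mkH (φ : Mat F n → ℂ) (h0 : ∀ M, ¬ IsUnit M → φ M = 0)
    (h1 : ∀ h M, φ M = dt μ h * φ (cnj h M)) : H μ :=
  ⟨fun k M => if h : k = n then φ (h ▸ M) else 0, fun k M hM => by
    beta_reduce
    split_ifs with h
    · subst h; exact h0 M hM
    · rfl, fun k x M => by
    beta_reduce
    split_ifs with h
    · subst h; exact h1 x M
    · simp⟩

theorem mkH_val (φ : Mat F n → ℂ) (h0 : ∀ M, ¬ IsUnit M → φ M = 0)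
    (h1 : ∀ h M, φ M = dt μ h * φ (cnj h M)) (M : Mat F n) : (mkH φ h0 h1).1 n M = φ M :=
  dif_pos rfl

theorem mkH_mem (φ : Mat F n → ℂ) (h0 : ∀ M, ¬ IsUnit M → φ M = 0)
    (h1 : ∀ h M, φ M = dt μ h * φ (cnj h M)) : mkH φ h0 h1 ∈ Hn μ n := fun _ h _ => dif_neg h

theorem eq_zero_of_sum {ι : Type*} [Fintype ι] {φ : ι → ℂ} (h : ∑ i, φ i * conj (φ i) = 0)
    (i : ι) : φ i = 0 := by
  simp only [Complex.mul_conj, ← Complex.ofReal_sum, Complex.ofReal_eq_zero] at h
  exact Complex.normSq_eq_zero.1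
    ((sum_eq_zero_iff_of_nonneg fun _ _ => Complex.normSq_nonneg _).1 h i (mem_univ _))

theorem mem_Pr' {x : H μ} (hx : x ∈ Hn μ n) :
    (∀ a b y z, 0 < a → 0 < b → a + b = n → y ∈ Hn μ a → z ∈ Hn μ b → ipH n (y * z) x = 0) ↔
      x ∈ Pr μ n := by
  refine ⟨fun H => ⟨hx, fun a b ha hb A D => ?_⟩, ?_⟩
  swap
  · rintro h a b y z ha hb rfl hy hz
    simp [adj2 hy hz, h.2 a b ha hb]
  by_cases hn : a + b = n
  swap
  · simp [cop, hx _ hn]
  subst hn
  have key : ∀ z ∈ Hn μ b, ∀ A : Mat F a, ∑ D, conj (z.1 b D) * cop x.1 A D = 0 := fun z hz => by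
    have h0 : ∀ A : Mat F a, ¬ IsUnit A → ∑ D, conj (z.1 b D) * cop x.1 A D = 0 := fun A h =>
      sum_eq_zero fun D _ => by rw [cop_eq_zero x fun e => h e.1, mul_zero]
    have h1 : ∀ (h : G F a) A, ∑ D, conj (z.1 b D) * cop x.1 A D =
        dt μ h * ∑ D, conj (z.1 b D) * cop x.1 (cnj h A) D := fun h A => by
      rw [mul_sum]
      refine sum_congr rfl fun D _ => ?_
      rw [cop_cnj' x h 1, cnj_one, dt_one]; ring
    have h2 := H a b _ z ha hb rfl (mkH_mem _ h0 h1) hz
    rw [adj2 (mkH_mem _ h0 h1) hz, mul_eq_zero, inv_eq_zero] at h2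
    refine eq_zero_of_sum ?_
    rw [← h2.resolve_left (mul_ne_zero (card_G_ne _) (card_G_ne _))]
    simp only [mkH_val, map_sum, map_mul, Complex.conj_conj, mul_sum, mul_assoc]
  have h0 : ∀ D : Mat F b, ¬ IsUnit D → cop x.1 A D = 0 := fun D h =>
    cop_eq_zero x fun e => h e.2
  have h1 : ∀ (h : G F b) D, cop x.1 A D = dt μ h * cop x.1 A (cnj h D) := fun h D => by
    rw [cop_cnj' x 1 h, cnj_one, dt_one, one_mul]
  refine eq_zero_of_sum (φ := fun D => cop x.1 A D) ?_ D
  simpa only [mkH_val, mul_comm] using key _ (mkH_mem _ h0 h1) A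

end GLH.Ha
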