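import Cfsg.Agent.Lib.GL.HaA

/-!
# The elementary part of the twisted Hall algebra: characters (package G1a)
-/

set_option autoImplicit false
set_option linter.unusedSectionVars false

namespace GLH.Ha

open Finset Matrix Module Cfsg Mk
open scoped Classical ComplexConjugate

universe u

variable {F : Type u} [Field F] [Fintype F] {μ : Fˣ →* ℂˣ} {a b n : ℕ}

theorem dvd_of_ne_zero' (f : H μ) {M : Mat F n} (h : f.1 n M ≠ 0) : orderOf μ ∣ n := by
  refine orderOf_dvd_of_pow_eq_one (MonoidHom.ext fun c => Units.ext ?_)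
  have h1 := f.2.2 n (GeneralLinearGroup.scalar (Fin n) c) M
  have h2 : cnj (GeneralLinearGroup.scalar (Fin n) c) M = M :=
    (eq_cnj (by simpa using (Matrix.scalar_commute (c : F) (fun _ => Commute.all _ _) M).eq)).symm
  have h3 : dt μ (GeneralLinearGroup.scalar (Fin n) c) = ((μ c : ℂˣ) : ℂ) ^ n := by
    rw [dt, ← Units.val_pow_eq_pow_val, ← map_pow]
    congr 2
    ext
    simp
  rw [h2, h3] at h1
  simpa using (mul_eq_right₀ h).1 h1.symm

theorem dt_one' (h : G F n) : dt (1 : Fˣ →* ℂˣ) h = 1 := rfl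

theorem cnj_val (h g : G F n) : cnj h g.1 = (h⁻¹ * g * h).1 := rfl

theorem exists_cf' {χ : G F n → ℂ} (hχ : IsClassFunction (G F n) χ) :
    ∃ f ∈ Hn (1 : Fˣ →* ℂˣ) n, H.cf f n = χ := by
  refine ⟨mkH (fun M => if h : IsUnit M then χ h.unit else 0) (fun M h => dif_neg h)
    fun h M => ?_, mkH_mem _ _ _, funext fun g => ?_⟩
  · by_cases hM : IsUnit M
    · obtain ⟨g, rfl⟩ := hM
      simp only [cnj_val, Units.isUnit, dif_pos, IsUnit.unit_of_val_units, dt_one', one_mul]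
      simpa using (hχ g h⁻¹).symm
    · rw [dif_neg hM, dif_neg (by rwa [isUnit_cnj]), mul_zero]
  · simp [H.cf, mkH_val]

theorem isClassFunction_cf' (f : H (1 : Fˣ →* ℂˣ)) (n : ℕ) :
    IsClassFunction (G F n) (H.cf f n) := fun g h => by
  rw [H.cf, H.cf, f.2.2 n h⁻¹ g.1, dt_one', one_mul, cnj_val, inv_inv]

theorem blk_mul {M M' : Mat F (a + b)} (h : Tri a M) (h' : Tri a M') :
    blk (M * M') 0 a = blk M 0 a * blk M' 0 a ∧ blk (M * M') a b = blk M a b * blk M' a b := by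
  obtain ⟨B, e⟩ := exists_eq_cat h
  obtain ⟨B', e'⟩ := exists_eq_cat h'
  have : M * M' = _ := (congrArg₂ (· * ·) e e').trans (cat_mul _ _ _ _ _ _)
  rw [this, blk_cat_left, blk_cat_right]
  exact ⟨rfl, rfl⟩

variable (F a b) in
/-- the upper block -/
def pL : Pb F (a + b) a →* G F a := MonoidHom.toHomUnits
  { toFun := fun q => blk q.1.1 0 a
    map_one' := (congrArg (blk · 0 a) cat_one).symm.trans (blk_cat_left 1 0 1)
    map_mul' := fun q q' => (blk_mul q.2 q'.2).1 }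

variable (F a b) in
/-- the lower block -/
def pR : Pb F (a + b) a →* G F b := MonoidHom.toHomUnits
  { toFun := fun q => blk q.1.1 a b
    map_one' := (congrArg (blk · a b) cat_one).symm.trans (blk_cat_right 1 0 1)
    map_mul' := fun q q' => (blk_mul q.2 q'.2).2 }

theorem pL_val (q : Pb F (a + b) a) : (pL F a b q).1 = blk q.1.1 0 a := rfl

theorem pR_val (q : Pb F (a + b) a) : (pR F a b q).1 = blk q.1.1 a b := rfl

theorem cf_mul {f g : H (1 : Fˣ →* ℂˣ)} (hf : f ∈ Hn 1 a) (hg : g ∈ Hn 1 b) :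
    H.cf (f * g) (a + b) = CT.ind (Pb F (a + b) a)
      ((fun q => H.cf f a (pL F a b q)) * fun q => H.cf g b (pR F a b q)) := by
  funext x
  rw [H.cf, mul_val hf hg rfl, CT.ind_def]
  congr 1
  refine sum_congr rfl fun h _ => ?_
  rw [dt_one', one_mul, cnj_val, tr]
  split_ifs with e
  · rw [CT.extendByZero_of_mem _ _ (mem_Pb.2 e)]; rfl
  · rw [CT.extendByZero_of_notMem _ _ (mt mem_Pb.1 e)]

theorem gen_mul' {f g : H (1 : Fˣ →* ℂˣ)} (hf : ∀ n, IsGeneralizedCharacter (G F n) (H.cf f n))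
    (hg : ∀ n, IsGeneralizedCharacter (G F n) (H.cf g n)) (n : ℕ) :
    IsGeneralizedCharacter (G F n) (H.cf (f * g) n) := by
  have : H.cf (f * g) n = ∑ ab ∈ antidiagonal n, H.cf (hc ab.1 f * hc ab.2 g) n :=
    funext fun x => by rw [Finset.sum_apply]; exact mul_val_sum' f g x.1
  rw [this]
  refine CT.isGen_sum _ _ ?_
  rintro ⟨a, b⟩ hab
  obtain rfl : a + b = n := mem_antidiagonal.1 hab
  have e : ∀ (k : ℕ) (y : H (1 : Fˣ →* ℂˣ)), H.cf (hc k y) k = H.cf y k := fun k y =>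
    funext fun x => hc_val y x.1
  rw [cf_mul (hc_mem' _ f) (hc_mem' _ g), e, e]
  exact (((hf a).comp _).mul ((hg b).comp _)).ind

section Tw
variable {R : Subgroup Fˣ}

theorem extN_val (θ : NR R n → ℂ) (g : G F n) : extN θ g.1 = extendByZero (NR R n) θ g := by
  simp [extN]

theorem extN_coe (θ : NR R n → ℂ) (g : NR R n) : extN θ g.1.1 = θ g := by
  rw [extN_val, CT.extendByZero_of_mem _ _ g.2]

theorem extN_of_not (θ : NR R n → ℂ) {M : Mat F n} (h : ∀ g : NR R n, g.1.1 ≠ M) :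
    extN θ M = 0 := by
  by_cases hM : IsUnit M
  · obtain ⟨g, rfl⟩ := hM
    rw [extN_val, CT.extendByZero_of_notMem _ _ fun e => h ⟨g, e⟩ rfl]
  · exact dif_neg hM

theorem sum_extN (θ : NR R n → ℂ) : ∑ M, extN θ M = ∑ g, θ g := by
  symm
  refine sum_of_injOn (fun g : NR R n => g.1.1) (fun _ _ _ _ h => Subtype.ext (Units.ext h))
    (fun _ _ => mem_univ _) (fun M _ h => extN_of_not θ fun g e => h ⟨g, mem_univ _, e⟩)
    fun g _ => (extN_coe θ g).symm

theorem extN_ind (Q : Subgroup (NR R n)) (ϑ : Q → ℂ) (M : Mat F n) : extN (CT.ind Q ϑ) M =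
    (Nat.card Q : ℂ)⁻¹ * ∑ x : NR R n, extN (extendByZero Q ϑ) (cnj x.1 M) := by
  by_cases h : ∃ g : NR R n, g.1.1 = M
  · obtain ⟨g, rfl⟩ := h
    rw [extN_coe, CT.ind_def]
    exact congrArg _ (sum_congr rfl fun x _ => (extN_coe _ (x⁻¹ * g * x)).symm)
  · rw [extN_of_not _ fun g e => h ⟨g, e⟩, sum_eq_zero fun x _ => extN_of_not _ fun g e =>
      h ⟨x * g * x⁻¹, ?_⟩, mul_zero]
    have := congrArg (cnj (x.1)⁻¹) e
    rwa [← cnj_mul, mul_inv_cancel, cnj_one, cnj_val, inv_inv] at this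

variable (R a b) in
/-- the parabolic subgroup with both blocks in `NR` -/
def QN : Subgroup (NR R (a + b)) where
  carrier := {x | ∃ h : x.1 ∈ Pb F (a + b) a, pL F a b ⟨x.1, h⟩ ∈ NR R a ∧
    pR F a b ⟨x.1, h⟩ ∈ NR R b}
  mul_mem' := by
    rintro x y ⟨h, h1, h2⟩ ⟨h', h1', h2'⟩
    have e1 := mul_mem h1 h1'
    have e2 := mul_mem h2 h2'
    rw [← map_mul] at e1 e2
    exact ⟨mul_mem h h', e1, e2⟩
  one_mem' := by
    have e1 := one_mem (NR R a)
    have e2 := one_mem (NR R b)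
    rw [← map_one (pL F a b)] at e1
    rw [← map_one (pR F a b)] at e2
    exact ⟨one_mem _, e1, e2⟩
  inv_mem' := by
    rintro x ⟨h, h1, h2⟩
    have e1 := inv_mem h1
    have e2 := inv_mem h2
    rw [← map_inv] at e1 e2
    exact ⟨inv_mem h, e1, e2⟩

variable (R a b) in
/-- the inclusion into the parabolic subgroup -/
def qP : QN a b R →* Pb F (a + b) a :=
  (((NR R (a + b)).subtype.comp (QN a b R).subtype)).codRestrict _ fun q => q.2.fst

variable (R a b) in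
/-- the upper block -/
def qL : QN a b R →* NR R a := ((pL F a b).comp (qP a b R)).codRestrict _ fun q => q.2.snd.1

variable (R a b) in
/-- the lower block -/
def qR : QN a b R →* NR R b := ((pR F a b).comp (qP a b R)).codRestrict _ fun q => q.2.snd.2

/-- the inflation to the parabolic subgroup, on matrices -/
noncomputable def ta (θ₁ : NR R a → ℂ) (θ₂ : NR R b → ℂ) (M : Mat F (a + b)) : ℂ :=
  if Tri a M then extN θ₁ (blk M 0 a) * extN θ₂ (blk M a b) else 0

theorem extN_QN (θ₁ : NR R a → ℂ) (θ₂ : NR R b → ℂ) (M : Mat F (a + b)) :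
    extN (extendByZero (QN a b R) ((fun q => θ₁ (qL a b R q)) * fun q => θ₂ (qR a b R q))) M =
      ta θ₁ θ₂ M := by
  by_cases h : ∃ q : QN a b R, q.1.1.1 = M
  · obtain ⟨q, rfl⟩ := h
    rw [extN_coe, CT.extendByZero_of_mem _ _ q.2, ta, if_pos (mem_Pb.1 q.2.fst)]
    exact (congrArg₂ (· * ·) (extN_coe θ₁ (qL a b R q)) (extN_coe θ₂ (qR a b R q))).symm
  have h1 : ta θ₁ θ₂ M = 0 := by
    unfold ta
    split_ifs with ht
    swap
    · rfl
    by_contra h0
    obtain ⟨x, hx⟩ : ∃ x : NR R a, x.1.1 = blk M 0 a := by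
      by_contra e
      exact left_ne_zero_of_mul h0 (extN_of_not _ fun g e' => e ⟨g, e'⟩)
    obtain ⟨z, hz⟩ : ∃ z : NR R b, z.1.1 = blk M a b := by
      by_contra e
      exact right_ne_zero_of_mul h0 (extN_of_not _ fun g e' => e ⟨g, e'⟩)
    obtain ⟨B, hB⟩ := exists_eq_cat ht
    obtain ⟨g, rfl⟩ : IsUnit M := by
      rw [hB, isUnit_cat, ← hx, ← hz]; exact ⟨Units.isUnit _, Units.isUnit _⟩
    have hg : g ∈ NR R (a + b) := by
      have : GeneralLinearGroup.det g =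
          GeneralLinearGroup.det x.1 * GeneralLinearGroup.det z.1 := by
        ext
        simp only [GeneralLinearGroup.val_det_apply, Units.val_mul, hx, hz]
        rw [← det_cat _ B, ← hB]
      exact Subgroup.mem_comap.2 (this ▸ mul_mem x.2 z.2)
    refine h ⟨⟨⟨g, hg⟩, ht, ?_, ?_⟩, rfl⟩
    · convert x.2; exact Units.ext hx.symm
    · convert z.2; exact Units.ext hz.symm
  rw [h1]
  by_cases h' : ∃ g : NR R (a + b), g.1.1 = M
  · obtain ⟨g, rfl⟩ := h'
    rw [extN_coe, CT.extendByZero_of_notMem _ _ fun e => h ⟨⟨g, e⟩, rfl⟩]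
  · exact extN_of_not _ fun g e => h' ⟨g, e⟩

theorem card_QN : (Nat.card (QN a b R) : ℂ) =
    Nat.card (NR R a) * Nat.card (NR R b) * Fintype.card (Rm F a b) := by
  have h1 : ∀ n, (Nat.card (NR R n) : ℂ) = ∑ M, extN (fun _ : NR R n => (1 : ℂ)) M := fun n => by
    simp [sum_extN]
  have h2 := sum_congr (s₁ := univ) rfl fun M _ =>
    extN_QN (fun _ : NR R a => (1 : ℂ)) (fun _ : NR R b => (1 : ℂ)) M
  rw [sum_extN, ← sum_congr rfl fun _ _ => mul_one _, CT.sum_extendByZero_mul _ _ fun _ => 1] at h2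
  unfold ta at h2
  simp only [sum_tri, blk_cat_left, blk_cat_right, sum_const, card_univ, nsmul_eq_mul,
    Pi.mul_apply, mul_one, ← mul_sum, ← sum_mul, ← h1] at h2
  rw [Nat.card_eq_fintype_card, h2]; ring

theorem tw_val (θ : NR R n → ℂ) (M : Mat F n) : (tw μ θ).1 n M =
    (Nat.card (NR R n) : ℂ)⁻¹ * ∑ g : G F n, dt μ g * extN θ (cnj g M) := dif_pos rfl

theorem tw_mem' (θ : NR R n → ℂ) : tw μ θ ∈ Hn μ n := fun _ h _ => dif_neg h

theorem sum_shift (τ : Mat F n → ℂ) (M : Mat F n) (x : G F n) :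
    ∑ g : G F n, dt μ g * (dt μ x * τ (cnj x (cnj g M))) = ∑ g : G F n, dt μ g * τ (cnj g M) := by
  rw [← Equiv.sum_comp (Equiv.mulRight x) fun g => dt μ g * τ (cnj g M)]
  simp only [Equiv.coe_mulRight, cnj_mul, dt_mul, mul_assoc]

theorem ta_bd (θ₁ : NR R a → ℂ) (θ₂ : NR R b → ℂ) (M : Mat F (a + b)) :
    tr a b (tw μ θ₁) (tw μ θ₂) M = ((Nat.card (NR R a) : ℂ) * Nat.card (NR R b))⁻¹ *
      ∑ x, ∑ z, dt μ (bd x z) * ta θ₁ θ₂ (cnj (bd x z) M) := by
  by_cases h : Tri a M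
  · obtain ⟨B, hB⟩ := exists_eq_cat h
    generalize blk M 0 a = A, blk M a b = D at hB
    subst hB
    rw [tr_cat, tw_val, tw_val, mul_mul_mul_comm, sum_mul_sum, mul_inv]
    simp only [cnj_bd, ta, tri_cat, if_true, blk_cat_left, blk_cat_right, dt_bd]
    exact congrArg _ (sum_congr rfl fun _ _ => sum_congr rfl fun _ _ => by ring)
  · simp [tr, ta, h, tri_cnj (bd_mem _ _)]

theorem tw_mul' (R : Subgroup Fˣ) {θ₁ : NR R a → ℂ} {θ₂ : NR R b → ℂ}
    (h₁ : IsCharacter (NR R a) θ₁) (h₂ : IsCharacter (NR R b) θ₂) :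
    ∃ θ : NR R (a + b) → ℂ, IsCharacter (NR R (a + b)) θ ∧
      ∀ μ : Fˣ →* ℂˣ, R ≤ μ.ker → tw μ θ = tw μ θ₁ * tw μ θ₂ := by
  refine ⟨_, ((h₁.comp (qL a b R)).mul (h₂.comp (qR a b R))).ind, fun μ hμ => H.ext fun k M => ?_⟩
  by_cases hk : k = a + b
  swap
  · rw [tw_mem' _ k hk, mul_mem' (tw_mem' _) (tw_mem' _) k hk]
  subst hk
  have h0 : ∀ x : NR R (a + b), dt μ x.1 = 1 := fun x => by rw [dt, hμ x.2, Units.val_one]
  have hN : ∀ n, (Nat.card (NR R n) : ℂ) ≠ 0 := fun n => Nat.cast_ne_zero.2 Nat.card_pos.ne'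
  have h1 : ∀ x : NR R (a + b), ∑ g : G F (a + b), dt μ g * ta θ₁ θ₂ (cnj x.1 (cnj g M)) = _ :=
    fun x => by simpa only [h0, one_mul] using sum_shift (μ := μ) (ta θ₁ θ₂) M x.1
  rw [tw_val, mul_val (tw_mem' _) (tw_mem' _) rfl]
  simp only [extN_ind, extN_QN, ta_bd, mul_left_comm (dt μ _) _⁻¹, ← mul_sum]
  simp only [mul_sum (s := univ) _ (dt μ _)]
  rw [sum_comm, sum_comm (γ := G F (a + b))]
  simp only [sum_comm (γ := G F (a + b)) (α := G F b), h1, sum_shift, sum_const, card_univ,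
    nsmul_eq_mul, ← Nat.card_eq_fintype_card, card_Pb, card_QN]
  have := hN a
  have := hN b
  have := hN (a + b)
  have := card_G_ne (F := F) a
  have := card_G_ne (F := F) b
  field_simp

end Tw

theorem cop_mulL (c : MF F) (f : H μ) (A : Mat F a) (D : Mat F b) :
    cop (mulL c f).1 A D = c.c a A * c.c b D * cop f.1 A D := by
  simp only [cop, mulL_val, c.cat, ← mul_sum]; ring

theorem gl_val (c : MF F) (M : Mat F n) : (c.gl n).1 n M = if IsUnit M then c.c n M else 0 := by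
  simp [MF.gl]

theorem cop_gl (c : MF F) (A : Mat F a) (D : Mat F b) :
    cop (c.gl (a + b)).1 A D = (c.gl a).1 a A * (c.gl b).1 b D := by
  simp only [cop, gl_val, isUnit_cat, c.cat, sum_const, card_univ, nsmul_eq_mul]
  rw [inv_mul_cancel_left₀ (card_Rm_ne a b)]
  by_cases hA : IsUnit A <;> by_cases hD : IsUnit D <;> simp [hA, hD]

theorem gl_mult' (c : MF F) {x y : H (1 : Fˣ →* ℂˣ)} (hx : x ∈ Hn 1 a) (hy : y ∈ Hn 1 b) :
    ipH (a + b) (x * y) (c.gl (a + b)) = ipH a x (c.gl a) * ipH b y (c.gl b) := by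
  rw [adj2 hx hy, ipH_eq, ipH_eq, mul_mul_mul_comm, sum_mul_sum, mul_inv]
  simp only [cop_gl, map_mul]
  congr 1
  exact sum_congr rfl fun _ _ => sum_congr rfl fun _ _ => by ring

theorem MF_uni (c : MF F) (h1 : c.c 1 1 = 1) : ∀ (n : ℕ) (M : Mat F n), Uni M → c.c n M = 1
  | 0, M, _ => c.zero M
  | n + 1, M, h => by
    obtain ⟨B, hB⟩ := exists_eq_cat (a := n) (b := 1) (M := M) fun i j hj hi =>
      h.2 i j (by rw [Fin.lt_def]; omega)
    have h2 := uni_cat.1 (hB ▸ h)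
    have h3 : blk M n 1 = 1 := by
      funext i j
      rw [Subsingleton.elim j i, h2.2.1, one_apply_eq]
    rw [hB, c.cat, MF_uni c h1 n _ h2.1, h3, h1, one_mul]

theorem gg_mulL (c : MF F) (h1 : c.c 1 1 = 1) (ψ : AddChar F ℂ) (f : H μ) (n : ℕ) :
    gg ψ n (mulL c f).1 = gg ψ n f.1 := by
  rw [gg, gg, sum_congr rfl fun M hM => by
    rw [mulL_val, MF_uni c h1 n M (mem_filter.1 hM).2, one_mul]]

instance hallA : HallA F where
  mul_assoc _ := assoc
  one_mul _ := one_mul'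
  mul_one _ := mul_one'
  mul_mem := mul_mem'
  adj := adj1
  cop_cnj y _ _ := cop_cnj' y
  eq_zero := eq_zero'
  fin := fin'
  mem_Pr _ := mem_Pr'
  dvd_of_ne_zero f _ _ := dvd_of_ne_zero' f
  exists_cf := exists_cf'
  isClassFunction_cf := isClassFunction_cf'
  char_mul hf hg h₁ h₂ := by
    rw [cf_mul hf hg]
    exact ((h₁.comp _).mul (h₂.comp _)).ind
  gen_mul := gen_mul'
  tw_mul R := tw_mul' R
  gl_mult c := gl_mult' c
  cf_reg {_ p} hp h f n := funext fun g => by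
    simp only [H.cf, mulL_val, MF.reg, pRegularPart, orderOf_units]
    by_cases e : p ∣ orderOf g
    · rw [if_pos e, zero_mul, if_neg (show ¬ IsPRegular p g from not_not.2 e)]
    · rw [if_neg e, one_mul, if_pos (show IsPRegular p g from e)]
  mulL_Pr c _ _ hf := ⟨fun k hk M => by rw [mulL_val, hf.1 k hk, mul_zero],
    fun a b ha hb A D => by rw [cop_mulL, hf.2 a b ha hb, mul_zero]⟩
  gg_reg hp h ψ := gg_mulL _ (by simp [MF.reg, hp.one_lt.ne']) ψ
  gg_lin ν ψ := gg_mulL _ (by simp [MF.lin]) ψ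

end GLH.Ha
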