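import Cfsg.Agent.Lib.GL.TwD
import Cfsg.Agent.Lib.Block.CycBridge
import Cfsg.Agent.Lib.Block.Weight
import Cfsg.Agent.Lib.Block.Contrib
import Cfsg.Agent.Lib.Char.Linear
import Cfsg.Agent.S4438
import Mathlib.FieldTheory.Finite.Extension
import Mathlib.NumberTheory.LegendreSymbol.Complex

/-!
# S4536, package G8: assembly
-/

set_option autoImplicit false
set_option linter.unusedSectionVars false

namespace GLH

open Finset Matrix Polynomial Cfsg SFock
open scoped Classical ComplexConjugate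

universe u

attribute [local irreducible] hmul gg

theorem sectional_of_injective {A B : Type*} [Group A] [Group B] {p s : ℕ} (f : A →* B)
    (hf : Function.Injective f) (h : SectionalPRankLE p s B) : SectionalPRankLE p s A := by
  intro H N _ X hX hXp
  let e : H ≃* H.map f := H.equivMapOfInjective f hf
  have : (N.map e.toMonoidHom).Normal := Subgroup.Normal.map ‹_› _ e.surjective
  let q : H ⧸ N ≃* H.map f ⧸ N.map e.toMonoidHom := QuotientGroup.congr N _ e rfl
  have h1 := h (H.map f) (N.map e.toMonoidHom) (X.map q.toMonoidHom) inferInstance (by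
    rintro _ ⟨a, ha, rfl⟩
    rw [← map_pow, hXp a ha, map_one])
  rwa [Subgroup.card_map_of_injective (f := q.toMonoidHom) q.injective] at h1

theorem index_frattini_le {D : Type*} [Group D] [Finite D] {p s : ℕ} [Fact p.Prime]
    (hD : IsPGroup p D) (h : SectionalPRankLE p s D) : (frattini D).index ≤ p ^ s := by
  have h0 : IsPGroup p (⊤ : Subgroup D) := hD.to_subgroup ⊤
  have h1 := GT.isElementaryAbelian_quotient_frattini h0
  have h2 := h ⊤ (frattini (⊤ : Subgroup D)) ⊤ h1.1 h1.2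
  rw [Subgroup.card_top, ← Subgroup.index_eq_card,
    ← Subgroup.index_map_of_bijective (f := (Subgroup.topEquiv (G := D)).toMonoidHom)
      Subgroup.topEquiv.bijective, GT.map_frattini_mulEquiv] at h2
  exact h2

theorem rank_le_of_le_one {Γ : Type*} [Group Γ] [Finite Γ] {p : ℕ} [hp : Fact p.Prime]
    {M : Ideal AlgInt} (hM : IsPModular p M) {B : Set (IrrCharacter Γ)} (hB : IsPBlock M B)
    {D : Subgroup Γ} (hD : IsDefectGroup p M B D) {s : ℕ} (hs : SectionalPRankLE p s D)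
    (h1 : s ≤ 1) : blockRank p B ≤ p ^ s := by
  have hP := BT.isPGroup_of_isDefectGroup hD
  have h2 := index_frattini_le hP hs
  by_cases h0 : D = ⊥
  · subst h0
    obtain ⟨θ, h3, -, h4⟩ := BT.exists_ker_defect_zero_of_central hM bot_le hB hD
    rw [Subgroup.card_bot, Nat.factorization_one, Finsupp.zero_apply, add_zero] at h4
    refine (BT.blockRank_le_card B).trans ?_
    rw [BT.block_eq_singleton_of_defect_zero hM hB h3 h4, Nat.card_unique]
    exact Nat.one_le_pow _ _ hp.out.pos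
  have hnt : Nontrivial D := (Subgroup.nontrivial_iff_ne_bot D).2 h0
  obtain rfl : s = 1 := by
    refine le_antisymm h1 (Nat.pos_of_ne_zero ?_)
    rintro rfl
    have := (frattini D).index_ne_zero_of_finite
    rw [pow_zero] at h2
    exact GT.frattini_ne_top (G := D) (Subgroup.index_eq_one.1 (by omega))
  have hc : IsCyclic D := by
    by_contra hc
    have h3 := (Nat.le_of_dvd (Nat.pos_of_ne_zero (frattini D).index_ne_zero_of_finite)
      (GT.sq_dvd_index_frattini hP hc)).trans h2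
    exact absurd ((Nat.pow_le_pow_iff_right hp.out.one_lt).1 h3) (by omega)
  obtain ⟨A, _, _, _, ι, hι, rfl⟩ := BT.exists_cyc_param hc
  obtain ⟨e, S⟩ := BT.exists_abSet hM hι hB hD
  have := BT.nontrivial_of_range_ne_bot h0
  obtain ⟨X, Y, δ, δ₀, c, T⟩ := S.exists_cycStr
  have h3 := hp.out.one_lt
  rw [T.rank, pow_one]
  exact (Nat.le_of_dvd (by omega) S.card_inert_dvd).trans (by omega)

variable {F : Type u} [Field F] [Fintype F]

theorem exists_ctx (N : ℕ) (hN : 0 < N) (p : ℕ) [hp : Fact p.Prime] (h : p ≠ ringChar F)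
    (M : Ideal AlgInt) (hM : IsPModular p M) : ∃ (K : Type) (_ : Field K) (_ : Fintype K)
      (_ : Algebra F K) (C : Ctx F K), C.N = N ∧ C.p = p ∧ C.M = M := by
  have : Fact (ringChar F).Prime := ⟨CharP.prime_ringChar F⟩
  have : NeZero N.factorial := ⟨N.factorial_ne_zero⟩
  let K := FiniteField.Extension F (ringChar F) N.factorial
  let _ : Fintype K := Fintype.ofFinite K
  obtain ⟨g, hg⟩ := IsCyclic.exists_generator (α := Kˣ)
  obtain ⟨ω, hω⟩ := CT.exists_injective_units_hom (G := Kˣ)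
  refine ⟨K, inferInstance, inferInstance, inferInstance, ⟨N, hN, fun d h0 hd => ?_, g, hg, ω, hω,
    AddChar.FiniteField.primitiveChar_to_Complex F, ?_, p, hp.out, h, M, hM⟩, rfl, rfl, rfl⟩
  · rw [FiniteField.finrank_extension]
    exact Nat.dvd_factorial h0 hd
  · simpa using AddChar.FiniteField.primitiveChar_to_Complex_isPrimitive F one_ne_zero

/-- `SL_n` as the subgroup `NR ⊥ n` -/
noncomputable def slEquiv (n : ℕ) : SpecialLinearGroup (Fin n) F ≃* NR (⊥ : Subgroup Fˣ) n :=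
  (MonoidHom.ofInjective SpecialLinearGroup.toGL_injective).trans (MulEquiv.subgroupCongr (by
    ext g
    rw [NR, Subgroup.mem_comap, Subgroup.mem_bot]
    constructor
    · rintro ⟨x, rfl⟩
      exact Units.ext x.2
    · intro h
      exact ⟨⟨g.1, congrArg Units.val h⟩, Units.ext rfl⟩))

variable [hA : HallA F] [hB : HallB F] [hO : Orb.{u}] [hS : AbsA.{u}] [hT : AbsB.{u}]

theorem Base.exists_pl {K : Type} [Field K] [Fintype K] [Algebra F K] {C : Ctx F K}
    {π : Th K (1 : Fˣ) → ℕ → H (1 : Fˣ →* ℂˣ)} (hb : Base C π) {n : ℕ} (hn : n ≤ C.N)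
    {B : Set (IrrCharacter (G F n))} (hB' : IsPBlock C.M B) :
    ∃ Λ, ALab C.N deg n Λ ∧ PL C.N (par C.p) Λ ∧ ∃ χ ∈ B, χ.1 = H.cf (sL C.N π Λ) n := by
  by_contra! hc
  obtain ⟨χ, hχ⟩ := BT.block_nonempty C.hM hB'
  obtain ⟨Λ, h1, h2⟩ := hb.all n hn χ
  have h3 := ipH_eq_zero_of_span (n := n) (y := mulOp C.reg (sL C.N π Λ))
    (hT.T_mem_span hb.sys (hO.pdat C 1) hb.tsys hn h1) (by
      rintro _ ⟨Λ', a1, a2, -, rfl⟩
      rw [ipH, cf_reg', cf_reg', BT.ip_pRegularPart_both, BT.ip_pRegularPart_left_eq_right, ← h2,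
        BT.pRegularPart_eq_sum_bset C.hM hB' hχ, CT.ip_sum_right]
      refine sum_eq_zero fun ψ hψ => ?_
      rw [CT.ip_smul_right]
      refine mul_eq_zero_of_right _ (CT.ip_irr_ne (χ := hb.chr hn a1) fun e => ?_)
      exact hc Λ' a1 a2 ψ (BT.mem_bset.1 hψ) (congrArg Subtype.val e).symm)
  rw [ipH, cf_reg', CT.ip_self_eq_zero, ← h2] at h3
  have h4 := congrFun h3 1
  rw [CT.pRegularPart_apply, orderOf_one, if_neg C.hp.not_dvd_one] at h4
  exact CT.irr_apply_one_ne_zero χ h4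

variable [hW : TwM F] [hD : DefF F] [hC : CntA F] [hN : CntB.{u}]

theorem rank_le_NR {K : Type} [Field K] [Fintype K] [Algebra F K] (C : Ctx F K) {n : ℕ}
    (h0 : 0 < n) (hn : n ≤ C.N) {b : Set (IrrCharacter (NR (⊥ : Subgroup Fˣ) n))}
    (hb : IsPBlock C.M b) {Q : Subgroup (NR (⊥ : Subgroup Fˣ) n)} (hQ : IsDefectGroup C.p C.M b Q)
    {s : ℕ} (hs : SectionalPRankLE C.p s Q) : blockRank C.p b ≤ C.p ^ s := by
  rcases le_or_gt s 1 with h1 | h1
  · exact rank_le_of_le_one C.hM hb hQ hs h1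
  obtain ⟨π₁, π, hM⟩ := hW.exists_models C
  obtain ⟨θ, hθ⟩ := BT.block_nonempty C.hM hb
  obtain ⟨χ, hχ⟩ := CT.exists_irr_liesOver θ
  have hB' := BT.isPBlock_blockOf (M := C.M) χ
  have hc : BT.Covers (NR ⊥ n) (blockOf C.M χ.1) b :=
    ⟨χ, BT.mem_blockOf_self C.hM χ, θ, hθ, hχ⟩
  obtain ⟨P, hP, e⟩ := Cfsg.Agent.S4438.result C.p C.M C.hM (NR ⊥ n) b hb (Q.map (NR ⊥ n).subtype)
    (Subgroup.map_subtype_le Q) (by rwa [Subgroup.subgroupOf,
      Subgroup.comap_map_eq_self_of_injective (NR ⊥ n).subtype_injective]) _ hB'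
    ((BT.covers_iff_classInner _ _ _).1 hc)
  obtain ⟨Λ, a1, a2, χ', a3, a4⟩ := hM.base.exists_pl hn hB'
  have hs' : SectionalPRankLE C.p s ↥(P ⊓ NR ⊥ n) := by
    rw [e]
    exact sectional_of_injective
      (Q.equivMapOfInjective _ (NR ⊥ n).subtype_injective).symm.toMonoidHom (MulEquiv.injective _) hs
  obtain ⟨b1, b2, b3⟩ := hD.bound C hM.base hn a1 a2 hB' a3 a4 hP hs'
  obtain ⟨m₀, c1, c2⟩ := hN.count C hn a1 a2 h1 b1 b2 b3 h0
  exact Nat.le_of_mul_le_mul_left ((hC.rank_le C hM h0 hn a1 a2 hB' a3 a4 hb hc c1).trans c2)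
    (orderOf_pos m₀)

theorem rank_le_SL {n : ℕ} (h0 : 0 < n) (p : ℕ) [Fact p.Prime] (hp : p ≠ ringChar F)
    (M : Ideal AlgInt) (hM : IsPModular p M) (B : Set (IrrCharacter (SpecialLinearGroup (Fin n) F)))
    (hB' : IsPBlock M B) (D : Subgroup (SpecialLinearGroup (Fin n) F))
    (hD' : IsDefectGroup p M B D) (s : ℕ) (hs : SectionalPRankLE p s D) :
    blockRank p B ≤ p ^ s := by
  obtain ⟨K, _, _, _, C, h1, rfl, rfl⟩ := exists_ctx n h0 p hp M hM
  rw [← BT.blockRank_mapSet (slEquiv n)]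
  exact rank_le_NR C h0 h1.ge (BT.isPBlock_mapSet _ hB') (BT.isDefectGroup_mapSet _ hD')
    (sectional_of_injective (D.equivMapOfInjective _ (slEquiv n).injective).symm.toMonoidHom
      (MulEquiv.injective _) hs)

end GLH
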