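import Cfsg.Agent.Lib.GL.St
import Cfsg.Agent.Lib.Char.Mackey
import Mathlib.LinearAlgebra.Matrix.Permutation
import Mathlib.GroupTheory.Perm.Fin

/-!
# Block matrices, coordinate subspaces and double cosets of parabolic subgroups
-/

set_option autoImplicit false
set_option linter.unusedSectionVars false

namespace GLH.Mk

open Finset Matrix Module
open scoped Classical ComplexConjugate

universe u

variable {F : Type u} [Field F] {a b c d n N : ℕ}

/-- rectangular matrices -/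
abbrev Rm (F : Type u) (a b : ℕ) : Type u := Matrix (Fin a) (Fin b) F

/-- entries extended by zero -/
def ex (B : Rm F a b) (i j : ℕ) : F := if h : i < a ∧ j < b then B ⟨i, h.1⟩ ⟨j, h.2⟩ else 0

theorem ext_eq (M : Mat F n) (i j : ℕ) : ext M i j = ex M i j := rfl

theorem ex_val (B : Rm F a b) (i : Fin a) (j : Fin b) : ex B i j = B i j := by simp [ex]

theorem ex_mk (B : Rm F a b) {i j : ℕ} (hi : i < a) (hj : j < b) :
    ex B i j = B ⟨i, hi⟩ ⟨j, hj⟩ := dif_pos ⟨hi, hj⟩

theorem ex_out (B : Rm F a b) {i j : ℕ} (h : a ≤ i ∨ b ≤ j) : ex B i j = 0 :=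
  dif_neg (by omega)

@[simp] theorem ex_zero (i j : ℕ) : ex (0 : Rm F a b) i j = 0 := by simp [ex]

theorem ex_inj {B C : Rm F a b} (h : ∀ i j, i < a → j < b → ex B i j = ex C i j) : B = C :=
  Matrix.ext fun i j => by rw [← ex_val B, ← ex_val C, h _ _ i.2 j.2]

theorem eq_zero_iff {B : Rm F a b} : B = 0 ↔ ∀ i j, i < a → j < b → ex B i j = 0 :=
  ⟨fun h _ _ _ _ => by rw [h, ex_zero], fun h => ex_inj fun i j hi hj => by rw [h i j hi hj, ex_zero]⟩

theorem ex_add (B C : Rm F a b) (i j : ℕ) : ex (B + C) i j = ex B i j + ex C i j := by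
  unfold ex; split_ifs <;> simp

/-- four blocks -/
def rb (A : Rm F a c) (B : Rm F a d) (C : Rm F b c) (D : Rm F b d) : Rm F (a + b) (c + d) :=
  reindex finSumFinEquiv finSumFinEquiv (fromBlocks A B C D)

theorem cat_eq (A : Mat F a) (B : Rm F a b) (D : Mat F b) : cat A B D = rb A B 0 D := rfl

theorem ex_rb (A : Rm F a c) (B : Rm F a d) (C : Rm F b c) (D : Rm F b d) (i j : ℕ) :
    ex (rb A B C D) i j = if i < a then (if j < c then ex A i j else ex B i (j - c))
      else if j < c then ex C (i - a) j else ex D (i - a) (j - c) := by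
  by_cases h : i < a + b ∧ j < c + d
  · obtain ⟨s, hs⟩ := finSumFinEquiv.surjective ⟨i, h.1⟩
    obtain ⟨t, ht⟩ := finSumFinEquiv.surjective ⟨j, h.2⟩
    rw [ex_mk _ h.1 h.2, ← hs, ← ht]
    replace hs := congrArg Fin.val hs
    replace ht := congrArg Fin.val ht
    rcases s with s | s <;> rcases t with t | t <;> simp at hs ht <;> subst hs ht <;>
      simp [rb, ex_val]
  · rw [ex_out _ (by omega)]
    split_ifs <;> rw [ex_out _ (by omega)]

theorem ex_cat (A : Mat F a) (B : Rm F a b) (D : Mat F b) (i j : ℕ) :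
    ex (cat A B D) i j = if i < a then (if j < a then ex A i j else ex B i (j - a))
      else if j < a then 0 else ex D (i - a) (j - a) := by rw [cat_eq, ex_rb, ex_zero]

theorem ex_blk (M : Mat F n) (s k : ℕ) {i j : ℕ} (hi : i < k) (hj : j < k) :
    ex (blk M s k) i j = ex M (s + i) (s + j) := ex_mk _ hi hj

theorem tri_iff {M : Mat F n} : Tri a M ↔ ∀ i j, j < a → a ≤ i → ex M i j = 0 := by
  refine ⟨fun h i j hj hi => ?_, fun h i j hj hi => by rw [← ex_val M, h _ _ hj hi]⟩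
  unfold ex
  split_ifs with e
  · exact h _ _ hj hi
  · rfl

theorem val_congr (f : Fn F) {n n' : ℕ} (h : n = n') {M : Mat F n} {M' : Mat F n'}
    (e : ∀ i j, i < n → j < n → ex M i j = ex M' i j) : f n M = f n' M' := by
  subst h; rw [ex_inj e]

/-- the blocks of a matrix -/
noncomputable def rbE : Rm F a c × Rm F a d × Rm F b c × Rm F b d ≃ Rm F (a + b) (c + d) where
  toFun x := rb x.1 x.2.1 x.2.2.1 x.2.2.2
  invFun M := let M' := reindex finSumFinEquiv.symm finSumFinEquiv.symm M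
    (M'.toBlocks₁₁, M'.toBlocks₁₂, M'.toBlocks₂₁, M'.toBlocks₂₂)
  left_inv x := by simp [rb]
  right_inv M := by simp [rb, fromBlocks_toBlocks]

theorem tri_rb {A : Mat F a} {B : Rm F a b} {C : Rm F b a} {D : Mat F b} :
    Tri a (rb A B C D : Mat F (a + b)) ↔ C = 0 := by
  refine ⟨fun h => eq_zero_iff.2 fun i j _ hj => ?_, fun h => h ▸ tri_cat A B D⟩
  simpa [ex_rb, hj] using tri_iff.1 h (a + i) j hj (by omega)

section Sums
variable [Fintype F]

theorem sum_rb (Φ : Rm F (a + b) (c + d) → ℂ) :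
    ∑ M, Φ M = ∑ A, ∑ B, ∑ C, ∑ D, Φ (rb A B C D) := by
  rw [← rbE.sum_comp]
  simp only [Fintype.sum_prod_type]
  rfl

theorem sum_tri (Φ : Mat F (a + b) → ℂ) :
    ∑ M, (if Tri a M then Φ M else 0) = ∑ A, ∑ D, ∑ B, Φ (cat A B D) := by
  rw [sum_rb]
  refine sum_congr rfl fun A _ => ?_
  rw [sum_comm (γ := Mat F b)]
  refine sum_congr rfl fun B _ => ?_
  simp only [tri_rb]
  rw [sum_comm]
  simp [cat_eq]

theorem sum_units (Φ : Mat F n → ℂ) (h : ∀ M, ¬ IsUnit M → Φ M = 0) :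
    ∑ g : G F n, Φ g.1 = ∑ M, Φ M := by
  refine sum_of_injOn Units.val Units.val_injective.injOn (fun _ _ => mem_univ _)
    (fun M _ hM => h M fun ⟨g, e⟩ => hM ⟨g, by simp, e⟩) fun _ _ => rfl

theorem card_G (n : ℕ) : (Nat.card (G F n) : ℂ) = ∑ M : Mat F n, if IsUnit M then 1 else 0 := by
  rw [← sum_units _ fun M h => if_neg h]
  simp

theorem card_G_ne (n : ℕ) : (Nat.card (G F n) : ℂ) ≠ 0 := Nat.cast_ne_zero.2 Nat.card_pos.ne'

theorem card_Rm_ne (a b : ℕ) : (Fintype.card (Rm F a b) : ℂ) ≠ 0 :=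
  Nat.cast_ne_zero.2 Fintype.card_ne_zero

theorem sum_cnj (h : G F n) (Φ : Mat F n → ℂ) : ∑ M, Φ (cnj h M) = ∑ M, Φ M :=
  Equiv.sum_comp ⟨cnj h, cnj h⁻¹, fun M => by rw [← cnj_mul, mul_inv_cancel, cnj_one],
    fun M => by rw [← cnj_mul, inv_mul_cancel, cnj_one]⟩ Φ

theorem dt_conj (μ : Fˣ →* ℂˣ) (h : G F n) : dt μ h * conj (dt μ h) = 1 := by
  have : ‖dt μ h‖ = 1 := by
    refine (pow_eq_one_iff_of_nonneg (norm_nonneg _) (Fintype.card_ne_zero (α := Fˣ))).1 ?_
    rw [← norm_pow, dt, ← Units.val_pow_eq_pow_val, ← map_pow, pow_card_eq_one, map_one,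
      Units.val_one, norm_one]
  rw [Complex.mul_conj, Complex.normSq_eq_norm_sq, this]; simp

end Sums

/-! ### coordinate subspaces -/

variable (F) in
/-- the vectors supported in `I` -/
def Ec (I : Finset (Fin N)) : Submodule F (Fin N → F) where
  carrier := {v | ∀ i, i ∉ I → v i = 0}
  add_mem' := fun hv hw i hi => by simp [hv i hi, hw i hi]
  zero_mem' := fun _ _ => rfl
  smul_mem' := fun c v hv i hi => by simp [hv i hi]

theorem finrank_Ec (I : Finset (Fin N)) : finrank F (Ec F I) = I.card := by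
  let e : Ec F I ≃ₗ[F] (I → F) :=
    { toFun := fun v i => v.1 i
      invFun := fun w => ⟨fun i => if h : i ∈ I then w ⟨i, h⟩ else 0, fun i hi => dif_neg hi⟩
      map_add' := fun _ _ => rfl
      map_smul' := fun _ _ => rfl
      left_inv := fun v => Subtype.ext (funext fun i => by
        by_cases h : i ∈ I
        · exact dif_pos h
        · exact (dif_neg h).trans (v.2 i h).symm)
      right_inv := fun w => funext fun i => dif_pos i.2 }
  rw [e.finrank_eq]; simp

variable (F N) in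
/-- the span of the first `a` basis vectors -/
def E (a : ℕ) : Submodule F (Fin N → F) := Ec F (univ.filter fun i => i.1 < a)

theorem mem_E {v : Fin N → F} : v ∈ E F N a ↔ ∀ i : Fin N, a ≤ i.1 → v i = 0 :=
  forall_congr' fun i => by simp

theorem finrank_E (h : a ≤ N) : finrank F (E F N a) = a := by
  rw [E, finrank_Ec, Fin.card_filter_val_lt, min_eq_right h]

theorem E_top : E F N N = ⊤ := eq_top_iff.2 fun _ _ => mem_E.2 fun i hi => absurd i.2 (by omega)

theorem single_mem_E {j : Fin N} (h : j.1 < a) : Pi.single j (1 : F) ∈ E F N a :=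
  mem_E.2 fun _ hi => Pi.single_eq_of_ne (fun e => by subst e; omega) _

theorem tri_iff_E {M : Mat F N} : Tri a M ↔ ∀ v ∈ E F N a, M *ᵥ v ∈ E F N a := by
  refine ⟨fun h v hv => mem_E.2 fun i hi => ?_, fun h i j hj hi => ?_⟩
  · refine (sum_eq_zero fun j _ => ?_ : ∑ j, M i j * v j = 0)
    by_cases e : j.1 < a
    · rw [h i j e hi, zero_mul]
    · rw [mem_E.1 hv j (by omega), mul_zero]
  · simpa using mem_E.1 (h _ (single_mem_E hj)) i hi

/-- the image of a subspace -/
def im (h : G F N) (W : Submodule F (Fin N → F)) : Submodule F (Fin N → F) :=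
  W.comap (toLin' (h⁻¹).1)

theorem mem_im {h : G F N} {W : Submodule F (Fin N → F)} {v : Fin N → F} :
    v ∈ im h W ↔ (h⁻¹).1 *ᵥ v ∈ W := Iff.rfl

theorem im_mul (g h : G F N) (W : Submodule F (Fin N → F)) : im (g * h) W = im g (im h W) := by
  ext v; simp [mem_im]

theorem im_one (W : Submodule F (Fin N → F)) : im 1 W = W := by ext v; simp [mem_im]

theorem im_inf (g : G F N) (W W' : Submodule F (Fin N → F)) : im g (W ⊓ W') = im g W ⊓ im g W' :=
  rfl

theorem mulVec_mem_im {h : G F N} {W : Submodule F (Fin N → F)} {v : Fin N → F} :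
    h.1 *ᵥ v ∈ im h W ↔ v ∈ W := by simp [mem_im]

theorem finrank_im (h : G F N) (W : Submodule F (Fin N → F)) :
    finrank F (im h W) = finrank F W := by
  have : im h W = W.map (toLin'OfInv h.inv_mul h.mul_inv : (Fin N → F) →ₗ[F] _) := by
    rw [Submodule.map_equiv_eq_comap_symm]; rfl
  rw [this, LinearEquiv.finrank_map_eq]

theorem tri_iff_im {h : G F N} : Tri a h.1 ↔ im h (E F N a) = E F N a := by
  refine ⟨fun ht => (Submodule.eq_of_le_of_finrank_eq (fun v hv => ?_) (finrank_im _ _)),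
    fun e => tri_iff_E.2 fun v hv => e ▸ mulVec_mem_im.2 hv⟩
  simpa using tri_iff_E.1 ht _ hv

variable (F N) in
/-- the parabolic subgroup -/
def Pb (a : ℕ) : Subgroup (G F N) where
  carrier := {h | Tri a h.1}
  mul_mem' := fun {g h} hg hh => tri_iff_im.2 (by rw [im_mul, tri_iff_im.1 hh, tri_iff_im.1 hg])
  one_mem' := tri_iff_im.2 (im_one _)
  inv_mem' := fun {g} hg => tri_iff_im.2 (by
    conv_lhs => rw [← tri_iff_im.1 hg, ← im_mul, inv_mul_cancel, im_one])

theorem mem_Pb {h : G F N} : h ∈ Pb F N a ↔ Tri a h.1 := Iff.rfl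

theorem exists_eq_mul {g h : G F N} (e : im g (E F N a) = im h (E F N a)) :
    ∃ q ∈ Pb F N a, h = g * q :=
  ⟨g⁻¹ * h, tri_iff_im.2 (by rw [im_mul, ← e, ← im_mul, inv_mul_cancel, im_one]), by simp⟩

theorem exists_equiv {V : Type*} [AddCommGroup V] [Module F V] [FiniteDimensional F V]
    {U W W' : Submodule F V} (h1 : finrank F W = finrank F W')
    (h2 : finrank F ↥(W ⊓ U) = finrank F ↥(W' ⊓ U)) :
    ∃ g : V ≃ₗ[F] V, (∀ v ∈ U, g v ∈ U) ∧ ∀ v ∈ W, g v ∈ W' := by
  obtain ⟨C, c1, c2⟩ := IsModularLattice.exists_disjoint_and_sup_eq (inf_le_left : W ⊓ U ≤ W)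
  obtain ⟨C', d1, d2⟩ := IsModularLattice.exists_disjoint_and_sup_eq (inf_le_left : W' ⊓ U ≤ W')
  have key : ∀ {W C : Submodule F V}, Disjoint (W ⊓ U) C → W ⊓ U ⊔ C = W →
      Disjoint U C ∧ finrank F ↥(W ⊓ U) + finrank F C = finrank F W := fun {W C} c1 c2 =>
    ⟨Submodule.disjoint_def.2 fun x hx hc => Submodule.disjoint_def.1 c1 x
      ⟨c2.le (Submodule.mem_sup_right hc), hx⟩ hc, by
      rw [← Submodule.finrank_sup_add_finrank_inf_eq, c1.eq_bot, c2, finrank_bot, add_zero]⟩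
  obtain ⟨φ⟩ : Nonempty (C ≃ₗ[F] C') := FiniteDimensional.nonempty_linearEquiv_of_finrank_eq (by
    have := (key c1 c2).2; have := (key d1 d2).2; omega)
  obtain ⟨ψ⟩ : Nonempty (((W ⊓ U).comap U.subtype) ≃ₗ[F] ((W' ⊓ U).comap U.subtype)) :=
    FiniteDimensional.nonempty_linearEquiv_of_finrank_eq (by
      rw [(Submodule.comapSubtypeEquivOfLe inf_le_right).finrank_eq,
        (Submodule.comapSubtypeEquivOfLe inf_le_right).finrank_eq, h2])
  obtain ⟨χ, hχ⟩ := Submodule.exists_linearEquiv_restrict_eq ψ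
  have inj : ∀ {C : Submodule F V}, Disjoint U C → Function.Injective (U.subtype.coprod C.subtype) :=
    fun h => by
      rw [← LinearMap.ker_eq_bot, LinearMap.ker_coprod_of_disjoint_range] <;> simp [h]
  obtain ⟨g, hg⟩ := Submodule.exists_linearEquiv_restrict_eq
    ((LinearEquiv.ofInjective _ (inj (key c1 c2).1)).symm ≪≫ₗ χ.prodCongr φ ≪≫ₗ
      LinearEquiv.ofInjective _ (inj (key d1 d2).1))
  have hg' : ∀ (x : U) (y : C), g (x + y) = χ x + φ y := fun x y => by
    simpa using (hg (LinearEquiv.ofInjective _ (inj (key c1 c2).1) (x, y))).symm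
  refine ⟨g, fun v hv => ?_, fun v hv => ?_⟩
  · have := hg' ⟨v, hv⟩ 0
    simp only [ZeroMemClass.coe_zero, add_zero, map_zero] at this
    exact this ▸ (χ _).2
  obtain ⟨x, hx, y, hy, rfl⟩ := Submodule.mem_sup.1 (c2.ge hv)
  rw [hg' ⟨x, hx.2⟩ ⟨y, hy⟩, ← hχ ⟨⟨x, hx.2⟩, hx⟩]
  exact add_mem (ψ _).2.1 (d2.le (Submodule.mem_sup_right (φ _).2))

theorem exists_Pb {W W' : Submodule F (Fin N → F)} (h1 : finrank F W = finrank F W')
    (h2 : finrank F ↥(W ⊓ E F N c) = finrank F ↥(W' ⊓ E F N c)) :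
    ∃ g ∈ Pb F N c, im g W = W' := by
  obtain ⟨g, g1, g2⟩ := exists_equiv h1 h2
  let x : G F N := ⟨LinearMap.toMatrix' g.toLinearMap, LinearMap.toMatrix' g.symm.toLinearMap,
    by rw [← LinearMap.toMatrix'_comp]; simp, by rw [← LinearMap.toMatrix'_comp]; simp⟩
  have hx : ∀ v, x.1 *ᵥ v = g v := fun v => by
    rw [← toLin'_apply, toLin'_toMatrix']; rfl
  refine ⟨x, tri_iff_E.2 fun v hv => hx v ▸ g1 v hv, Submodule.eq_of_le_of_finrank_eq
    (fun v hv => ?_) ((finrank_im _ _).trans h1)⟩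
  have := g2 _ (mem_im.1 hv)
  rwa [← hx, mulVec_mulVec, Units.mul_inv, one_mulVec] at this

/-! ### the block swap -/

/-- the numeric block swap -/
def sn (e j f i : ℕ) : ℕ := if i < e then i else if i < e + j then i + f else
  if i < e + j + f then i - j else i

/-- interchange of the segments `[e, e + j)` and `[e + j, e + j + f)` -/
def sw (e j f : ℕ) (h : e + j + f ≤ N) : Equiv.Perm (Fin N) where
  toFun i := ⟨sn e j f i, by have := i.2; unfold sn; split_ifs <;> omega⟩
  invFun i := ⟨sn e f j i, by have := i.2; unfold sn; split_ifs <;> omega⟩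
  left_inv i := Fin.ext (by simp only [sn]; split_ifs <;> omega)
  right_inv i := Fin.ext (by simp only [sn]; split_ifs <;> omega)

theorem sign_sw {e j f : ℕ} (h : e + j + f ≤ N) : (sw e j f h).sign = (-1) ^ (j * f) := by
  have c : ∀ s t, s + t ≤ N → #{i : Fin N | s ≤ i.1 ∧ i.1 < s + t} = t := fun s t hst => by
    rw [← card_map Fin.valEmbedding, show t = #(Ico s (s + t)) by simp]
    congr 1
    ext x
    simp only [mem_map, mem_filter, mem_univ, true_and, Fin.valEmbedding_apply, mem_Ico,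
      Nat.card_Ico, add_tsub_cancel_left]
    exact ⟨fun ⟨y, hy, e⟩ => e ▸ hy, fun hx => ⟨⟨x, by omega⟩, hx, rfl⟩⟩
  rw [Equiv.Perm.sign_eq_prod_prod_Ioi, mul_comm, pow_mul]
  conv_rhs => rw [← c e j (by omega), ← prod_const, prod_filter]
  refine prod_congr rfl fun i _ => ?_
  split_ifs with hi
  · conv_rhs => rw [← c (e + j) f h, ← prod_const, prod_filter]
    rw [← prod_filter_mul_prod_filter_not univ (i < ·),
      prod_eq_one (s := filter (fun x => ¬ i < x) _) fun x hx => if_neg (by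
        simp only [mem_filter, Fin.lt_def] at hx; omega), mul_one]
    refine prod_congr (by ext; simp) fun x hx => ?_
    simp only [mem_filter, Fin.lt_def, sw, Equiv.coe_fn_mk, sn] at hx ⊢
    split_ifs <;> first | rfl | omega
  · refine prod_eq_one fun x hx => if_pos ?_
    simp only [mem_Ioi, Fin.lt_def, sw, Equiv.coe_fn_mk, sn] at hx ⊢
    split_ifs <;> omega

variable (F) in
/-- the permutation matrix -/
def pw (σ : Equiv.Perm (Fin N)) : G F N := permMatrixHom.toHomUnits σ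

theorem pw_inv_val (σ : Equiv.Perm (Fin N)) : ((pw F σ)⁻¹).1 = σ.permMatrix F := by
  rw [pw, ← map_inv]; rfl

theorem cnj_pw (σ : Equiv.Perm (Fin N)) (M : Mat F N) : cnj (pw F σ) M = M.submatrix σ σ := by
  rw [cnj, pw_inv_val]
  change _ * (σ⁻¹).permMatrix F = _
  rw [PEquiv.toMatrix_toPEquiv_mul, PEquiv.mul_toMatrix_toPEquiv]
  rfl

theorem dt_sw (μ : Fˣ →* ℂˣ) {e j f : ℕ} (h : e + j + f ≤ N) :
    dt μ (pw F (sw e j f h)) = ((μ (-1) : ℂˣ) : ℂ) ^ (j * f) := by
  rw [dt, ← Units.val_pow_eq_pow_val, ← map_pow]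
  congr 2
  ext
  simp [pw, sign_sw]

theorem ex_sw {e j f : ℕ} (h : e + j + f ≤ N) (M : Mat F N) (i i' : ℕ) :
    ex (cnj (pw F (sw e j f h)) M) i i' = ex M (sn e j f i) (sn e j f i') := by
  rw [cnj_pw]
  by_cases hi : i < N ∧ i' < N
  · rw [ex_mk _ hi.1 hi.2, submatrix_apply, ← ex_val M]; rfl
  · rw [ex_out _ (by omega), ex_out _ (by unfold sn; split_ifs <;> omega)]

theorem mem_im_sw {e j f : ℕ} (h : e + j + f ≤ N) {v : Fin N → F} :
    v ∈ im (pw F (sw e j f h)) (E F N (e + j)) ↔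
      ∀ i : Fin N, (e ≤ i.1 ∧ i.1 < e + f) ∨ e + j + f ≤ i.1 → v i = 0 := by
  rw [mem_im, pw_inv_val, permMatrix_mulVec, mem_E, (sw e j f h).symm.surjective.forall]
  refine forall_congr' fun i => ?_
  rw [Function.comp_apply, Equiv.apply_symm_apply]
  refine imp_congr_left ?_
  change e + j ≤ sn e f j i ↔ _
  unfold sn; split_ifs <;> omega

theorem im_sw_inf {e j f : ℕ} (h : e + j + f ≤ N) :
    im (pw F (sw e j f h)) (E F N (e + j)) ⊓ E F N (e + f) = E F N e := by
  ext v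
  rw [Submodule.mem_inf, mem_im_sw, mem_E, mem_E]
  refine ⟨fun hv i hi => ?_, fun hv => ⟨fun i hi => hv i (by omega), fun i hi => hv i (by omega)⟩⟩
  by_cases e' : i.1 < e + f
  · exact hv.1 i (Or.inl ⟨hi, e'⟩)
  · exact hv.2 i (by omega)

end GLH.Mk
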