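import Cfsg.Agent.Lib.GL.MkA

/-!
# The Mackey formula in the twisted Hall algebra
-/

set_option autoImplicit false
set_option linter.unusedSectionVars false

namespace GLH.Mk

open Finset Matrix Module
open scoped Classical ComplexConjugate

universe u

theorem sum_dcoset {Γ : Type*} [Group Γ] [Fintype Γ] (M K : Subgroup Γ) (t : Γ) (S : Γ → ℂ)
    (hS : ∀ m ∈ M, ∀ k ∈ K, S (m * t * k) = S t) (Q : Γ → Prop) [DecidablePred Q]
    (hQ : ∀ x, Q x ↔ ∃ m ∈ M, ∃ k ∈ K, x = m * t * k) :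
    (Nat.card M : ℂ)⁻¹ * (Nat.card K : ℂ)⁻¹ * ∑ x with Q x, S x =
      (Nat.card (CT.mackeySub M K t) : ℂ)⁻¹ * S t := by
  have h := CT.sum_mul_mul_eq_card_mackeySub_mul M K t S
  rw [sum_congr rfl fun (y : M) _ => sum_congr rfl fun (k : K) _ => hS _ y.2 _ k.2] at h
  simp only [sum_const, card_univ, nsmul_eq_mul, ← Nat.card_eq_fintype_card, ← hQ] at h
  have h1 : (Nat.card M : ℂ) ≠ 0 := Nat.cast_ne_zero.2 Nat.card_pos.ne'
  have h2 : (Nat.card K : ℂ) ≠ 0 := Nat.cast_ne_zero.2 Nat.card_pos.ne'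
  have h3 : (Nat.card (CT.mackeySub M K t) : ℂ) ≠ 0 := Nat.cast_ne_zero.2 Nat.card_pos.ne'
  have h4 : (Nat.card M : ℂ) * (Nat.card K * S t) =
      Nat.card (CT.mackeySub M K t) * ∑ x with Q x, S x := by convert h
  field_simp
  linear_combination -h4

variable {F : Type u} [Field F] [Fintype F] {μ : Fˣ →* ℂˣ} {a b n k N : ℕ}

/-- inflation to the parabolic subgroup -/
noncomputable def tr (a b : ℕ) (f g : H μ) (M : Mat F N) : ℂ :=
  if Tri a M then f.1 a (blk M 0 a) * g.1 b (blk M a b) else 0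

theorem mul_val {f g : H μ} (hf : f ∈ Hn μ a) (hg : g ∈ Hn μ b) (hN : a + b = N) (M : Mat F N) :
    (f * g).1 N M = (Nat.card (Pb F N a) : ℂ)⁻¹ * ∑ h : G F N, dt μ h * tr a b f g (cnj h M) := by
  rw [H.mul_val, hmul, sum_eq_single_of_mem (a, b) (mem_antidiagonal.2 hN)]
  · simp only [tr, mul_ite, mul_zero, mul_assoc]
    rfl
  · intro ab hab hne
    refine mul_eq_zero_of_right _ (sum_eq_zero fun h _ => ?_)
    by_cases e : ab.1 = a
    · have : ab.2 ≠ b := fun e' => hne (Prod.ext e e')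
      simp [hg _ this]
    · simp [hf _ e]

theorem tr_cat (f g : H μ) (A : Mat F a) (B : Rm F a b) (D : Mat F b) :
    tr a b f g (cat A B D) = f.1 a A * g.1 b D := by
  rw [tr, if_pos (tri_cat _ _ _), blk_cat_left, blk_cat_right]

theorem tri_mul {M M' : Mat F N} (h : Tri a M) (h' : Tri a M') : Tri a (M * M') :=
  tri_iff_E.2 fun v hv => mulVec_mulVec v M M' ▸ tri_iff_E.1 h _ (tri_iff_E.1 h' v hv)

theorem tri_cnj {q : G F N} (hq : q ∈ Pb F N a) {M : Mat F N} : Tri a (cnj q M) ↔ Tri a M := by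
  have key : ∀ {q : G F N}, q ∈ Pb F N a → ∀ {M : Mat F N}, Tri a M → Tri a (cnj q M) :=
    fun hq _ h => tri_mul (tri_mul (inv_mem hq :) h) hq
  exact ⟨fun h => by simpa [← cnj_mul] using key (inv_mem hq) h, key hq⟩

theorem eq_cnj {h : G F N} {M M' : Mat F N} (e : h.1 * M' = M * h.1) : M' = cnj h M := by
  rw [cnj, Matrix.mul_assoc, ← e, Units.inv_mul_cancel_left]

theorem tr_cnj (f g : H μ) (hN : a + b = N) {q : G F N} (hq : q ∈ Pb F N a) (M : Mat F N) :
    tr a b f g M = dt μ q * tr a b f g (cnj q M) := by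
  subst hN
  by_cases h : Tri a M
  swap
  · rw [tr, tr, if_neg h, if_neg (mt (tri_cnj hq).1 h), mul_zero]
  obtain ⟨B, hB⟩ := exists_eq_cat hq
  obtain ⟨⟨q1, e1⟩, ⟨q2, e2⟩⟩ := (isUnit_cat _ _ _).1 (hB ▸ q.isUnit)
  rw [← e1, ← e2] at hB
  obtain ⟨C, hC⟩ := exists_eq_cat h
  obtain ⟨C', hC'⟩ := exists_eq_cat ((tri_cnj hq).2 h)
  have e : q.1 * cnj q M = M * q.1 := by rw [cnj, Matrix.mul_assoc, Units.mul_inv_cancel_left]
  generalize cnj q M = M' at hC' e
  generalize blk M 0 a = A, blk M a b = D at hC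
  generalize blk M' 0 a = A', blk M' a b = D' at hC'
  subst hC hC'
  rw [hB, cat_mul, cat_mul] at e
  have h1 := congrArg (blk · 0 a) e
  have h2 := congrArg (blk · a b) e
  simp only [blk_cat_left, blk_cat_right] at h1 h2
  have h3 : dt μ q = dt μ q1 * dt μ q2 := by
    rw [dt, dt, dt, ← Units.val_mul, ← map_mul]
    congr 2
    ext
    simp [hB, det_cat]
  rw [tr_cat, tr_cat, eq_cnj h1, eq_cnj h2, f.2.2 _ q1 A, g.2.2 _ q2 D, h3]
  ring

theorem tr_of_not_isUnit (f g : H μ) (hN : a + b = N) {M : Mat F N} (hM : ¬ IsUnit M) :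
    tr a b f g M = 0 := by
  subst hN
  unfold tr
  split_ifs with h
  · obtain ⟨B, hB⟩ := exists_eq_cat h
    rw [hB, isUnit_cat, not_and_or] at hM
    rcases hM with hM | hM
    · simp [f.2.1 _ _ hM]
    · simp [g.2.1 _ _ hM]
  · rfl

theorem ipH_eq (x y : H μ) (N : ℕ) :
    ipH N x y = (Nat.card (G F N) : ℂ)⁻¹ * ∑ M, x.1 N M * conj (y.1 N M) := by
  rw [ipH, CT.ip_def, ← sum_units _ fun M h => by rw [x.2.1 _ _ h, zero_mul]]
  rfl

theorem ip_mul {f g : H μ} (hf : f ∈ Hn μ a) (hg : g ∈ Hn μ b) (hN : a + b = N) (y : H μ) :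
    ipH N (f * g) y = (Nat.card (Pb F N a) : ℂ)⁻¹ * ∑ M, tr a b f g M * conj (y.1 N M) := by
  have key : ∀ h : G F N, ∑ M, dt μ h * tr a b f g (cnj h M) * conj (y.1 N M) =
      ∑ M, tr a b f g M * conj (y.1 N M) := fun h => by
    rw [← sum_cnj h fun M => tr a b f g M * conj (y.1 N M)]
    refine sum_congr rfl fun M _ => ?_
    rw [y.2.2 N h M, map_mul]
    linear_combination (tr a b f g (cnj h M) * conj (y.1 N (cnj h M))) * dt_conj μ h
  rw [ipH_eq]
  simp only [mul_val hf hg hN, mul_assoc _⁻¹, ← mul_sum, sum_mul]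
  rw [sum_comm, sum_congr rfl fun h _ => key h, sum_const, card_univ, nsmul_eq_mul,
    ← Nat.card_eq_fintype_card, mul_left_comm, inv_mul_cancel_left₀ (card_G_ne N)]

section Four
variable {e f j : ℕ}

theorem le4 : e + j + f ≤ e + f + (j + k) := by omega

local notation "𝐰" => pw F (sw e j f (le4 (k := k)))

theorem tri4 (A : Mat F (e + f)) (D : Mat F (j + k)) (X₁ : Rm F e j) (X₂ : Rm F e k)
    (X₃ : Rm F f j) (X₄ : Rm F f k) :
    Tri (e + j) (cnj 𝐰 (cat A (rb X₁ X₂ X₃ X₄) D)) ↔ Tri e A ∧ Tri j D ∧ X₃ = 0 := by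
  simp only [tri_iff, eq_zero_iff, ex_sw]
  refine ⟨fun H => ⟨fun i i' h1 h2 => ?_, fun i i' h1 h2 => ?_, fun i i' h1 h2 => ?_⟩,
    fun ⟨h1, h2, h3⟩ i i' e1 e2 => ?_⟩
  · by_cases h : i < e + f
    · have := H (i + j) i' (by omega) (by omega)
      simp (disch := omega) only [sn, ex_cat, if_pos, if_neg] at this
      simpa using this
    · exact ex_out _ (by omega)
  · have := H (e + f + j + (i - j)) (e + i') (by omega) (by omega)
    simp (disch := omega) only [sn, ex_cat, if_pos, if_neg] at this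
    convert this using 2 <;> omega
  · have := H (e + j + i) (e + i') (by omega) (by omega)
    simp (disch := omega) only [sn, ex_cat, ex_rb, if_pos, if_neg] at this
    convert this using 2 <;> omega
  · rcases lt_or_ge i' e with c1 | c1 <;> rcases lt_or_ge i (e + j + f) with c2 | c2 <;>
      simp (disch := omega) only [sn, ex_cat, ex_rb, if_pos, if_neg]
    · exact h1 _ _ (by omega) (by omega)
    · exact h3 _ _ (by omega) (by omega)
    · exact h2 _ _ (by omega) (by omega)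

variable (A₁ : Mat F e) (A₂ : Mat F f) (D₁ : Mat F j) (D₂ : Mat F k) (B₁ : Rm F e f)
  (B₂ : Rm F j k) (X₁ : Rm F e j) (X₂ : Rm F e k) (X₄ : Rm F f k)

/-- the general element of the intersection of the two parabolic subalgebras -/
def m4 : Mat F (e + f + (j + k)) := cat (cat A₁ B₁ A₂) (rb X₁ X₂ 0 X₄) (cat D₁ B₂ D₂)

theorem tr_m4 (y z : H μ) : tr (e + j) (f + k) y z (cnj 𝐰 (m4 A₁ A₂ D₁ D₂ B₁ B₂ X₁ X₂ X₄)) =
    y.1 _ (cat A₁ X₁ D₁) * z.1 _ (cat A₂ X₄ D₂) := by
  rw [tr, m4, if_pos ((tri4 _ _ _ _ _ _).2 ⟨tri_cat _ _ _, tri_cat _ _ _, rfl⟩)]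
  refine congrArg₂ (· * ·) (congrArg _ (ex_inj fun i i' h1 h2 => ?_))
    (congrArg _ (ex_inj fun i i' h1 h2 => ?_))
  · rw [ex_blk _ _ _ h1 h2, ex_sw]
    rcases lt_or_ge i e with c1 | c1 <;> rcases lt_or_ge i' e with c2 | c2 <;>
      simp (disch := omega) only [sn, ex_cat, ex_rb, if_pos, if_neg] <;> congr 1 <;> omega
  · rw [ex_blk _ _ _ h1 h2, ex_sw]
    rcases lt_or_ge i f with c1 | c1 <;> rcases lt_or_ge i' f with c2 | c2 <;>
      simp (disch := omega) only [sn, ex_cat, ex_rb, if_pos, if_neg] <;> congr 1 <;> omega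

theorem sum4 (Φ : Mat F (e + f + (j + k)) → ℂ) :
    ∑ M, (if Tri (e + f) M then if Tri (e + j) (cnj 𝐰 M) then Φ M else 0 else 0) =
      ∑ A₁, ∑ A₂, ∑ D₁, ∑ D₂, ∑ B₁, ∑ B₂, ∑ X₁, ∑ X₂, ∑ X₄,
        Φ (m4 A₁ A₂ D₁ D₂ B₁ B₂ X₁ X₂ X₄) := by
  have h1 : ∀ (A : Mat F (e + f)) (D : Mat F (j + k)),
      ∑ B, (if Tri (e + j) (cnj 𝐰 (cat A B D)) then Φ (cat A B D) else 0) =
      if Tri e A then if Tri j D then ∑ X₁, ∑ X₂, ∑ X₄, Φ (cat A (rb X₁ X₂ 0 X₄) D) else 0
        else 0 := fun A D => by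
    rw [sum_rb]
    simp only [tri4]
    split_ifs with h1 h2 <;> simp [*]
  rw [sum_tri]
  simp only [h1, sum_ite_irrel, sum_const_zero]
  rw [sum_tri]
  refine sum_congr rfl fun A₁ _ => sum_congr rfl fun A₂ _ => ?_
  simp only [sum_tri]
  rw [sum_comm]
  refine sum_congr rfl fun D₁ _ => ?_
  rw [sum_comm]
  rfl

end Four

variable (μ) in
/-- one term of the Mackey formula -/
noncomputable def term (e f j k : ℕ) (x p y z : H μ) : ℂ :=
  conj (((μ (-1) : ℂˣ) : ℂ) ^ (j * f)) * ((Nat.card (G F e) : ℂ) * Nat.card (G F f) *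
    Nat.card (G F j) * Nat.card (G F k))⁻¹ *
    ∑ A₁ : Mat F e, ∑ A₂ : Mat F f, ∑ D₁ : Mat F j, ∑ D₂ : Mat F k,
      cop x.1 A₁ A₂ * cop p.1 D₁ D₂ * conj (cop y.1 A₁ D₁ * cop z.1 A₂ D₂)

/-- the function on double cosets -/
noncomputable def dc (n k a b : ℕ) (x p y z : H μ) (h : G F N) : ℂ :=
  conj (dt μ h) * ∑ M, tr n k x p M * conj (tr a b y z (cnj h M))

theorem dc_mul (h1 : n + k = N) (h2 : a + b = N) (x p y z : H μ) (t : G F N) {g q : G F N}
    (hg : g ∈ Pb F N n) (hq : q ∈ Pb F N a) :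
    dc n k a b x p y z (g * t * q) = dc n k a b x p y z t := by
  rw [dc, dc, ← sum_cnj g⁻¹, mul_sum, mul_sum]
  refine sum_congr rfl fun M _ => ?_
  rw [← cnj_mul, mul_assoc g, inv_mul_cancel_left, cnj_mul, tr_cnj y z h2 hq (cnj t M),
    tr_cnj x p h1 hg (cnj g⁻¹ M), ← cnj_mul g⁻¹, inv_mul_cancel, cnj_one]
  simp only [dt_mul, map_mul]
  linear_combination (conj (dt μ t) * conj (dt μ q) * tr n k x p M *
    conj (tr a b y z (cnj q (cnj t M)))) * dt_conj μ g

theorem card_mackey (t : G F N) : (Nat.card (CT.mackeySub (Pb F N n) (Pb F N a) t) : ℂ) =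
    ∑ M : Mat F N, if Tri n M then if Tri a (cnj t M) then (if IsUnit M then 1 else 0) else 0
      else 0 := by
  rw [← sum_units _ fun M h => by simp [h]]
  simp only [Units.isUnit, if_true, ← ite_and, sum_boole]
  rw [← Fintype.card_subtype, ← Nat.card_eq_fintype_card]
  exact congrArg _ (Nat.card_congr ⟨fun m => ⟨m.1.1, m.1.2, m.2⟩, fun m => ⟨⟨m.1, m.2.1⟩, m.2.2⟩,
    fun _ => rfl, fun _ => rfl⟩)

theorem sum_class {e f j k' : ℕ} (hn : n = e + f) (hk : k = j + k') (ha : a = e + j)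
    (hb : b = f + k') (x p y z : H μ) :
    (Nat.card (Pb F (n + k) n) : ℂ)⁻¹ * (Nat.card (Pb F (n + k) a) : ℂ)⁻¹ *
      ∑ h : G F (n + k) with finrank F ↥(im h (E F (n + k) a) ⊓ E F (n + k) n) = e,
        dc n k a b x p y z h = term μ e f j k' x p y z := by
  subst hn hk ha hb
  have hw : finrank F ↥(im (pw F (sw e j f le4)) (E F (e + f + (j + k')) (e + j)) ⊓
      E F _ (e + f)) = e := by rw [im_sw_inf, finrank_E (by omega)]
  rw [sum_dcoset _ _ (pw F (sw e j f le4)) _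
    (fun _ hg _ hq => dc_mul rfl (by omega) x p y z _ hg hq) _ fun h => ⟨fun hh => ?_, ?_⟩]
  rotate_left
  · obtain ⟨g, hg, e1⟩ := exists_Pb (by rw [finrank_im, finrank_im]) (hw.trans hh.symm)
    obtain ⟨q, hq, e2⟩ := exists_eq_mul ((im_mul _ _ _).trans e1)
    exact ⟨g, hg, q, hq, e2⟩
  · rintro ⟨g, hg, q, hq, rfl⟩
    have := finrank_im g (im (pw F (sw e j f le4)) (E F (e + f + (j + k')) (e + j)) ⊓ E F _ (e + f))
    rw [im_inf, tri_iff_im.1 hg, hw] at this
    rwa [im_mul, tri_iff_im.1 hq, im_mul]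
  have e1 : ∀ M : Mat F (e + f + (j + k')), tr (e + f) (j + k') x p M *
      conj (tr (e + j) (f + k') y z (cnj (pw F (sw e j f le4)) M)) =
      if Tri (e + f) M then if Tri (e + j) (cnj (pw F (sw e j f le4)) M) then
        tr (e + f) (j + k') x p M * conj (tr (e + j) (f + k') y z (cnj (pw F (sw e j f le4)) M))
        else 0 else 0 := fun M => by
    split_ifs with h1 h2
    · rfl
    · rw [tr.eq_1 (e + j), if_neg h2, map_zero, mul_zero]
    · rw [tr, if_neg h1, zero_mul]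
  rw [card_mackey, sum4, dc, dt_sw, sum_congr rfl fun M _ => e1 M, sum4, term]
  simp only [tr_m4]
  simp only [m4, tr_cat, isUnit_cat, sum_const, card_univ, nsmul_eq_mul, cop, map_mul,
    map_inv₀, map_natCast, ← mul_sum, ← sum_mul, ← map_sum]
  have e2 : ∑ A₁ : Mat F e, ∑ A₂ : Mat F f, ∑ D₁ : Mat F j, ∑ D₂ : Mat F k',
      (if (IsUnit A₁ ∧ IsUnit A₂) ∧ IsUnit D₁ ∧ IsUnit D₂ then (1 : ℂ) else 0) =
      Nat.card (G F e) * (Nat.card (G F f) * (Nat.card (G F j) * Nat.card (G F k'))) := by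
    have aux : ∀ (n : ℕ) (c : ℂ), ∑ M : Mat F n, (if IsUnit M then c else 0) =
        Nat.card (G F n) * c := fun n c => by simp only [card_G, sum_mul, boole_mul]
    simp only [ite_and, sum_ite_irrel, sum_const_zero, aux, mul_one]
  have c1 := card_Rm_ne (F := F) e f
  have c2 := card_Rm_ne (F := F) j k'
  have c3 := card_Rm_ne (F := F) e j
  have c4 := card_Rm_ne (F := F) e k'
  have c5 := card_Rm_ne (F := F) f k'
  rw [e2]
  simp only [mul_sum _ _ (_ : ℂ)⁻¹, ← mul_assoc, mul_sum _ _ (_ * _)]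
  refine sum_congr rfl fun _ _ => sum_congr rfl fun _ _ => sum_congr rfl fun _ _ =>
    sum_congr rfl fun _ _ => ?_
  have := card_G_ne (F := F)
  simp only [← mul_sum]
  field_simp

theorem ip_mul_mul {x p y z : H μ} (hx : x ∈ Hn μ n) (hp : p ∈ Hn μ k) (hy : y ∈ Hn μ a)
    (hz : z ∈ Hn μ b) (h : a + b = n + k) : ipH (n + k) (x * p) (y * z) =
    ∑ e ∈ range (n + 1), if e ≤ a ∧ a ≤ e + k then
      term μ e (n - e) (a - e) (e + k - a) x p y z else 0 := by
  have h1 : ipH (n + k) (x * p) (y * z) = (Nat.card (Pb F (n + k) n) : ℂ)⁻¹ *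
      (Nat.card (Pb F (n + k) a) : ℂ)⁻¹ * ∑ h : G F (n + k), dc n k a b x p y z h := by
    rw [ip_mul hx hp rfl]
    simp only [mul_val hy hz h, dc, map_mul, map_inv₀, map_natCast, map_sum, mul_sum]
    rw [sum_comm]
    exact sum_congr rfl fun _ _ => sum_congr rfl fun _ _ => by ring
  have h2 : ∀ g : G F (n + k), finrank F ↥(im g (E F (n + k) a) ⊓ E F (n + k) n) ≤ n ∧
      finrank F ↥(im g (E F (n + k) a) ⊓ E F (n + k) n) ≤ a ∧
      a ≤ finrank F ↥(im g (E F (n + k) a) ⊓ E F (n + k) n) + k := fun g => by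
    have e1 := finrank_E (F := F) (show n ≤ n + k by omega)
    have e2 := (finrank_im g _).trans (finrank_E (F := F) (show a ≤ n + k by omega))
    have e3 := Submodule.finrank_sup_add_finrank_inf_eq (im g (E F (n + k) a)) (E F (n + k) n)
    have e4 := Submodule.finrank_le (im g (E F (n + k) a) ⊔ E F (n + k) n)
    have e5 := Submodule.finrank_mono (inf_le_left : im g (E F (n + k) a) ⊓ E F (n + k) n ≤ _)
    have e6 := Submodule.finrank_mono (inf_le_right : im g (E F (n + k) a) ⊓ E F (n + k) n ≤ _)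
    rw [finrank_fin_fun] at e4
    omega
  rw [h1, ← sum_fiberwise_of_maps_to (t := range (n + 1))
    (g := fun g => finrank F ↥(im g (E F (n + k) a) ⊓ E F (n + k) n))
    fun g _ => mem_range.2 (Nat.lt_succ_of_le (h2 g).1), mul_sum]
  refine sum_congr rfl fun e he => ?_
  rw [mem_range] at he
  split_ifs with c
  · exact sum_class (by omega) (by omega) (by omega) (by omega) x p y z
  · refine mul_eq_zero_of_right _ (sum_eq_zero fun g hg => (c ?_).elim)
    rw [mem_filter] at hg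
    exact hg.2 ▸ (h2 g).2

end GLH.Mk
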