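import Cfsg.Agent.Lib.GL.MkB

/-!
# The derivation attached to a primitive; commutativity of the twisted Hall algebra
-/

set_option autoImplicit false
set_option linter.unusedSectionVars false

namespace GLH.Mk

open Finset Matrix Module
open scoped Classical ComplexConjugate

universe u

/-- a subspace containing its orthogonal complement is everything -/
theorem le_of_orth {A : Type*} [AddCommGroup A] [Module ℂ A] (ip : A → A → ℂ)
    (ha : ∀ x y z, ip (x + y) z = ip x z + ip y z) (hs : ∀ (c : ℂ) x z, ip (c • x) z = c * ip x z)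
    (hc : ∀ x y, ip x y = conj (ip y x)) {S Z : Submodule ℂ A} [FiniteDimensional ℂ S]
    (h0 : ∀ x ∈ S, ip x x = 0 → x = 0) (hZ : Z ≤ S)
    (h : ∀ x ∈ S, (∀ z ∈ Z, ip z x = 0) → x ∈ Z) : S ≤ Z := by
  have := Submodule.finiteDimensional_of_le hZ
  let β := finBasis ℂ Z
  let L : S →ₗ[ℂ] (Fin (finrank ℂ Z) → ℂ) :=
    { toFun := fun v i => ip v (β i)
      map_add' := fun v w => funext fun i => ha _ _ _
      map_smul' := fun c v => funext fun i => hs _ _ _ }
  have hL : Function.Injective L := (injective_iff_map_eq_zero L).2 fun v hv => by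
    let φ : Z →ₗ[ℂ] ℂ :=
      { toFun := fun z => ip z v
        map_add' := fun _ _ => ha _ _ _
        map_smul' := fun _ _ => hs _ _ _ }
    have hφ : φ = 0 := β.ext fun i => by
      change ip _ _ = 0
      rw [hc, show ip v (β i) = 0 from congrFun hv i, map_zero]
    have h1 : ∀ z ∈ Z, ip z v = 0 := fun z hz => LinearMap.congr_fun hφ ⟨z, hz⟩
    exact Subtype.ext (h0 v v.2 (h1 v (h v v.2 h1)))
  exact (Submodule.eq_of_le_of_finrank_le hZ
    (by simpa using LinearMap.finrank_le_finrank_of_injective hL)).ge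

variable {F : Type u} [Field F] [Fintype F] {μ : Fˣ →* ℂˣ} {a b n k : ℕ}

theorem ipH_conj (x y : H μ) : ipH n x y = conj (ipH n y x) := (CT.conj_ip _ _).symm

theorem ipH_add (x y z : H μ) : ipH n (x + y) z = ipH n x z + ipH n y z :=
  CT.ip_add_left (H.cf x n) (H.cf y n) (H.cf z n)

theorem ipH_smul (c : ℂ) (x z : H μ) : ipH n (c • x) z = c * ipH n x z :=
  CT.ip_smul_left c (H.cf x n) (H.cf z n)

theorem ipH_sub (x y z : H μ) : ipH n (x - y) z = ipH n x z - ipH n y z :=
  eq_sub_of_add_eq (by rw [← ipH_add, sub_add_cancel])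

theorem ipH_add' (x y z : H μ) : ipH n x (y + z) = ipH n x y + ipH n x z := by
  rw [ipH_conj, ipH_add, map_add, ← ipH_conj, ← ipH_conj]

theorem ipH_sub' (x y z : H μ) : ipH n x (y - z) = ipH n x y - ipH n x z := by
  rw [ipH_conj, ipH_sub, map_sub, ← ipH_conj, ← ipH_conj]

theorem ipH_smul' (c : ℂ) (x z : H μ) : ipH n x (c • z) = conj c * ipH n x z := by
  rw [ipH_conj, ipH_smul, map_mul, ← ipH_conj]

theorem ipH_ne {x : H μ} (hx : x ∈ Hn μ k) (h : n ≠ k) (y : H μ) : ipH n x y = 0 := by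
  simp [ipH_eq, hx n h]

theorem ipH_zero (x : H μ) : ipH n x 0 = 0 := by simp [ipH_eq]

theorem mul_zero' (x : H μ) : x * 0 = 0 := by simpa using H.mul_smul 0 x x

theorem zero_mul' (x : H μ) : 0 * x = 0 := by simpa using H.smul_mul 0 x x

/-- matrices without rows -/
local instance uniqueL : Unique (Rm F 0 k) := inferInstanceAs (Unique (Fin 0 → Fin k → F))

/-- matrices without columns -/
local instance uniqueR : Unique (Rm F k 0) := inferInstanceAs (Unique (Fin k → Fin 0 → F))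

theorem cop_left (f : Fn F) (A : Mat F 0) (D : Mat F k) : cop f A D = f k D := by
  rw [cop, Fintype.card_unique, Fintype.sum_unique, Nat.cast_one, inv_one, one_mul]
  exact val_congr f (zero_add k) fun i j _ _ => by simp [ex_cat]

theorem cop_right (f : Fn F) (A : Mat F k) (D : Mat F 0) : cop f A D = f k A := by
  rw [cop, Fintype.card_unique, Fintype.sum_unique, Nat.cast_one, inv_one, one_mul]
  exact val_congr f (add_zero k) fun i j hi hj => by
    rw [ex_cat, if_pos (show i < k from hi), if_pos (show j < k from hj)]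

theorem card_G_zero : Nat.card (G F 0) = 1 :=
  Nat.card_eq_one_iff_unique.2 ⟨⟨fun x y => by rw [G_zero_eq x, G_zero_eq y]⟩, inferInstance⟩

theorem exists_smul_one {x : H μ} (hx : x ∈ Hn μ 0) : x = x.1 0 1 • (1 : H μ) :=
  H.ext fun n M => by
    rw [H.smul_val, H.one_val]
    split_ifs with h
    · subst h; rw [Mat_zero_eq M, mul_one]
    · rw [hx n h, mul_zero]

theorem one_mem_Hn : (1 : H μ) ∈ Hn μ 0 := fun k hk M => by rw [H.one_val, if_neg hk]

variable [hA : HallA F]

theorem adj' {f g : H μ} (hf : f ∈ Hn μ a) (hg : g ∈ Hn μ b) (y : H μ) :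
    ipH (a + b) (f * g) y = ((Nat.card (G F a) : ℂ) * Nat.card (G F b))⁻¹ *
      ∑ A : Mat F a, ∑ D : Mat F b, f.1 a A * g.1 b D * conj (cop y.1 A D) := by
  rw [hA.adj hf hg, ← sum_units _ fun M h => by simp [f.2.1 _ _ h]]
  congr 1
  exact sum_congr rfl fun A _ => sum_units (fun D => f.1 a A.1 * g.1 b D * conj (cop y.1 A.1 D))
    fun M h => by simp [g.2.1 _ _ h]

theorem eq_of_ip {x y : H μ} (hx : x ∈ Hn μ n) (hy : y ∈ Hn μ n)
    (h : ∀ w ∈ Hn μ n, ipH n w x = ipH n w y) : x = y :=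
  sub_eq_zero.1 (hA.eq_zero (sub_mem hx hy) (by rw [ipH_sub', h _ (sub_mem hx hy), sub_self]))

/-- the adjoint of right multiplication by `p` -/
noncomputable def Dop (k : ℕ) (p : H μ) : H μ →ₗ[ℂ] H μ where
  toFun y := ⟨fun _ A => (Nat.card (G F k) : ℂ)⁻¹ * ∑ D : Mat F k, conj (p.1 k D) * cop y.1 A D,
    fun n A h => by
      have : ∀ (D : Mat F k) B, y.1 _ (cat A B D) = 0 := fun D B =>
        y.2.1 _ _ fun e => h ((isUnit_cat _ _ _).1 e).1
      simp [cop, this],
    fun n h A => by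
      simp only [mul_sum]
      refine sum_congr rfl fun D _ => ?_
      rw [hA.cop_cnj y h 1, cnj_one, dt_one]; ring⟩
  map_add' y z := H.ext fun n A => by
    simp only [H.add_val, cop, sum_add_distrib, mul_add]
  map_smul' c y := H.ext fun n A => by
    simp only [H.smul_val, cop, RingHom.id_apply, mul_sum]
    exact sum_congr rfl fun _ _ => sum_congr rfl fun _ _ => by ring

theorem Dop_val (p y : H μ) (A : Mat F n) : (Dop k p y).1 n A =
    (Nat.card (G F k) : ℂ)⁻¹ * ∑ D : Mat F k, conj (p.1 k D) * cop y.1 A D := rfl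

theorem ip_Dop {x p : H μ} (hx : x ∈ Hn μ n) (hp : p ∈ Hn μ k) (y : H μ) :
    ipH (n + k) (x * p) y = ipH n x (Dop k p y) := by
  rw [adj' hx hp, ipH_eq]
  simp only [Dop_val, map_mul, map_inv₀, map_natCast, map_sum, Complex.conj_conj, mul_sum, mul_inv]
  exact sum_congr rfl fun _ _ => sum_congr rfl fun _ _ => by ring

theorem Dop_mem (p : H μ) {y : H μ} (hy : y ∈ Hn μ (n + k)) : Dop k p y ∈ Hn μ n :=
  fun m hm A => by simp [Dop_val, cop, hy (m + k) (by omega)]

theorem Dop_eq_zero (p : H μ) {y : H μ} (hy : y ∈ Hn μ a) (h : a < k) : Dop k p y = 0 :=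
  H.ext fun m A => by simp [Dop_val, cop, hy (m + k) (by omega)]

theorem term_left {f : ℕ} (x p : H μ) {y z : H μ} (hy : y ∈ Hn μ a) (hz : z ∈ Hn μ (f + k)) :
    term μ a f 0 k x p y z = ipH (a + f) x (y * Dop k p z) := by
  rw [ipH_conj, adj' hy (Dop_mem p hz), term]
  simp only [Fintype.sum_unique, cop_left, cop_right, card_G_zero, Dop_val, map_mul, map_inv₀,
    map_natCast, map_sum, Complex.conj_conj, mul_sum, sum_mul, mul_inv]
  exact sum_congr rfl fun _ _ => sum_congr rfl fun _ _ => sum_congr rfl fun _ _ => by simp; ring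

theorem sign_eq_one (p : H μ) {D : Mat F k} (h : p.1 k D ≠ 0) :
    ((μ (-1) : ℂˣ) : ℂ) ^ (k * b) = 1 := by
  obtain ⟨c, rfl⟩ := hA.dvd_of_ne_zero p h
  rw [← Units.val_pow_eq_pow_val, ← MonoidHom.pow_apply, mul_assoc, pow_mul, pow_orderOf_eq_one]
  simp

theorem sign_mul (p : H μ) (D : Mat F k) :
    conj (((μ (-1) : ℂˣ) : ℂ) ^ (k * b)) * p.1 k D = p.1 k D := by
  by_cases h : p.1 k D = 0
  · rw [h, mul_zero]
  · rw [sign_eq_one p h, map_one, one_mul]

theorem term_right {e : ℕ} (x p : H μ) {y z : H μ} (hy : y ∈ Hn μ (e + k)) (hz : z ∈ Hn μ b) :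
    term μ e b k 0 x p y z = ipH (e + b) x (Dop k p y * z) := by
  rw [ipH_conj, adj' (Dop_mem p hy) hz, term]
  simp only [Fintype.sum_unique, cop_right, card_G_zero, Dop_val, map_mul, map_inv₀,
    map_natCast, map_sum, Complex.conj_conj, mul_sum, sum_mul, mul_inv]
  refine sum_congr rfl fun _ _ => sum_congr rfl fun _ _ => sum_congr rfl fun D _ => ?_
  conv_rhs => rw [← sign_mul (b := b) p D]
  simp; ring

theorem Dop_mul {p y z : H μ} (hk : 0 < k) (hp : p ∈ Pr μ k) (hy : y ∈ Hn μ a) (hz : z ∈ Hn μ b) :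
    Dop k p (y * z) = Dop k p y * z + y * Dop k p z := by
  rcases lt_or_ge (a + b) k with c | c
  · rw [Dop_eq_zero p (hA.mul_mem hy hz) c, Dop_eq_zero p hy (by omega), Dop_eq_zero p hz (by omega),
      mul_zero', zero_mul', add_zero]
  obtain ⟨n, hn⟩ : ∃ n, a + b = n + k := ⟨a + b - k, by omega⟩
  have h1 : Dop k p y * z ∈ Hn μ n := by
    rcases lt_or_ge a k with d | d
    · rw [Dop_eq_zero p hy d, zero_mul']; exact zero_mem _
    · obtain ⟨e, rfl⟩ := Nat.exists_eq_add_of_le' d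
      exact (show e + b = n by omega) ▸ hA.mul_mem (Dop_mem p hy) hz
  have h2 : y * Dop k p z ∈ Hn μ n := by
    rcases lt_or_ge b k with d | d
    · rw [Dop_eq_zero p hz d, mul_zero']; exact zero_mem _
    · obtain ⟨e, rfl⟩ := Nat.exists_eq_add_of_le' d
      exact (show a + e = n by omega) ▸ hA.mul_mem hy (Dop_mem p hz)
  refine eq_of_ip (Dop_mem p (hn ▸ hA.mul_mem hy hz)) (add_mem h1 h2) fun x hx => ?_
  rw [← ip_Dop hx hp.1, ip_mul_mul hx hp.1 hy hz hn, ipH_add',
    sum_congr rfl (g := fun e => (if a - k = e then ipH n x (Dop k p y * z) else 0) +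
      if a = e then ipH n x (y * Dop k p z) else 0) fun e he => ?_, sum_add_distrib, sum_ite_eq,
    sum_ite_eq, if_pos (mem_range.2 (by omega))]
  · split_ifs with d
    · rfl
    · rw [Dop_eq_zero p hz (by rw [mem_range] at d; omega), mul_zero', ipH_zero]
  rw [mem_range] at he
  have d0 : a < k → ipH n x (Dop k p y * z) = 0 := fun d => by
    rw [Dop_eq_zero p hy d, zero_mul', ipH_zero]
  by_cases d1 : a = e
  · subst d1
    obtain ⟨f, rfl⟩ := Nat.exists_eq_add_of_le (show a ≤ n by omega)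
    obtain rfl : b = f + k := by omega
    rw [if_pos (by omega), if_pos rfl, add_tsub_cancel_left, tsub_self, add_tsub_cancel_left,
      term_left x p hy hz]
    split_ifs with d
    · rw [d0 (by omega), zero_add]
    · rw [zero_add]
  by_cases d2 : a = e + k
  · subst d2
    obtain rfl : n = e + b := by omega
    rw [if_pos (by omega), if_pos (by omega), if_neg d1, add_tsub_cancel_left, tsub_self,
      add_tsub_cancel_left, term_right x p hy hz, add_zero]
  rw [if_neg d1, add_zero]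
  have : (if a - k = e then ipH n x (Dop k p y * z) else 0) = 0 := by
    split_ifs with d
    · exact d0 (by omega)
    · rfl
  rw [this]
  split_ifs with d
  · simp [term, hp.2 (a - e) (e + k - a) (by omega) (by omega)]
  · rfl

theorem ip_prim {p p' y z : H μ} {k' : ℕ} (hk : 0 < k) (hk' : 0 < k') (hp : p ∈ Pr μ k)
    (hp' : p' ∈ Pr μ k') (ha : 0 < a) (hb : 0 < b) (hy : y ∈ Hn μ a) (hz : z ∈ Hn μ b)
    (h : a + b = k + k') : ipH (k + k') (p * p') (y * z) =
      ipH k' p' y * ipH k p z + ipH k p y * ipH k' p' z := by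
  have h0 : ∀ {c y}, y ∈ Hn μ c → c ≠ k' → ipH k' p' y = 0 := fun hy e => by
    rw [ipH_conj, ipH_ne hy e.symm, map_zero]
  have h1 : ∀ {y}, y ∈ Hn μ k' → ∃ c : ℂ, Dop k' p' y = c • 1 ∧ conj c = ipH k' p' y :=
    fun {y} hy => by
      have e := exists_smul_one (Dop_mem p' ((zero_add k').symm ▸ hy))
      refine ⟨_, e, ?_⟩
      have := ip_Dop one_mem_Hn hp'.1 y
      rw [e, ipH_smul', ipH_one, mul_one, hA.one_mul, zero_add] at this
      exact this.symm
  have h2 : ∀ {c d y z}, 0 < c → 0 < d → c + d = k → y ∈ Hn μ c → z ∈ Hn μ d →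
      ipH k p (y * z) = 0 := fun hc hd e hy hz => by
    rw [ipH_conj, (hA.mem_Pr hk hp.1).2 hp _ _ _ _ hc hd e hy hz, map_zero]
  rw [ip_Dop hp.1 hp'.1, Dop_mul hk' hp' hy hz, ipH_add']
  congr 1
  · rcases lt_trichotomy a k' with c | rfl | c
    · rw [Dop_eq_zero p' hy c, zero_mul', ipH_zero, h0 hy c.ne, zero_mul]
    · obtain ⟨c, e1, e2⟩ := h1 hy
      rw [e1, H.smul_mul, hA.one_mul, ipH_smul', e2]
    · obtain ⟨e, rfl⟩ := Nat.exists_eq_add_of_le' c.le
      rw [h2 (by omega) hb (by omega) (Dop_mem p' hy) hz, h0 hy c.ne', zero_mul]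
  · rcases lt_trichotomy b k' with c | rfl | c
    · rw [Dop_eq_zero p' hz c, mul_zero', ipH_zero, h0 hz c.ne, mul_zero]
    · obtain ⟨c, e1, e2⟩ := h1 hz
      rw [e1, H.mul_smul, hA.mul_one, ipH_smul', e2, mul_comm]
    · obtain ⟨e, rfl⟩ := Nat.exists_eq_add_of_le' c.le
      rw [h2 ha (by omega) (by omega) hy (Dop_mem p' hz), h0 hz c.ne', mul_zero]

theorem comm_prim {p p' : H μ} {k' : ℕ} (hk : 0 < k) (hk' : 0 < k') (hp : p ∈ Pr μ k)
    (hp' : p' ∈ Pr μ k') : p * p' = p' * p := by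
  have key : ∀ {a b y z}, 0 < a → 0 < b → y ∈ Hn μ a → z ∈ Hn μ b → a + b = k + k' →
      ipH (k + k') (p * p' - p' * p) (y * z) = 0 := fun ha hb hy hz h => by
    rw [ipH_sub, ip_prim hk hk' hp hp' ha hb hy hz h, add_comm k,
      ip_prim hk' hk hp' hp ha hb hy hz (h.trans (add_comm _ _))]
    ring
  refine sub_eq_zero.1 (hA.eq_zero (sub_mem (hA.mul_mem hp.1 hp'.1)
    (add_comm k' k ▸ hA.mul_mem hp'.1 hp.1)) ?_)
  rw [ipH_sub', key hk hk' hp.1 hp'.1 rfl, key hk' hk hp'.1 hp.1 (add_comm _ _), sub_zero]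

theorem comm_of_prim {w : H μ} (h : ∀ k p, 0 < k → p ∈ Pr μ k → w * p = p * w) (n : ℕ) :
    ∀ y ∈ Hn μ n, w * y = y * w := by
  induction n using Nat.strong_induction_on with
  | _ n ih =>
  rcases Nat.eq_zero_or_pos n with rfl | hn
  · intro y hy
    rw [exists_smul_one hy, H.mul_smul, H.smul_mul, hA.mul_one, hA.one_mul]
  let Z : Submodule ℂ (H μ) :=
    { carrier := {y | y ∈ Hn μ n ∧ w * y = y * w}
      add_mem' := fun hy hz => ⟨add_mem hy.1 hz.1, by
        rw [H.left_distrib, H.right_distrib, hy.2, hz.2]⟩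
      zero_mem' := ⟨zero_mem _, by rw [mul_zero', zero_mul']⟩
      smul_mem' := fun c y hy => ⟨Submodule.smul_mem _ c hy.1, by
        rw [H.mul_smul, H.smul_mul, hy.2]⟩ }
  have := hA.fin μ n
  refine fun y hy => (le_of_orth (ipH n) ipH_add ipH_smul ipH_conj (Z := Z)
    (fun x hx => hA.eq_zero hx) (fun _ h => h.1) (fun x hx hz => ⟨hx, h n x hn
      ((hA.mem_Pr hn hx).1 fun a b y z ha hb e hy hz' => hz _ ⟨e ▸ hA.mul_mem hy hz', ?_⟩)⟩) hy).2
  rw [← hA.mul_assoc, ih a (by omega) y hy, hA.mul_assoc, ih b (by omega) z hz', hA.mul_assoc]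

/-- the homogeneous component -/
def hc (a : ℕ) (f : H μ) : H μ :=
  ⟨fun n M => if n = a then f.1 n M else 0, fun n M h => by simp [f.2.1 n M h],
    fun n h M => by simp only [mul_ite, mul_zero, ← f.2.2 n h M]⟩

theorem hc_mem (a : ℕ) (f : H μ) : hc a f ∈ Hn μ a := fun _ h _ => if_neg h

theorem mul_val_sum (f g : H μ) (M : Mat F n) :
    (f * g).1 n M = ∑ ab ∈ antidiagonal n, (hc ab.1 f * hc ab.2 g).1 n M := by
  rw [H.mul_val, hmul]
  refine sum_congr rfl fun ab hab => ?_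
  rw [mul_val (hc_mem _ f) (hc_mem _ g) (mem_antidiagonal.1 hab)]
  simp only [tr, mul_ite, mul_zero, mul_assoc, hc, if_true]
  rfl

theorem hall_comm (f g : H μ) : f * g = g * f := H.ext fun n M => by
  rw [mul_val_sum, mul_val_sum, ← Nat.sum_antidiagonal_swap]
  refine sum_congr rfl fun ab _ => ?_
  rw [comm_of_prim (fun k p hk hp => (comm_of_prim (fun k' p' hk' hp' => comm_prim hk hk' hp hp')
    _ _ (hc_mem _ f)).symm) _ _ (hc_mem _ g)]
  rfl

end GLH.Mk
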