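import Cfsg.Agent.Lib.GL.St
import Mathlib.FieldTheory.Finite.Extension
import Mathlib.GroupTheory.FiniteAbelian.Duality

/-!
# Package G0, first part: Frobenius orbits, minimal polynomials and the pairing
-/

set_option autoImplicit false
set_option linter.unusedSectionVars false

namespace GLH.Ob

open Finset Polynomial Cfsg
open scoped Classical ComplexConjugate

universe u

variable {F : Type u} [Field F] [Fintype F] {K : Type} [Field K] [Fintype K] [Algebra F K]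

theorem emb_inj : Function.Injective (emb K : Fˣ → Kˣ) :=
  Units.map_injective (algebraMap F K).injective

theorem orderOf_emb (m : Fˣ) : orderOf (emb K m) = orderOf m := orderOf_injective _ emb_inj m

theorem emb_pow (c : Fˣ) (i : ℕ) : emb K c ^ Fintype.card F ^ i = emb K c := by
  rw [← map_pow]
  exact congrArg _ (Units.ext (by simpa using FiniteField.pow_card_pow i c.1))

theorem pow_back (ξ : Kˣ) (i : ℕ) :
    (ξ ^ Fintype.card F ^ i) ^ Fintype.card F ^ ((Module.finrank F K - 1) * i) = ξ := by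
  rw [← pow_mul, ← pow_add, add_comm, ← Nat.succ_mul, Nat.succ_eq_add_one,
    Nat.sub_add_cancel Module.finrank_pos, pow_mul, ← Module.card_eq_pow_finrank]
  exact Units.ext (by simpa using FiniteField.pow_card_pow i ξ.1)

theorem frob_inj {i : ℕ} {ξ η : Kˣ} (h : ξ ^ Fintype.card F ^ i = η ^ Fintype.card F ^ i) :
    ξ = η := by
  rw [← pow_back (F := F) ξ i, h, pow_back]

theorem equiv (m : Fˣ) : Equivalence (rel K m) where
  refl ξ := ⟨0, 0, by simp⟩
  symm := by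
    rintro ξ _ ⟨i, j, rfl⟩
    refine ⟨(Module.finrank F K - 1) * i, (orderOf m - 1) * j, ?_⟩
    rw [mul_pow, pow_back, pow_right_comm, emb_pow, ← mul_assoc, ← pow_add, ← Nat.succ_mul,
      Nat.succ_eq_add_one, Nat.sub_add_cancel (orderOf_pos m), pow_mul, ← map_pow,
      pow_orderOf_eq_one, map_one, one_pow, one_mul]
  trans := by
    rintro ξ _ _ ⟨i, j, rfl⟩ ⟨k, l, rfl⟩
    exact ⟨i + k, l + j, by
      rw [mul_pow, pow_right_comm, emb_pow, pow_add, pow_add, pow_mul, mul_assoc]⟩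

theorem mk_eq {m : Fˣ} {ξ η : Kˣ} : Th.mk m ξ = Th.mk m η ↔ rel K m ξ η :=
  Quot.eq.trans (equiv m).eqvGen_iff

theorem rel_rep {m : Fˣ} (ξ : Kˣ) : rel K m ξ (Th.mk m ξ).rep := mk_eq.1 (Th.mk_rep _).symm

theorem mk_one {ξ η : Kˣ} :
    Th.mk (1 : Fˣ) ξ = Th.mk 1 η ↔ ∃ i, η = ξ ^ Fintype.card F ^ i := by
  simp [mk_eq, rel]

theorem exists_pow {L : Type*} [Field L] [Finite L] {e x : Lˣ} (h : x ^ orderOf e = 1) :
    ∃ j : ℕ, e ^ j = x :=
  have : NeZero (orderOf e) := ⟨(orderOf_pos e).ne'⟩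
  ((IsPrimitiveRoot.orderOf e).eq_pow_of_mem_rootsOfUnity h).imp fun _ h => h.2

theorem mk_pow {m : Fˣ} {ξ η : Kˣ} : Th.mk m ξ = Th.mk m η ↔
    Th.mk (1 : Fˣ) (ξ ^ orderOf m) = Th.mk 1 (η ^ orderOf m) := by
  rw [mk_eq, mk_one]
  refine exists_congr fun i => ⟨?_, fun h => ?_⟩
  · rintro ⟨j, rfl⟩
    rw [mul_pow, pow_right_comm, ← map_pow, pow_orderOf_eq_one, map_one, one_pow, one_mul,
      pow_right_comm]
  · obtain ⟨j, hj⟩ := exists_pow (e := emb K m) (x := η / ξ ^ Fintype.card F ^ i) (by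
      rw [orderOf_emb, div_pow, h, pow_right_comm, div_self'])
    exact ⟨j, by rw [hj, div_mul_cancel]⟩

theorem minpoly_eq (ξ η : Kˣ) :
    minpoly F (ξ : K) = minpoly F (η : K) ↔ Th.mk (1 : Fˣ) ξ = Th.mk 1 η := by
  rw [eq_comm, Normal.minpoly_eq_iff_mem_orbit K, mk_one]
  constructor
  · rintro ⟨g, hg⟩
    obtain ⟨i, rfl⟩ := (FiniteField.bijective_frobeniusAlgEquivOfAlgebraic_pow F K).2 g
    refine ⟨i, Units.ext ?_⟩
    rw [← hg, Units.val_pow_eq_pow_val,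
      ← congrFun (FiniteField.coe_frobeniusAlgEquivOfAlgebraic_iterate F K i) ξ, ← AlgEquiv.coe_pow]
    rfl
  · rintro ⟨i, rfl⟩
    refine ⟨FiniteField.frobeniusAlgEquivOfAlgebraic F K ^ i, ?_⟩
    rw [Units.val_pow_eq_pow_val,
      ← congrFun (FiniteField.coe_frobeniusAlgEquivOfAlgebraic_iterate F K i) ξ, ← AlgEquiv.coe_pow]
    rfl

theorem irr_minpoly (x : K) : Irreducible (minpoly F x) :=
  minpoly.irreducible (Algebra.IsIntegral.isIntegral x)

theorem deg_one (ξ : Kˣ) : deg (Th.mk (1 : Fˣ) ξ) = (minpoly F (ξ : K)).natDegree := by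
  have h := irr_minpoly (F := F) (ξ : K)
  rw [← card_rootSet_eq_natDegree (K := K) (Algebra.IsSeparable.isSeparable F (ξ : K))
    (Normal.splits inferInstance _), ← Set.toFinset_card]
  refine card_bij (fun η _ => η.1) (fun η hη => ?_) (fun _ _ _ _ => Units.ext) fun x hx => ?_
  · rw [Set.mem_toFinset, mem_rootSet_of_ne h.ne_zero, ← (minpoly_eq _ _).2 (mem_filter.1 hη).2]
    exact minpoly.aeval F _
  · rw [Set.mem_toFinset, mem_rootSet_of_ne h.ne_zero] at hx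
    have h1 := minpoly.eq_of_irreducible_of_monic h hx
      (minpoly.monic (Algebra.IsIntegral.isIntegral _))
    refine ⟨Units.mk0 x ?_, mem_filter.2 ⟨mem_univ _, (minpoly_eq _ _).1 h1.symm⟩, rfl⟩
    rintro rfl
    simpa [h1] using minpoly.aeval F (ξ : K)

theorem mem_XX' {ξ : Kˣ} {n : ℕ} : ξ ∈ XX F K n ↔ ξ ^ Fintype.card F ^ n = ξ := by simp [XX]

theorem mem_XX (ξ : Kˣ) (n : ℕ) : ξ ∈ XX F K n ↔ deg (Th.mk (1 : Fˣ) ξ) ∣ n := by
  rw [deg_one, (irr_minpoly _).natDegree_dvd_iff_dvd_X_pow_card_pow_sub_X, minpoly.dvd_iff, mem_XX',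
    Nat.card_eq_fintype_card, Units.ext_iff]
  simp [sub_eq_zero]

theorem mem_XX'' {ξ : Kˣ} {n : ℕ} : ξ ∈ XX F K n ↔ ξ ^ (Fintype.card F ^ n - 1) = 1 := by
  rw [mem_XX', ← mul_left_inj ξ (b := ξ ^ (_ - 1)), ← pow_succ, one_mul,
    Nat.sub_add_cancel (Nat.one_le_pow _ _ Fintype.card_pos)]

theorem pow_mem_XX {ξ : Kˣ} {n : ℕ} (h : ξ ∈ XX F K n) (k : ℕ) : ξ ^ k ∈ XX F K n :=
  mem_XX'.2 (by rw [pow_right_comm, mem_XX'.1 h])

theorem mul_mem_XX {ξ η : Kˣ} {n : ℕ} (h : ξ ∈ XX F K n) (h' : η ∈ XX F K n) : ξ * η ∈ XX F K n :=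
  mem_XX'.2 (by rw [mul_pow, mem_XX'.1 h, mem_XX'.1 h'])

theorem deg_pow_dvd (ξ : Kˣ) (k : ℕ) : deg (Th.mk (1 : Fˣ) (ξ ^ k)) ∣ deg (Th.mk (1 : Fˣ) ξ) :=
  (mem_XX _ _).1 (pow_mem_XX ((mem_XX _ _).2 dvd_rfl) k)

theorem map_minpoly (x : Kˣ) : (minpoly F (x : K)).map (algebraMap F K) =
    ∏ i ∈ range (minpoly F (x : K)).natDegree, (X - C ((x : K) ^ Fintype.card F ^ i)) := by
  refine eq_of_monic_of_dvd_of_natDegree_le (monic_prod_of_monic _ _ fun _ _ => monic_X_sub_C _)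
    ((minpoly.monic (Algebra.IsIntegral.isIntegral _)).map _) (prod_dvd_of_coprime ?_ fun i _ => ?_)
    (by rw [natDegree_prod_of_monic _ _ fun _ _ => monic_X_sub_C _]; simp [-map_pow])
  · have key : ∀ i j, i < j → j < (minpoly F (x : K)).natDegree →
        (x : K) ^ Fintype.card F ^ i ≠ x ^ Fintype.card F ^ j := fun i j h hj e => by
      obtain ⟨k, rfl⟩ := Nat.exists_eq_add_of_lt h
      have h1 := (mem_XX x (k + 1)).1 (mem_XX'.2 (frob_inj (F := F) (i := i) (Units.ext (by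
        simp only [Units.val_pow_eq_pow_val]
        rw [e, ← pow_mul, ← pow_add, add_comm, add_assoc]))))
      have := Nat.le_of_dvd k.succ_pos (deg_one (F := F) x ▸ h1)
      omega
    intro i hi j hj h
    refine isCoprime_X_sub_C_of_isUnit_sub (sub_ne_zero.2 ?_).isUnit
    rcases lt_or_gt_of_ne h with h | h
    exacts [key i j h (by simpa using hj), (key j i h (by simpa using hi)).symm]
  · rw [dvd_iff_isRoot, IsRoot, eval_map_algebraMap, (minpoly_eq _ _).2 (mk_one.2 ⟨i, rfl⟩)]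
    exact minpoly.aeval F _

theorem map_mp {x : Kˣ} {n : ℕ} (h : x ∈ XX F K n) : (mp F n x).map (algebraMap F K) =
    ∏ i ∈ range n, (X - C ((x : K) ^ Fintype.card F ^ i)) := by
  obtain ⟨k, rfl⟩ := deg_one (F := F) x ▸ (mem_XX _ _).1 h
  rw [mp, Nat.mul_div_cancel_left _ (irr_minpoly _).natDegree_pos, Polynomial.map_pow, map_minpoly]
  clear h
  induction k with
  | zero => simp
  | succ k ih =>
    rw [pow_succ, ih, Nat.mul_succ, prod_range_add]
    refine congrArg _ (prod_congr rfl fun i _ => ?_)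
    rw [pow_add, pow_mul, ← Units.val_pow_eq_pow_val x (_ ^ (_ * k)),
      mem_XX'.1 ((mem_XX _ _).2 (deg_one (F := F) x ▸ dvd_mul_right _ _))]

theorem mem_XX_one (ξ : Kˣ) : ξ ∈ XX F K 1 ↔ ∃ c : Fˣ, emb K c = ξ := by
  rw [mem_XX, deg_one, Nat.dvd_one, minpoly.natDegree_eq_one_iff]
  refine ⟨fun ⟨c, hc⟩ => ⟨Units.mk0 c ?_, Units.ext hc⟩, fun ⟨c, hc⟩ => ⟨c, congrArg Units.val hc⟩⟩
  rintro rfl
  exact ξ.ne_zero (hc ▸ map_zero _)

theorem card_pow_one {d : ℕ} (h : d ∣ Fintype.card K - 1) :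
    (univ.filter fun x : Kˣ => x ^ d = 1).card = d := by
  have := IsCyclic.card_powMonoidHom_ker Kˣ d
  rw [Nat.card_units, Nat.card_eq_fintype_card (α := K), Nat.gcd_eq_right h] at this
  rw [← Fintype.card_subtype, ← Nat.card_eq_fintype_card]
  exact this

variable (C : Ctx F K)
include C

theorem splits' {f : F[X]} (h : f.natDegree ≤ C.N) : (f.map (algebraMap F K)).Splits := by
  induction f using WfDvdMonoid.induction_on_irreducible with
  | zero => simp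
  | unit u hu => exact (hu.map (mapRingHom _)).splits
  | mul a f ha hf ih =>
    rw [natDegree_mul hf.ne_zero ha] at h
    rw [Polynomial.map_mul]
    refine .mul (.of_dvd (FiniteField.isSplittingField_sub K F).splits
      (map_ne_zero (FiniteField.X_pow_card_sub_X_ne_zero F Fintype.one_lt_card))
      (Polynomial.map_dvd _ ?_)) (ih (by omega))
    rw [Module.card_eq_pow_finrank (K := F), ← Nat.card_eq_fintype_card]
    exact hf.natDegree_dvd_iff_dvd_X_pow_card_pow_sub_X.1 (C.big _ hf.natDegree_pos (by omega))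

theorem exists_root {f : F[X]} (h1 : f.Monic) (h2 : Irreducible f) (h3 : f ≠ X)
    (h4 : f.natDegree ≤ C.N) : ∃ x : Kˣ, minpoly F (x : K) = f := by
  obtain ⟨x, hx⟩ := (splits' C h4).exists_eval_eq_zero (by
    rw [degree_map]; exact h2.degree_pos.ne')
  have h5 := minpoly.eq_of_irreducible_of_monic h2 ((eval_map_algebraMap ..).symm.trans hx) h1
  exact ⟨Units.mk0 x (by rintro rfl; exact h3 (h5.trans (minpoly.zero F K))), h5.symm⟩

theorem splits {f : F[X]} (h : f.natDegree ≤ C.N) : (f.aroots K).card = f.natDegree := by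
  rw [aroots_def, ← (splits' C h).natDegree_eq_card_roots, natDegree_map]

variable {n : ℕ} (h0 : 0 < n) (hn : n ≤ C.N)
include h0 hn

theorem dvd_big : Fintype.card F ^ n - 1 ∣ Fintype.card K - 1 := by
  obtain ⟨k, hk⟩ := C.big n h0 hn
  rw [Module.card_eq_pow_finrank (K := F) (V := K), hk, pow_mul]
  simpa using Nat.sub_dvd_pow_sub_pow (Fintype.card F ^ n) 1 k

theorem card_XX : (XX F K n).card = Fintype.card F ^ n - 1 := by
  rw [← card_pow_one (dvd_big C h0 hn)]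
  exact congrArg _ (Finset.ext fun x => by simp [mem_XX''])

theorem orderOf_γ : orderOf (C.γ n) = Fintype.card F ^ n - 1 := by
  have h := orderOf_eq_card_of_forall_mem_zpowers C.gen
  rw [Nat.card_units, Nat.card_eq_fintype_card] at h
  rw [Ctx.γ, ← h]
  exact orderOf_pow_orderOf_div (orderOf_pos _).ne' (h ▸ dvd_big C h0 hn)

theorem γ_mem : C.γ n ∈ XX F K n := mem_XX''.2 (orderOf_γ C h0 hn ▸ pow_orderOf_eq_one _)

theorem γ_dl {ξ : Kˣ} (h : ξ ∈ XX F K n) : C.γ n ^ C.dl n ξ = ξ := by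
  have h1 := exists_pow (e := C.γ n) (orderOf_γ C h0 hn ▸ mem_XX''.1 h)
  rw [Ctx.dl, dif_pos h1]
  exact Nat.find_spec h1

theorem pr_γ_pow (a : ℕ) {x : Kˣ} (h : x ∈ XX F K n) :
    C.pr n (C.γ n ^ a) x = (C.ω x : ℂ) ^ a := by
  rw [Ctx.pr, ← Units.val_pow_eq_pow_val, ← map_pow, ← map_pow,
    pow_eq_pow_iff_modEq.2 ((pow_eq_pow_iff_modEq.1 (γ_dl C h0 hn (pow_mem_XX (γ_mem C h0 hn) a))).of_dvd
      (orderOf_dvd_of_pow_eq_one (orderOf_γ C h0 hn ▸ mem_XX''.1 h)))]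

theorem pr_comm {ξ x : Kˣ} (h : ξ ∈ XX F K n) (h' : x ∈ XX F K n) : C.pr n ξ x = C.pr n x ξ := by
  rw [← γ_dl C h0 hn h, ← γ_dl C h0 hn h']
  simp only [pr_γ_pow C h0 hn _ (pow_mem_XX (γ_mem C h0 hn) _), map_pow, Units.val_pow_eq_pow_val]
  exact pow_right_comm ..

theorem pr_γ {ξ : Kˣ} (h : ξ ∈ XX F K n) : C.pr n ξ (C.γ n) = C.ω ξ := by
  rw [pr_comm C h0 hn h (γ_mem C h0 hn), ← pow_one (C.γ n), pr_γ_pow C h0 hn 1 h, pow_one]

theorem sum_pr {ξ η : Kˣ} (h : ξ ∈ XX F K n) (h' : η ∈ XX F K n) :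
    ∑ x ∈ XX F K n, C.pr n ξ x * conj (C.pr n η x) =
      if ξ = η then ((Fintype.card F ^ n - 1 : ℕ) : ℂ) else 0 := by
  have h1 : ∀ ξ x, C.pr n ξ x * conj (C.pr n ξ x) = 1 := fun ξ x => by
    rw [Complex.mul_conj', Complex.norm_eq_one_of_pow_eq_one (n := orderOf x) (by
      rw [Ctx.pr, ← Units.val_pow_eq_pow_val, pow_right_comm, ← map_pow, pow_orderOf_eq_one]
      simp) (orderOf_pos x).ne']
    simp
  split_ifs with e
  · simp [e, h1, card_XX C h0 hn]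
  refine (mul_left_eq_self₀ (a := C.pr n ξ (C.γ n) * conj (C.pr n η (C.γ n)))).1 ?_
    |>.resolve_left fun e' => e (C.ω_inj (Units.ext ?_))
  · rw [mul_sum]
    refine sum_bij (fun x _ => C.γ n * x) (fun x hx => mul_mem_XX (γ_mem C h0 hn) hx)
      (fun _ _ _ _ => mul_left_cancel) (fun y hy => ⟨(C.γ n)⁻¹ * y, mem_XX'.2 (by
        rw [mul_pow, inv_pow, mem_XX'.1 hy, mem_XX'.1 (γ_mem C h0 hn)]), by simp⟩) fun x _ => ?_
    simp only [Ctx.pr, map_mul, mul_pow, Units.val_mul]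
    ring
  · rw [← pr_γ C h0 hn h, ← pr_γ C h0 hn h']
    linear_combination C.pr n η (C.γ n) * e' - C.pr n ξ (C.γ n) * h1 η (C.γ n)

omit h0 hn

theorem γ_pow {m k : ℕ} (hm : 0 < m) (hk : 0 < k) (h : m * k ≤ C.N) :
    C.γ (m * k) ^ (∑ i ∈ range k, Fintype.card F ^ (m * i)) = C.γ m := by
  obtain ⟨c, hc⟩ := dvd_big C (Nat.mul_pos hm hk) h
  have h1 : 1 < Fintype.card F ^ m := Nat.one_lt_pow hm.ne' Fintype.one_lt_card
  have h2 : (∑ i ∈ range k, Fintype.card F ^ (m * i)) * (Fintype.card F ^ m - 1) =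
      Fintype.card F ^ (m * k) - 1 := by
    simp only [pow_mul]
    exact geom_sum_mul_of_one_le h1.le k
  rw [Ctx.γ, Ctx.γ, ← pow_mul, hc, Nat.mul_div_cancel_left _ (Nat.sub_pos_of_lt
    (Nat.one_lt_pow (Nat.mul_pos hm hk).ne' Fintype.one_lt_card)), ← h2, mul_right_comm,
    Nat.mul_div_cancel _ (Nat.sub_pos_of_lt h1), mul_comm]

theorem mu_apply (m c : Fˣ) : C.mu m c = C.ω (emb K m) ^ C.dl 1 (emb K c) :=
  Units.ext (pr_comm C one_pos C.N_pos ((mem_XX_one _).2 ⟨m, rfl⟩) ((mem_XX_one _).2 ⟨c, rfl⟩))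

theorem mu_mul (m m' : Fˣ) : C.mu (m * m') = C.mu m * C.mu m' := MonoidHom.ext fun c => by
  simp only [MonoidHom.mul_apply, mu_apply, map_mul, mul_pow]

theorem exists_gen : ∃ c : Fˣ, ∀ m, C.mu m c = C.ω (emb K m) := by
  obtain ⟨c, hc⟩ := (mem_XX_one _).1 (γ_mem C one_pos C.N_pos)
  exact ⟨c, fun m => Units.ext ((show _ = C.pr 1 _ (emb K c) from rfl).trans
    (hc ▸ pr_γ C one_pos C.N_pos ((mem_XX_one _).2 ⟨m, rfl⟩)))⟩

theorem mu_inj : Function.Injective C.mu := fun m m' h => by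
  obtain ⟨c, hc⟩ := exists_gen C
  exact emb_inj (C.ω_inj (by rw [← hc, ← hc, h]))

theorem mu_bij : Function.Bijective C.mu := by
  have : Finite (Fˣ →* ℂˣ) := Nat.finite_of_card_ne_zero (by
    rw [CommGroup.card_monoidHom_of_hasEnoughRootsOfUnity]; exact Nat.card_pos.ne')
  exact (mu_inj C).bijective_of_nat_card_le (CommGroup.card_monoidHom_of_hasEnoughRootsOfUnity ..).le

theorem orderOf_mu (m : Fˣ) : orderOf (C.mu m) = orderOf m :=
  orderOf_injective (MonoidHom.mk' C.mu (mu_mul C)) (mu_inj C) m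

theorem mu_pow (m : Fˣ) (k : ℕ) : C.mu (m ^ k) = C.mu m ^ k :=
  map_pow (MonoidHom.mk' C.mu (mu_mul C)) m k

theorem mu_ker (m₀ m : Fˣ) : (C.mu m₀).ker ≤ (C.mu m).ker ↔ m ∈ Subgroup.zpowers m₀ := by
  rw [← mem_powers_iff_mem_zpowers]
  refine ⟨fun h => exists_pow ?_, ?_⟩
  · obtain ⟨c, hc⟩ := exists_gen C
    have h1 : ∀ m, C.mu m (c ^ orderOf m₀) = C.ω (emb K (m ^ orderOf m₀)) := fun m => by
      rw [map_pow, hc, map_pow, map_pow]
    have h2 := (h1 m).symm.trans (h ((h1 m₀).trans (by simp)))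
    exact emb_inj (C.ω_inj (h2.trans (by simp)))
  · rintro ⟨k, rfl⟩ x hx
    rw [MonoidHom.mem_ker, mu_pow, MonoidHom.pow_apply, hx, one_pow]

end GLH.Ob
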