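import Cfsg.Agent.Lib.GL.DefD
import Cfsg.Agent.Lib.Char.Linear

/-!
# S4536, package G7a: formulas for the twisted induction
-/

set_option autoImplicit false
set_option linter.unusedSectionVars false

namespace GLH.Rk

open Finset Matrix Polynomial Cfsg GT SFock CT BT
open scoped Classical ComplexConjugate

universe u

attribute [local irreducible] hmul gg

section Abstract
variable {Γ : Type*} [Group Γ] [Finite Γ]

/-- characters over a common constituent differ by a linear character -/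
theorem exists_lin {K : Subgroup Γ} {I : Type*} [Fintype I] (lam : I → Γ →* ℂˣ) {c : ℂ}
    (hc : c ≠ 0) (h : ∀ g, ∑ i, (lam i g : ℂ) = if g ∈ K then c else 0) {χ χ' : IrrCharacter Γ}
    {η : IrrCharacter K} (h1 : LiesOver K χ.1 η.1) (h2 : LiesOver K χ'.1 η.1) :
    ∃ i, ∀ g, χ'.1 g = lam i g * χ.1 g := by
  have h3 : ip (res K χ.1) (res K χ'.1) ≠ 0 :=
    ip_comp_ne_zero_trans (MonoidHom.id K) ((irr_isCharacter χ).res K)
      ((irr_isCharacter χ').res K) h1 (by
        intro h0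
        apply h2
        rw [← conj_ip]
        exact (map_eq_zero _).2 h0)
  have h4 : ∀ g, (∑ i, χ.1 * (linChar (lam i)).1) g = χ.1 g * if g ∈ K then c else 0 := by
    intro g
    rw [Finset.sum_apply, ← h, mul_sum]
    rfl
  have h5 := ip_res_res_of_vanish K (χ := ∑ i, χ.1 * (linChar (lam i)).1) (ψ := χ'.1)
    fun g hg => by rw [h4, if_neg hg, mul_zero]
  have h6 : res K (∑ i, χ.1 * (linChar (lam i)).1) = c • res K χ.1 := by
    funext k
    rw [res_apply, h4, if_pos k.2, mul_comm]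
    rfl
  rw [h6, ip_smul_left, ip_sum_left] at h5
  obtain ⟨i, -, hi⟩ := exists_ne_zero_of_sum_ne_zero
    (right_ne_zero_of_mul (h5 ▸ mul_ne_zero hc h3))
  have h7 : (⟨_, χ.2.mul_linear (irr_isCharacter _) (charDegree_linChar (lam i))⟩ :
      IrrCharacter Γ) = χ' := by
    by_contra hne
    exact hi (ip_irr_ne hne)
  exact ⟨i, fun g => by rw [← h7]; exact mul_comm _ _⟩

theorem ip_eq_zero_of_span {S T : Set (Γ → ℂ)} (h : ∀ x ∈ S, ∀ y ∈ T, ip x y = 0) {x y : Γ → ℂ}
    (hx : x ∈ Submodule.span ℂ S) (hy : y ∈ Submodule.span ℂ T) : ip x y = 0 := by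
  induction hx using Submodule.span_induction with
  | mem x hx =>
    induction hy using Submodule.span_induction with
    | mem y hy => exact h x hx y hy
    | zero => exact ip_zero_right _
    | add a b _ _ ha hb => rw [ip_add_right, ha, hb, add_zero]
    | smul c a _ ha => rw [ip_smul_right, ha, mul_zero]
  | zero => exact ip_zero_left _
  | add a b _ _ ha hb => rw [ip_add_left, ha, hb, add_zero]
  | smul c a _ ha => rw [ip_smul_left, ha, mul_zero]

theorem sum_finrank_le {I : Type*} (s : Finset I) (W : I → Submodule ℂ (Γ → ℂ))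
    (h : ∀ i j, i ≠ j → ∀ x ∈ W i, ∀ y ∈ W j, ip x y = 0) :
    ∑ i ∈ s, Module.finrank ℂ (W i) ≤ Module.finrank ℂ ↥(s.sup W) := by
  induction s using Finset.induction_on with
  | empty => simp
  | insert a s ha ih =>
    rw [sum_insert ha, sup_insert]
    have h1 : W a ⊓ s.sup W = ⊥ := by
      rw [eq_bot_iff]
      rintro x ⟨h1, h2⟩
      let L : (Γ → ℂ) →ₗ[ℂ] ℂ := ⟨⟨fun y => ip y x, fun _ _ => ip_add_left _ _ _⟩,
        fun _ _ => ip_smul_left _ _ _⟩
      have : s.sup W ≤ LinearMap.ker L := Finset.sup_le fun i hi y hy =>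
        h i a (by rintro rfl; exact ha hi) y hy x h1
      exact ip_self_eq_zero.1 (this h2)
    have h2 := Submodule.finrank_sup_add_finrank_inf_eq (W a) (s.sup W)
    rw [h1, finrank_bot] at h2
    omega

end Abstract

theorem eq_of_core {N e : ℕ} (he : 0 < e) {S T : Finset ℕ} (hS : S.card = N) (hT : T.card = N)
    (h : SFock.res e S = SFock.res e T) (h0 : wt e T = 0) :
    sz N S = sz N T + e * wt e S ∧ (wt e S = 0 → S = T) := by
  constructor
  · have h1 := sum_eq_wt he S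
    have h2 := sum_eq_wt he T
    have h3 := two_mul_sum_rk e S
    have h4 := two_mul_sum_rk e T
    have h6 : ∑ x ∈ S, x % e = ∑ x ∈ T, x % e := congrArg Multiset.sum h
    rw [h] at h3
    have h7 : ∑ x ∈ S, rk e S x = ∑ x ∈ T, rk e T x := by omega
    rw [Finset.sum_add_distrib, ← Finset.mul_sum] at h1 h2
    rw [h7, h6] at h1
    rw [h0] at h2
    have h8 := Df.sum_eq_sz hS
    have h9 := Df.sum_eq_sz hT
    omega
  · intro h1
    have : ∀ U, wt e U = 0 → qt e U = 0 := fun U hU => by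
      rw [qt, filter_eq_empty_iff.2 fun x hx => (sum_eq_zero_iff.1 hU x hx).not_gt]
      rfl
    exact eq_of_qt he h (by rw [this S h1, this T h0])

theorem eq_of_cls [hS : AbsA.{u}] {ι : Type*} [Fintype ι] {N : ℕ} {d : ι → ℕ} {par : ι → ι}
    {ρ e : ι → ℕ} (hP : PDat d par ρ e) (hd : ∀ i, 0 < d i) {Λ Λ₀ : ι → Finset ℕ}
    (h : ∀ i, (Λ i).card = N) (h₀ : ∀ i, (Λ₀ i).card = N) (hPL : PL N par Λ₀)
    (hc : SameCls N par ρ e Λ Λ₀) {i : ι} (hw : wt (e (par i)) (Λ₀ (par i)) = 0) :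
    Λ i = Λ₀ i := by
  have hp := hP.par_par i
  set j := par i with hj
  obtain ⟨h1, h2⟩ := hc j hp
  have hρ : ∀ k, 0 < ρ k := fun k => Nat.pos_of_ne_zero fun h0 => by
    have := hP.deg_eq k
    have := hd k
    simp_all
  have hρj : ρ j = 1 := by
    have := hP.deg_eq j
    rw [hp] at this
    exact Nat.eq_of_mul_eq_mul_right (hd j) (by rw [← this, one_mul])
  have hm : j ∈ univ.filter fun k => par k = j := mem_filter.2 ⟨mem_univ _, hp⟩
  rw [msz, msz] at h1
  have e1 := add_sum_erase _ (fun k => ρ k * sz N (Λ k)) hm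
  have e2 := add_sum_erase _ (fun k => ρ k * sz N (Λ₀ k)) hm
  have e3 : ∑ k ∈ (univ.filter fun k => par k = j).erase j, ρ k * sz N (Λ₀ k) = 0 :=
    sum_eq_zero fun k hk => by
      rw [hPL k (by rw [(mem_filter.1 (mem_of_mem_erase hk)).2]; exact (ne_of_mem_erase hk).symm),
        Df.sz_range, mul_zero]
  obtain ⟨h3, h4⟩ := eq_of_core (hP.e_pos j) (h j) (h₀ j) h2 hw
  have h5 : ∑ k ∈ univ.filter fun k => par k = j, ρ k * sz N (Λ k) =
      ∑ k ∈ univ.filter fun k => par k = j, ρ k * sz N (Λ₀ k) := by convert h1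
  simp only [hρj, one_mul] at e1 e2
  by_cases hij : i = j
  · rw [hij]
    refine h4 ((Nat.mul_eq_zero.1 (by omega : e j * wt (e j) (Λ j) = 0)).resolve_left
      (hP.e_pos j).ne')
  · have h6 : ∑ k ∈ (univ.filter fun k => par k = j).erase j, ρ k * sz N (Λ k) = 0 := by omega
    have h7 := sum_eq_zero_iff.1 h6 i (mem_erase.2 ⟨hij, mem_filter.2 ⟨mem_univ _, rfl⟩⟩)
    rw [hPL i (Ne.symm hij),
      (hS.sz_eq_zero (h i)).1 ((Nat.mul_eq_zero.1 h7).resolve_left (hρ i).ne')]

variable {F : Type u} [Field F] [Fintype F] {μ : Fˣ →* ℂˣ} {R : Subgroup Fˣ} {n : ℕ}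

theorem cnj_val (h g : G F n) : cnj h g.1 = (h⁻¹ * g * h).1 := rfl

theorem extN_val (θ : NR R n → ℂ) (g : G F n) : extN θ g.1 = extendByZero (NR R n) θ g := by
  rw [extN, dif_pos g.isUnit, IsUnit.unit_of_val_units]

theorem cf_tw (θ : NR R n → ℂ) (x : G F n) : H.cf (tw μ θ) n x =
    (Nat.card (NR R n) : ℂ)⁻¹ * ∑ g : G F n, dt μ g * extendByZero (NR R n) θ (g⁻¹ * x * g) := by
  simp only [H.cf, tw, dif_pos, cnj_val, extN_val]

theorem tw_Hn (θ : NR R n → ℂ) : tw μ θ ∈ Hn μ n := fun k hk M => by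
  simp only [tw, dif_neg hk]

theorem cf_conj (f : H μ) (h x : G F n) : H.cf f n x = dt μ h * H.cf f n (h⁻¹ * x * h) :=
  f.2.2 n h x.1

theorem dt_mul_inv (h : G F n) : dt μ h * dt μ h⁻¹ = 1 := by rw [← dt_mul, mul_inv_cancel, dt_one]

theorem conj_dt (h : G F n) : conj (dt μ h) = dt μ h⁻¹ := by
  have := (irr_isCharacter (linChar (μ.comp GeneralLinearGroup.det))).apply_inv h
  exact this.symm

/-- Frobenius reciprocity -/
theorem ipH_tw (f : H μ) (θ : NR R n → ℂ) :
    ipH n f (tw μ θ) = ip (res (NR R n) (H.cf f n)) θ := by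
  have hG : (Nat.card (G F n) : ℂ) ≠ 0 := Nat.cast_ne_zero.2 Nat.card_pos.ne'
  have h1 : ∀ g : G F n, ∑ x : G F n, H.cf f n x *
      conj (dt μ g * extendByZero (NR R n) θ (g⁻¹ * x * g)) =
      ∑ k : NR R n, H.cf f n k * conj (θ k) := by
    intro g
    rw [← Equiv.sum_comp (MulAut.conj g).toEquiv]
    have := sum_extendByZero_mul (NR R n) θ fun x => conj (H.cf f n x)
    have h2 := congrArg conj this
    simp only [map_sum, map_mul, Complex.conj_conj] at h2
    refine Eq.trans ?_ (h2.trans (sum_congr rfl fun k _ => mul_comm _ _))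
    refine sum_congr rfl fun x _ => ?_
    have e : g⁻¹ * (MulAut.conj g).toEquiv x * g = x := by simp [mul_assoc]
    rw [cf_conj f g, e, map_mul, conj_dt]
    linear_combination (H.cf f n x * conj (extendByZero (NR R n) θ x)) * dt_mul_inv (μ := μ) g
  rw [ipH, ip_def, ip_def]
  simp only [cf_tw, map_mul (starRingEnd ℂ) (Nat.card (NR R n) : ℂ)⁻¹, map_sum, map_inv₀,
    map_natCast, res_apply]
  rw [sum_congr rfl fun x _ => mul_left_comm _ _ _, ← mul_sum]
  simp only [mul_sum]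
  rw [sum_comm]
  simp only [← mul_sum, h1]
  rw [sum_const, card_univ, nsmul_eq_mul, ← Nat.card_eq_fintype_card]
  field_simp

theorem tw_lin (ν : Fˣ →* ℂˣ) (θ : NR R n → ℂ) :
    tw μ (fun x : NR R n => dt ν x.1 * θ x) = mulL (MF.lin ν) (tw μ θ) := by
  refine eq_of_cf (tw_Hn _) (mulL_Hn _ (tw_Hn _)) (funext fun x => ?_)
  rw [cf_lin, cf_tw, cf_tw, mul_left_comm, mul_sum _ _ (dt ν x)]
  congr 1
  refine sum_congr rfl fun g _ => ?_
  rw [mul_left_comm]
  congr 1
  by_cases h : g⁻¹ * x * g ∈ NR R n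
  · rw [extendByZero_of_mem _ _ h, extendByZero_of_mem _ _ h, dt_mul, dt_mul]
    linear_combination (dt ν x * θ ⟨_, h⟩) * dt_mul_inv (μ := ν) g
  · rw [extendByZero_of_notMem _ _ h, extendByZero_of_notMem _ _ h, mul_zero]

/-- Fourier inversion -/
theorem sum_tw {I : Type*} [Fintype I] (mu : I → Fˣ →* ℂˣ) {c : ℂ}
    (h : ∀ g : G F n, ∑ i, dt (mu i) g = if g ∈ NR R n then c else 0) {θ : NR R n → ℂ}
    (hθ : IsClassFunction _ θ) (x : NR R n) : ∑ i, H.cf (tw (mu i) θ) n x = c * θ x := by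
  have hN : (Nat.card (NR R n) : ℂ) ≠ 0 := Nat.cast_ne_zero.2 Nat.card_pos.ne'
  simp only [cf_tw]
  rw [← mul_sum, sum_comm]
  simp only [← sum_mul, h]
  have : ∀ g : G F n, (if g ∈ NR R n then c else 0) * extendByZero (NR R n) θ (g⁻¹ * x * g) =
      extendByZero (NR R n) (fun _ => c * θ x) g * 1 := by
    intro g
    by_cases hg : g ∈ NR R n
    · have := extendByZero_conj_mem hθ (inv_mem hg) x
      rw [inv_inv] at this
      rw [if_pos hg, this, extendByZero_coe, extendByZero_of_mem _ _ hg, mul_one]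
    · rw [if_neg hg, extendByZero_of_notMem _ _ hg, zero_mul, zero_mul]
  rw [sum_congr rfl fun g _ => this g, sum_extendByZero_mul, sum_const, card_univ, nsmul_eq_mul,
    ← Nat.card_eq_fintype_card]
  field_simp

variable {K : Type} [Field K] [Fintype K] [Algebra F K] [hO : Orb.{u}]

theorem sum_dt (C : Ctx F K) (Z : Subgroup Fˣ) (h1 : ∀ m ∈ Z, R ≤ (C.mu m).ker)
    (h2 : ∀ c, c ∉ R → ∃ m ∈ Z, C.mu m c ≠ 1) (g : G F n) :
    ∑ m : Z, dt (C.mu m) g = if g ∈ NR R n then (Nat.card Z : ℂ) else 0 := by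
  split_ifs with hg
  · rw [sum_congr rfl fun (m : Z) _ => (show dt (C.mu m) g = 1 from
      congrArg Units.val (h1 m m.2 hg)), sum_const, card_univ, nsmul_eq_mul, mul_one,
      Nat.card_eq_fintype_card]
  · obtain ⟨m, hm, h3⟩ := h2 _ hg
    have h4 : dt (C.mu m) g * ∑ m : Z, dt (C.mu m) g = ∑ m : Z, dt (C.mu m) g := by
      rw [mul_sum, ← Equiv.sum_comp (Equiv.mulLeft (⟨m, hm⟩ : Z)) fun m : Z => dt (C.mu m) g]
      refine sum_congr rfl fun x _ => ?_
      simp [dt, hO.mu_mul]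
    by_contra h0
    exact h3 (Units.ext (mul_left_eq_self₀.1 h4 |>.resolve_right h0))

theorem sum_dt_top (C : Ctx F K) (g : G F n) :
    ∑ m : (⊤ : Subgroup Fˣ), dt (C.mu m) g =
      if g ∈ NR ⊥ n then (Nat.card (⊤ : Subgroup Fˣ) : ℂ) else 0 :=
  sum_dt C ⊤ (fun _ _ => bot_le) (fun c hc => by
    obtain ⟨m, hm⟩ := (hO.mu_bij C).2 (C.ω.comp (emb K))
    refine ⟨m, trivial, fun h => hc ?_⟩
    rw [hm] at h
    exact Units.map_injective (algebraMap F K).injective
      ((C.ω_inj (h.trans (map_one _).symm)).trans (map_one _).symm)) g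

theorem sum_dt_zpowers (C : Ctx F K) (m₀ : Fˣ) (g : G F n) :
    ∑ m : Subgroup.zpowers m₀, dt (C.mu m) g =
      if g ∈ NR (C.mu m₀).ker n then (Nat.card (Subgroup.zpowers m₀) : ℂ) else 0 :=
  sum_dt C _ (fun m hm => (hO.mu_ker C m₀ m).2 hm)
    (fun _ hc => ⟨m₀, Subgroup.mem_zpowers _, hc⟩) g

theorem index_NR (C : Ctx F K) (h0 : 0 < n) (m₀ : Fˣ) :
    (NR (C.mu m₀).ker n).index = orderOf m₀ := by
  have : Nonempty (Fin n) := ⟨⟨0, h0⟩⟩
  rw [NR, Subgroup.index_comap_of_surjective _ GeneralLinearGroup.det_surjective,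
    Subgroup.index_ker, ← hO.orderOf_mu C m₀]
  obtain ⟨g, hg⟩ := IsCyclic.exists_generator (α := Fˣ)
  have h1 : (C.mu m₀).range = Subgroup.zpowers (C.mu m₀ g) := by
    rw [← MonoidHom.map_zpowers, (Subgroup.eq_top_iff' _).2 hg, ← MonoidHom.range_eq_map]
  rw [h1, Nat.card_zpowers, orderOf_eq_orderOf_iff]
  intro k
  constructor
  · intro h
    ext1 x
    obtain ⟨i, rfl⟩ := hg x
    rw [MonoidHom.pow_apply, map_zpow, ← zpow_natCast, ← _root_.zpow_mul, mul_comm,
      _root_.zpow_mul, zpow_natCast, h, _root_.one_zpow, MonoidHom.one_apply]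
  · intro h
    exact DFunLike.congr_fun h g

end GLH.Rk
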