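import Cfsg.Agent.Lib.GL.RkA

/-!
# S4536, package G7a: the rank bound
-/

set_option autoImplicit false
set_option linter.unusedSectionVars false

namespace GLH.Rk

open Finset Matrix Polynomial Cfsg GT SFock CT BT
open scoped Classical ComplexConjugate

universe u

attribute [local irreducible] hmul gg

variable {F : Type u} [Field F] [Fintype F] {K : Type} [Field K] [Fintype K] [Algebra F K]

/-- restriction to `NR R n` -/
noncomputable def rsL (μ : Fˣ →* ℂˣ) (R : Subgroup Fˣ) (n : ℕ) : H μ →ₗ[ℂ] (NR R n → ℂ) where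
  toFun f := res (NR R n) (H.cf f n)
  map_add' _ _ := rfl
  map_smul' _ _ := rfl

theorem rsL_apply {μ : Fˣ →* ℂˣ} {R : Subgroup Fˣ} {n : ℕ} (f : H μ) (x : NR R n) :
    rsL μ R n f x = H.cf f n x := rfl

theorem dt_of_mem {ν : Fˣ →* ℂˣ} {n : ℕ} {g : G F n} (h : g ∈ NR ⊥ n) : dt ν g = 1 := by
  rw [dt, Subgroup.mem_bot.1 (Df.mem_NR.1 h), map_one, Units.val_one]

theorem dt_ne (ν : Fˣ →* ℂˣ) {n : ℕ} (g : G F n) : dt ν g ≠ 0 := Units.ne_zero _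

variable [hA : HallA F] [hB : HallB F] [hO : Orb.{u}] [hS : AbsA.{u}] [hT : AbsB.{u}] [hW : TwF F]
variable {C : Ctx F K} {π₁ : Th K (1 : Fˣ) → ℕ → H (1 : Fˣ →* ℂˣ)}
variable {π : ∀ m : Fˣ, Th K m → ℕ → H (C.mu m)} {n : ℕ} {Λ₀ : Th K (1 : Fˣ) → Finset ℕ}

theorem rsL_reg {μ : Fˣ →* ℂˣ} {R : Subgroup Fˣ} (f : H μ) :
    rsL μ R n (mulOp C.reg f) = pRegularPart C.p (rsL μ R n f) := by
  change CT.res _ (H.cf (mulOp C.reg f) n) = pRegularPart C.p (CT.res _ (H.cf f n))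
  rw [cf_reg', res_pRegularPart]

theorem finite_LL (hb : Base C π₁) (hn : n ≤ C.N) (m : Fˣ) : Finite (LL C n Λ₀ m) :=
  Finite.of_injective (fun L : LL C n Λ₀ m => hb.chr hn ((hO.alab_pull (one_mem _)).2 L.2.1))
    fun L L' h => Subtype.ext ((toTh_surjective (one_mem _)).injective_comp_right
      (hb.toModel.eq_of_cf hn ((hO.alab_pull (one_mem _)).2 L.2.1)
        ((hO.alab_pull (one_mem _)).2 L'.2.1) (congrArg Subtype.val h)))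

variable (C π n Λ₀) in
/-- the span of the truncated model characters -/
noncomputable def VS : Submodule ℂ (NR (⊥ : Subgroup Fˣ) n → ℂ) :=
  Submodule.span ℂ (Set.range fun x : Σ m : Fˣ, LL C n Λ₀ m =>
    rsL _ ⊥ n (mulOp C.reg (sL C.N (π x.1) x.2.1)))

theorem finrank_VS (hb : Base C π₁) (hn : n ≤ C.N) :
    Module.finrank ℂ (VS C π n Λ₀) ≤ ∑ m : Fˣ, Nat.card (LL C n Λ₀ m) := by
  have := finite_LL (Λ₀ := Λ₀) hb hn
  have := fun m => Fintype.ofFinite (LL C n Λ₀ m)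
  refine (finrank_range_le_card _).trans ?_
  rw [Fintype.card_sigma]
  simp only [Nat.card_eq_fintype_card, le_refl]

theorem exists_lin_G (C : Ctx F K) {χ χ' : IrrCharacter (G F n)} {η : IrrCharacter (NR ⊥ n)}
    (h1 : LiesOver _ χ.1 η.1) (h2 : LiesOver _ χ'.1 η.1) :
    ∃ z, ∀ g, χ'.1 g = dt (C.mu z) g * χ.1 g := by
  obtain ⟨z, hz⟩ := exists_lin
    (fun z : (⊤ : Subgroup Fˣ) => (C.mu z).comp GeneralLinearGroup.det)
    (Nat.cast_ne_zero.2 Nat.card_pos.ne') (sum_dt_top C) h1 h2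
  exact ⟨z, hz⟩

theorem exists_lin_N (C : Ctx F K) {R : Subgroup Fˣ} (h : NR ⊥ n ≤ NR R n)
    {ψ ψ' : IrrCharacter (NR R n)} {η : IrrCharacter (NR ⊥ n)}
    (h1 : LiesOverLe h ψ.1 η.1) (h2 : LiesOverLe h ψ'.1 η.1) :
    ∃ z, ∀ g, ψ'.1 g = dt (C.mu z) g.1 * ψ.1 g := by
  obtain ⟨z, hz⟩ := exists_lin (K := (NR ⊥ n).subgroupOf (NR R n))
    (fun z : (⊤ : Subgroup Fˣ) => ((C.mu z).comp GeneralLinearGroup.det).comp (NR R n).subtype)
    (c := Nat.card (⊤ : Subgroup Fˣ)) (Nat.cast_ne_zero.2 Nat.card_pos.ne')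
    (fun g => (sum_dt_top C g.1).trans (if_congr Iff.rfl rfl rfl))
    ((liesOver_irrOf_iff h).2 h1) ((liesOver_irrOf_iff h).2 h2)
  exact ⟨z, hz⟩

variable (hM : Models C π₁ π) (hn : n ≤ C.N)
include hM hn

theorem mem_VS {Λ : Th K (1 : Fˣ) → Finset ℕ} (hΛ : ALab C.N deg n Λ) (hc : Cls C Λ Λ₀)
    {η : IrrCharacter (NR ⊥ n)} (h : LiesOver _ (hM.base.chr hn hΛ).1 η.1) :
    pRegularPart C.p η.1 ∈ VS C π n Λ₀ := by
  have hc0 : (Nat.card (⊤ : Subgroup Fˣ) : ℂ) ≠ 0 := Nat.cast_ne_zero.2 Nat.card_pos.ne'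
  have h1 : η.1 = (Nat.card (⊤ : Subgroup Fˣ) : ℂ)⁻¹ •
      ∑ m : (⊤ : Subgroup Fˣ), rsL _ ⊥ n (tw (C.mu m) η.1) := by
    funext x
    rw [Pi.smul_apply, Finset.sum_apply, smul_eq_mul]
    simp only [rsL_apply]
    rw [sum_tw _ (sum_dt_top C) (irr_isClassFunction η), inv_mul_cancel_left₀ hc0]
  rw [h1, pRegularPart_smul, pRegularPart_sum]
  refine Submodule.smul_mem _ _ (Submodule.sum_mem _ fun m _ => ?_)
  obtain ⟨m, -⟩ := m
  rw [← rsL_reg]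
  have h2 : Lns (C.mu m) n (fun χ => ip (ind (NR ⊥ n) η.1) χ.1 ≠ 0) ≤
      (VS C π n Λ₀).comap ((rsL _ ⊥ n).comp (mulOp C.reg).toLinearMap) := by
    refine iSup₂_le fun χ ⟨f1, f2⟩ x hx => ?_
    obtain ⟨z, hz⟩ := exists_lin_G C (χ := χ) (by
      intro h0
      apply f2
      rw [ip_ind_left _ _ (irr_isClassFunction χ), ← conj_ip, h0, map_zero]) h
    have a1 := hW.lin_Ln (C.mu z) hz hx
    have a2 : Fix (C.mu m) (hM.base.chr hn hΛ).1 := fun g => by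
      rw [hz, mul_left_comm, f1]
    obtain ⟨L, a3, a4⟩ := hM.base.exists_pull hn a2
    obtain rfl := hM.base.toModel.eq_of_cf hn hΛ ((hO.alab_pull (one_mem _)).2 a3) a4
    obtain ⟨θ, b1, b2⟩ := hM.lab m n L hn a3
    have b3 := b2 m (Subgroup.mem_zpowers m)
    rw [comp_toTh_self] at b3
    have b4 : sL C.N (π m) L ∈ Ln (C.mu m) (hM.base.chr hn hΛ).1 :=
      Submodule.subset_span ⟨θ, by
        rw [a4, ← b1, hW.cf_tw_one]; exact liesOver_ind_self θ, b3.symm⟩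
    obtain ⟨c, hc'⟩ := hW.line a2 b4 a1 (by
      intro h0
      have := (hM.model m).ip_sL hn a3 a3
      rw [if_pos rfl, h0, ipH_zero_left] at this
      exact zero_ne_one this)
    have b5 : rsL _ ⊥ n x = rsL _ ⊥ n (c • sL C.N (π m) L) := by
      funext g
      rw [← hc', rsL_apply, rsL_apply, cf_lin, dt_of_mem g.2, one_mul]
    change rsL _ ⊥ n (mulOp C.reg x) ∈ VS C π n Λ₀
    rw [rsL_reg, b5, ← rsL_reg, map_smul, map_smul]
    refine Submodule.smul_mem _ _ ((Submodule.span_le.2 ?_ : _ ≤ (VS C π n Λ₀).comap (rsL _ ⊥ n))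
      (hT.T_mem_span (hM.model m).sys (hO.pdat C m) (hM.model m).tsys hn a3))
    rintro _ ⟨L', c1, c2, c3, rfl⟩
    exact Submodule.subset_span ⟨⟨m, L', c1, c2, (hO.cls_pull C.p m C.N c3).symm.trans hc⟩, rfl⟩
  exact h2 (hW.tw_mem_Lns bot_le (irr_isCharacter η))

omit hM hn in
variable (C π₁ π Λ₀) in
/-- labelled constituents in the class of `Λ₀` -/
structure Lb {m₀ : Fˣ} (ψ : IrrCharacter (NR (C.mu m₀).ker n)) (L : Th K m₀ → Finset ℕ) :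
    Prop where
  alab : ALab C.N deg n L
  cls : Cls C (L ∘ toTh m₀) Λ₀
  one : tw 1 ψ.1 = sL C.N π₁ (L ∘ toTh m₀)
  mu : ∀ m ∈ Subgroup.zpowers m₀, tw (C.mu m) ψ.1 = sL C.N (π m) (L ∘ toTh m₀)

variable {m₀ : Fˣ}

omit hM hn in
theorem Lb.alab₁ {ψ : IrrCharacter (NR (C.mu m₀).ker n)} {L : Th K m₀ → Finset ℕ}
    (h : Lb C π₁ π Λ₀ ψ L) : ALab C.N deg n (L ∘ toTh m₀ : Th K (1 : Fˣ) → Finset ℕ) :=
  (hO.alab_pull (one_mem _)).2 h.alab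

theorem Lb.ind {ψ : IrrCharacter (NR (C.mu m₀).ker n)} {L : Th K m₀ → Finset ℕ}
    (h : Lb C π₁ π Λ₀ ψ L) : (hM.base.chr hn h.alab₁).1 = ind _ ψ.1 := by
  rw [← hW.cf_tw_one, h.one]
  rfl

theorem Lb.over {ψ : IrrCharacter (NR (C.mu m₀).ker n)} {L : Th K m₀ → Finset ℕ}
    (h : Lb C π₁ π Λ₀ ψ L) : LiesOver _ (hM.base.chr hn h.alab₁).1 ψ.1 := by
  rw [h.ind hM hn]
  exact liesOver_ind_self ψ

variable (h₀ : ALab C.N deg n Λ₀) (hPL : PL C.N (par C.p) Λ₀) (hG : Good C n Λ₀ m₀)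
include h₀ hPL hG

theorem transfer_eq {L L' : Th K m₀ → Finset ℕ} (a : ALab C.N deg n L) (a' : ALab C.N deg n L')
    (c : Cls C (L ∘ toTh m₀) Λ₀) (c' : Cls C (L' ∘ toTh m₀) Λ₀) {m : Fˣ}
    (hm : m ∈ Subgroup.zpowers m₀) :
    ipH n (mulOp C.reg (sL C.N (π m) (L ∘ toTh m₀))) (sL C.N (π m) (L' ∘ toTh m₀)) =
      ipH n (mulOp C.reg (sL C.N π₁ (L ∘ toTh m₀))) (sL C.N π₁ (L' ∘ toTh m₀)) := by
  have e : ∀ L : Th K m₀ → Finset ℕ, (L ∘ toTh m₀ : Th K m → Finset ℕ) ∘ toTh m =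
      (L ∘ toTh m₀ : Th K (1 : Fˣ) → Finset ℕ) := fun L =>
    funext fun O => congrArg L (toTh_toTh hm O)
  have a₁ := (hO.alab_pull (one_mem (Subgroup.zpowers m₀))).2 a
  have a₁' := (hO.alab_pull (one_mem (Subgroup.zpowers m₀))).2 a'
  have := hT.transfer hM.base.sys (hO.pdat C 1) hM.base.tsys (hM.model m).sys (hO.pdat C m)
    (hM.model m).tsys (toTh m) (toTh_surjective (one_mem _)) (toTh_par C.p (one_mem _))
    {θ | wt (ee C.p θ) (Λ₀ θ) ≠ 0} (fun i hi => hG.loc m hm i hi) hn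
    ((hO.alab_pull hm).2 a) ((hO.alab_pull hm).2 a') (by rwa [e]) (by rwa [e]) (fun i hi => by
      have hw : wt (ee C.p (par C.p i)) (Λ₀ (par C.p i)) = 0 := not_not.1 hi
      have q := eq_of_cls (hO.pdat C 1) hO.deg_pos a₁.1 h₀.1 hPL c hw
      have q' := eq_of_cls (hO.pdat C 1) hO.deg_pos a₁'.1 h₀.1 hPL c' hw
      rw [← e] at q q'
      refine ⟨q.trans q'.symm, fun h => q.trans (hPL i h), fun h => ⟨?_, hO.ee_dvd C.p m i h⟩⟩
      rw [show (L ∘ toTh m₀ : Th K m → Finset ℕ) (toTh m i) = Λ₀ i from q]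
      rwa [h] at hw)
  rw [e, e] at this
  exact this

theorem Lb.orth {ψ ψ' : IrrCharacter (NR (C.mu m₀).ker n)} {L L' : Th K m₀ → Finset ℕ}
    (h : Lb C π₁ π Λ₀ ψ L) (h' : Lb C π₁ π Λ₀ ψ' L') {g : G F n} (hg : g ∉ NR (C.mu m₀).ker n) :
    ip (pRegularPart C.p (g • ψ).1) ψ'.1 = 0 := by
  have hc0 : (Nat.card (Subgroup.zpowers m₀) : ℂ) ≠ 0 := Nat.cast_ne_zero.2 Nat.card_pos.ne'
  have h1 : (g • ψ).1 = (Nat.card (Subgroup.zpowers m₀) : ℂ)⁻¹ •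
      ∑ m : Subgroup.zpowers m₀, dt (C.mu m) g⁻¹ • rsL _ _ n (tw (C.mu m) ψ.1) := by
    funext x
    rw [Pi.smul_apply, Finset.sum_apply, smul_eq_mul, conjSmul_apply,
      ← inv_mul_cancel_left₀ hc0 (ψ.1 _),
      ← sum_tw _ (sum_dt_zpowers C m₀) (irr_isClassFunction ψ)]
    congr 1
    refine sum_congr rfl fun m _ => ?_
    rw [Pi.smul_apply, rsL_apply, smul_eq_mul, cf_conj _ g⁻¹]
    simp [mul_assoc]
  rw [h1, pRegularPart_smul, pRegularPart_sum, ip_smul_left, ip_sum_left]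
  refine mul_eq_zero_of_right _ ?_
  have h2 : ∀ m : Subgroup.zpowers m₀,
      ip (pRegularPart C.p (dt (C.mu m) g⁻¹ • rsL _ _ n (tw (C.mu m) ψ.1))) ψ'.1 =
      dt (C.mu m) g⁻¹ *
        ipH n (mulOp C.reg (sL C.N π₁ (L ∘ toTh m₀))) (sL C.N π₁ (L' ∘ toTh m₀)) := by
    intro m
    rw [pRegularPart_smul, ip_smul_left, ← rsL_reg,
      ← transfer_eq hM hn h₀ hPL hG h.alab h'.alab h.cls h'.cls m.2, ← h.mu m m.2, ← h'.mu m m.2,
      ipH_tw]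
    rfl
  rw [sum_congr rfl fun m _ => h2 m, ← sum_mul, sum_dt_zpowers, if_neg (by rwa [inv_mem_iff]),
    zero_mul]

omit h₀ hPL in
theorem exists_Lb {Λ : Th K (1 : Fˣ) → Finset ℕ} (hΛ : ALab C.N deg n Λ) (hc : Cls C Λ Λ₀)
    {ψ' : IrrCharacter (NR (C.mu m₀).ker n)} (h : LiesOver _ (hM.base.chr hn hΛ).1 ψ'.1) :
    ∃ (g : G F n) (ψ : IrrCharacter (NR (C.mu m₀).ker n)) (L : Th K m₀ → Finset ℕ),
      Lb C π₁ π Λ₀ ψ L ∧ g • ψ = ψ' := by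
  obtain ⟨L, a1, rfl⟩ := hG.inv Λ hΛ hc
  obtain ⟨ψ, b1, b2⟩ := hM.lab m₀ n L hn a1
  have l : Lb C π₁ π Λ₀ ψ L := ⟨a1, hc, b1, b2⟩
  obtain ⟨g, hg⟩ := (l.over hM hn).mem_orbit h
  exact ⟨g, ψ, L, l, hg⟩

theorem Lb.closed {ψ ψ' : IrrCharacter (NR (C.mu m₀).ker n)} {L : Th K m₀ → Finset ℕ}
    (h : Lb C π₁ π Λ₀ ψ L) (hs : SameBlock C.M ψ.1 ψ'.1) : ∃ L', Lb C π₁ π Λ₀ ψ' L' := by
  refine mem_of_isInt_setIdem C.hM (isInt_setIdem_of_ip_pRegularPart C.hM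
    (A := {ξ | ∃ L', Lb C π₁ π Λ₀ ξ L'}) ?_) ⟨L, h⟩ hs
  rintro ξ ⟨L₁, l⟩ ξ' hξ'
  by_contra hne
  have h1 : ξ' ∈ blockOf C.M ξ.1 := by
    by_contra h1
    exact hne (ip_pRegularPart_eq_zero C.hM (isPBlock_blockOf _) (mem_blockOf_self C.hM ξ) h1)
  have h2 : Covers _ (blockOf C.M (hM.base.chr hn l.alab₁).1) (blockOf C.M ξ.1) :=
    ⟨_, mem_blockOf_self C.hM _, ξ, mem_blockOf_self C.hM _, l.over hM hn⟩
  obtain ⟨χ, c1, c2⟩ := h2.exists_liesOver C.hM (isPBlock_blockOf _) (isPBlock_blockOf _) h1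
  obtain ⟨Λ, c3, c4⟩ := hM.base.all n hn χ
  have c5 := hM.base.cls_of_block hn (isPBlock_blockOf _) c1 (mem_blockOf_self C.hM _) c3 l.alab₁
    c4 rfl
  rw [c4] at c2
  obtain ⟨g, ξ₂, L₂, l₂, rfl⟩ := exists_Lb hM hn hG c3 (c5.trans l.cls) c2
  by_cases hg : g ∈ NR (C.mu m₀).ker n
  · rw [conjSmul_of_mem hg] at hξ'
    exact hξ' ⟨L₂, l₂⟩
  · apply hne
    rw [ip_pRegularPart_left_eq_right, ← conj_ip, l₂.orth hM hn h₀ hPL hG l hg, map_zero]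

omit h₀ hPL hG in
theorem Lb.mem_of_over (hSN : NR ⊥ n ≤ NR (C.mu m₀).ker n)
    {ψ ψ' : IrrCharacter (NR (C.mu m₀).ker n)} {L L' : Th K m₀ → Finset ℕ}
    (h : Lb C π₁ π Λ₀ ψ L) (h' : Lb C π₁ π Λ₀ ψ' L') {η : IrrCharacter (NR ⊥ n)} {g : G F n}
    (h1 : LiesOverLe hSN ψ.1 η.1) (h2 : LiesOverLe hSN ψ'.1 (g • η).1) :
    g ∈ NR (C.mu m₀).ker n := by
  have hc0 : (Nat.card (Subgroup.zpowers m₀) : ℂ) ≠ 0 := Nat.cast_ne_zero.2 Nat.card_pos.ne'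
  obtain ⟨z, hz⟩ := exists_lin_N C hSN ((liesOverLe_smul_iff hSN g ψ η).2 h1) h2
  have e1 : tw 1 (g • ψ).1 = tw (1 : Fˣ →* ℂˣ) ψ.1 :=
    eq_of_cf (tw_Hn _) (tw_Hn _) (by rw [hW.cf_tw_one, hW.cf_tw_one, ind_conjSmul])
  have e2 : (L' ∘ toTh m₀ : Th K (1 : Fˣ) → Finset ℕ) = (L ∘ toTh m₀) ∘ act z⁻¹ := by
    refine hM.base.toModel.eq_of_cf hn h'.alab₁ (alab_act _ h.alab₁) ?_
    rw [← hM.base.twist_sL z hn h.alab₁, ← h.one, ← h'.one, ← e1, mulOp_eq, ← tw_lin,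
      funext hz]
  have e3 : ∀ m : Subgroup.zpowers m₀, tw (C.mu m) ψ'.1 =
      tw (C.mu m) fun x : NR (C.mu m₀).ker n => dt (C.mu z) x.1 * ψ.1 x := by
    intro m
    rw [tw_lin, h.mu m m.2, h'.mu m m.2, ← mulOp_eq,
      (hM.model m).twist_sL z hn ((hO.alab_pull m.2).2 h.alab)]
    congr 1
    funext O
    obtain ⟨θ, rfl⟩ := toTh_surjective (one_mem (Subgroup.zpowers m.1)) O
    have := congrFun e2 θ
    simp only [Function.comp] at this ⊢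
    rw [← toTh_act (one_mem _), toTh_toTh m.2, toTh_toTh m.2, this]
  have e4 : g • ψ = ψ := by
    refine Subtype.ext (funext fun x => mul_left_cancel₀ (dt_ne (C.mu z) x.1) ?_)
    rw [← hz]
    refine mul_left_cancel₀ hc0 ?_
    rw [← sum_tw _ (sum_dt_zpowers C m₀) (irr_isClassFunction ψ'),
      ← sum_tw _ (sum_dt_zpowers C m₀) (θ := fun x : NR (C.mu m₀).ker n =>
        dt (C.mu z) x.1 * ψ.1 x) fun a b => by
          beta_reduce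
          rw [irr_isClassFunction ψ, Subgroup.coe_mul, Subgroup.coe_mul, dt_mul, dt_mul,
            Subgroup.coe_inv]
          linear_combination (dt (C.mu z) a.1 * ψ.1 a) * dt_mul_inv (μ := C.mu z) b.1]
    exact sum_congr rfl fun m _ => by rw [e3]
  have e5 := (isIrr_ind_iff_inertia_eq ψ).1 (h.ind hM hn ▸ (hM.base.chr hn h.alab₁).2)
  exact e5 ▸ (MulAction.mem_stabilizer_iff.2 e4)

variable {B : Set (IrrCharacter (G F n))} (hB' : IsPBlock C.M B) {χ : IrrCharacter (G F n)}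
  (hχ : χ ∈ B) (e : χ.1 = H.cf (sL C.N π₁ Λ₀) n)
  {b : Set (IrrCharacter (NR (⊥ : Subgroup Fˣ) n))} (hb : IsPBlock C.M b)
  (hc : Covers (NR ⊥ n) B b)
include hB' hχ e hb hc

omit hPL hG in
theorem exists_over {η : IrrCharacter (NR ⊥ n)} (hη : η ∈ b) :
    ∃ (Λ : Th K (1 : Fˣ) → Finset ℕ) (hΛ : ALab C.N deg n Λ), Cls C Λ Λ₀ ∧
      LiesOver _ (hM.base.chr hn hΛ).1 η.1 := by
  obtain ⟨χ', c1, c2⟩ := hc.exists_liesOver C.hM hB' hb hη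
  obtain ⟨Λ, c3, c4⟩ := hM.base.all n hn χ'
  rw [c4] at c2
  exact ⟨Λ, c3, hM.base.cls_of_block hn hB' c1 hχ c3 h₀ c4 e, c2⟩

theorem mem_of_smul_mem {η : IrrCharacter (NR ⊥ n)} (hη : η ∈ b) {k : G F n} (hk : k • η ∈ b) :
    k ∈ NR (C.mu m₀).ker n := by
  have hSN : NR ⊥ n ≤ NR (C.mu m₀).ker n := Subgroup.comap_mono bot_le
  obtain ⟨Λ, a1, a2, a3⟩ := exists_over hM hn h₀ hB' hχ e hb hc hη
  obtain ⟨ψ', b1, b2⟩ := a3.exists_between hSN (irr_isClassFunction _)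
  obtain ⟨g, ψ, L, l, rfl⟩ := exists_Lb hM hn hG a1 a2 b1
  have c1 : LiesOverLe hSN ψ.1 (g⁻¹ • η).1 := by
    rwa [← liesOverLe_smul_iff hSN g, smul_inv_smul]
  have c2 : g⁻¹ • k • η ∈ blockOf C.M (g⁻¹ • η).1 :=
    (sameBlock_irrCongr_iff (MulAut.conjNormal g⁻¹) η (k • η)).2
      ((mem_block_iff_sameBlock C.hM hb hη _).1 hk)
  have c3 : CoversLe hSN (blockOf C.M ψ.1) (blockOf C.M (g⁻¹ • η).1) :=
    ⟨ψ, mem_blockOf_self C.hM _, _, mem_blockOf_self C.hM _, c1⟩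
  obtain ⟨ψ₂, d1, d2⟩ := c3.exists_liesOverLe C.hM (isPBlock_blockOf _) (isPBlock_blockOf _) c2
  obtain ⟨L₂, l₂⟩ := l.closed hM hn h₀ hPL hG d1
  have d3 := l.mem_of_over hM hn hSN l₂ (g := g⁻¹ * k * g) c1 (by
    rwa [mul_smul, smul_inv_smul, mul_smul])
  have := Df.mem_NR_conj d3 g
  simpa [mul_assoc] using this

theorem rank_le (h0 : 0 < n) :
    orderOf m₀ * blockRank C.p b ≤ ∑ m : Fˣ, Nat.card (LL C n Λ₀ m) := by
  let bq : G F n ⧸ NR (C.mu m₀).ker n → Set (IrrCharacter (NR (⊥ : Subgroup Fˣ) n)) :=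
    fun q => mapSet (MulAut.conjNormal q.out) b
  have hq : ∀ q ξ, ξ ∈ bq q → ∃ η ∈ b, ξ = q.out • η := by
    intro q ξ hξ
    rw [show bq q = _ from mapSet_eq_image _ _] at hξ
    obtain ⟨η, h1, h2⟩ := hξ
    exact ⟨η, h1, h2.symm⟩
  let W : G F n ⧸ NR (C.mu m₀).ker n → Submodule ℂ (NR (⊥ : Subgroup Fˣ) n → ℂ) := fun q =>
    Submodule.span ℂ ((fun ξ : IrrCharacter _ => pRegularPart C.p ξ.1) '' bq q)
  have h1 := sum_finrank_le univ W fun q q' hne x hx y hy => ip_eq_zero_of_span (by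
    rintro _ ⟨ξ, hξ, rfl⟩ _ ⟨ξ', hξ', rfl⟩
    rw [ip_pRegularPart_both]
    refine ip_pRegularPart_eq_zero C.hM (isPBlock_mapSet _ hb) hξ fun h => hne ?_
    obtain ⟨η, e1, rfl⟩ := hq q ξ' h
    obtain ⟨η', e2, e3⟩ := hq q' _ hξ'
    have := mem_of_smul_mem hM hn h₀ hPL hG hB' hχ e hb hc e2 (k := q.out⁻¹ * q'.out) (by
      rwa [mul_smul, ← e3, inv_smul_smul])
    rw [← QuotientGroup.out_eq' q, ← QuotientGroup.out_eq' q']
    exact QuotientGroup.eq.2 this) hx hy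
  have h2 : ∀ q, Module.finrank ℂ (W q) = blockRank C.p b := fun q => blockRank_mapSet _ b
  have h3 : univ.sup W ≤ VS C π n Λ₀ := Finset.sup_le fun q _ => Submodule.span_le.2 (by
    rintro _ ⟨ξ, hξ, rfl⟩
    obtain ⟨η, e1, rfl⟩ := hq q ξ hξ
    obtain ⟨Λ, a1, a2, a3⟩ := exists_over hM hn h₀ hB' hχ e hb hc e1
    exact mem_VS hM hn a1 a2 ((liesOver_conjSmul_iff (irr_isClassFunction _) _ _).2 a3))
  rw [sum_congr rfl fun q _ => h2 q, sum_const, card_univ, ← Nat.card_eq_fintype_card,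
    ← Subgroup.index_eq_card, index_NR C h0, smul_eq_mul] at h1
  exact h1.trans ((Submodule.finrank_mono h3).trans (finrank_VS hM.base hn))

omit hM hn h₀ hPL hG hB' hχ e hb hc in
/-- Package G7a -/
instance instCntA : CntA F where
  rank_le := fun _ _ _ hM _ h0 hn _ h₀ hPL _ hB' _ hχ e _ hb hc _ hG =>
    rank_le hM hn h₀ hPL hG hB' hχ e hb hc h0

end GLH.Rk
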