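import Cfsg.Agent.Lib.GL.Ctx

/-!
# S4536: interfaces of the packages (see `docs/S4536_plan.md`)
-/

set_option autoImplicit false
set_option linter.unusedSectionVars false

namespace GLH

open Finset Matrix Polynomial Cfsg SFock
open scoped Classical ComplexConjugate

universe u

/-- Package G0: orbits, degrees, the pairing. -/
class Orb : Prop where
  mk_eq : ∀ {F : Type u} [Field F] [Fintype F] {K : Type} [Field K] [Fintype K] [Algebra F K]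
    (m : Fˣ) (ξ η : Kˣ), Th.mk m ξ = Th.mk m η ↔ rel K m ξ η
  deg_one : ∀ {F : Type u} [Field F] [Fintype F] {K : Type} [Field K] [Fintype K] [Algebra F K]
    (ξ : Kˣ), deg (Th.mk (1 : Fˣ) ξ) = (minpoly F (ξ : K)).natDegree
  minpoly_eq : ∀ {F : Type u} [Field F] [Fintype F] {K : Type} [Field K] [Fintype K] [Algebra F K]
    (ξ η : Kˣ), minpoly F (ξ : K) = minpoly F (η : K) ↔ Th.mk (1 : Fˣ) ξ = Th.mk 1 η
  mem_XX : ∀ {F : Type u} [Field F] [Fintype F] {K : Type} [Field K] [Fintype K] [Algebra F K]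
    (ξ : Kˣ) (n : ℕ), ξ ∈ XX F K n ↔ deg (Th.mk (1 : Fˣ) ξ) ∣ n
  map_mp : ∀ {F : Type u} [Field F] [Fintype F] {K : Type} [Field K] [Fintype K] [Algebra F K]
    {x : Kˣ} {n : ℕ} (_ : x ∈ XX F K n), (mp F n x).map (algebraMap F K) =
      ∏ i ∈ range n, (Polynomial.X - Polynomial.C ((x : K) ^ Fintype.card F ^ i))
  /-- every monic irreducible polynomial `≠ X` of small degree is a minimal polynomial -/
  exists_root : ∀ {F : Type u} [Field F] [Fintype F] {K : Type} [Field K] [Fintype K] [Algebra F K]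
    (C : Ctx F K) {f : F[X]} (_ : f.Monic) (_ : Irreducible f) (_ : f ≠ Polynomial.X)
    (_ : f.natDegree ≤ C.N), ∃ x : Kˣ, minpoly F (x : K) = f
  splits : ∀ {F : Type u} [Field F] [Fintype F] {K : Type} [Field K] [Fintype K] [Algebra F K]
    (C : Ctx F K) {f : F[X]} (_ : f.natDegree ≤ C.N), (f.aroots K).card = f.natDegree
  card_XX : ∀ {F : Type u} [Field F] [Fintype F] {K : Type} [Field K] [Fintype K] [Algebra F K]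
    (C : Ctx F K) {n : ℕ} (_ : 0 < n) (_ : n ≤ C.N), (XX F K n).card = Fintype.card F ^ n - 1
  orderOf_γ : ∀ {F : Type u} [Field F] [Fintype F] {K : Type} [Field K] [Fintype K] [Algebra F K]
    (C : Ctx F K) {n : ℕ} (_ : 0 < n) (_ : n ≤ C.N), orderOf (C.γ n) = Fintype.card F ^ n - 1
  γ_dl : ∀ {F : Type u} [Field F] [Fintype F] {K : Type} [Field K] [Fintype K] [Algebra F K]
    (C : Ctx F K) {n : ℕ} (_ : 0 < n) (_ : n ≤ C.N) {ξ : Kˣ} (_ : ξ ∈ XX F K n),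
    C.γ n ^ C.dl n ξ = ξ
  γ_pow : ∀ {F : Type u} [Field F] [Fintype F] {K : Type} [Field K] [Fintype K] [Algebra F K]
    (C : Ctx F K) {m k : ℕ} (_ : 0 < m) (_ : 0 < k) (_ : m * k ≤ C.N),
    C.γ (m * k) ^ (∑ i ∈ range k, Fintype.card F ^ (m * i)) = C.γ m
  pr_γ_pow : ∀ {F : Type u} [Field F] [Fintype F] {K : Type} [Field K] [Fintype K] [Algebra F K]
    (C : Ctx F K) {n : ℕ} (_ : 0 < n) (_ : n ≤ C.N) (a : ℕ) {x : Kˣ} (_ : x ∈ XX F K n),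
    C.pr n (C.γ n ^ a) x = (C.ω x : ℂ) ^ a
  pr_comm : ∀ {F : Type u} [Field F] [Fintype F] {K : Type} [Field K] [Fintype K] [Algebra F K]
    (C : Ctx F K) {n : ℕ} (_ : 0 < n) (_ : n ≤ C.N) {ξ x : Kˣ} (_ : ξ ∈ XX F K n)
    (_ : x ∈ XX F K n), C.pr n ξ x = C.pr n x ξ
  sum_pr : ∀ {F : Type u} [Field F] [Fintype F] {K : Type} [Field K] [Fintype K] [Algebra F K]
    (C : Ctx F K) {n : ℕ} (_ : 0 < n) (_ : n ≤ C.N) {ξ η : Kˣ} (_ : ξ ∈ XX F K n)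
    (_ : η ∈ XX F K n), ∑ x ∈ XX F K n, C.pr n ξ x * conj (C.pr n η x) =
      if ξ = η then ((Fintype.card F ^ n - 1 : ℕ) : ℂ) else 0
  mem_XX_one : ∀ {F : Type u} [Field F] [Fintype F] {K : Type} [Field K] [Fintype K] [Algebra F K]
    (ξ : Kˣ), ξ ∈ XX F K 1 ↔ ∃ c : Fˣ, emb K c = ξ
  mu_mul : ∀ {F : Type u} [Field F] [Fintype F] {K : Type} [Field K] [Fintype K] [Algebra F K]
    (C : Ctx F K) (m m' : Fˣ), C.mu (m * m') = C.mu m * C.mu m'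
  mu_bij : ∀ {F : Type u} [Field F] [Fintype F] {K : Type} [Field K] [Fintype K] [Algebra F K]
    (C : Ctx F K), Function.Bijective C.mu
  orderOf_mu : ∀ {F : Type u} [Field F] [Fintype F] {K : Type} [Field K] [Fintype K] [Algebra F K]
    (C : Ctx F K) (m : Fˣ), orderOf (C.mu m) = orderOf m
  /-- the characters trivial on the kernel of `mu m₀` -/
  mu_ker : ∀ {F : Type u} [Field F] [Fintype F] {K : Type} [Field K] [Fintype K] [Algebra F K]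
    (C : Ctx F K) (m₀ m : Fˣ), (C.mu m₀).ker ≤ (C.mu m).ker ↔ m ∈ Subgroup.zpowers m₀
  deg_pos : ∀ {F : Type u} [Field F] [Fintype F] {K : Type} [Field K] [Fintype K] [Algebra F K]
    {m : Fˣ} (O : Th K m), 0 < deg O
  pdat : ∀ {F : Type u} [Field F] [Fintype F] {K : Type} [Field K] [Fintype K] [Algebra F K]
    (C : Ctx F K) (m : Fˣ), PDat (deg (K := K) (m := m)) (par C.p) (rho C.p) (ee C.p)
  par_mk : ∀ {F : Type u} [Field F] [Fintype F] {K : Type} [Field K] [Fintype K] [Algebra F K]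
    (p : ℕ) [Fact p.Prime] (m : Fˣ) (ξ : Kˣ), par p (Th.mk m ξ) = Th.mk m (GT.pRegPart p ξ)
  act_mk : ∀ {F : Type u} [Field F] [Fintype F] {K : Type} [Field K] [Fintype K] [Algebra F K]
    (z m : Fˣ) (ξ : Kˣ), act z (Th.mk m ξ) = Th.mk m (emb K z * ξ)
  deg_act : ∀ {F : Type u} [Field F] [Fintype F] {K : Type} [Field K] [Fintype K] [Algebra F K]
    (z : Fˣ) {m : Fˣ} (O : Th K m), deg (act z O) = deg O
  toTh_mk : ∀ {F : Type u} [Field F] [Fintype F] {K : Type} [Field K] [Fintype K] [Algebra F K]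
    {m m' : Fˣ} (_ : m ∈ Subgroup.zpowers m') (ξ : Kˣ), toTh m' (Th.mk m ξ) = Th.mk m' ξ
  sum_deg_toTh : ∀ {F : Type u} [Field F] [Fintype F] {K : Type} [Field K] [Fintype K]
    [Algebra F K] {m m' : Fˣ} (_ : m ∈ Subgroup.zpowers m') (O : Th K m'),
    ∑ O' ∈ univ.filter (fun O' : Th K m => toTh m' O' = O), deg O' = deg O
  /-- the number of elements of an orbit with given `p'`-part -/
  card_fibre : ∀ {F : Type u} [Field F] [Fintype F] {K : Type} [Field K] [Fintype K] [Algebra F K]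
    (p : ℕ) [Fact p.Prime] (θ : Th K (1 : Fˣ)) {ξ : Kˣ} (_ : IsPRegular p ξ)
    (_ : Th.mk 1 ξ = par p θ),
    (univ.filter fun η => Th.mk 1 η = θ ∧ GT.pRegPart p η = ξ).card = rho p θ
  ee_dvd : ∀ {F : Type u} [Field F] [Fintype F] {K : Type} [Field K] [Fintype K] [Algebra F K]
    (p : ℕ) [Fact p.Prime] (m : Fˣ) (θ : Th K (1 : Fˣ)) (_ : par p θ = θ),
    ee p θ ∣ ee p (toTh m θ)
  alab_pull : ∀ {F : Type u} [Field F] [Fintype F] {K : Type} [Field K] [Fintype K] [Algebra F K]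
    {m m' : Fˣ} (_ : m ∈ Subgroup.zpowers m') {N n : ℕ} {Λ : Th K m' → Finset ℕ},
    ALab N deg n (Λ ∘ toTh m' : Th K m → Finset ℕ) ↔ ALab N deg n Λ
  msz_pull : ∀ {F : Type u} [Field F] [Fintype F] {K : Type} [Field K] [Fintype K] [Algebra F K]
    (p : ℕ) [Fact p.Prime] (m : Fˣ) (N : ℕ) (Λ : Th K m → Finset ℕ) (θ : Th K (1 : Fˣ))
    (_ : par p θ = θ), msz N (par p) (rho p) (Λ ∘ toTh m) θ =
      orderOf (GT.pPart p m) * msz N (par p) (rho p) Λ (toTh m θ)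
  cls_pull : ∀ {F : Type u} [Field F] [Fintype F] {K : Type} [Field K] [Fintype K] [Algebra F K]
    (p : ℕ) [Fact p.Prime] (m : Fˣ) (N : ℕ) {Λ Λ' : Th K m → Finset ℕ}
    (_ : SameCls N (par p) (rho p) (ee p) Λ Λ'),
    SameCls N (par p) (rho p) (ee p) (Λ ∘ toTh m : Th K (1 : Fˣ) → Finset ℕ) (Λ' ∘ toTh m)
  card_deg : ∀ {F : Type u} [Field F] [Fintype F] {K : Type} [Field K] [Fintype K] [Algebra F K]
    (C : Ctx F K) (m : Fˣ) {n : ℕ} (_ : 0 < n) (_ : n ≤ C.N),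
    (univ.filter fun O : Th K m => deg O ∣ n).card =
      (univ.filter fun θ : Th K (1 : Fˣ) => orderOf m * deg θ ∣ n).card
  card_deg_par : ∀ {F : Type u} [Field F] [Fintype F] {K : Type} [Field K] [Fintype K]
    [Algebra F K] (C : Ctx F K) (m : Fˣ) {n : ℕ} (_ : 0 < n) (_ : n ≤ C.N),
    (univ.filter fun O : Th K m => par C.p O = O ∧ deg O ∣ n).card =
      (univ.filter fun θ : Th K (1 : Fˣ) => par C.p θ = θ ∧ orderOf m * deg θ ∣ n).card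

/-- Package G1a: the elementary part of the Hall algebra. -/
class HallA (F : Type u) [Field F] [Fintype F] : Prop where
  mul_assoc : ∀ (μ : Fˣ →* ℂˣ) (f g k : H μ), f * g * k = f * (g * k)
  one_mul : ∀ (μ : Fˣ →* ℂˣ) (f : H μ), 1 * f = f
  mul_one : ∀ (μ : Fˣ →* ℂˣ) (f : H μ), f * 1 = f
  mul_mem : ∀ {μ : Fˣ →* ℂˣ} {a b : ℕ} {f g : H μ} (_ : f ∈ Hn μ a) (_ : g ∈ Hn μ b),
    f * g ∈ Hn μ (a + b)
  /-- Frobenius reciprocity -/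
  adj : ∀ {μ : Fˣ →* ℂˣ} {a b : ℕ} {f g : H μ} (_ : f ∈ Hn μ a) (_ : g ∈ Hn μ b) (y : H μ),
    ipH (a + b) (f * g) y = ((Nat.card (G F a) : ℂ) * Nat.card (G F b))⁻¹ *
      ∑ A : G F a, ∑ D : G F b, f.1 a A.1 * g.1 b D.1 * conj (cop y.1 A.1 D.1)
  /-- the coproduct is twisted invariant in both variables -/
  cop_cnj : ∀ {μ : Fˣ →* ℂˣ} (y : H μ) {a b : ℕ} (x : G F a) (z : G F b) (A : Mat F a)
    (D : Mat F b), cop y.1 A D = dt μ x * dt μ z * cop y.1 (cnj x A) (cnj z D)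
  eq_zero : ∀ {μ : Fˣ →* ℂˣ} {n : ℕ} {f : H μ} (_ : f ∈ Hn μ n) (_ : ipH n f f = 0), f = 0
  fin : ∀ (μ : Fˣ →* ℂˣ) (n : ℕ), FiniteDimensional ℂ (Hn μ n)
  mem_Pr : ∀ {μ : Fˣ →* ℂˣ} {n : ℕ} {x : H μ} (_ : 0 < n) (_ : x ∈ Hn μ n),
    (∀ a b y z, 0 < a → 0 < b → a + b = n → y ∈ Hn μ a → z ∈ Hn μ b → ipH n (y * z) x = 0) ↔
      x ∈ Pr μ n
  dvd_of_ne_zero : ∀ {μ : Fˣ →* ℂˣ} (f : H μ) {n : ℕ} {M : Mat F n} (_ : f.1 n M ≠ 0),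
    orderOf μ ∣ n
  /-- every class function comes from the untwisted algebra -/
  exists_cf : ∀ {n : ℕ} {χ : G F n → ℂ} (_ : IsClassFunction (G F n) χ),
    ∃ f ∈ Hn (1 : Fˣ →* ℂˣ) n, H.cf f n = χ
  isClassFunction_cf : ∀ (f : H (1 : Fˣ →* ℂˣ)) (n : ℕ), IsClassFunction (G F n) (H.cf f n)
  char_mul : ∀ {a b : ℕ} {f g : H (1 : Fˣ →* ℂˣ)} (_ : f ∈ Hn 1 a) (_ : g ∈ Hn 1 b)
    (_ : IsCharacter (G F a) (H.cf f a)) (_ : IsCharacter (G F b) (H.cf g b)),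
    IsCharacter (G F (a + b)) (H.cf (f * g) (a + b))
  gen_mul : ∀ {f g : H (1 : Fˣ →* ℂˣ)} (_ : ∀ n, IsGeneralizedCharacter (G F n) (H.cf f n))
    (_ : ∀ n, IsGeneralizedCharacter (G F n) (H.cf g n)) (n : ℕ),
    IsGeneralizedCharacter (G F n) (H.cf (f * g) n)
  /-- the product is parabolic induction on the level of the groups `NR R n` -/
  tw_mul : ∀ (R : Subgroup Fˣ) {a b : ℕ} {θ₁ : NR R a → ℂ} {θ₂ : NR R b → ℂ}
    (_ : IsCharacter (NR R a) θ₁) (_ : IsCharacter (NR R b) θ₂),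
    ∃ θ : NR R (a + b) → ℂ, IsCharacter (NR R (a + b)) θ ∧
      ∀ μ : Fˣ →* ℂˣ, R ≤ μ.ker → tw μ θ = tw μ θ₁ * tw μ θ₂
  /-- multiplicative functions are group-like -/
  gl_mult : ∀ (c : MF F) {a b : ℕ} {x y : H (1 : Fˣ →* ℂˣ)} (_ : x ∈ Hn 1 a) (_ : y ∈ Hn 1 b),
    ipH (a + b) (x * y) (c.gl (a + b)) = ipH a x (c.gl a) * ipH b y (c.gl b)
  cf_reg : ∀ {μ : Fˣ →* ℂˣ} {p : ℕ} (hp : p.Prime) (h : p ≠ ringChar F) (f : H μ) (n : ℕ),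
    H.cf (mulL (MF.reg p hp h) f) n = pRegularPart p (H.cf f n)
  mulL_Pr : ∀ {μ : Fˣ →* ℂˣ} (c : MF F) {n : ℕ} {f : H μ} (_ : f ∈ Pr μ n), mulL c f ∈ Pr μ n
  gg_reg : ∀ {μ : Fˣ →* ℂˣ} {p : ℕ} (hp : p.Prime) (h : p ≠ ringChar F) (ψ : AddChar F ℂ)
    (f : H μ) (n : ℕ), gg ψ n (mulL (MF.reg p hp h) f).1 = gg ψ n f.1
  gg_lin : ∀ {μ : Fˣ →* ℂˣ} (ν : Fˣ →* ℂˣ) (ψ : AddChar F ℂ) (f : H μ) (n : ℕ),
    gg ψ n (mulL (MF.lin ν) f).1 = gg ψ n f.1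

/-- Package G1b: the two Mackey formulas. -/
class HallB (F : Type u) [Field F] [Fintype F] : Prop where
  mul_comm : ∀ (μ : Fˣ →* ℂˣ) (f g : H μ), f * g = g * f
  der : ∀ {μ : Fˣ →* ℂˣ} {k : ℕ} {p : H μ} (_ : 0 < k) (_ : p ∈ Pr μ k), ∃ D : H μ →ₗ[ℂ] H μ,
    (∀ n x y, x ∈ Hn μ n → ipH (n + k) (x * p) y = ipH n x (D y)) ∧
    (∀ a b y z, y ∈ Hn μ a → z ∈ Hn μ b → D (y * z) = D y * z + y * D z) ∧
    (∀ n y, y ∈ Hn μ (n + k) → D y ∈ Hn μ n) ∧ (∀ j y, j < k → y ∈ Hn μ j → D y = 0)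
  gg_mul : ∀ {μ : Fˣ →* ℂˣ} {ψ : AddChar F ℂ} (_ : ψ ≠ 1) {a b : ℕ} {f g : H μ}
    (_ : f ∈ Hn μ a) (_ : g ∈ Hn μ b), gg ψ (a + b) (f * g).1 = gg ψ a f.1 * gg ψ b g.1

section
variable {F : Type u} [Field F] [Fintype F]

instance hallRing_of [hA : HallA F] [hB : HallB F] : HallRing F :=
  ⟨hA.mul_assoc, hA.one_mul, hB.mul_comm⟩

theorem ipH_one (μ : Fˣ →* ℂˣ) : ipH 0 (1 : H μ) 1 = 1 := by
  have : Unique (G F 0) := ⟨⟨1⟩, G_zero_eq⟩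
  rw [ipH, CT.ip_def]
  simp [H.cf, H.one_val]

/-- the Hall algebra as a `PSH` structure -/
noncomputable def psh [hA : HallA F] [hB : HallB F] (μ : Fˣ →* ℂˣ) : PSH (H μ) where
  Hn := Hn μ
  Pr := Pr μ
  ip := ipH
  ip_add := fun n x y z => CT.ip_add_left (H.cf x n) (H.cf y n) (H.cf z n)
  ip_smul := fun n c x z => CT.ip_smul_left c (H.cf x n) (H.cf z n)
  ip_conj := fun n x y => (CT.conj_ip (H.cf y n) (H.cf x n)).symm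
  eq_zero := fun _ _ hx h => hA.eq_zero hx h
  ip_ne := fun n k x y hx hk => by
    have : H.cf x n = 0 := funext fun g => hx n hk.symm g.1
    rw [ipH, this, CT.ip_zero_left]
  fin := hA.fin μ
  one_mem := fun k hk M => by rw [H.one_val, if_neg hk]
  mul_mem := fun _ _ _ _ hx hy => hA.mul_mem hx hy
  ip_one := ipH_one μ
  Hn_zero := fun x hx => ⟨x.1 0 1, H.ext fun n M => by
    rw [H.smul_val, H.one_val]
    split_ifs with h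
    · subst h; rw [Mat_zero_eq M, mul_one]
    · rw [hx n h, mul_zero]⟩
  Pr_le := fun _ _ hx => hx.1
  mem_Pr := fun _ _ hn hx => hA.mem_Pr hn hx
  der := fun _ _ hk hp => hB.der hk hp

variable {K : Type} [Field K] [Fintype K] [Algebra F K]

/-- the primitives attached to conjugacy classes -/
structure CP [HallA F] [HallB F] (C : Ctx F K) (cp : ℕ → Kˣ → H (1 : Fˣ →* ℂˣ)) : Prop where
  prim : ∀ n x, 0 < n → n ≤ C.N → x ∈ XX F K n → cp n x ∈ Pr 1 n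
  frob : ∀ n x, cp n (x ^ Fintype.card F) = cp n x
  supp : ∀ n x M, 0 < n → n ≤ C.N → x ∈ XX F K n → (cp n x).1 n M ≠ 0 → M.charpoly = mp F n x
  norm : ∀ n x, 0 < n → n ≤ C.N → x ∈ XX F K n → ipH n (cp n x) (cp n x) =
    ((n / deg (Th.mk (1 : Fˣ) x) : ℕ) : ℂ) / ((Fintype.card F ^ n - 1 : ℕ) : ℂ)
  gg_cp : ∀ n x, 0 < n → n ≤ C.N → x ∈ XX F K n →
    gg C.ψ n (cp n x).1 = if x = 1 then (-1) ^ (n - 1) else 0
  span : ∀ n y, 0 < n → n ≤ C.N → y ∈ Pr 1 n →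
    y ∈ Submodule.span ℂ {z | ∃ x ∈ XX F K n, z = cp n x}
  logder : ∀ c : F[X] →* ℂ, ExpTo C.N (fun n => ∑ x ∈ XX F K n, c (mp F n x) • cp n x)
    (fun n => (MF.ofPoly c).gl n)

/-- an orthogonal system of primitives of `H μ` indexed by the orbits of `m` -/
structure Model [HallA F] [HallB F] (C : Ctx F K) (μ : Fˣ →* ℂˣ) (m : Fˣ)
    (π : Th K m → ℕ → H μ) : Prop where
  sys : Sys (psh μ) C.N deg π
  tsys : TSys (psh μ) C.N deg π (mulOp C.reg) (par C.p) (rho C.p)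
  gg_π : ∀ O k, 0 < k → k * deg O ≤ C.N → gg C.ψ (k * deg O) (π O k).1 = 1
  twist : ∀ z O k, 0 < k → k * deg O ≤ C.N → mulOp (MF.lin (C.mu z)) (π O k) = π (act z O) k

/-- Green's theory -/
structure Base [HallA F] [HallB F] (C : Ctx F K) (π : Th K (1 : Fˣ) → ℕ → H (1 : Fˣ →* ℂˣ)) :
    Prop extends Model C 1 1 π where
  irr : ∀ n Λ, n ≤ C.N → ALab C.N deg n Λ → IsIrrCharacter (G F n) (H.cf (sL C.N π Λ) n)
  all : ∀ n, n ≤ C.N → ∀ χ : IrrCharacter (G F n),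
    ∃ Λ, ALab C.N deg n Λ ∧ χ.1 = H.cf (sL C.N π Λ) n
  /-- primitives supported on one `p`-section -/
  sing : ∀ (θ : Th K (1 : Fˣ)) (j : ℕ) (ζ : Kˣ), par C.p θ = θ → 0 < j → j * deg θ ≤ C.N →
    ζ ∈ XX F K (j * deg θ) → GT.IsPElt C.p ζ →
    ∃ (ϖ : H (1 : Fˣ →* ℂˣ)) (c : ℂ), c ≠ 0 ∧ ϖ ∈ Hn 1 (j * deg θ) ∧
      ϖ - c • π θ j ∈ Submodule.span ℂ
        {y | ∃ θ' k, par C.p θ' ≠ θ' ∧ k * deg θ' = j * deg θ ∧ y = π θ' k} ∧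
      ∀ M, ϖ.1 (j * deg θ) M ≠ 0 → ∃ x ∈ XX F K (j * deg θ), GT.pPart C.p x = ζ ∧
        M.charpoly = mp F (j * deg θ) x

/-- all models, with the labelled constituents -/
structure Models [HallA F] [HallB F] (C : Ctx F K)
    (π₁ : Th K (1 : Fˣ) → ℕ → H (1 : Fˣ →* ℂˣ)) (π : ∀ m : Fˣ, Th K m → ℕ → H (C.mu m)) :
    Prop where
  base : Base C π₁
  model : ∀ m, Model C (C.mu m) m (π m)
  lab : ∀ (m₀ : Fˣ) (n : ℕ) (Λ : Th K m₀ → Finset ℕ), n ≤ C.N → ALab C.N deg n Λ →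
    ∃ θ : IrrCharacter (NR (C.mu m₀).ker n), tw 1 θ.1 = sL C.N π₁ (Λ ∘ toTh m₀) ∧
      ∀ m ∈ Subgroup.zpowers m₀, tw (C.mu m) θ.1 = sL C.N (π m) (Λ ∘ toTh m₀)

/-- same class of labels of `GL_n` -/
abbrev Cls (C : Ctx F K) (Λ Λ' : Th K (1 : Fˣ) → Finset ℕ) : Prop :=
  SameCls C.N (par C.p) (rho C.p) (ee C.p) Λ Λ'

/-- the total weight -/
noncomputable def W (C : Ctx F K) (Λ : Th K (1 : Fˣ) → Finset ℕ) : ℕ :=
  ∑ θ, wt (ee C.p θ) (Λ θ)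

/-- the `p'`-labels of the model `m` in the class of `Λ₀` -/
def LL (C : Ctx F K) (n : ℕ) (Λ₀ : Th K (1 : Fˣ) → Finset ℕ) (m : Fˣ) :
    Set (Th K m → Finset ℕ) :=
  {Λ | ALab C.N deg n Λ ∧ PL C.N (par C.p) Λ ∧ Cls C (Λ ∘ toTh m) Λ₀}

/-- `m₀` acts trivially on the class of `Λ₀` and on its local data -/
structure Good (C : Ctx F K) (n : ℕ) (Λ₀ : Th K (1 : Fˣ) → Finset ℕ) (m₀ : Fˣ) : Prop where
  reg : IsPRegular C.p m₀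
  inv : ∀ Λ, ALab C.N deg n Λ → Cls C Λ Λ₀ →
    ∃ Λ' : Th K m₀ → Finset ℕ, ALab C.N deg n Λ' ∧ Λ = Λ' ∘ toTh m₀
  loc : ∀ m ∈ Subgroup.zpowers m₀, ∀ θ : Th K (1 : Fˣ),
    wt (ee C.p (par C.p θ)) (Λ₀ (par C.p θ)) ≠ 0 →
      rho C.p (toTh m θ) = rho C.p θ ∧ ∀ θ' : Th K (1 : Fˣ), toTh m θ' = toTh m θ → θ' = θ

/-- the exceptional configuration `SL₄`, `p = 2` -/
def Special (C : Ctx F K) (Λ₀ : Th K (1 : Fˣ) → Finset ℕ) : Prop :=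
  C.p = 2 ∧ 4 ∣ Fintype.card F - 1 ∧ ∃ θ, sz C.N (Λ₀ θ) = 4 ∧ ∀ θ', θ' ≠ θ → Λ₀ θ' = range C.N

end

/-- Package G2a: class primitives (may use G0, G1, G2b, G4a). -/
class ClsA (F : Type u) [Field F] [Fintype F] [HallA F] [HallB F] : Prop where
  exists_cp : ∀ {K : Type} [Field K] [Fintype K] [Algebra F K] (C : Ctx F K), ∃ cp, CP C cp

/-- Package G2b: a primitive is determined by its values on the indecomposable classes. -/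
class ClsB (F : Type u) [Field F] [Fintype F] : Prop where
  vanish : ∀ {K : Type} [Field K] [Fintype K] [Algebra F K] (C : Ctx F K) {n : ℕ} (_ : 0 < n)
    (_ : n ≤ C.N), ∃ J : Th K (1 : Fˣ) → Mat F n,
      (∀ x ∈ XX F K n, (J (Th.mk 1 x)).charpoly = mp F n x) ∧
      ∀ (μ : Fˣ →* ℂˣ) (y : H μ), y ∈ Pr μ n →
        (∀ θ, orderOf μ * deg θ ∣ n → y.1 n (J θ) = 0) → y = 0
  finrank_le : ∀ {K : Type} [Field K] [Fintype K] [Algebra F K] (C : Ctx F K) {n : ℕ} (_ : 0 < n)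
    (_ : n ≤ C.N) (μ : Fˣ →* ℂˣ), Module.finrank ℂ (Pr μ n) ≤
      (univ.filter fun θ : Th K (1 : Fˣ) => orderOf μ * deg θ ∣ n).card
  finrank_reg_le : ∀ {K : Type} [Field K] [Fintype K] [Algebra F K] (C : Ctx F K) {n : ℕ}
    (_ : 0 < n) (_ : n ≤ C.N) (μ : Fˣ →* ℂˣ), Module.finrank ℂ ((Pr μ n).map (mulL C.reg)) ≤
      (univ.filter fun θ : Th K (1 : Fˣ) => par C.p θ = θ ∧ orderOf μ * deg θ ∣ n).card

/-- Package G3a: Green's lift and the necklace argument. -/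
class Green : Prop where
  lift : ∀ {F : Type u} [Field F] [Fintype F] {K : Type} [Field K] [Fintype K] [Algebra F K]
    (w : K →* ℂ) (n j : ℕ) (_ : ∀ g : G F n, (g.1.charpoly.aroots K).card = n),
    IsGeneralizedCharacter (G F n) fun g => ((g.1.charpoly.aroots K).map w).esymm j
  necklace : ∀ {A : Type u} [CommRing A] [Algebra ℂ A] (Z : Subring A) (q N : ℕ) (_ : 1 < q)
    (P : ℕ → ℕ → A) (_ : ∀ n a, 0 < n → n ≤ N → P n (q * a) = P n a)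
    (_ : ∀ n a, 0 < n → n ≤ N → P n (a + (q ^ n - 1)) = P n a)
    (E : ℕ → ℕ → ℕ → A) (_ : ∀ s n j, n ≤ N → E s n j ∈ Z)
    (_ : ∀ (s : ℕ) (t : ℂ), ExpTo N
      (fun n => ∑ I ∈ (range n).powerset, t ^ I.card • P n (s * ∑ i ∈ I, q ^ i))
      (fun n => ∑ j ∈ range (n + 1), t ^ j • E s n j))
    (m a : ℕ) (_ : 0 < m) (Φ : ℕ → A)
    (_ : ExpRel (fun k => (-1) ^ (m * k - 1) * P (m * k) (a * ∑ i ∈ range k, q ^ (m * i))) Φ)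
    (r : ℕ) (_ : m * r ≤ N), Φ r ∈ Z

/-- Package G3c: the characters of `GL_n(q)` (may use G0, G1, G2, G3a, G4). -/
class GreenB (F : Type u) [Field F] [Fintype F] [HallA F] [HallB F] : Prop where
  exists_base : ∀ {K : Type} [Field K] [Fintype K] [Algebra F K] (C : Ctx F K), ∃ π, Base C π

/-- Package G5a: Clifford theory of `NR R n` in `GL_n`. -/
class TwF (F : Type u) [Field F] [Fintype F] : Prop where
  tw_mem : ∀ (μ : Fˣ →* ℂˣ) {R : Subgroup Fˣ} {n : ℕ} (θ : NR R n → ℂ), tw μ θ ∈ Hn μ n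
  tw_add : ∀ (μ : Fˣ →* ℂˣ) {R : Subgroup Fˣ} {n : ℕ} (θ θ' : NR R n → ℂ),
    tw μ (θ + θ') = tw μ θ + tw μ θ'
  tw_one : ∀ (μ : Fˣ →* ℂˣ) (R : Subgroup Fˣ), tw μ (fun _ : NR R 0 => (1 : ℂ)) = 1
  cf_tw_one : ∀ {R : Subgroup Fˣ} {n : ℕ} (θ : NR R n → ℂ),
    H.cf (tw 1 θ) n = CT.ind (NR R n) θ
  /-- the lines span -/
  mem_Lns : ∀ {μ : Fˣ →* ℂˣ} {n : ℕ} {y : H μ} (_ : y ∈ Hn μ n), y ∈ Lns μ n fun _ => True
  ip_Ln : ∀ {μ : Fˣ →* ℂˣ} {n : ℕ} {χ χ' : IrrCharacter (G F n)} (_ : Fix μ χ.1) (_ : Fix μ χ'.1)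
    (_ : χ ≠ χ') {x y : H μ} (_ : x ∈ Ln μ χ.1) (_ : y ∈ Ln μ χ'.1), ipH n x y = 0
  /-- they are lines -/
  line : ∀ {μ : Fˣ →* ℂˣ} {n : ℕ} {χ : IrrCharacter (G F n)} (_ : Fix μ χ.1) {x y : H μ}
    (_ : x ∈ Ln μ χ.1) (_ : y ∈ Ln μ χ.1) (_ : x ≠ 0), ∃ c : ℂ, y = c • x
  tw_mem_Lns : ∀ {μ : Fˣ →* ℂˣ} {R : Subgroup Fˣ} (_ : R ≤ μ.ker) {n : ℕ} {Θ : NR R n → ℂ}
    (_ : IsCharacter (NR R n) Θ),
    tw μ Θ ∈ Lns μ n fun χ => CT.ip (CT.ind (NR R n) Θ) χ.1 ≠ 0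
  /-- constituents of a character fixed by all characters trivial on `R` -/
  of_fix : ∀ {R : Subgroup Fˣ} {n : ℕ} {χ : IrrCharacter (G F n)}
    (_ : ∀ ν : Fˣ →* ℂˣ, R ≤ ν.ker → Fix ν χ.1) {θ : IrrCharacter (NR R n)}
    (_ : CT.LiesOver (NR R n) χ.1 θ.1), CT.ind (NR R n) θ.1 = χ.1 ∧
      ∀ μ : Fˣ →* ℂˣ, R ≤ μ.ker → tw μ θ.1 ∈ Ln μ χ.1 ∧ ipH n (tw μ θ.1) (tw μ θ.1) = 1
  /-- the Gelfand-Graev constituent -/
  exists_gg : ∀ (ψ : AddChar F ℂ) {R : Subgroup Fˣ} {n : ℕ} {χ : IrrCharacter (G F n)}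
    (_ : ∀ ν : Fˣ →* ℂˣ, R ≤ ν.ker → Fix ν χ.1) {f : H (1 : Fˣ →* ℂˣ)} (_ : H.cf f n = χ.1)
    (_ : gg ψ n f.1 = 1), ∃ θ : IrrCharacter (NR R n), CT.LiesOver (NR R n) χ.1 θ.1 ∧
      ∀ μ : Fˣ →* ℂˣ, R ≤ μ.ker → gg ψ n (tw μ θ.1).1 = 1
  gg_Ln : ∀ (ψ : AddChar F ℂ) {μ : Fˣ →* ℂˣ} {n : ℕ} {χ : IrrCharacter (G F n)}
    {f : H (1 : Fˣ →* ℂˣ)} (_ : H.cf f n = χ.1) (_ : gg ψ n f.1 = 0) {x : H μ}
    (_ : x ∈ Ln μ χ.1), gg ψ n x.1 = 0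
  gg_nat : ∀ (ψ : AddChar F ℂ) {n : ℕ} {f : H (1 : Fˣ →* ℂˣ)}
    (_ : IsCharacter (G F n) (H.cf f n)), ∃ k : ℕ, gg ψ n f.1 = k
  /-- products of lines -/
  mul_Ln : ∀ [HallA F] {μ : Fˣ →* ℂˣ} {a b : ℕ} {χ₁ : IrrCharacter (G F a)}
    {χ₂ : IrrCharacter (G F b)} (_ : Fix μ χ₁.1) (_ : Fix μ χ₂.1) {f₁ f₂ : H (1 : Fˣ →* ℂˣ)}
    (_ : f₁ ∈ Hn 1 a) (_ : f₂ ∈ Hn 1 b) (_ : H.cf f₁ a = χ₁.1) (_ : H.cf f₂ b = χ₂.1)
    {x y : H μ} (_ : x ∈ Ln μ χ₁.1) (_ : y ∈ Ln μ χ₂.1),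
    x * y ∈ Lns μ (a + b) fun χ => CT.ip (H.cf (f₁ * f₂) (a + b)) χ.1 ≠ 0
  /-- truncation only links lines of characters in one block -/
  reg_Ln : ∀ {p : ℕ} (hp : p.Prime) (h : p ≠ ringChar F) {M : Ideal AlgInt} (_ : IsPModular p M)
    {μ : Fˣ →* ℂˣ} {n : ℕ} {χ χ' : IrrCharacter (G F n)} (_ : Fix μ χ.1) (_ : Fix μ χ'.1)
    {x y : H μ} (_ : x ∈ Ln μ χ.1) (_ : y ∈ Ln μ χ'.1)
    (_ : ipH n (mulL (MF.reg p hp h) x) y ≠ 0), SameBlock M χ.1 χ'.1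
  lin_Ln : ∀ {μ : Fˣ →* ℂˣ} (ν : Fˣ →* ℂˣ) {n : ℕ} {χ χ' : IrrCharacter (G F n)}
    (_ : ∀ g, χ'.1 g = dt ν g * χ.1 g) {x : H μ} (_ : x ∈ Ln μ χ.1),
    mulL (MF.lin ν) x ∈ Ln μ χ'.1

/-- Package G5b: the twisted models. -/
class TwM (F : Type u) [Field F] [Fintype F] [HallA F] [HallB F] : Prop where
  exists_models : ∀ {K : Type} [Field K] [Fintype K] [Algebra F K] (C : Ctx F K),
    ∃ π₁ π, Models C π₁ π

/-- Package G6: lower bounds for the sectional rank. -/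
class DefF (F : Type u) [Field F] [Fintype F] [HallA F] [HallB F] : Prop where
  bound : ∀ {K : Type} [Field K] [Fintype K] [Algebra F K] (C : Ctx F K)
    {π : Th K (1 : Fˣ) → ℕ → H (1 : Fˣ →* ℂˣ)} (_ : Base C π) {n : ℕ} (_ : n ≤ C.N)
    {Λ₀ : Th K (1 : Fˣ) → Finset ℕ} (_ : ALab C.N deg n Λ₀) (_ : PL C.N (par C.p) Λ₀)
    {B : Set (IrrCharacter (G F n))} (_ : IsPBlock C.M B) {χ : IrrCharacter (G F n)} (_ : χ ∈ B)
    (_ : χ.1 = H.cf (sL C.N π Λ₀) n) {P : Subgroup (G F n)} (_ : IsDefectGroup C.p C.M B P)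
    {s : ℕ} (_ : SectionalPRankLE C.p s ↥(P ⊓ NR ⊥ n)),
    W C Λ₀ ≤ s + 1 ∧ (¬ C.p ∣ Fintype.card F - 1 → W C Λ₀ ≤ s) ∧ (Special C Λ₀ → 4 ≤ s)

/-- Package G7a: the rank of a block of `SL_n` is bounded by a number of labels. -/
class CntA (F : Type u) [Field F] [Fintype F] [HallA F] [HallB F] : Prop where
  rank_le : ∀ {K : Type} [Field K] [Fintype K] [Algebra F K] (C : Ctx F K)
    {π₁ : Th K (1 : Fˣ) → ℕ → H (1 : Fˣ →* ℂˣ)} {π : ∀ m : Fˣ, Th K m → ℕ → H (C.mu m)}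
    (_ : Models C π₁ π) {n : ℕ} (_ : 0 < n) (_ : n ≤ C.N) {Λ₀ : Th K (1 : Fˣ) → Finset ℕ}
    (_ : ALab C.N deg n Λ₀) (_ : PL C.N (par C.p) Λ₀) {B : Set (IrrCharacter (G F n))}
    (_ : IsPBlock C.M B) {χ : IrrCharacter (G F n)} (_ : χ ∈ B)
    (_ : χ.1 = H.cf (sL C.N π₁ Λ₀) n) {b : Set (IrrCharacter (NR (⊥ : Subgroup Fˣ) n))}
    (_ : IsPBlock C.M b) (_ : BT.Covers (NR ⊥ n) B b) {m₀ : Fˣ} (_ : Good C n Λ₀ m₀),
    orderOf m₀ * blockRank C.p b ≤ ∑ m : Fˣ, Nat.card (LL C n Λ₀ m)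

/-- Package G7b: the count. -/
class CntB : Prop where
  count : ∀ {F : Type u} [Field F] [Fintype F] {K : Type} [Field K] [Fintype K] [Algebra F K]
    (C : Ctx F K) {n : ℕ} (_ : n ≤ C.N) {Λ₀ : Th K (1 : Fˣ) → Finset ℕ} (_ : ALab C.N deg n Λ₀)
    (_ : PL C.N (par C.p) Λ₀) {s : ℕ} (_ : 2 ≤ s) (_ : W C Λ₀ ≤ s + 1)
    (_ : ¬ C.p ∣ Fintype.card F - 1 → W C Λ₀ ≤ s) (_ : Special C Λ₀ → 4 ≤ s) (_ : 0 < n),
    ∃ m₀, Good C n Λ₀ m₀ ∧ ∑ m : Fˣ, Nat.card (LL C n Λ₀ m) ≤ orderOf m₀ * C.p ^ s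

end GLH
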