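import Cfsg.Agent.Lib.Char.FullyRam
import Cfsg.Agent.Lib.Block.GalBlock
import Cfsg.Agent.Lib.Block.Cover

/-!
# S4536, package G5a: twisted induction from a normal subgroup (abstract part)
-/

set_option autoImplicit false
set_option linter.unusedSectionVars false

namespace GLH.Tf

open Finset Cfsg CT MulAction
open scoped Classical ComplexConjugate

variable {Γ : Type*} [Group Γ] [Fintype Γ] (l : Γ →* ℂˣ)

/-- twisted induction -/
noncomputable def tI (N : Subgroup Γ) (θ : N → ℂ) : Γ → ℂ := fun g =>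
  (Nat.card N : ℂ)⁻¹ * ∑ x : Γ, (l x : ℂ) * extendByZero N θ (x⁻¹ * g * x)

/-- twisted class functions -/
def Tc (y : Γ → ℂ) : Prop := ∀ h g, y g = (l h : ℂ) * y (h⁻¹ * g * h)

variable {l} {N K : Subgroup Γ}

theorem tc_tI (θ : N → ℂ) : Tc l (tI l N θ) := fun h g => by
  rw [tI, tI, ← Equiv.sum_comp (Equiv.mulLeft h), mul_left_comm, mul_sum _ _ (l h : ℂ)]
  simp only [Equiv.coe_mulLeft, map_mul, Units.val_mul, mul_inv_rev, mul_assoc]

theorem tI_one (θ : N → ℂ) : tI 1 N θ = ind N θ := funext fun g => by simp [tI, ind_def]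

theorem tI_smul (c : ℂ) (θ : N → ℂ) : tI l N (c • θ) = c • tI l N θ := funext fun g => by
  simp only [tI, Pi.smul_apply, smul_eq_mul, mul_sum, extendByZero_apply]
  refine sum_congr rfl fun x _ => ?_
  split_ifs <;> simp [mul_left_comm]

theorem tI_add (θ η : N → ℂ) : tI l N (θ + η) = tI l N θ + tI l N η := funext fun g => by
  simp only [tI, Pi.add_apply, ← mul_add, ← sum_add_distrib, extendByZero_apply]
  refine congrArg _ (sum_congr rfl fun x _ => ?_)
  split_ifs <;> simp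

theorem conj_mul_l (x : Γ) : conj (l x : ℂ) * l x = 1 := by rw [units_hom_conj, Units.inv_mul]

/-- Frobenius reciprocity -/
theorem ip_tI (θ : N → ℂ) {y : Γ → ℂ} (hy : Tc l y) : ip (tI l N θ) y = ip θ (res N y) := by
  have h : ∀ x : Γ, ∑ g, (l x : ℂ) * extendByZero N θ (x⁻¹ * g * x) * conj (y g) =
      ∑ k : N, θ k * conj (y k) := fun x => by
    rw [← sum_extendByZero_mul N θ fun g => conj (y g), ← Equiv.sum_comp (MulAut.conj x⁻¹).toEquiv
      fun g => extendByZero N θ g * conj (y g)]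
    refine sum_congr rfl fun g _ => ?_
    rw [hy x g, map_mul, mul_right_comm, ← mul_assoc, mul_comm (l x : ℂ), conj_mul_l, one_mul, mul_comm]
    simp
  simp only [ip_def, tI, mul_assoc (Nat.card N : ℂ)⁻¹, ← mul_sum, sum_mul]
  rw [sum_comm, sum_congr rfl fun x _ => h x, sum_const, card_univ, ← Nat.card_eq_fintype_card, nsmul_eq_mul,
    mul_left_comm, inv_mul_cancel_left₀ card_cast_ne_zero]
  rfl

theorem Tc.eq_zero {y : Γ → ℂ} (hy : Tc l y) {g : Γ} (hg : g ∉ l.ker) : y g = 0 := by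
  have := hy g g
  rw [inv_mul_cancel, one_mul] at this
  by_contra h
  exact hg (Units.ext ((mul_eq_right₀ h).1 this.symm))

theorem Tc.classFun {y : Γ → ℂ} (hy : Tc l y) (hN : N ≤ l.ker) : IsClassFunction N (res N y) := fun g h => by
  have := hy h (h * g * h⁻¹)
  rw [MonoidHom.mem_ker.1 (hN h.2)] at this
  simpa [mul_assoc, res] using this

theorem Tc.tI_res {y : Γ → ℂ} (hy : Tc l y) (hN : l.ker = N) :
    tI l N (res _ y) = ((Nat.card N : ℂ)⁻¹ * Nat.card Γ) • y := funext fun g => by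
  subst hN
  rw [tI, sum_congr rfl fun x _ => (?_ : _ = y g), sum_const, card_univ, ← Nat.card_eq_fintype_card]
  · simp [mul_assoc]
  · rw [hy x g, extendByZero_apply]
    split_ifs with h
    · rfl
    · rw [hy.eq_zero h]

variable [N.Normal]

theorem res_tI (h : K ≤ N) (θ : IrrCharacter N) :
    res K (tI l N θ.1) = (Nat.card N : ℂ)⁻¹ • ∑ x : Γ, (l x : ℂ) • resLe h (x • θ).1 := funext fun k => by
  simp only [res, tI, Pi.smul_apply, Finset.sum_apply, smul_eq_mul]
  refine congrArg _ (sum_congr rfl fun x _ => congrArg _ ?_)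
  rw [extendByZero_of_mem N _ (Subgroup.Normal.conj_mem' inferInstance _ (h k.2) x)]
  exact (conjSmul_apply_of_eq θ (by simp [mul_assoc])).symm

theorem ip_res_tI (h : K ≤ N) (θ : IrrCharacter N) (φ : K → ℂ) :
    ip (res K (tI l N θ.1)) φ = (Nat.card N : ℂ)⁻¹ * ∑ x : Γ, (l x : ℂ) * ip (resLe h (x • θ).1) φ := by
  simp only [res_tI h, ip_smul_left, ip_sum_left]

theorem exists_of_ip_res_tI (h : K ≤ N) {θ : IrrCharacter N} {φ : K → ℂ}
    (h0 : ip (res K (tI l N θ.1)) φ ≠ 0) : ∃ x : Γ, LiesOverLe h (x • θ).1 φ := by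
  rw [ip_res_tI h] at h0
  obtain ⟨x, -, hx⟩ := exists_ne_zero_of_sum_ne_zero (right_ne_zero_of_mul h0)
  exact ⟨x, right_ne_zero_of_mul hx⟩

theorem tI_conj (g : Γ) (θ : IrrCharacter N) : tI l N θ.1 = (l g : ℂ) • tI l N (g • θ).1 := funext fun a => by
  rw [Pi.smul_apply, smul_eq_mul, tI, tI, ← Equiv.sum_comp (Equiv.mulRight g), mul_left_comm, mul_sum _ _ (l g : ℂ)]
  refine congrArg _ (sum_congr rfl fun x _ => ?_)
  rw [Equiv.coe_mulRight, map_mul, Units.val_mul, mul_comm (l x : ℂ), mul_assoc]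
  refine congrArg _ (congrArg _ ?_)
  by_cases hx : x⁻¹ * a * x ∈ N
  · have h1 : (x * g)⁻¹ * a * (x * g) ∈ N := by
      simpa [mul_assoc] using Subgroup.Normal.conj_mem' inferInstance _ hx g
    rw [extendByZero_of_mem N _ hx, extendByZero_of_mem N _ h1]
    exact (conjSmul_apply_of_eq θ (by simp [mul_assoc])).symm
  · rw [extendByZero_of_notMem N _ hx, extendByZero_of_notMem N _ fun h => hx (by
      simpa [mul_assoc] using Subgroup.Normal.conj_mem inferInstance _ h g)]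

theorem stab_eq (hN : l.ker = N) {θ : IrrCharacter N} (h : tI l N θ.1 ≠ 0) : stabilizer Γ θ = N :=
  le_antisymm (fun g hg => hN.le <| by
    have := tI_conj (l := l) g θ
    rw [mem_stabilizer_iff.1 hg] at this
    by_contra h1
    exact h (((smul_eq_zero (r := (l g : ℂ) - 1)).1 (by rw [sub_smul, ← this, one_smul, sub_self])).resolve_left
      fun e => h1 (Units.ext (sub_eq_zero.1 e)))) (le_inertia θ)

theorem ip_tI_self {θ : IrrCharacter N} (h : stabilizer Γ θ = N) (hN : N ≤ l.ker) :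
    ip (tI l N θ.1) (tI l N θ.1) = 1 := by
  rw [ip_tI _ (tc_tI _), ← conj_ip, ip_res_tI le_rfl, sum_congr rfl (g := fun x => if x ∈ N then 1 else 0) fun x _ => ?_]
  · rw [sum_boole, ← Fintype.card_subtype, ← Nat.card_eq_fintype_card, inv_mul_cancel₀ card_cast_ne_zero, map_one]
  · rw [resLe_refl, ip_irr]
    by_cases hx : x ∈ N
    · rw [if_pos hx, if_pos (conjSmul_of_mem hx θ), MonoidHom.mem_ker.1 (hN hx), Units.val_one, one_mul]
    · rw [if_neg hx, if_neg fun e : x • θ = θ => hx (h.le e), mul_zero]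

theorem ind_eq_of_cyclic [IsCyclic (Γ ⧸ N)] {χ : IrrCharacter Γ} (hχ : ∀ g ∉ N, χ.1 g = 0) {θ : IrrCharacter N}
    (h : LiesOver N χ.1 θ.1) : ind N θ.1 = χ.1 ∧ stabilizer Γ θ = N := by
  have h1 := (vanish_off_iff_ind_eq_smul h).1 hχ
  rw [h.mult_eq_one_of_isCyclic, Nat.cast_one, one_smul] at h1
  exact ⟨h1, (isIrr_ind_iff_inertia_eq θ).1 (h1 ▸ χ.2)⟩

/-- the constituent containing a character of multiplicity one -/
theorem exists_gg (h : K ≤ N) {θ : IrrCharacter N} {φ : K → ℂ} (hφ : IsCharacter K φ)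
    (h1 : ip (res K (ind N θ.1)) φ = 1) :
    ∃ g : Γ, ∀ l : Γ →* ℂˣ, N ≤ l.ker → ip (res K (tI l N (g • θ).1)) φ = 1 := by
  obtain ⟨g, hg⟩ := exists_of_ip_res_tI (l := 1) h (θ := θ) (by rw [tI_one, h1]; exact one_ne_zero)
  refine ⟨g, fun l hl => ?_⟩
  rw [← ind_conjSmul g, ← tI_one, ip_res_tI h] at h1
  rw [← h1, ip_res_tI h]
  generalize g • θ = η at *
  have h2 : ∀ x : Γ, ip (resLe h (x • η).1) φ = mult (resLe h (x • η).1) φ := fun x =>
    ((irr_isCharacter _).resLe h).ip_eq_mult hφ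
  refine congrArg _ (sum_congr rfl fun x _ => ?_)
  by_cases hx : x ∈ N
  · rw [MonoidHom.mem_ker.1 (hl hx)]; rfl
  simp only [h2, MonoidHom.one_apply, Units.val_one, one_mul, ← Nat.cast_sum] at h1
  have h3 := Nat.cast_injective (R := ℂ) ((inv_mul_eq_one₀ card_cast_ne_zero).1 h1)
  rw [← sum_filter_add_sum_filter_not univ (· ∈ N), sum_congr rfl fun x hx => (?_ : _ = mult (resLe h η.1) φ),
    sum_const, ← Fintype.card_subtype, ← Nat.card_eq_fintype_card, smul_eq_mul] at h3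
  · have h4 := Nat.le_mul_of_pos_right (Nat.card N) ((liesOverLe_iff_mult_pos h (irr_isCharacter η) hφ).1 hg)
    have h5 := single_le_sum (f := fun x : Γ => mult (resLe h (x • η).1) φ) (fun _ _ => Nat.zero_le _)
      (mem_filter.2 ⟨mem_univ x, hx⟩ : x ∈ univ.filter (· ∉ N))
    rw [h2, show mult (resLe h (x • η).1) φ = 0 by
      change Nat.card N = Nat.card N * _ + _ at h3
      omega, Nat.cast_zero, mul_zero, mul_zero]
  · rw [conjSmul_of_mem (mem_filter.1 hx).2]

theorem sameBlock_of {p : ℕ} [Fact p.Prime] {M : Ideal AlgInt} (hM : IsPModular p M) {χ χ' : IrrCharacter Γ}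
    (hχ : ∀ g ∉ N, χ'.1 g = 0) {θ θ' : IrrCharacter N} (h : LiesOver N χ.1 θ.1) (h' : LiesOver N χ'.1 θ'.1)
    (h0 : ip (pRegularPart p (tI l N θ.1)) (tI l N θ'.1) ≠ 0) : SameBlock M χ.1 χ'.1 := by
  have h1 : Tc l (pRegularPart p (tI l N θ'.1)) := fun a g => by
    rw [BT.pRegularPart_apply_ite, BT.pRegularPart_apply_ite, tc_tI _ a g,
      show orderOf (a⁻¹ * g * a) = orderOf g by simpa using (MulAut.conj a⁻¹).orderOf_eq g, mul_ite, mul_zero]
  rw [BT.ip_pRegularPart_left_eq_right, ip_tI _ h1, BT.res_pRegularPart, ← BT.ip_pRegularPart_left_eq_right,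
    ← conj_ip, map_ne_zero] at h0
  obtain ⟨x, hx⟩ := exists_of_ip_res_tI le_rfl h0
  rw [LiesOverLe, resLe_refl, ← BT.ip_pRegularPart_left_eq_right] at hx
  obtain ⟨ψ, h2, h3⟩ := BT.Covers.exists_liesOver hM (B := blockOf M χ.1) (b := blockOf M (x • θ').1)
    ⟨χ, BT.mem_blockOf_self hM χ, θ, BT.sameBlock_of_ip_pRegularPart_ne_zero hM hx, h⟩ ⟨χ, rfl⟩ ⟨_, rfl⟩
    (BT.mem_blockOf_self hM _)
  exact (vanish_off_iff_unique h').1 hχ ψ ((liesOver_conjSmul_iff (irr_isClassFunction ψ) x θ').1 h3) ▸ h2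

theorem mul_tI (f : Γ →* ℂˣ) (θ : IrrCharacter K) :
    (fun g => (f g : ℂ) * tI l K θ.1 g) = tI l K (f.comp K.subtype • θ).1 := funext fun g => by
  rw [tI, tI, mul_left_comm, mul_sum]
  refine congrArg _ (sum_congr rfl fun x _ => ?_)
  rw [mul_left_comm, extendByZero_apply, extendByZero_apply]
  split_ifs with h
  · rw [lin_smul_val, linChar_val]
    simp [mul_comm (f x)⁻¹]
  · rw [mul_zero]

theorem liesOver_lin (f : Γ →* ℂˣ) {χ : Γ → ℂ} {θ : IrrCharacter K} (h : LiesOver K χ θ.1) :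
    LiesOver K (fun g => (f g : ℂ) * χ g) (f.comp K.subtype • θ).1 := by
  refine fun e => h (e ▸ ?_)
  simp only [ip_def, lin_smul_val, linChar_val, res, Pi.mul_apply, map_mul]
  refine congrArg _ (sum_congr rfl fun x _ => ?_)
  have := conj_mul_l (l := f) x
  simp only [MonoidHom.comp_apply, Subgroup.coe_subtype]
  linear_combination (-(χ x * conj (θ.1 x))) * this

end GLH.Tf
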