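import Cfsg.Agent.Lib.GL.BaseL

/-!
# S4536, package G5b: the group-like series of the twisted algebra
-/

set_option autoImplicit false
set_option linter.unusedSectionVars false

namespace GLH

open Finset Matrix Polynomial Cfsg SFock
open scoped Classical ComplexConjugate

universe u

attribute [local irreducible] hmul gg

/-- the label with a single row on `i` -/
noncomputable def rowL {ι : Type*} (N : ℕ) (i : ι) (k : ℕ) : ι → Finset ℕ :=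
  fun j => if j = i then row N k else range N

section Row
variable [hS : AbsA.{u}] {ι : Type*} [Fintype ι] {N : ℕ}

theorem sz_range (N : ℕ) : sz N (range N) = 0 := by simp [sz, d0]

theorem sz_rowL (hN : 0 < N) (i : ι) (k : ℕ) (j : ι) :
    sz N (rowL N i k j) = if j = i then k else 0 := by
  rw [rowL]
  split_ifs
  · exact (hS.row_spec hN k).2
  · exact sz_range N

theorem alab_rowL (hN : 0 < N) (d : ι → ℕ) (i : ι) (k : ℕ) : ALab N d (k * d i) (rowL N i k) := by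
  refine ⟨fun j => ?_, ?_⟩
  · rw [rowL]
    split_ifs
    · exact (hS.row_spec hN k).1
    · exact card_range N
  · simp [sz_rowL hN, mul_comm]

theorem isRow_rowL (hN : 0 < N) (i : ι) (k : ℕ) : IsRow N (rowL N i k) := fun j => by
  rw [sz_rowL hN, rowL]
  split_ifs
  · rfl
  · exact (hS.row_zero hN).symm

theorem IsRow.eq_rowL (hN : 0 < N) {Λ : ι → Finset ℕ} (h : IsRow N Λ) {i : ι} {k : ℕ}
    (hk : ∀ j, sz N (Λ j) = if j = i then k else 0) : Λ = rowL N i k := funext fun j => by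
  rw [h j, hk j, rowL]
  split_ifs
  · rfl
  · exact hS.row_zero hN

end Row

theorem IsRow.comp {ι κ : Type*} {N : ℕ} {Λ : ι → Finset ℕ} (h : IsRow N Λ) (f : κ → ι) :
    IsRow N (Λ ∘ f) := fun j => h (f j)

theorem IsRow.of_comp {ι κ : Type*} {N : ℕ} {Λ : ι → Finset ℕ} {f : κ → ι}
    (hf : Function.Surjective f) (h : IsRow N (Λ ∘ f)) : IsRow N Λ := fun i => by
  obtain ⟨j, rfl⟩ := hf i
  exact h j

variable {F : Type u} [Field F] [Fintype F] {K : Type} [Field K] [Fintype K] [Algebra F K]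
variable [hA : HallA F] [hB : HallB F] [hO : Orb.{u}] [hS : AbsA.{u}] [hW : TwF F]
variable {C : Ctx F K} {π₁ : Th K (1 : Fˣ) → ℕ → H (1 : Fˣ →* ℂˣ)}

variable (C π₁) in
/-- the line of the character with label `Λ ∘ toTh m` -/
noncomputable def LnL (m : Fˣ) (n : ℕ) (Λ : Th K m → Finset ℕ) : Submodule ℂ (H (C.mu m)) :=
  Ln (C.mu m) (H.cf (sL C.N π₁ (Λ ∘ toTh m)) n)

variable (C π₁) in
/-- the sum of the lines of the labels satisfying `Q` -/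
noncomputable def VV (m : Fˣ) (n : ℕ) (Q : (Th K m → Finset ℕ) → Prop) :
    Submodule ℂ (H (C.mu m)) := ⨆ (Λ) (_ : ALab C.N deg n Λ ∧ Q Λ), LnL C π₁ m n Λ

theorem pull {m : Fˣ} {N n : ℕ} {Λ : Th K m → Finset ℕ} (h : ALab N deg n Λ) :
    ALab N deg n (Λ ∘ toTh m : Th K (1 : Fˣ) → Finset ℕ) := (hO.alab_pull (one_mem _)).2 h

theorem Ln_le_Hn (μ : Fˣ →* ℂˣ) {n : ℕ} (χ : G F n → ℂ) : Ln μ χ ≤ Hn μ n :=
  Submodule.span_le.2 (by rintro _ ⟨θ, -, rfl⟩; exact hW.tw_mem μ θ.1)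

theorem LnL_le_VV {m : Fˣ} {n : ℕ} {Q : (Th K m → Finset ℕ) → Prop} {Λ : Th K m → Finset ℕ}
    (h : ALab C.N deg n Λ) (hQ : Q Λ) : LnL C π₁ m n Λ ≤ VV C π₁ m n Q :=
  le_iSup₂_of_le (f := fun Λ (_ : ALab C.N deg n Λ ∧ Q Λ) => LnL C π₁ m n Λ) Λ ⟨h, hQ⟩ le_rfl

theorem VV_le {m : Fˣ} {n : ℕ} {Q : (Th K m → Finset ℕ) → Prop} {S : Submodule ℂ (H (C.mu m))}
    (h : ∀ Λ, ALab C.N deg n Λ → Q Λ → LnL C π₁ m n Λ ≤ S) : VV C π₁ m n Q ≤ S :=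
  iSup₂_le fun Λ hΛ => h Λ hΛ.1 hΛ.2

theorem VV_mono {m : Fˣ} {n : ℕ} {Q Q' : (Th K m → Finset ℕ) → Prop}
    (h : ∀ Λ, ALab C.N deg n Λ → Q Λ → Q' Λ) : VV C π₁ m n Q ≤ VV C π₁ m n Q' :=
  VV_le fun Λ h1 h2 => LnL_le_VV h1 (h Λ h1 h2)

theorem VV_le_Hn {m : Fˣ} {n : ℕ} {Q : (Th K m → Finset ℕ) → Prop} :
    VV C π₁ m n Q ≤ Hn (C.mu m) n := VV_le fun _ _ _ => Ln_le_Hn _ _

/-- a linear identity holds on `VV` when it holds on the lines -/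
theorem VV_eq {m : Fˣ} {n : ℕ} {Q : (Th K m → Finset ℕ) → Prop} {M : Type*} [AddCommGroup M]
    [Module ℂ M] {f g : H (C.mu m) →ₗ[ℂ] M}
    (h : ∀ Λ, ALab C.N deg n Λ → Q Λ → ∀ x ∈ LnL C π₁ m n Λ, f x = g x) {x : H (C.mu m)}
    (hx : x ∈ VV C π₁ m n Q) : f x = g x :=
  (VV_le (S := LinearMap.eqLocus f g) fun Λ h1 h2 x hx => h Λ h1 h2 x hx) hx

theorem VV_ind {m : Fˣ} {n : ℕ} {Q : (Th K m → Finset ℕ) → Prop} {P : H (C.mu m) → Prop}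
    (h0 : P 0) (hadd : ∀ x y, P x → P y → P (x + y))
    (h : ∀ Λ, ALab C.N deg n Λ → Q Λ → ∀ x ∈ LnL C π₁ m n Λ, P x) {x : H (C.mu m)}
    (hx : x ∈ VV C π₁ m n Q) : P x := by
  rw [VV, iSup_subtype'] at hx
  exact Submodule.iSup_induction _ (motive := P) hx (fun Λ x hx => h Λ.1 Λ.2.1 Λ.2.2 x hx) h0 hadd

variable (hb : Base C π₁)
include hb

theorem Lns_le_VV {m : Fˣ} {n : ℕ} (hn : n ≤ C.N) {Q' : IrrCharacter (G F n) → Prop}
    {Q : (Th K m → Finset ℕ) → Prop}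
    (h : ∀ Λ (hΛ : ALab C.N deg n Λ), Q' (hb.chr hn (pull hΛ)) → Q Λ) :
    Lns (C.mu m) n Q' ≤ VV C π₁ m n Q := by
  refine iSup₂_le fun χ hχ => ?_
  obtain ⟨Λ, h1, h2⟩ := hb.exists_pull hn hχ.1
  obtain rfl : χ = hb.chr hn (pull h1) := Subtype.ext h2
  exact LnL_le_VV h1 (h Λ h1 hχ.2)

theorem Hn_le_VV {m : Fˣ} {n : ℕ} (hn : n ≤ C.N) :
    Hn (C.mu m) n ≤ VV C π₁ m n fun _ => True := fun _ hy =>
  Lns_le_VV hb hn (fun _ _ _ => trivial) (hW.mem_Lns hy)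

theorem fix_chr {m : Fˣ} {n : ℕ} (hn : n ≤ C.N) {Λ : Th K m → Finset ℕ} (h : ALab C.N deg n Λ) :
    Fix (C.mu m) (hb.chr hn (pull h)).1 := hb.fix_pull hn h _ le_rfl

theorem ip_LnL {m : Fˣ} {n : ℕ} (hn : n ≤ C.N) {Λ Λ' : Th K m → Finset ℕ} (h : ALab C.N deg n Λ)
    (h' : ALab C.N deg n Λ') (hne : Λ ≠ Λ') {x y : H (C.mu m)} (hx : x ∈ LnL C π₁ m n Λ)
    (hy : y ∈ LnL C π₁ m n Λ') : ipH n x y = 0 := by
  refine hW.ip_Ln (fix_chr hb hn h) (fix_chr hb hn h') (fun e => hne ?_) hx hy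
  have := hb.toModel.eq_of_cf hn (pull h) (pull h') (congrArg Subtype.val e)
  exact (toTh_surjective (one_mem _)).injective_comp_right this

theorem ip_VV {m : Fˣ} {n : ℕ} (hn : n ≤ C.N) {Q Q' : (Th K m → Finset ℕ) → Prop}
    (h : ∀ Λ, ALab C.N deg n Λ → Q Λ → ¬ Q' Λ) {x y : H (C.mu m)} (hx : x ∈ VV C π₁ m n Q)
    (hy : y ∈ VV C π₁ m n Q') : ipH n x y = 0 := by
  refine VV_eq (f := ipL n y) (g := 0) (fun Λ h1 h2 x hx => ?_) hx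
  rw [ipL_apply, LinearMap.zero_apply, ipH_eq_zero_comm]
  refine VV_eq (f := ipL n x) (g := 0) (fun Λ' h1' h2' y hy => ?_) hy
  exact ip_LnL hb hn h1' h1 (fun e => h Λ h1 h2 (e ▸ h2')) hy hx

theorem row_of_ip {a b : ℕ} (hn : a + b ≤ C.N) {Λ₁ Λ₂ Λ : Th K (1 : Fˣ) → Finset ℕ}
    (h₁ : ALab C.N deg a Λ₁) (h₂ : ALab C.N deg b Λ₂) (h : ALab C.N deg (a + b) Λ)
    (hip : ipH (a + b) (sL C.N π₁ Λ₁ * sL C.N π₁ Λ₂) (sL C.N π₁ Λ) ≠ 0) (hr : IsRow C.N Λ) :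
    IsRow C.N Λ₁ ∧ IsRow C.N Λ₂ := by
  have m1 := hb.toModel.sL_mem (by omega) h₁
  have m2 := hb.toModel.sL_mem (by omega) h₂
  have hc := (hA.char_mul m1 m2 (hb.irr a Λ₁ (by omega) h₁).isCharacter
    (hb.irr b Λ₂ (by omega) h₂).isCharacter).sub_irr (hb.chr hn h) hip
  obtain ⟨k, hk⟩ := hW.gg_nat C.ψ (f := sL C.N π₁ Λ₁ * sL C.N π₁ Λ₂ - sL C.N π₁ Λ) hc
  rw [← ggL_apply, map_sub, ggL_apply, ggL_apply, hB.gg_mul C.ψ_ne m1 m2,
    hb.toModel.gg_sL (by omega) h₁, hb.toModel.gg_sL (by omega) h₂, hb.toModel.gg_sL hn h,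
    if_pos hr] at hk
  by_contra hne
  have h0 : (0 : ℂ) - 1 = k := by
    rw [← hk]
    rcases not_and_or.1 hne with h' | h' <;> simp [h']
  have h1 : ((k + 1 : ℕ) : ℂ) = 0 := by push_cast; rw [← h0]; ring
  exact Nat.succ_ne_zero k (Nat.cast_eq_zero.1 h1)

theorem mul_LnL {m : Fˣ} {a b : ℕ} (hn : a + b ≤ C.N) {Λ₁ Λ₂ : Th K m → Finset ℕ}
    (h₁ : ALab C.N deg a Λ₁) (h₂ : ALab C.N deg b Λ₂) {x y : H (C.mu m)}
    (hx : x ∈ LnL C π₁ m a Λ₁) (hy : y ∈ LnL C π₁ m b Λ₂) :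
    x * y ∈ VV C π₁ m (a + b) fun Λ => (∀ O, sz C.N (Λ O) = sz C.N (Λ₁ O) + sz C.N (Λ₂ O)) ∧
      (IsRow C.N Λ → IsRow C.N Λ₁ ∧ IsRow C.N Λ₂) := by
  have ha : a ≤ C.N := by omega
  have hb' : b ≤ C.N := by omega
  refine Lns_le_VV hb hn (fun Λ hΛ hip => ⟨fun O => ?_, fun hr => ?_⟩)
    (hW.mul_Ln (fix_chr hb ha h₁) (fix_chr hb hb' h₂) (hb.toModel.sL_mem ha (pull h₁))
      (hb.toModel.sL_mem hb' (pull h₂)) rfl rfl hx hy)
  · obtain ⟨θ, rfl⟩ := toTh_surjective (K := K) (one_mem (Subgroup.zpowers m)) O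
    exact hS.sz_add hb.sys hn (pull h₁) (pull h₂) (pull hΛ) hip θ
  · obtain ⟨r1, r2⟩ := row_of_ip hb hn (pull h₁) (pull h₂) (pull hΛ) hip (hr.comp _)
    exact ⟨r1.of_comp (toTh_surjective (one_mem _)), r2.of_comp (toTh_surjective (one_mem _))⟩

theorem mul_VV {m : Fˣ} {a b : ℕ} (hn : a + b ≤ C.N) {s t : Th K m → ℕ} {x y : H (C.mu m)}
    (hx : x ∈ VV C π₁ m a fun Λ => ∀ O, sz C.N (Λ O) = s O)
    (hy : y ∈ VV C π₁ m b fun Λ => ∀ O, sz C.N (Λ O) = t O) :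
    x * y ∈ VV C π₁ m (a + b) fun Λ => ∀ O, sz C.N (Λ O) = s O + t O := by
  refine VV_ind (P := fun x => x * y ∈ _) (by rw [zero_mul]; exact zero_mem _)
    (fun _ _ h h' => by rw [add_mul]; exact add_mem h h') (fun Λ₁ h₁ q₁ x hx => ?_) hx
  refine VV_ind (P := fun y => x * y ∈ _) (by rw [mul_zero]; exact zero_mem _)
    (fun _ _ h h' => by rw [mul_add]; exact add_mem h h') (fun Λ₂ h₂ q₂ y hy => ?_) hy
  exact VV_mono (fun Λ _ h O => by rw [h.1 O, q₁, q₂]) (mul_LnL hb hn h₁ h₂ hx hy)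

theorem gg_LnL {m : Fˣ} {n : ℕ} (hn : n ≤ C.N) {Λ : Th K m → Finset ℕ} (h : ALab C.N deg n Λ)
    (hr : ¬ IsRow C.N Λ) {x : H (C.mu m)} (hx : x ∈ LnL C π₁ m n Λ) : gg C.ψ n x.1 = 0 := by
  refine hW.gg_Ln C.ψ (χ := hb.chr hn (pull h)) rfl ?_ hx
  rw [hb.toModel.gg_sL hn (pull h), if_neg fun h' => hr (h'.of_comp (toTh_surjective (one_mem _)))]

theorem exists_reg {m : Fˣ} {n : ℕ} (hn : n ≤ C.N) {Λ : Th K m → Finset ℕ} (h : ALab C.N deg n Λ)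
    (hr : IsRow C.N Λ) : ∃ x ∈ LnL C π₁ m n Λ, gg C.ψ n x.1 = 1 ∧ ipH n x x = 1 := by
  have hf : ∀ ν : Fˣ →* ℂˣ, (C.mu m).ker ≤ ν.ker → Fix ν (hb.chr hn (pull h)).1 :=
    hb.fix_pull hn h
  obtain ⟨θ, h1, h2⟩ := hW.exists_gg C.ψ hf (f := sL C.N π₁ (Λ ∘ toTh m)) rfl
    (by rw [hb.toModel.gg_sL hn (pull h), if_pos (hr.comp _)])
  obtain ⟨h3, h4⟩ := (hW.of_fix hf h1).2 _ le_rfl
  exact ⟨_, h3, h2 _ le_rfl, h4⟩

omit hb in
variable (C π₁) in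
/-- the normalised element of the line of the row label -/
noncomputable def hat (m : Fˣ) (O : Th K m) (k : ℕ) : H (C.mu m) :=
  if h : ∃ x ∈ LnL C π₁ m (k * deg O) (rowL C.N O k), gg C.ψ (k * deg O) x.1 = 1 ∧
    ipH (k * deg O) x x = 1 then h.choose else 0

theorem hat_spec {m : Fˣ} (O : Th K m) {k : ℕ} (h : k * deg O ≤ C.N) :
    hat C π₁ m O k ∈ LnL C π₁ m (k * deg O) (rowL C.N O k) ∧
      gg C.ψ (k * deg O) (hat C π₁ m O k).1 = 1 ∧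
      ipH (k * deg O) (hat C π₁ m O k) (hat C π₁ m O k) = 1 := by
  have h1 := exists_reg hb h (alab_rowL C.N_pos deg O k) (isRow_rowL C.N_pos O k)
  rw [hat, dif_pos h1]
  exact h1.choose_spec

theorem eq_of_gg {m : Fˣ} {n : ℕ} (hn : n ≤ C.N) {Λ : Th K m → Finset ℕ} (h : ALab C.N deg n Λ)
    {x y : H (C.mu m)} (hx : x ∈ LnL C π₁ m n Λ) (hy : y ∈ LnL C π₁ m n Λ)
    (hg : gg C.ψ n y.1 = 1) : x = gg C.ψ n x.1 • y := by
  have hy0 : y ≠ 0 := by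
    rintro rfl
    rw [← ggL_apply, map_zero] at hg
    exact zero_ne_one hg
  obtain ⟨c, rfl⟩ := hW.line (fix_chr hb hn h) hy hx hy0
  rw [← ggL_apply, map_smul, ggL_apply, hg, smul_eq_mul, mul_one]

theorem hat_zero {m : Fˣ} (O : Th K m) : hat C π₁ m O 0 = 1 := by
  obtain ⟨h1, h2, -⟩ := hat_spec hb O (k := 0) (by simp)
  have h3 := Ln_le_Hn _ _ h1
  rw [zero_mul] at h2 h3
  obtain ⟨c, hc⟩ := (psh (C.mu m)).Hn_zero _ h3
  rw [hc, ← ggL_apply, map_smul, ggL_apply, gg_one, smul_eq_mul, mul_one] at h2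
  rw [hc, h2, one_smul]

/-- on the labels with the sizes of `rowL O k` the form with `hat` is the functional `gg` -/
theorem ip_hat {m : Fˣ} (O : Th K m) {k : ℕ} (h : k * deg O ≤ C.N) {z : H (C.mu m)}
    (hz : z ∈ VV C π₁ m (k * deg O) fun Λ => ∀ O', sz C.N (Λ O') = if O' = O then k else 0) :
    ipH (k * deg O) z (hat C π₁ m O k) = gg C.ψ (k * deg O) z.1 := by
  obtain ⟨h1, h2, h3⟩ := hat_spec hb O h
  refine VV_eq (f := ipL _ _) (g := ggL C.ψ _) (fun Λ a1 a2 x hx => ?_) hz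
  rw [ipL_apply, ggL_apply]
  by_cases hr : IsRow C.N Λ
  · obtain rfl := hr.eq_rowL C.N_pos a2
    conv_lhs => rw [eq_of_gg hb h a1 hx h1 h2]
    rw [ipH_smul_left, h3, mul_one]
  · rw [gg_LnL hb h a1 hr hx]
    exact ip_LnL hb h a1 (alab_rowL C.N_pos deg O k) (fun e => hr (e ▸ isRow_rowL C.N_pos O k))
      hx h1

omit hb in
variable (C π₁) in
/-- the group-like family of an orbit -/
noncomputable def Phi (m : Fˣ) (O : Th K m) (n : ℕ) : H (C.mu m) :=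
  if deg O ∣ n ∧ n ≤ C.N then hat C π₁ m O (n / deg O) else 0

theorem Phi_mul {m : Fˣ} (O : Th K m) {k : ℕ} (h : k * deg O ≤ C.N) :
    Phi C π₁ m O (k * deg O) = hat C π₁ m O k := by
  rw [Phi, if_pos ⟨dvd_mul_left _ _, h⟩, Nat.mul_div_cancel _ (hO.deg_pos O)]

theorem Phi_mem {m : Fˣ} (O : Th K m) (n : ℕ) : Phi C π₁ m O n ∈ VV C π₁ m n
    fun Λ => ∃ k, n = k * deg O ∧ Λ = rowL C.N O k := by
  by_cases h : deg O ∣ n ∧ n ≤ C.N
  · obtain ⟨⟨k, rfl⟩, h2⟩ := h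
    rw [mul_comm] at h2 ⊢
    rw [Phi_mul hb O h2]
    exact LnL_le_VV (alab_rowL C.N_pos deg O k) ⟨k, rfl, rfl⟩ (hat_spec hb O h2).1
  · rw [Phi, if_neg h]; exact zero_mem _

theorem ip_Phi_of_ne {m : Fˣ} (O : Th K m) {n : ℕ} (hn : n ≤ C.N) {Λ : Th K m → Finset ℕ}
    (h : ALab C.N deg n Λ) (hne : ∀ k, n = k * deg O → Λ ≠ rowL C.N O k) {x : H (C.mu m)}
    (hx : x ∈ LnL C π₁ m n Λ) : ipH n x (Phi C π₁ m O n) = 0 := by
  refine ip_VV hb hn ?_ (LnL_le_VV (Q := fun L => L = Λ) h rfl hx) (Phi_mem hb O n)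
  rintro L - rfl ⟨k, h1, h2⟩
  exact hne k h1 h2

theorem Phi_mult {m : Fˣ} (O : Th K m) {a b : ℕ} (hn : a + b ≤ C.N) {x y : H (C.mu m)}
    (hx : x ∈ Hn (C.mu m) a) (hy : y ∈ Hn (C.mu m) b) :
    ipH (a + b) (x * y) (Phi C π₁ m O (a + b)) =
      ipH a x (Phi C π₁ m O a) * ipH b y (Phi C π₁ m O b) := by
  have ha : a ≤ C.N := by omega
  have hb' : b ≤ C.N := by omega
  refine VV_ind (P := fun x => ipH (a + b) (x * y) _ = ipH a x _ * ipH b y _)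
    (by rw [zero_mul, ipH_zero_left, ipH_zero_left, zero_mul])
    (fun _ _ h h' => by rw [add_mul, ipH_add_left, ipH_add_left, h, h', add_mul])
    (fun Λ₁ h₁ _ x hx => ?_) (Hn_le_VV hb ha hx)
  refine VV_ind (P := fun y => ipH (a + b) (x * y) _ = ipH a x _ * ipH b y _)
    (by rw [mul_zero, ipH_zero_left, ipH_zero_left, mul_zero])
    (fun _ _ h h' => by rw [mul_add, ipH_add_left, ipH_add_left, h, h', mul_add])
    (fun Λ₂ h₂ _ y hy => ?_) (Hn_le_VV hb hb' hy)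
  have hxy := mul_LnL hb hn h₁ h₂ hx hy
  by_cases hc : (∃ k, a = k * deg O ∧ Λ₁ = rowL C.N O k) ∧ ∃ k, b = k * deg O ∧ Λ₂ = rowL C.N O k
  · obtain ⟨⟨k, rfl, rfl⟩, l, rfl, rfl⟩ := hc
    have e : k * deg O + l * deg O = (k + l) * deg O := (add_mul _ _ _).symm
    have s : ∀ (j : ℕ) (z : H (C.mu m)), j * deg O ≤ C.N →
        z ∈ LnL C π₁ m (j * deg O) (rowL C.N O j) →
        ipH (j * deg O) z (Phi C π₁ m O (j * deg O)) = gg C.ψ (j * deg O) z.1 := fun j z hj hz => by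
      rw [Phi_mul hb O hj]
      exact ip_hat hb O hj (LnL_le_VV (alab_rowL C.N_pos deg O j) (sz_rowL C.N_pos O j) hz)
    rw [s k x ha hx, s l y hb' hy, ← hB.gg_mul C.ψ_ne (Ln_le_Hn _ _ hx) (Ln_le_Hn _ _ hy)]
    revert hxy
    rw [e] at hn ⊢
    intro hxy
    rw [Phi_mul hb O hn]
    refine ip_hat hb O hn (VV_mono (fun Λ _ h O' => ?_) hxy)
    rw [h.1, sz_rowL C.N_pos, sz_rowL C.N_pos]
    split_ifs <;> rfl
  · have h0 : ipH a x (Phi C π₁ m O a) * ipH b y (Phi C π₁ m O b) = 0 := by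
      rcases not_and_or.1 hc with h | h
      · rw [ip_Phi_of_ne hb O ha h₁ (fun k e e' => h ⟨k, e, e'⟩) hx, zero_mul]
      · rw [ip_Phi_of_ne hb O hb' h₂ (fun k e e' => h ⟨k, e, e'⟩) hy, mul_zero]
    rw [h0]
    refine ip_VV hb hn ?_ hxy (Phi_mem hb O _)
    rintro Λ - h ⟨k, -, rfl⟩
    refine hc ?_
    obtain ⟨r1, r2⟩ := h.2 (isRow_rowL C.N_pos O k)
    have key : ∀ {c : ℕ} {L : Th K m → Finset ℕ}, ALab C.N deg c L → IsRow C.N L →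
        (∀ O', O' ≠ O → sz C.N (L O') = 0) → ∃ k, c = k * deg O ∧ L = rowL C.N O k := by
      intro c L hL hr h0
      refine ⟨sz C.N (L O), ?_, hr.eq_rowL C.N_pos fun O' => ?_⟩
      · rw [← hL.2, sum_eq_single O (fun O' _ hne => by rw [h0 O' hne, mul_zero]) (by simp),
          mul_comm]
      · split_ifs with e
        · rw [e]
        · exact h0 O' e
    have h0 : ∀ O', O' ≠ O → sz C.N (Λ₁ O') + sz C.N (Λ₂ O') = 0 := fun O' hne => by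
      rw [← h.1, sz_rowL C.N_pos, if_neg hne]
    exact ⟨key h₁ r1 fun O' hne => by have := h0 O' hne; omega,
      key h₂ r2 fun O' hne => by have := h0 O' hne; omega⟩

end GLH
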