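import Cfsg.Agent.Lib.GL.TwA

/-!
# S4536, package G5b: the primitives of the twisted algebra
-/

set_option autoImplicit false
set_option linter.unusedSectionVars false

namespace GLH

open Finset Matrix Polynomial Cfsg SFock
open scoped Classical ComplexConjugate

universe u

attribute [local irreducible] hmul gg

theorem sum_range_mul_of_dvd {M : Type*} [AddCommMonoid M] {d : ℕ} (hd : 0 < d) (k : ℕ)
    (f : ℕ → M) (h : ∀ i, i < k * d → ¬ d ∣ i + 1 → f i = 0) :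
    ∑ i ∈ range (k * d), f i = ∑ j ∈ range k, f ((j + 1) * d - 1) := by
  symm
  refine sum_of_injOn (fun j => (j + 1) * d - 1) (fun a _ b _ e => ?_) (fun j hj => ?_)
    (fun i hi hn => h i (mem_range.1 hi) fun ⟨c, hc⟩ => hn ?_) fun _ _ => rfl
  · have h1 : 0 < (a + 1) * d := Nat.mul_pos (Nat.succ_pos a) hd
    have h2 : 0 < (b + 1) * d := Nat.mul_pos (Nat.succ_pos b) hd
    have h3 : (a + 1) * d = (b + 1) * d := by simp only at e; omega
    have := Nat.eq_of_mul_eq_mul_right hd h3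
    omega
  · have h1 : (j + 1) * d ≤ k * d := Nat.mul_le_mul_right _ (mem_range.1 hj)
    have h2 : 0 < (j + 1) * d := Nat.mul_pos (Nat.succ_pos j) hd
    exact mem_range.2 (show (j + 1) * d - 1 < k * d by omega)
  · obtain _ | c := c
    · omega
    have h1 := mem_range.1 hi
    refine ⟨c, mem_coe.2 (mem_range.2 ?_), by
      show (c + 1) * d - 1 = i
      rw [mul_comm, ← hc]; rfl⟩
    have : d * (c + 1) ≤ d * k := by rw [← hc, mul_comm d]; omega
    exact Nat.le_of_mul_le_mul_left this hd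

variable {F : Type u} [Field F] [Fintype F] {K : Type} [Field K] [Fintype K] [Algebra F K]
variable [hA : HallA F] [hB : HallB F]

theorem natCast_mul_eq {μ : Fˣ →* ℂˣ} (n : ℕ) (x : H μ) : (n : H μ) * x = (n : ℂ) • x := by
  rw [← nsmul_eq_mul, Nat.cast_smul_eq_nsmul]

theorem eq_zero_of_span {μ : Fˣ →* ℂˣ} {n : ℕ} {S : Set (H μ)} {x : H μ} (hn : x ∈ Hn μ n)
    (hx : x ∈ Submodule.span ℂ S) (h : ∀ z ∈ S, ipH n z x = 0) : x = 0 :=
  hA.eq_zero hn (ipH_eq_zero_of_span hx h)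

theorem le_span_of_orth {μ : Fˣ →* ℂˣ} {n : ℕ} {ι : Type*} (s : Finset ι) (v : ι → H μ)
    (W : Submodule ℂ (H μ)) [FiniteDimensional ℂ W] (hv : ∀ i ∈ s, v i ∈ W)
    (h0 : ∀ i ∈ s, ∀ j ∈ s, i ≠ j → ipH n (v i) (v j) = 0) (h1 : ∀ i ∈ s, ipH n (v i) (v i) ≠ 0)
    (hr : Module.finrank ℂ W ≤ s.card) : W ≤ Submodule.span ℂ (v '' s) := by
  have hli : LinearIndependent ℂ fun i : s => v i := by
    refine Fintype.linearIndependent_iff.2 fun c hc i => ?_
    have := congrArg (ipL n (v i)) hc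
    rw [map_sum, map_zero, sum_eq_single i (fun j _ hj => by
      rw [map_smul, ipL_apply, h0 j j.2 i i.2 fun e => hj (Subtype.ext e), smul_zero]) (by simp),
      map_smul, ipL_apply, smul_eq_mul] at this
    exact (mul_eq_zero.1 this).resolve_right (h1 i i.2)
  have e : Submodule.span ℂ (v '' s) = Submodule.span ℂ (Set.range fun i : s => v i) := by
    rw [Set.image_eq_range]; rfl
  refine (Submodule.eq_of_le_of_finrank_le (Submodule.span_le.2 ?_) ?_).ge
  · rintro _ ⟨i, hi, rfl⟩; exact hv i hi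
  · rwa [e, finrank_span_eq_card hli, Fintype.card_coe]

theorem fin_Pr (μ : Fˣ →* ℂˣ) (n : ℕ) : FiniteDimensional ℂ (Pr μ n) :=
  have := hA.fin μ n
  Submodule.finiteDimensional_of_le (fun _ h => h.1 : Pr μ n ≤ Hn μ n)

variable [hO : Orb.{u}] [hS : AbsA.{u}] [hW : TwF F]
variable {C : Ctx F K} {π₁ : Th K (1 : Fˣ) → ℕ → H (1 : Fˣ →* ℂˣ)}

variable (C π₁) in
/-- the defining property of the logarithmic derivative -/
def IsLog (m : Fˣ) (O : Th K m) (w : ℕ → H (C.mu m)) : Prop :=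
  ExpTo C.N w (Phi C π₁ m O) ∧ ∀ k, 0 < k → w k ∈ Pr (C.mu m) k ∧
    ∀ y, y ∈ Pr (C.mu m) k → ipH k y (w k) = k * ipH k y (Phi C π₁ m O k)

variable (C π₁) in
/-- the logarithmic derivative -/
noncomputable def lg (m : Fˣ) (O : Th K m) : ℕ → H (C.mu m) :=
  if h : ∃ w, IsLog C π₁ m O w then h.choose else 0

variable (C π₁) in
/-- the primitives of the twisted algebra -/
noncomputable def piM (m : Fˣ) (O : Th K m) (k : ℕ) : H (C.mu m) :=
  (deg O : ℂ)⁻¹ • lg C π₁ m O (k * deg O)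

theorem deg_cast_ne {m : Fˣ} (O : Th K m) : (deg O : ℂ) ≠ 0 :=
  Nat.cast_ne_zero.2 (hO.deg_pos O).ne'

variable (hb : Base C π₁)
include hb

theorem isLog_lg {m : Fˣ} (O : Th K m) : IsLog C π₁ m O (lg C π₁ m O) := by
  have h : ∃ w, IsLog C π₁ m O w := hS.prim_of_mult (psh (C.mu m)) C.N (Phi C π₁ m O)
    (fun n => VV_le_Hn (Phi_mem hb O n))
    (by have := Phi_mul hb O (k := 0) (by simp); rwa [zero_mul, hat_zero hb] at this)
    fun a b x y hn hx hy => Phi_mult hb O hn hx hy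
  rw [lg, dif_pos h]
  exact h.choose_spec

theorem piM_prim {m : Fˣ} (O : Th K m) {k : ℕ} (hk : 0 < k) :
    piM C π₁ m O k ∈ Pr (C.mu m) (k * deg O) :=
  Submodule.smul_mem _ _ ((isLog_lg hb O).2 _ (Nat.mul_pos hk (hO.deg_pos O))).1

theorem ip_piM {m : Fˣ} (O : Th K m) {k : ℕ} (hk : 0 < k) (h : k * deg O ≤ C.N) {y : H (C.mu m)}
    (hy : y ∈ Pr (C.mu m) (k * deg O)) :
    ipH (k * deg O) y (piM C π₁ m O k) = k * ipH (k * deg O) y (hat C π₁ m O k) := by
  rw [piM, ipH_smul_right, ((isLog_lg hb O).2 _ (Nat.mul_pos hk (hO.deg_pos O))).2 y hy,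
    Phi_mul hb O h, map_inv₀, Complex.conj_natCast]
  have := deg_cast_ne O
  push_cast
  field_simp

theorem piM_rec {m : Fˣ} (O : Th K m) {k : ℕ} (h : k * deg O ≤ C.N) :
    (k : ℂ) • hat C π₁ m O k =
      ∑ j ∈ range k, piM C π₁ m O (j + 1) * hat C π₁ m O (k - 1 - j) := by
  obtain ⟨h1, h2⟩ := isLog_lg hb O
  have h3 := h1.2 _ h
  have hd := hO.deg_pos O
  rw [natCast_mul_eq, Phi_mul hb O h, sum_range_mul_of_dvd hd k _ fun i hi hn => by
    obtain ⟨a1, a2⟩ := h2 (i + 1) (Nat.succ_pos i)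
    have := a2 _ a1
    rw [Phi, if_neg fun h => hn h.1, ipH_zero_right, mul_zero] at this
    rw [hA.eq_zero a1.1 this, zero_mul]] at h3
  have h4 : (k : ℂ) • hat C π₁ m O k = (deg O : ℂ)⁻¹ • ((k * deg O : ℕ) : ℂ) • hat C π₁ m O k := by
    rw [smul_smul]
    congr 1
    have := deg_cast_ne O
    push_cast
    field_simp
  rw [h4, h3, smul_sum]
  refine sum_congr rfl fun j hj => ?_
  have hj' := mem_range.1 hj
  have e1 : (j + 1) * deg O - 1 + 1 = (j + 1) * deg O :=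
    Nat.sub_add_cancel (Nat.mul_pos (Nat.succ_pos j) hd)
  have e2 : k * deg O - 1 - ((j + 1) * deg O - 1) = (k - 1 - j) * deg O := by
    have : k * deg O = (k - 1 - j) * deg O + (j + 1) * deg O := by
      rw [← add_mul]; congr 1; omega
    omega
  rw [e1, e2, Phi_mul hb O ((Nat.mul_le_mul_right _ (by omega)).trans h), piM, H.smul_mul]

theorem piM_rec' {m : Fˣ} (O : Th K m) {k : ℕ} (h : (k + 1) * deg O ≤ C.N) :
    piM C π₁ m O (k + 1) = ((k + 1 : ℕ) : ℂ) • hat C π₁ m O (k + 1) -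
      ∑ j ∈ range k, piM C π₁ m O (j + 1) * hat C π₁ m O (k - j) := by
  rw [piM_rec hb O h, sum_range_succ, Nat.add_sub_cancel, Nat.sub_self, hat_zero hb, mul_one,
    add_sub_cancel_left]

theorem hh_piM {m : Fˣ} (O : Th K m) (k : ℕ) :
    k * deg O ≤ C.N → hh (piM C π₁ m) O k = hat C π₁ m O k := by
  induction k using Nat.strong_induction_on with
  | _ k ih =>
  intro h
  obtain ⟨h0, h1⟩ := hS.expRel_hh (piM C π₁ m) O
  rcases Nat.eq_zero_or_pos k with rfl | hk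
  · rw [h0, hat_zero hb]
  have h2 := h1 k
  rw [natCast_mul_eq, sum_congr rfl fun j hj => by
    rw [ih (k - 1 - j) (by omega) ((Nat.mul_le_mul_right _ (by omega)).trans h)],
    ← piM_rec hb O h] at h2
  exact smul_right_injective _ (Nat.cast_ne_zero.2 hk.ne') h2

theorem hat_VV {m : Fˣ} (O : Th K m) {k : ℕ} (h : k * deg O ≤ C.N) : hat C π₁ m O k ∈
    VV C π₁ m (k * deg O) fun Λ => ∀ O', sz C.N (Λ O') = if O' = O then k else 0 :=
  LnL_le_VV (alab_rowL C.N_pos deg O k) (sz_rowL C.N_pos O k) (hat_spec hb O h).1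

theorem piM_VV {m : Fˣ} (O : Th K m) (k : ℕ) : 0 < k → k * deg O ≤ C.N → piM C π₁ m O k ∈
    VV C π₁ m (k * deg O) (fun Λ => ∀ O', sz C.N (Λ O') = if O' = O then k else 0) ∧
      gg C.ψ (k * deg O) (piM C π₁ m O k).1 = 1 := by
  induction k using Nat.strong_induction_on with
  | _ k ih =>
  intro hk h
  obtain ⟨k, rfl⟩ := Nat.exists_eq_succ_of_ne_zero hk.ne'
  have key : ∀ j ∈ range k, piM C π₁ m O (j + 1) * hat C π₁ m O (k - j) ∈
      VV C π₁ m ((k + 1) * deg O) (fun Λ => ∀ O', sz C.N (Λ O') = if O' = O then k + 1 else 0) ∧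
      gg C.ψ ((k + 1) * deg O) (piM C π₁ m O (j + 1) * hat C π₁ m O (k - j)).1 = 1 := by
    intro j hj
    have hj' := mem_range.1 hj
    have e : (k + 1) * deg O = (j + 1) * deg O + (k - j) * deg O := by
      rw [← add_mul]; congr 1; omega
    rw [Nat.succ_eq_add_one, e] at h
    obtain ⟨a1, a2⟩ := ih (j + 1) (by omega) (Nat.succ_pos j) (by omega)
    have a3 := hat_VV hb O (k := k - j) (by omega)
    rw [e]
    refine ⟨VV_mono (fun Λ _ h O' => ?_) (mul_VV hb h a1 a3), ?_⟩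
    · rw [h O']
      split_ifs <;> omega
    · rw [hB.gg_mul C.ψ_ne (VV_le_Hn a1) (VV_le_Hn a3), a2, (hat_spec hb O (by omega)).2.1, one_mul]
  rw [piM_rec' hb O h]
  refine ⟨sub_mem (Submodule.smul_mem _ _ (hat_VV hb O h)) (sum_mem fun j hj => (key j hj).1), ?_⟩
  rw [← ggL_apply, map_sub, map_smul, map_sum, ggL_apply, (hat_spec hb O h).2.1,
    sum_congr rfl fun j hj => (ggL_apply _ _ _).trans (key j hj).2]
  simp

theorem piM_orth {m : Fˣ} (O O' : Th K m) {k l : ℕ} (hk : 0 < k) (hl : 0 < l)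
    (h : k * deg O ≤ C.N) (e : k * deg O = l * deg O') :
    ipH (k * deg O) (piM C π₁ m O k) (piM C π₁ m O' l) = if O = O' then (k : ℂ) else 0 := by
  obtain ⟨a1, a2⟩ := piM_VV hb O k hk h
  split_ifs with hO'
  · subst hO'
    obtain rfl := Nat.eq_of_mul_eq_mul_right (hO.deg_pos O) e
    rw [ip_piM hb O hk h (piM_prim hb O hk), ip_hat hb O h a1, a2, mul_one]
  · have a3 := (piM_VV hb O' l hl (e ▸ h)).1
    rw [← e] at a3
    refine ip_VV hb h (fun Λ _ h1 h2 => ?_) a1 a3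
    have := (h1 O).symm.trans (h2 O)
    rw [if_pos rfl, if_neg hO'] at this
    omega

theorem div_pos_of_dvd {m : Fˣ} {O : Th K m} {n : ℕ} (hn : 0 < n) (h : deg O ∣ n) :
    0 < n / deg O := Nat.div_pos (Nat.le_of_dvd hn h) (hO.deg_pos O)

theorem ip_piM_div {m : Fˣ} {n : ℕ} (h0 : 0 < n) (hn : n ≤ C.N) {O O' : Th K m} (h : deg O ∣ n)
    (h' : deg O' ∣ n) : ipH n (piM C π₁ m O (n / deg O)) (piM C π₁ m O' (n / deg O')) =
      if O = O' then ((n / deg O : ℕ) : ℂ) else 0 := by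
  have := piM_orth hb O O' (div_pos_of_dvd hb h0 h) (div_pos_of_dvd hb h0 h')
    (by rwa [Nat.div_mul_cancel h]) (by rw [Nat.div_mul_cancel h, Nat.div_mul_cancel h'])
  rwa [Nat.div_mul_cancel h] at this

theorem piM_div_prim {m : Fˣ} {n : ℕ} (h0 : 0 < n) {O : Th K m} (h : deg O ∣ n) :
    piM C π₁ m O (n / deg O) ∈ Pr (C.mu m) n := by
  have := piM_prim hb O (div_pos_of_dvd hb h0 h)
  rwa [Nat.div_mul_cancel h] at this

variable [hC : ClsB F]

theorem Pr_le_span {m : Fˣ} {n : ℕ} (h0 : 0 < n) (hn : n ≤ C.N) : Pr (C.mu m) n ≤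
    Submodule.span ℂ ((fun O : Th K m => piM C π₁ m O (n / deg O)) ''
      (univ.filter fun O : Th K m => deg O ∣ n : Finset _)) := by
  have := fin_Pr (C.mu m) n
  refine le_span_of_orth (n := n) _ _ _ (fun O hO' => piM_div_prim hb h0 (mem_filter.1 hO').2)
    (fun O h O' h' hne => ?_) (fun O h => ?_) ?_
  · rw [ip_piM_div hb h0 hn (mem_filter.1 h).2 (mem_filter.1 h').2, if_neg hne]
  · rw [ip_piM_div hb h0 hn (mem_filter.1 h).2 (mem_filter.1 h).2, if_pos rfl]
    exact Nat.cast_ne_zero.2 (div_pos_of_dvd hb h0 (mem_filter.1 h).2).ne'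
  · rw [hO.card_deg C m h0 hn, ← hO.orderOf_mu C m]
    exact hC.finrank_le C h0 hn _

theorem sys_piM (m : Fˣ) : Sys (psh (C.mu m)) C.N deg (piM C π₁ m) where
  deg_pos := hO.deg_pos
  prim := fun O _ hk _ => piM_prim hb O hk
  orth := fun O O' k l hk hl h e => by
    have := piM_orth hb O O' hk hl h e
    convert this
    rfl
  span := fun n x h0 hn hx => by
    refine Submodule.span_mono ?_ (Pr_le_span hb h0 hn hx)
    rintro _ ⟨O, hO', rfl⟩
    exact ⟨O, _, Nat.div_mul_cancel (mem_filter.1 hO').2, rfl⟩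

theorem lin_hat {m : Fˣ} (z : Fˣ) (O : Th K m) {k : ℕ} (h : k * deg O ≤ C.N) :
    mulOp (MF.lin (C.mu z)) (hat C π₁ m O k) = hat C π₁ m (act z O) k := by
  obtain ⟨a1, a2, -⟩ := hat_spec hb O h
  obtain ⟨b1, b2, -⟩ := hat_spec hb (act z O) (k := k) (by rwa [hO.deg_act])
  have l1 := alab_rowL C.N_pos deg O k
  have l2 := alab_rowL C.N_pos deg (act z O) k
  rw [hO.deg_act] at b1 b2 l2
  have e : (rowL C.N O k ∘ toTh m : Th K (1 : Fˣ) → _) ∘ act z⁻¹ =
      rowL C.N (act z O) k ∘ toTh m := by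
    funext θ
    simp only [Function.comp, rowL, toTh_act (one_mem _)]
    congr 1
    exact propext ((actE z m).symm_apply_eq)
  have h1 : mulL (MF.lin (C.mu z)) (hat C π₁ m O k) ∈ LnL C π₁ m _ (rowL C.N (act z O) k) :=
    hW.lin_Ln (C.mu z) (χ := hb.chr h (pull l1)) (χ' := hb.chr h (pull l2)) (fun g => by
      change H.cf (sL C.N π₁ _) _ g = _
      rw [← e, ← hb.toModel.twist_sL z h (pull l1), mulOp_eq, cf_lin]
      rfl) a1
  rw [mulOp_eq, eq_of_gg hb h l2 h1 b1 b2, hA.gg_lin, a2, one_smul]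

theorem lin_piM {m : Fˣ} (z : Fˣ) (O : Th K m) (k : ℕ) : 0 < k → k * deg O ≤ C.N →
    mulOp (MF.lin (C.mu z)) (piM C π₁ m O k) = piM C π₁ m (act z O) k := by
  induction k using Nat.strong_induction_on with
  | _ k ih =>
  intro hk h
  obtain ⟨k, rfl⟩ := Nat.exists_eq_succ_of_ne_zero hk.ne'
  rw [piM_rec' hb O h, piM_rec' hb (act z O) (by rwa [hO.deg_act]), map_sub, map_smul, map_sum,
    lin_hat hb z O h]
  refine congrArg _ (sum_congr rfl fun j hj => ?_)
  have hj' := mem_range.1 hj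
  rw [map_mul, ih (j + 1) (by omega) (Nat.succ_pos j) ((Nat.mul_le_mul_right _ (by omega)).trans h),
    lin_hat hb z O ((Nat.mul_le_mul_right _ (by omega)).trans h)]

end GLH
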