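import Cfsg.Agent.Lib.GL.TwC

/-!
# S4536, package G5b: labelled constituents; the instance `TwM`
-/

set_option autoImplicit false
set_option linter.unusedSectionVars false

namespace GLH

open Finset Matrix Polynomial Cfsg SFock
open scoped Classical ComplexConjugate

universe u

attribute [local irreducible] hmul gg

section Abstract
variable [hS : AbsA.{u}]

theorem Qs_le {N : ℕ} {T : Finset ℕ} (h : T.card = N) : Qs N T ≤ sz N T ^ 2 := by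
  rw [← hS.sum_parts h, Qs]
  exact sum_sq_le_sq_sum_of_nonneg fun _ _ => Nat.zero_le _

theorem Abv.alab {ι : Type*} [Fintype ι] {N n : ℕ} {d : ι → ℕ} {Λ Λ' : ι → Finset ℕ}
    (h : Abv N Λ' Λ) (h' : ALab N d n Λ) : ALab N d n Λ' :=
  ⟨fun i => (h.1 i).1, by rw [← h'.2]; exact sum_congr rfl fun i _ => by rw [(h.1 i).2.1]⟩

theorem Abv.induction {ι : Type*} [Fintype ι] {N : ℕ} {P : (ι → Finset ℕ) → Prop}
    (h : ∀ Λ, (∀ Λ', Abv N Λ' Λ → P Λ') → P Λ) (Λ : ι → Finset ℕ) : P Λ := by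
  induction hk : ∑ i, (sz N (Λ i) ^ 2 + 1 - Qs N (Λ i)) using Nat.strong_induction_on
    generalizing Λ with
  | _ k ih =>
  refine h Λ fun Λ' h' => ih _ ?_ Λ' rfl
  rw [← hk]
  obtain ⟨i, hi⟩ := Function.ne_iff.1 h'.2
  refine sum_lt_sum (fun j _ => ?_) ⟨i, mem_univ _, ?_⟩
  · obtain ⟨-, a2, a3 | a3⟩ := h'.1 j
    · rw [a3]
    · rw [a2]; omega
  · obtain ⟨a1, a2, a3 | a3⟩ := h'.1 i
    · exact absurd a3 hi
    · have := Qs_le a1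
      rw [a2] at this ⊢
      omega

variable {A : Type u} [CommRing A] [Algebra ℂ A] {ι κ : Type} [Fintype ι] [Fintype κ] {N : ℕ}

theorem sL_rowL_comp (hN : 0 < N) (π : κ → ℕ → A) (f : κ → ι) (i : ι) (k : ℕ) :
    sL N π (rowL N i k ∘ f) = ∏ x, if f x = i then hh π x k else 1 := by
  refine prod_congr rfl fun x _ => ?_
  simp only [Function.comp, rowL]
  split_ifs
  · exact hS.ss_row hN π x k
  · exact hS.ss_range N π x

theorem prod_sL_rowL (hN : 0 < N) (π : κ → ℕ → A) (f : κ → ι) (Λ : ι → Finset ℕ) :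
    ∏ x : ι × Fin N, sL N π (rowL N x.1 (en N (Λ x.1) x.2 - x.2) ∘ f) = hL N π (Λ ∘ f) := by
  simp only [sL_rowL_comp hN, Fintype.prod_prod_type_right]
  rw [prod_congr rfl fun j _ => prod_comm, prod_comm]
  refine prod_congr rfl fun x _ => prod_congr rfl fun j _ => ?_
  rw [prod_ite_eq, if_pos (mem_univ _)]
  rfl

theorem sL_of_isRow (hN : 0 < N) (π : ι → ℕ → A) {Λ : ι → Finset ℕ} (h : IsRow N Λ) :
    sL N π Λ = ∏ i, hh π i (sz N (Λ i)) :=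
  prod_congr rfl fun i _ => by
    conv_lhs => rw [h i]
    exact hS.ss_row hN π i _

end Abstract

variable {F : Type u} [Field F] [Fintype F] {K : Type} [Field K] [Fintype K] [Algebra F K]
variable [hA : HallA F] [hB : HallB F] [hO : Orb.{u}] [hS : AbsA.{u}] [hW : TwF F]
variable [hT : AbsB.{u}] [hC : ClsB F]
variable {C : Ctx F K} {π₁ : Th K (1 : Fˣ) → ℕ → H (1 : Fˣ →* ℂˣ)}

theorem eq_of_ip_one {μ : Fˣ →* ℂˣ} {n : ℕ} {x y : H μ} (hx : x ∈ Hn μ n) (hy : y ∈ Hn μ n)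
    (h1 : ipH n x x = 1) (h2 : ipH n y y = 1) (h3 : ipH n x y = 1) : x = y := by
  refine sub_eq_zero.1 (hA.eq_zero (sub_mem hx hy) ?_)
  rw [ipH_sub_left, ipH_sub_right, ipH_sub_right, ← conj_ipH n x y, h1, h2, h3, map_one]
  ring

theorem tw_prod (R : Subgroup Fˣ) {ι : Type*} (s : Finset ι) (d : ι → ℕ)
    (θ : ∀ i, NR R (d i) → ℂ) (h : ∀ i, IsCharacter (NR R (d i)) (θ i)) {n : ℕ}
    (hn : ∑ i ∈ s, d i = n) : ∃ Θ : NR R n → ℂ, IsCharacter (NR R n) Θ ∧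
      ∀ μ : Fˣ →* ℂˣ, R ≤ μ.ker → tw μ Θ = ∏ i ∈ s, tw μ (θ i) := by
  induction s using Finset.induction_on generalizing n with
  | empty =>
    subst hn
    exact ⟨fun _ => 1, CT.isCharacter_one, fun μ _ => hW.tw_one μ R⟩
  | insert a s ha ih =>
    rw [sum_insert ha] at hn
    subst hn
    obtain ⟨Θ, h1, h2⟩ := ih rfl
    obtain ⟨Θ', h3, h4⟩ := hA.tw_mul R (h a) h1
    exact ⟨Θ', h3, fun μ hμ => by rw [h4 μ hμ, h2 μ hμ, prod_insert ha]⟩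

variable (hb : Base C π₁)
include hb

theorem one_VV (m : Fˣ) : (1 : H (C.mu m)) ∈ VV C π₁ m 0 fun Λ => ∀ O, sz C.N (Λ O) = 0 :=
  VV_mono (fun Λ h _ O => by
    have := h.le O
    have := hO.deg_pos O
    exact (Nat.mul_eq_zero.1 (by omega : sz C.N (Λ O) * deg O = 0)).resolve_right (by omega))
    (Hn_le_VV hb (Nat.zero_le _) one_mem_Hn)

theorem prod_VV {m : Fˣ} {ι : Type*} (s : Finset ι) (f : ι → H (C.mu m)) (d : ι → ℕ)
    (t : ι → Th K m → ℕ) (hn : ∑ i ∈ s, d i ≤ C.N)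
    (h : ∀ i ∈ s, f i ∈ VV C π₁ m (d i) fun Λ => ∀ O, sz C.N (Λ O) = t i O) :
    ∏ i ∈ s, f i ∈ VV C π₁ m (∑ i ∈ s, d i) fun Λ => ∀ O, sz C.N (Λ O) = ∑ i ∈ s, t i O := by
  induction s using Finset.induction_on with
  | empty => simpa only [prod_empty, sum_empty] using one_VV hb m
  | insert a s ha ih =>
    rw [sum_insert ha] at hn
    simp only [prod_insert ha, sum_insert ha]
    exact mul_VV hb hn (h a (mem_insert_self _ _))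
      (ih (by omega) fun i hi => h i (mem_insert_of_mem hi))

theorem ip_eq_gg {m : Fˣ} {n : ℕ} (hn : n ≤ C.N) {Λ : Th K m → Finset ℕ} (h : ALab C.N deg n Λ)
    (hr : IsRow C.N Λ) {y z : H (C.mu m)} (h1 : y ∈ LnL C π₁ m n Λ) (h2 : gg C.ψ n y.1 = 1)
    (h3 : ipH n y y = 1) (hz : z ∈ VV C π₁ m n fun Λ' => ∀ O, sz C.N (Λ' O) = sz C.N (Λ O)) :
    ipH n z y = gg C.ψ n z.1 := by
  refine VV_eq (f := ipL _ _) (g := ggL C.ψ _) (fun Λ' a1 a2 x hx => ?_) hz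
  rw [ipL_apply, ggL_apply]
  by_cases hr' : IsRow C.N Λ'
  · obtain rfl : Λ' = Λ := funext fun O => by rw [hr' O, a2, ← hr O]
    conv_lhs => rw [eq_of_gg hb hn a1 hx h1 h2]
    rw [ipH_smul_left, h3, mul_one]
  · rw [gg_LnL hb hn a1 hr' hx]
    exact ip_LnL hb hn a1 h (fun e => hr' (e ▸ hr)) hx h1

theorem eq_sL_row {m : Fˣ} {n : ℕ} (hn : n ≤ C.N) {Λ : Th K m → Finset ℕ} (h : ALab C.N deg n Λ)
    (hr : IsRow C.N Λ) {y : H (C.mu m)} (h1 : y ∈ LnL C π₁ m n Λ) (h2 : gg C.ψ n y.1 = 1)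
    (h3 : ipH n y y = 1) : y = sL C.N (piM C π₁ m) Λ := by
  have hM := model_piM hb m
  have e : ∑ O, sz C.N (Λ O) * deg O = n := by
    rw [← h.2]; exact sum_congr rfl fun O _ => mul_comm _ _
  have h4 := prod_VV hb univ (fun O => hat C π₁ m O (sz C.N (Λ O))) (fun O => sz C.N (Λ O) * deg O)
    (fun O O' => if O' = O then sz C.N (Λ O) else 0) (e ▸ hn)
    fun O _ => hat_VV hb O ((h.le O).trans hn)
  rw [e, ← prod_congr rfl fun O _ => hh_piM hb O _ ((h.le O).trans hn),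
    ← sL_of_isRow C.N_pos _ hr] at h4
  simp only [sum_ite_eq, mem_univ, if_true] at h4
  refine (eq_of_ip_one (hM.sL_mem hn h) (Ln_le_Hn _ _ h1) ?_ h3 ?_).symm
  · rw [hM.ip_sL hn h h, if_pos rfl]
  · rw [ip_eq_gg hb hn h hr h1 h2 h3 h4, hM.gg_sL hn h, if_pos hr]

omit hb in
theorem comp_toTh_comp {m m₀ : Fˣ} (hm : m ∈ Subgroup.zpowers m₀) {α : Type*} (Λ : Th K m₀ → α) :
    ((Λ ∘ toTh m₀ : Th K m → α) ∘ toTh m : Th K (1 : Fˣ) → α) = Λ ∘ toTh m₀ :=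
  funext fun θ => congrArg Λ (toTh_toTh hm θ)

theorem tw_one_eq {m₀ : Fˣ} {n : ℕ} (hn : n ≤ C.N) {Λ : Th K m₀ → Finset ℕ} (h : ALab C.N deg n Λ)
    {θ : IrrCharacter (NR (C.mu m₀).ker n)}
    (hθ : CT.LiesOver _ (hb.chr hn (pull h)).1 θ.1) : tw 1 θ.1 = sL C.N π₁ (Λ ∘ toTh m₀) :=
  eq_of_cf (hW.tw_mem 1 θ.1) (hb.toModel.sL_mem hn (pull h))
    ((hW.cf_tw_one θ.1).trans (hW.of_fix (χ := hb.chr hn (pull h)) (hb.fix_pull hn h) hθ).1)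

theorem tw_LnL {m₀ : Fˣ} {n : ℕ} (hn : n ≤ C.N) {Λ : Th K m₀ → Finset ℕ} (h : ALab C.N deg n Λ)
    {θ : IrrCharacter (NR (C.mu m₀).ker n)} (hθ : CT.LiesOver _ (hb.chr hn (pull h)).1 θ.1)
    {m : Fˣ} (hm : m ∈ Subgroup.zpowers m₀) :
    tw (C.mu m) θ.1 ∈ LnL C π₁ m n (Λ ∘ toTh m₀) ∧
      ipH n (tw (C.mu m) θ.1) (tw (C.mu m) θ.1) = 1 := by
  rw [LnL, comp_toTh_comp hm]
  exact (hW.of_fix (χ := hb.chr hn (pull h)) (hb.fix_pull hn h) hθ).2 _ ((hO.mu_ker C m₀ m).2 hm)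

theorem lab_row {m₀ : Fˣ} {n : ℕ} (hn : n ≤ C.N) {Λ : Th K m₀ → Finset ℕ} (h : ALab C.N deg n Λ)
    (hr : IsRow C.N Λ) : ∃ θ : IrrCharacter (NR (C.mu m₀).ker n),
      tw 1 θ.1 = sL C.N π₁ (Λ ∘ toTh m₀) ∧
      ∀ m ∈ Subgroup.zpowers m₀, tw (C.mu m) θ.1 = sL C.N (piM C π₁ m) (Λ ∘ toTh m₀) := by
  obtain ⟨θ, h1, h2⟩ := hW.exists_gg C.ψ (χ := hb.chr hn (pull h)) (hb.fix_pull hn h)
    (f := sL C.N π₁ (Λ ∘ toTh m₀)) rfl
    (by rw [hb.toModel.gg_sL hn (pull h), if_pos (hr.comp _)])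
  refine ⟨θ, tw_one_eq hb hn h h1, fun m hm => ?_⟩
  obtain ⟨h3, h4⟩ := tw_LnL hb hn h h1 hm
  exact eq_sL_row hb hn ((hO.alab_pull hm).2 h) (hr.comp _) h3
    (h2 _ ((hO.mu_ker C m₀ m).2 hm)) h4

theorem lab_hL {m₀ : Fˣ} {n : ℕ} (hn : n ≤ C.N) {Λ : Th K m₀ → Finset ℕ} (h : ALab C.N deg n Λ) :
    ∃ Θ : NR (C.mu m₀).ker n → ℂ, IsCharacter _ Θ ∧ tw 1 Θ = hL C.N π₁ (Λ ∘ toTh m₀) ∧
      ∀ m ∈ Subgroup.zpowers m₀, tw (C.mu m) Θ = hL C.N (piM C π₁ m) (Λ ∘ toTh m₀) := by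
  have e : ∑ x : Th K m₀ × Fin C.N, (en C.N (Λ x.1) x.2 - x.2) * deg x.1 = n := by
    rw [← h.2, Fintype.sum_prod_type]
    refine sum_congr rfl fun O _ => ?_
    dsimp only
    rw [← sum_mul, hS.sum_parts (h.1 O), mul_comm]
  have hle : ∀ x : Th K m₀ × Fin C.N, (en C.N (Λ x.1) x.2 - x.2) * deg x.1 ≤ C.N := fun x =>
    (single_le_sum (f := fun x : Th K m₀ × Fin C.N => (en C.N (Λ x.1) x.2 - x.2) * deg x.1)
      (fun _ _ => Nat.zero_le _) (mem_univ x)).trans (e ▸ hn)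
  choose θ h1 h2 using fun x : Th K m₀ × Fin C.N => lab_row hb (hle x)
    (alab_rowL C.N_pos deg x.1 _) (isRow_rowL C.N_pos x.1 _)
  obtain ⟨Θ, h3, h4⟩ := tw_prod (C.mu m₀).ker univ _ (fun x => (θ x).1)
    (fun x => CT.irr_isCharacter (θ x)) e
  refine ⟨Θ, h3, ?_, fun m hm => ?_⟩
  · rw [h4 1 (by simp), prod_congr rfl fun x _ => h1 x, prod_sL_rowL C.N_pos]
  · rw [h4 _ ((hO.mu_ker C m₀ m).2 hm), prod_congr rfl fun x _ => h2 x m hm, prod_sL_rowL C.N_pos]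

theorem lab_step {m₀ : Fˣ} {n : ℕ} (hn : n ≤ C.N) {Λ : Th K m₀ → Finset ℕ} (h : ALab C.N deg n Λ) :
    ∃ θ : IrrCharacter (NR (C.mu m₀).ker n), CT.LiesOver _ (hb.chr hn (pull h)).1 θ.1 ∧
      ∀ m ∈ Subgroup.zpowers m₀, (∀ Λ', Abv C.N Λ' (Λ ∘ toTh m₀) →
        sL C.N (piM C π₁ m) Λ' ∈ LnL C π₁ m n Λ') →
        tw (C.mu m) θ.1 = sL C.N (piM C π₁ m) (Λ ∘ toTh m₀) := by
  obtain ⟨Θ, h1, h2, h3⟩ := lab_hL hb hn h
  have hl := pull h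
  have a1 : ipH n (hL C.N π₁ (Λ ∘ toTh m₀)) (sL C.N π₁ (Λ ∘ toTh m₀)) = 1 := by
    have := ipH_eq_zero_of_span (n := n) (y := sL C.N π₁ (Λ ∘ toTh m₀)) (hS.hL_sub π₁ hl.1) (by
      rintro _ ⟨Λ', b1, rfl⟩
      rw [hb.toModel.ip_sL hn (b1.alab hl) hl, if_neg b1.2])
    rwa [ipH_sub_left, hb.toModel.ip_sL hn hl hl, if_pos rfl, sub_eq_zero] at this
  have a2 : CT.ip (CT.ind _ Θ) (hb.chr hn hl).1 = 1 := by
    rw [← hW.cf_tw_one, h2]; exact a1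
  have a3 : ∃ θ : IrrCharacter (NR (C.mu m₀).ker n), CT.ip Θ θ.1 ≠ 0 ∧
      CT.LiesOver _ (hb.chr hn hl).1 θ.1 := by
    by_contra! hc
    rw [CT.ip_ind_left _ _ (CT.irr_isClassFunction _), CT.ip_eq_sum_irr h1.isClassFunction
      ((CT.irr_isClassFunction _).res _), sum_eq_zero fun θ _ => ?_] at a2
    · exact zero_ne_one a2
    by_cases h0 : CT.ip Θ θ.1 = 0
    · rw [h0, zero_mul]
    · rw [not_not.1 (hc θ h0), map_zero, mul_zero]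
  obtain ⟨θ, a4, a5⟩ := a3
  refine ⟨θ, a5, fun m hm ih => ?_⟩
  have hM := model_piM hb m
  have hlm : ALab C.N deg n (Λ ∘ toTh m₀ : Th K m → _) := (hO.alab_pull hm).2 h
  obtain ⟨b1, b2⟩ := tw_LnL hb hn h a5 hm
  have b3 : CT.ip (CT.ind _ (Θ - θ.1)) (hb.chr hn hl).1 = 0 := by
    rw [CT.ind_sub, CT.ip_sub_left, a2,
      (hW.of_fix (χ := hb.chr hn hl) (hb.fix_pull hn h) a5).1, CT.ip_irr_self, sub_self]
  have b4 : tw (C.mu m) (Θ - θ.1) ∈ VV C π₁ m n fun Λ' => Λ' ≠ Λ ∘ toTh m₀ := by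
    refine Lns_le_VV hb hn (fun Λ' hΛ' hip e => hip ?_)
      (hW.tw_mem_Lns ((hO.mu_ker C m₀ m).2 hm) (h1.sub_irr θ a4))
    subst e
    have : hb.chr hn (pull hΛ') = hb.chr hn hl :=
      Subtype.ext (congrArg (fun L => H.cf (sL C.N π₁ L) n) (comp_toTh_comp hm Λ))
    rw [this, b3]
  have b5 : hL C.N (piM C π₁ m) (Λ ∘ toTh m₀) - sL C.N (piM C π₁ m) (Λ ∘ toTh m₀) ∈
      VV C π₁ m n fun Λ' => Λ' ≠ Λ ∘ toTh m₀ := by
    refine Submodule.span_le.2 ?_ (hS.hL_sub (piM C π₁ m) hlm.1)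
    rintro _ ⟨Λ', c1, rfl⟩
    exact LnL_le_VV (Q := fun Λ' => Λ' ≠ Λ ∘ toTh m₀) (c1.alab hlm) c1.2 (ih Λ' c1)
  have b6 : sL C.N (piM C π₁ m) (Λ ∘ toTh m₀) = tw (C.mu m) θ.1 + (tw (C.mu m) (Θ - θ.1) -
      (hL C.N (piM C π₁ m) (Λ ∘ toTh m₀) - sL C.N (piM C π₁ m) (Λ ∘ toTh m₀))) := by
    rw [← add_sub_assoc, ← hW.tw_add, add_sub_cancel, h3 m hm, sub_sub_cancel]
  refine (eq_of_ip_one (hM.sL_mem hn hlm) (Ln_le_Hn _ _ b1) ?_ b2 ?_).symm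
  · rw [hM.ip_sL hn hlm hlm, if_pos rfl]
  · have b7 := ip_VV hb hn (Q' := fun Λ' => Λ' = Λ ∘ toTh m₀) (fun _ _ h => h) (sub_mem b4 b5)
      (LnL_le_VV (Q := fun Λ' => Λ' = Λ ∘ toTh m₀) hlm rfl b1)
    rw [b6, ipH_add_left, b2, b7, add_zero]

theorem sL_LnL {m : Fˣ} {n : ℕ} (hn : n ≤ C.N) (Λ : Th K m → Finset ℕ) :
    ALab C.N deg n Λ → sL C.N (piM C π₁ m) Λ ∈ LnL C π₁ m n Λ := by
  refine Abv.induction (N := C.N) (P := fun Λ => ALab C.N deg n Λ →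
    sL C.N (piM C π₁ m) Λ ∈ LnL C π₁ m n Λ) (fun Λ ih h => ?_) Λ
  obtain ⟨θ, h1, h2⟩ := lab_step hb hn h
  have h3 := (tw_LnL hb hn h h1 (Subgroup.mem_zpowers m)).1
  have h4 := h2 m (Subgroup.mem_zpowers m)
  rw [comp_toTh_self] at h3 h4
  rwa [h4 fun Λ' h' => ih Λ' h' (h'.alab h)] at h3

theorem models_piM : Models C π₁ (piM C π₁) where
  base := hb
  model := model_piM hb
  lab := fun m₀ n Λ hn h => by
    obtain ⟨θ, h1, h2⟩ := lab_step hb hn h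
    exact ⟨θ, tw_one_eq hb hn h h1, fun m hm => h2 m hm fun Λ' h' =>
      sL_LnL hb hn Λ' (h'.alab ((hO.alab_pull hm).2 h))⟩

omit hb in
instance instTwM [hG : GreenB F] : TwM F where
  exists_models := fun C => by
    obtain ⟨π₁, hb⟩ := hG.exists_base C
    exact ⟨π₁, _, models_piM hb⟩

end GLH
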